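import Cfsg.Agent.Lib.Hall
import Cfsg.Agent.Char.Burnside
import Cfsg.Agent.Cores.Basic

/-!
# Groups with an abelian complement to a Sylow 2-subgroup
-/

set_option autoImplicit false

universe u

namespace Cfsg.Agent.CharTwo

open Subgroup
open Cfsg.Agent

/-- An abelian subgroup of odd order and 2-power index. -/
def HasAbelianTwoComplement (G : Type u) [Group G] : Prop :=
  ∃ C : Subgroup G, IsMulCommutative C ∧ (Nat.card C).Coprime 2 ∧ ∃ k, C.index = 2 ^ k

variable {G : Type u} [Group G] [Finite G]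

theorem HasAbelianTwoComplement.quot (h : HasAbelianTwoComplement G) (N : Subgroup G) [N.Normal] :
    HasAbelianTwoComplement (G ⧸ N) := by
  obtain ⟨C, hC, hCo, k, hk⟩ := h
  refine ⟨C.map (QuotientGroup.mk' N), inferInstance, hCo.coprime_dvd_left (card_map_dvd _ _), ?_⟩
  have hd : (C.map (QuotientGroup.mk' N)).index ∣ C.index :=
    index_map_dvd C (QuotientGroup.mk'_surjective N)
  rw [hk] at hd
  obtain ⟨j, _, hj⟩ := (Nat.dvd_prime_pow Nat.prime_two).1 hd
  exact ⟨j, hj⟩

theorem HasAbelianTwoComplement.normal (h : HasAbelianTwoComplement G) (N : Subgroup G)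
    [N.Normal] : HasAbelianTwoComplement N := by
  obtain ⟨C, hC, hCo, k, hk⟩ := h
  refine ⟨C.subgroupOf N, ⟨⟨fun a b => ?_⟩⟩, hCo.coprime_dvd_left ?_, ?_⟩
  · apply Subtype.ext; apply Subtype.ext
    simpa using congrArg Subtype.val
      (hC.is_comm.comm ⟨((a : N) : G), a.2⟩ ⟨((b : N) : G), b.2⟩)
  · exact card_dvd_of_injective (MonoidHom.mk' (fun a : C.subgroupOf N => (⟨_, a.2⟩ : C))
      (fun _ _ => rfl)) (fun a b e => Subtype.ext (Subtype.ext (congrArg Subtype.val e :)))
  · have h1 := relIndex_mul_relIndex (C ⊓ N) C (C ⊔ N) inf_le_left le_sup_left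
    have h2 := relIndex_mul_relIndex (C ⊓ N) N (C ⊔ N) inf_le_right le_sup_right
    rw [relIndex_sup_right, ← inf_relIndex_left (H := C) (K := N), ← h1, mul_comm] at h2
    have h3 : (C ⊓ N).relIndex N = C.relIndex (C ⊔ N) :=
      Nat.eq_of_mul_eq_mul_left (Nat.pos_of_ne_zero Subgroup.index_ne_zero_of_finite) h2
    have hd : C.relIndex (C ⊔ N) ∣ 2 ^ k :=
      hk ▸ Dvd.intro _ (relIndex_mul_index (le_sup_left (a := C) (b := N)))
    obtain ⟨j, _, hj⟩ := (Nat.dvd_prime_pow Nat.prime_two).1 hd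
    refine ⟨j, ?_⟩
    change C.relIndex N = 2 ^ j
    rw [← inf_relIndex_right, h3, hj]

theorem HasAbelianTwoComplement.isSolvable (h : HasAbelianTwoComplement G) :
    Group.IsSolvable G := by
  suffices ∀ (n : ℕ) (K : Type u) [Group K] [Finite K], Nat.card K = n →
      HasAbelianTwoComplement K → Group.IsSolvable K from this _ G rfl h
  intro n
  induction n using Nat.strong_induction_on with
  | _ n ih =>
    intro K _ _ hn hK
    subst hn
    rcases subsingleton_or_nontrivial K with hs | hnt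
    · exact Group.isSolvable_of_comm fun a b => Subsingleton.elim _ _
    by_cases hsimp : IsSimpleGroup K
    swap
    · obtain ⟨N, hNn, hb, ht⟩ : ∃ N : Subgroup K, N.Normal ∧ N ≠ ⊥ ∧ N ≠ ⊤ := by
        by_contra hc
        push Not at hc
        exact hsimp ⟨fun H hH => or_iff_not_imp_left.mpr (hc H hH)⟩
      have hlt : Nat.card N < Nat.card K :=
        lt_of_le_of_ne (Nat.le_of_dvd Nat.card_pos N.card_subgroup_dvd_card)
          (fun h => ht (Subgroup.eq_top_of_card_eq _ h))
      have hlt' : Nat.card (K ⧸ N) < Nat.card K := by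
        rw [N.card_eq_card_quotient_mul_card_subgroup]
        exact lt_mul_of_one_lt_right Nat.card_pos (N.one_lt_card_iff_ne_bot.mpr hb)
      have h1 : Group.IsSolvable N := ih _ hlt N rfl (hK.normal N)
      have h2 : Group.IsSolvable (K ⧸ N) := ih _ hlt' (K ⧸ N) rfl (hK.quot N)
      exact Group.isSolvable_of_ker_le_range N.subtype (QuotientGroup.mk' N) (by simp)
    · obtain ⟨C, hC, hCo, k, hk⟩ := hK
      rcases eq_or_ne C ⊥ with rfl | hCb
      · rw [index_bot] at hk
        exact Char.solvable_of_card_eq_pow_mul_pow 2 2 Nat.prime_two Nat.prime_two _ rfl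
          (fun r hr hd => Or.inl ((Nat.prime_dvd_prime_iff_eq hr Nat.prime_two).1
            (hr.dvd_of_dvd_pow (hk ▸ hd))))
      · obtain ⟨c, hcC, hc1⟩ := (C.ne_bot_iff_exists_ne_one.1 hCb) |> fun ⟨x, hx⟩ =>
          (⟨x, x.2, fun e => hx (Subtype.ext e)⟩ : ∃ c, c ∈ C ∧ c ≠ 1)
        have hle : C ≤ centralizer ({c} : Set K) := fun a ha =>
          mem_centralizer_singleton_iff.2 (congrArg Subtype.val (hC.is_comm.comm ⟨a, ha⟩ ⟨c, hcC⟩))
        obtain ⟨j, _, hj⟩ := (Nat.dvd_prime_pow Nat.prime_two).1 (hk ▸ index_dvd_of_le hle)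
        have hp := Char.prime_card_of_prime_power_class 2 j Nat.prime_two c hc1 hj
        haveI : Fact (Nat.card K).Prime := ⟨hp⟩
        haveI : IsCyclic K := isCyclic_of_prime_card (p := Nat.card K) rfl
        exact Group.isSolvable_of_comm fun a b => (IsCyclic.commGroup (α := K)).mul_comm a b

theorem HasAbelianTwoComplement.sub (h : HasAbelianTwoComplement G) (L : Subgroup G) :
    HasAbelianTwoComplement L := by
  haveI := h.isSolvable
  obtain ⟨C, hC, hCo, k, hk⟩ := h
  have hodd : ∀ m : ℕ, Hall.PiNum {p : ℕ | p ≠ 2} m → m.Coprime 2 := fun m hm =>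
    (Cores.coprime_iff_not_dvd_prime Nat.prime_two).2 fun hd => hm 2 Nat.prime_two hd rfl
  have hCh : Cfsg.IsPiHall {p : ℕ | p ≠ 2} C :=
    ⟨fun p _ hpd hp2 => (Cores.coprime_iff_not_dvd_prime Nat.prime_two).1 hCo (hp2 ▸ hpd),
      fun p hp hp2 hd => hp2 ((Nat.prime_dvd_prime_iff_eq hp Nat.prime_two).1
        (hp.dvd_of_dvd_pow (hk ▸ hd)))⟩
  obtain ⟨D, hD⟩ := Hall.exists_isPiHall (G := L) {p : ℕ | p ≠ 2}
  obtain ⟨g, hg⟩ := Hall.le_conj_isPiHall hCh (S := D.map L.subtype)
    (fun p hp (hd : p ∣ Nat.card (D.map L.subtype)) => hD.1 p hp (hd.trans (card_map_dvd _ _)))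
  refine ⟨D, ⟨⟨fun a b => ?_⟩⟩, hodd _ hD.1, ?_⟩
  · have hm : ∀ d : D, MulAut.conj g ((d : L) : G) ∈ C := fun d =>
      hg (Subgroup.smul_mem_pointwise_smul _ _ _ ⟨(d : L), d.2, rfl⟩)
    have := congrArg Subtype.val (hC.is_comm.comm ⟨_, hm a⟩ ⟨_, hm b⟩)
    apply Subtype.ext; apply Subtype.ext
    apply (MulAut.conj g).injective
    simpa using this
  · refine ⟨D.index.primeFactorsList.length, Nat.eq_prime_pow_of_unique_prime_dvd
      Subgroup.index_ne_zero_of_finite ?_⟩
    intro p hp hd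
    by_contra hp2
    exact hD.2 p hp hp2 hd

theorem HasAbelianTwoComplement.exists_complement (h : HasAbelianTwoComplement G) :
    ∃ (P : Sylow 2 G) (D : Subgroup G),
      IsMulCommutative D ∧ Subgroup.IsComplement' (P : Subgroup G) D := by
  haveI : Fact (Nat.Prime 2) := ⟨Nat.prime_two⟩
  obtain ⟨C, hC, hCo, k, hk⟩ := h
  obtain ⟨P⟩ := (inferInstance : Nonempty (Sylow 2 G))
  obtain ⟨m, hm⟩ := IsPGroup.iff_card.1 P.2
  have hcop : (Nat.card (P : Subgroup G)).Coprime (Nat.card C) := by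
    rw [hm]; exact (hCo.pow_right m).symm
  refine ⟨P, C, hC, Subgroup.isComplement'_of_coprime ?_ hcop⟩
  have h1 := C.card_mul_index
  rw [hk] at h1
  have h2 := P.card_eq_multiplicity
  rw [← h1, mul_comm, h2, ← h1]
  congr 1
  rw [Nat.factorization_mul Nat.card_pos.ne' (by positivity), Finsupp.add_apply,
    Nat.factorization_eq_zero_of_not_dvd
      ((Cores.coprime_iff_not_dvd_prime Nat.prime_two).1 hCo),
    Nat.Prime.factorization_pow Nat.prime_two]
  simp

theorem hasAbelianTwoComplement_of_isComplement' (S : Sylow 2 G) (C : Subgroup G)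
    (hC : IsMulCommutative C) (hSC : Subgroup.IsComplement' (S : Subgroup G) C) :
    HasAbelianTwoComplement G := by
  haveI : Fact (Nat.Prime 2) := ⟨Nat.prime_two⟩
  obtain ⟨k, hk⟩ := IsPGroup.iff_card.1 S.2
  refine ⟨C, hC, ?_, k, by rw [← hk]; exact hSC.index_eq_card⟩
  rw [Cores.coprime_iff_not_dvd_prime Nat.prime_two, ← hSC.symm.index_eq_card]
  exact S.not_dvd_index

end Cfsg.Agent.CharTwo
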