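import Cfsg.Agent.CharTwo.EarlyType
import Cfsg.Agent.Invol.BaerSuzuki
import Mathlib.GroupTheory.Subgroup.Simple
import Mathlib.GroupTheory.SpecificGroups.Cyclic

/-!
# Four-groups and commuting families that force a nontrivial `O_p`
-/

set_option autoImplicit false

namespace Cfsg.Agent.CharTwo

open Subgroup
open Cfsg.Agent

variable {G : Type*} [Group G]

theorem exists_inverted_of_not_mem_pCore [Finite G] {t : G} (ht : orderOf t = 2)
    (hO : t ∉ Cfsg.pCore 2 G) :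
    ∃ x : G, x ≠ 1 ∧ Odd (orderOf x) ∧ t * x * t⁻¹ = x⁻¹ := by
  classical
  exact Invol.exists_inverted_odd t ht fun N hN hN2 htN => hO (Cores.le_pCore hN hN2 htN)

theorem klein_four_inf_pCore_ne_bot [Finite G] (A : Subgroup G) (hA : IsKleinFour ↥A)
    (h : ∀ a ∈ A, a ≠ 1 → ∀ g : G, A ⊓ centralizer ({g * a * g⁻¹} : Set G) ≠ ⊥) :
    A ⊓ Cfsg.pCore 2 G ≠ ⊥ := by
  classical
  intro hbot
  have hsq : ∀ a ∈ A, a * a = 1 := fun a ha => congrArg Subtype.val (hA.mul_self (⟨a, ha⟩ : A))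
  have hinv : ∀ a ∈ A, a⁻¹ = a := fun a ha => inv_eq_of_mul_eq_one_left (hsq a ha)
  have hcomm : ∀ a ∈ A, ∀ b ∈ A, Commute a b := by
    intro a ha b hb
    have h3 := hinv _ (A.mul_mem ha hb)
    rw [mul_inv_rev, hinv a ha, hinv b hb] at h3
    exact h3.symm
  have hord : ∀ a ∈ A, a ≠ 1 → orderOf a = 2 := fun a ha h1 => Invol.orderOf_eq_two (hsq a ha) h1
  have hcase : ∀ p ∈ A, ∀ q ∈ A, p ≠ 1 → q ≠ 1 → p ≠ q →
      ∀ r ∈ A, r = 1 ∨ r = p ∨ r = q ∨ r = p * q := by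
    intro p hp q hq hp1 hq1 hpq r hr
    by_contra hcon
    simp only [not_or] at hcon
    obtain ⟨c1, c2, c3, c4⟩ := hcon
    have hpq1 : p * q ≠ 1 := fun h1 =>
      hpq (by rw [mul_eq_one_iff_eq_inv.1 h1, hinv q hq])
    have hsub : ({1, p, q, p * q, r} : Finset G) ⊆ (A : Set G).toFinite.toFinset := by
      intro v hv
      simp only [Finset.mem_insert, Finset.mem_singleton] at hv
      rw [Set.Finite.mem_toFinset]
      rcases hv with rfl | rfl | rfl | rfl | rfl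
      exacts [A.one_mem, hp, hq, A.mul_mem hp hq, hr]
    have h5 : ({1, p, q, p * q, r} : Finset G).card = 5 := by
      rw [Finset.card_insert_of_notMem, Finset.card_insert_of_notMem,
        Finset.card_insert_of_notMem, Finset.card_insert_of_notMem, Finset.card_singleton] <;>
        simp [Ne.symm hp1, Ne.symm hq1, Ne.symm hpq1, Ne.symm c1, hpq, Ne.symm c2, Ne.symm c3,
          Ne.symm c4, hp1, hq1]
    have := Finset.card_le_card hsub
    rw [h5, ← Set.ncard_eq_toFinset_card, ← Nat.card_coe_set_eq] at this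
    have h4 : Nat.card A = 4 := hA.card_four
    simp only [SetLike.coe_sort_coe] at this
    omega
  -- for every involution of `A`: an inverted odd element centralized by another one
  have step : ∀ a ∈ A, a ≠ 1 → ∃ x : G, x ≠ 1 ∧ Odd (orderOf x) ∧ a * x * a⁻¹ = x⁻¹ ∧
      ∃ d ∈ A, d ≠ 1 ∧ d ≠ a ∧ Commute d x := by
    intro a ha h1
    have hO : a ∉ Cfsg.pCore 2 G := fun hc => h1 (by
      have : a ∈ A ⊓ Cfsg.pCore 2 G := ⟨ha, hc⟩
      rwa [hbot] at this)
    obtain ⟨x, hx1, hxo, hax⟩ := exists_inverted_of_not_mem_pCore (hord a ha h1) hO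
    refine ⟨x, hx1, hxo, hax, ?_⟩
    obtain ⟨d, hd, hd1⟩ := (Subgroup.bot_or_exists_ne_one _).resolve_left (h a ha h1 x)
    have hda : Commute d (x * a * x⁻¹) := mem_centralizer_singleton_iff.1 hd.2
    have heq : x * a * x⁻¹ * a = x ^ 2 := by
      have : x * a * x⁻¹ * a = x * (a * x⁻¹ * a⁻¹) := by rw [hinv a ha]; group
      rw [this, ← conj_inv, hax, inv_inv, pow_two]
    have hd2 : Commute d (x ^ 2) := heq ▸ hda.mul_right (hcomm d hd.1 a ha)
    obtain ⟨i, hi⟩ := mem_zpowers_sq_of_odd hxo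
    have hdx : Commute d x := hi ▸ hd2.zpow_right i
    refine ⟨d, hd.1, hd1, ?_, hdx⟩
    rintro rfl
    refine hx1 (eq_one_of_orderOf_odd_of_sq hxo ?_)
    rw [hdx.eq, mul_inv_cancel_right] at hax
    rw [pow_two]
    exact mul_eq_one_iff_eq_inv.2 hax
  obtain ⟨a, ha, ha1⟩ : ∃ a ∈ A, a ≠ 1 := by
    refine (Subgroup.bot_or_exists_ne_one A).resolve_left fun hA0 => ?_
    have := hA.card_four
    rw [hA0, Subgroup.card_bot] at this
    omega
  obtain ⟨x, hx1, hxo, hax, d, hd, hd1, hda, hdx⟩ := step a ha ha1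
  obtain ⟨y, hy1, hyo, hdy, d', hd', hd'1, hd'd, hd'y⟩ := step d hd hd1
  -- `e` inverts both `x` and `y`
  obtain ⟨e, he, he_def⟩ : ∃ e ∈ A, e = d * d' := ⟨_, A.mul_mem hd hd', rfl⟩
  have hxinv : ∀ r ∈ A, r ≠ 1 → r ≠ d → r * x * r⁻¹ = x⁻¹ := by
    intro r hr hr1 hrd
    rcases hcase a ha d hd ha1 hd1 (Ne.symm hda) r hr with h0 | h0 | h0 | h0
    · exact absurd h0 hr1
    · rw [h0]; exact hax
    · exact absurd h0 hrd
    · rw [h0]
      calc a * d * x * (a * d)⁻¹ = a * (d * x * d⁻¹) * a⁻¹ := by group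
        _ = _ := by rw [hdx.eq, mul_inv_cancel_right, hax]
  have he1 : e ≠ 1 := by
    rw [he_def]; intro h1
    exact hd'd (by rw [mul_eq_one_iff_eq_inv.1 h1, hinv d' hd'])
  have hed : e ≠ d := by
    rw [he_def, ne_eq, mul_eq_left]; exact hd'1
  have hex := hxinv e he he1 hed
  have hd'x := hxinv d' hd' hd'1 hd'd
  have hey : e * y * e⁻¹ = y⁻¹ := by
    rw [he_def]
    calc d * d' * y * (d * d')⁻¹ = d * (d' * y * d'⁻¹) * d⁻¹ := by group
      _ = _ := by rw [hd'y.eq, mul_inv_cancel_right, hdy]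
  have conj_sq : ∀ {r v : G}, r * v * r⁻¹ = v⁻¹ → v * r * v⁻¹ = v ^ 2 * r := by
    intro r v hrv
    calc v * r * v⁻¹ = v * (r * v * r⁻¹)⁻¹ * r := by group
      _ = v ^ 2 * r := by rw [hrv, inv_inv, pow_two]
  have sq_ne : ∀ {v : G}, v ≠ 1 → Odd (orderOf v) → v ^ 2 ≠ 1 := fun h1 h2 h3 =>
    h1 (eq_one_of_orderOf_odd_of_sq h2 h3)
  have odd_pow : ∀ {v : G}, Odd (orderOf v) → ∀ k : ℕ, Odd (orderOf (v ^ k)) := fun h2 k =>
    h2.of_dvd_nat (orderOf_pow_dvd k)
  have sq_sq_ne : ∀ {v : G}, v ≠ 1 → Odd (orderOf v) → v ^ 2 * v ^ 2 ≠ 1 := fun h1 h2 h3 =>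
    sq_ne (sq_ne h1 h2) (odd_pow h2 2) (by rwa [pow_two (_ ^ 2)])
  have conj_pw : ∀ {r v : G}, r * v * r⁻¹ = v⁻¹ → r * v ^ 2 * r⁻¹ = (v ^ 2)⁻¹ := fun h1 => by
    rw [← conj_pow, h1, inv_pow]
  -- `x` and `y` commute
  set w := y * d * y⁻¹ with hw
  have hw2 : w = y ^ 2 * d := conj_sq hdy
  have hwd : ¬ Commute d w := by
    intro hc
    rw [hw2] at hc
    apply sq_sq_ne hy1 hyo
    have h2 : d * y ^ 2 * d⁻¹ = y ^ 2 := by
      have h3 : Commute d (y ^ 2) := by simpa using hc.mul_right (Commute.refl d).inv_right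
      rw [h3.eq, mul_inv_cancel_right]
    rw [conj_pw hdy] at h2
    exact mul_eq_one_iff_eq_inv.2 h2.symm
  have fix : ∀ k : G, Commute d k → ∃ r ∈ A, r ≠ 1 ∧ r ≠ d ∧ Commute w (k * r * k⁻¹) := by
    intro k hk
    obtain ⟨r, hr, hr1⟩ :=
      (Subgroup.bot_or_exists_ne_one _).resolve_left (h d hd hd1 (k⁻¹ * y))
    have h1 : Commute r (k⁻¹ * y * d * (k⁻¹ * y)⁻¹) := mem_centralizer_singleton_iff.1 hr.2
    have h2 : Commute w (k * r * k⁻¹) := by
      refine mul_inv_eq_iff_eq_mul.1 ?_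
      calc w * (k * r * k⁻¹) * w⁻¹
          = k * ((k⁻¹ * y * d * (k⁻¹ * y)⁻¹) * r * (k⁻¹ * y * d * (k⁻¹ * y)⁻¹)⁻¹) * k⁻¹ := by
            rw [hw]; group
        _ = k * r * k⁻¹ := by rw [h1.symm.eq, mul_inv_cancel_right]
    refine ⟨r, hr.1, hr1, ?_, h2⟩
    rintro rfl
    rw [hk.symm.eq, mul_inv_cancel_right] at h2
    exact hwd h2.symm
  have hxy : Commute x y := by
    have key : ∀ k k' r : G, Commute d k → r * k * r⁻¹ = k⁻¹ → r * k' * r⁻¹ = k'⁻¹ →
        Commute w (k * r * k⁻¹) → Commute w (k' * r * k'⁻¹) → Commute w (k ^ 2 * (k' ^ 2)⁻¹) := by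
      intro k k' r _ h1 h2 c1 c2
      rw [conj_sq h1] at c1
      rw [conj_sq h2] at c2
      simpa [mul_assoc] using c1.mul_right c2.inv_right
    obtain ⟨r₀, hr₀, hr₀1, hr₀d, c₀⟩ := fix 1 (Commute.one_right d)
    obtain ⟨r₁, hr₁, hr₁1, hr₁d, c₁⟩ := fix x hdx
    obtain ⟨r₂, hr₂, hr₂1, hr₂d, c₂⟩ := fix (x ^ 2) (hdx.pow_right 2)
    have hor : r₀ = r₁ ∨ r₀ = r₂ ∨ r₁ = r₂ := by
      have hne : ∀ r ∈ A, r ≠ 1 → r ≠ d → r = d' ∨ r = d * d' := by
        intro r hr hr1 hrd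
        rcases hcase d hd d' hd' hd1 hd'1 (Ne.symm hd'd) r hr with h0 | h0 | h0 | h0
        · exact absurd h0 hr1
        · exact absurd h0 hrd
        · exact Or.inl h0
        · exact Or.inr h0
      rcases hne r₀ hr₀ hr₀1 hr₀d with e0 | e0 <;> rcases hne r₁ hr₁ hr₁1 hr₁d with e1 | e1 <;>
        rcases hne r₂ hr₂ hr₂1 hr₂d with e2 | e2 <;> subst e0 e1 e2 <;> simp
    have hmain : Commute w x := by
      obtain ⟨i, hi⟩ := mem_zpowers_sq_of_odd hxo
      obtain ⟨j, hj⟩ := mem_zpowers_sq_of_odd (odd_pow hxo 2)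
      suffices h2 : Commute w (x ^ 2) from hi ▸ h2.zpow_right i
      rcases hor with rfl | rfl | rfl
      · have := key x 1 r₀ hdx (hxinv r₀ hr₀ hr₀1 hr₀d) (by simp) c₁ c₀
        simpa using this
      · have := key (x ^ 2) 1 r₀ (hdx.pow_right 2) (conj_pw (hxinv r₀ hr₀ hr₀1 hr₀d)) (by simp)
          c₂ c₀
        rw [one_pow, inv_one, mul_one] at this
        exact hj ▸ this.zpow_right j
      · have := key (x ^ 2) x r₁ (hdx.pow_right 2) (conj_pw (hxinv r₁ hr₁ hr₁1 hr₁d))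
          (hxinv r₁ hr₁ hr₁1 hr₁d) c₂ c₁
        rwa [pow_two (x ^ 2), mul_inv_cancel_right] at this
    have h2 : Commute x (y ^ 2) := by
      have := hmain.symm
      rw [hw2] at this
      simpa using this.mul_right hdx.symm.inv_right
    obtain ⟨i, hi⟩ := mem_zpowers_sq_of_odd hyo
    exact hi ▸ h2.zpow_right i
  -- the conjugate of `e` under `x * y` commutes with no involution of `A`
  have heA : (x * y) * e * (x * y)⁻¹ = x ^ 2 * y ^ 2 * e := by
    rw [conj_sq, hxy.mul_pow]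
    calc e * (x * y) * e⁻¹ = (e * x * e⁻¹) * (e * y * e⁻¹) := by group
      _ = x⁻¹ * y⁻¹ := by rw [hex, hey]
      _ = (x * y)⁻¹ := by rw [mul_inv_rev, hxy.inv_inv.eq]
  obtain ⟨r, hr, hr1⟩ := (Subgroup.bot_or_exists_ne_one _).resolve_left (h e he he1 (x * y))
  have hrw : Commute r (x ^ 2 * y ^ 2 * e) := by
    rw [← heA]; exact mem_centralizer_singleton_iff.1 hr.2
  have hfix : r * x ^ 2 * r⁻¹ * (r * y ^ 2 * r⁻¹) = x ^ 2 * y ^ 2 := by
    have : Commute r (x ^ 2 * y ^ 2) := by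
      simpa using hrw.mul_right (hcomm r hr.1 e he).inv_right
    calc r * x ^ 2 * r⁻¹ * (r * y ^ 2 * r⁻¹) = r * (x ^ 2 * y ^ 2) * r⁻¹ := by group
      _ = _ := by rw [this.eq, mul_inv_cancel_right]
  rcases hcase d hd d' hd' hd1 hd'1 (Ne.symm hd'd) r hr.1 with h0 | h0 | h0 | h0
  · exact hr1 h0
  · rw [h0, (hdx.pow_right 2).eq, mul_inv_cancel_right, conj_pw hdy, mul_left_cancel_iff] at hfix
    exact sq_sq_ne hy1 hyo (mul_eq_one_iff_eq_inv.2 hfix.symm)
  · rw [h0, conj_pw hd'x, (hd'y.pow_right 2).eq, mul_inv_cancel_right,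
      mul_right_cancel_iff] at hfix
    exact sq_sq_ne hx1 hxo (mul_eq_one_iff_eq_inv.2 hfix.symm)
  · rw [h0, ← he_def, conj_pw hex, conj_pw hey] at hfix
    -- `(x² y²)² = 1`, so `x⁴ = y⁻⁴` is both centralized and inverted by `d`
    have h4 : x ^ 2 * x ^ 2 = (y ^ 2 * y ^ 2)⁻¹ := by
      calc x ^ 2 * x ^ 2 = x ^ 2 * (x ^ 2 * y ^ 2) * (y ^ 2)⁻¹ := by group
        _ = x ^ 2 * ((x ^ 2)⁻¹ * (y ^ 2)⁻¹) * (y ^ 2)⁻¹ := by rw [hfix]
        _ = _ := by group
    have h5 : d * (x ^ 2 * x ^ 2) * d⁻¹ = x ^ 2 * x ^ 2 := by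
      rw [((hdx.pow_right 2).mul_right (hdx.pow_right 2)).eq, mul_inv_cancel_right]
    rw [h4] at h5
    have h6 : d * (y ^ 2 * y ^ 2)⁻¹ * d⁻¹ = y ^ 2 * y ^ 2 := by
      rw [← pow_two, ← conj_inv, ← conj_pow, conj_pw hdy, inv_pow, inv_inv]
    rw [h6] at h5
    apply sq_sq_ne (sq_ne hy1 hyo) (odd_pow hyo 2)
    rw [pow_two]
    exact mul_eq_one_iff_eq_inv.2 h5

theorem commuting_family_radical [Finite G] {p : ℕ} (hp : p.Prime) (K : Set (Subgroup G))
    (hK : ∀ X ∈ K, Nat.card ↥X = p)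
    (hKc : ∀ X ∈ K, ∀ g : G, X.map (MulAut.conj g).toMonoidHom ∈ K)
    (hex : ∃ X ∈ K, ∃ Y ∈ K, X ≠ Y ∧ ∀ x ∈ X, ∀ y ∈ Y, x * y = y * x)
    (ha : ∀ X ∈ K, ∀ Y ∈ K, X ≠ Y → (∀ x ∈ X, ∀ y ∈ Y, x * y = y * x) →
      ∀ Z : Subgroup G, Z ≤ X ⊔ Y → Nat.card ↥Z = p → Z ∈ K)
    (hb : ∀ X ∈ K, ∀ Y ∈ K, X ≠ Y → (∀ x ∈ X, ∀ y ∈ Y, x * y = y * x) →
      ∀ W ∈ K, (X ⊔ Y) ⊓ centralizer (W : Set G) ≠ ⊥) :
    (∃ V ∈ K, (∀ W ∈ K, ∀ v ∈ V, ∀ w ∈ W, v * w = w * v) ∧ V ≤ Cfsg.pCore p G) ∧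
      ¬ IsSimpleGroup G := by
  haveI := Fact.mk hp
  set S : Set G := {x | x ≠ 1 ∧ zpowers x ∈ K} with hS
  have gen : ∀ {X : Subgroup G}, X ∈ K → ∀ {x : G}, x ∈ X → x ≠ 1 → zpowers x = X := by
    intro X hX x hx hx1
    refine le_antisymm (zpowers_le.2 hx) ?_
    intro y hy
    obtain ⟨i, hi⟩ := mem_zpowers_of_prime_card (hK X hX)
      (g := (⟨x, hx⟩ : X)) (g' := ⟨y, hy⟩) (fun h1 => hx1 (congrArg Subtype.val h1))
    exact ⟨i, congrArg Subtype.val hi⟩
  have mem_S : ∀ {X : Subgroup G}, X ∈ K → ∀ {x : G}, x ∈ X → x ≠ 1 → x ∈ S :=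
    fun hX _ hx hx1 => ⟨hx1, by rw [gen hX hx hx1]; exact hX⟩
  have ord : ∀ {x : G}, x ∈ S → orderOf x = p := fun hx => by
    rw [← Nat.card_zpowers]; exact hK _ hx.2
  have pw : ∀ {x y : G}, x ∈ S → y ∈ zpowers x → y ≠ 1 → y ∈ S ∧ x ∈ zpowers y := fun hx hy hy1 =>
    ⟨mem_S hx.2 hy hy1, by rw [gen hx.2 hy hy1]; exact mem_zpowers _⟩
  have conjS : ∀ {x : G} (g : G), x ∈ S → g * x * g⁻¹ ∈ S := fun g hx =>
    ⟨fun h1 => hx.1 (conj_eq_one_iff.1 h1), by
      have := hKc _ hx.2 g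
      rwa [MonoidHom.map_zpowers] at this⟩
  have comm_zp : ∀ {a b c : G}, Commute a b → c ∈ zpowers b → Commute a c := by
    rintro a b c hab ⟨i, rfl⟩; exact hab.zpow_right i
  have back : ∀ {a b c : G}, b ∈ S → c ∈ zpowers b → c ≠ 1 → Commute a c → Commute a b :=
    fun hb' hc hc1 hac => comm_zp hac (pw hb' hc hc1).2
  have line : ∀ {x y : G}, x ∈ S → y ∈ S → Commute x y → ∀ i j : ℤ,
      x ^ i * y ^ j ≠ 1 → x ^ i * y ^ j ∈ S := by
    intro x y hx hy hxy i j hne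
    by_cases heq : zpowers x = zpowers y
    · exact (pw hx (mul_mem (zpow_mem (mem_zpowers x) i)
        (zpow_mem (heq ▸ mem_zpowers y) j)) hne).1
    have hcard : Nat.card (zpowers (x ^ i * y ^ j)) = p := by
      rw [Nat.card_zpowers]
      refine orderOf_eq_prime ?_ hne
      rw [(hxy.zpow_zpow i j).mul_pow, ← zpow_natCast (x ^ i), ← zpow_mul, mul_comm i, zpow_mul,
        zpow_natCast, ← ord hx, pow_orderOf_eq_one, one_zpow, one_mul, ord hx, ← ord hy,
        ← zpow_natCast (y ^ j), ← zpow_mul, mul_comm j, zpow_mul, zpow_natCast,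
        pow_orderOf_eq_one, one_zpow]
    refine ⟨hne, ha _ hx.2 _ hy.2 heq ?_ _ ?_ hcard⟩
    · rintro _ ⟨a, rfl⟩ _ ⟨b, rfl⟩; exact hxy.zpow_zpow a b
    · rw [zpowers_le]
      exact mul_mem (mem_sup_left (zpow_mem (mem_zpowers x) i))
        (mem_sup_right (zpow_mem (mem_zpowers y) j))
  have meet : ∀ {x y w : G}, x ∈ S → y ∈ S → Commute x y → y ∉ zpowers x → w ∈ S →
      ∃ i j : ℤ, x ^ i * y ^ j ≠ 1 ∧ Commute w (x ^ i * y ^ j) := by
    intro x y w hx hy hxy hne hw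
    obtain ⟨t, ht, ht1⟩ := (Subgroup.bot_or_exists_ne_one _).resolve_left
      (hb _ hx.2 _ hy.2 (fun h1 => hne (h1.symm ▸ mem_zpowers y))
        (by rintro _ ⟨a, rfl⟩ _ ⟨b, rfl⟩; exact hxy.zpow_zpow a b) _ hw.2)
    have hn : zpowers y ≤ normalizer (zpowers x : Set G) := by
      rw [zpowers_le]
      refine normalizer_le_centralizer_of_coe _ ?_
      rw [centralizer_zpowers, mem_centralizer_singleton_iff]
      exact hxy.symm.eq
    have hmem : t ∈ ((zpowers x ⊔ zpowers y : Subgroup G) : Set G) := ht.1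
    rw [Subgroup.coe_mul_of_right_le_normalizer_left _ _ hn] at hmem
    obtain ⟨_, ⟨i, rfl⟩, _, ⟨j, rfl⟩, rfl⟩ := hmem
    exact ⟨i, j, ht1, ht.2 w (mem_zpowers w)⟩
  have hL : ∀ c x w : G, c ∈ S → x ∈ S → w ∈ S → ¬ Commute x w → Commute c x → Commute c w →
      (∀ h ∈ S, Commute h x → Commute h w → Commute c h) → ∀ q ∈ S, Commute c q := by
    intro c x w hc hx hw hxw hcx hcw hH
    have sub : ∀ x w : G, x ∈ S → w ∈ S → ¬ Commute x w → Commute c x →
        (∀ h ∈ S, Commute h x → Commute h w → Commute c h) → ∀ z ∈ S, Commute z x → Commute c z := by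
      intro x w hx hw hxw hcx hH z hz hzx
      by_cases hzx' : z ∈ zpowers x
      · exact comm_zp hcx hzx'
      obtain ⟨i, j, hne, hwt⟩ := meet hx hz hzx.symm hzx' hw
      have htS := line hx hz hzx.symm i j hne
      have hct : Commute c (x ^ i * z ^ j) :=
        hH _ htS (((Commute.refl x).zpow_left i).mul_left (hzx.zpow_left j)) hwt.symm
      by_cases hj : z ^ j = 1
      · rw [hj, mul_one] at hne hwt
        exact absurd (back hx (zpow_mem (mem_zpowers x) i) hne hwt).symm hxw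
      · exact back hz (zpow_mem (mem_zpowers z) j) hj
          (by simpa using (hcx.zpow_right i).inv_right.mul_right hct)
    have subx := sub x w hx hw hxw hcx hH
    have subw := sub w x hw hx (fun h1 => hxw h1.symm) hcw (fun h hh h1 h2 => hH h hh h2 h1)
    intro q hq
    have hcnot : c ∉ zpowers x := fun h1 => hxw (back hx h1 hc.1 hcw.symm).symm
    obtain ⟨i, j, hne, hqt⟩ := meet hx hc hcx.symm hcnot hq
    set y := x ^ i * c ^ j with hy
    by_cases hi : x ^ i = 1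
    · rw [hy, hi, one_mul] at hne hqt
      exact (back hc (zpow_mem (mem_zpowers c) j) hne hqt).symm
    have hyS : y ∈ S := line hx hc hcx.symm i j hne
    have hyw : ¬ Commute w y := fun h1 => hxw (back hx (zpow_mem (mem_zpowers x) i) hi (by
      simpa [hy] using h1.mul_right (hcw.symm.zpow_right j).inv_right)).symm
    have hcy : Commute c y := (hcx.zpow_right i).mul_right ((Commute.refl c).zpow_right j)
    by_cases hqy : q ∈ zpowers y
    · exact comm_zp hcy hqy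
    obtain ⟨k, l, hne', hws⟩ := meet hyS hq hqt.symm hqy hw
    have hcs := subw _ (line hyS hq hqt.symm k l hne') hws.symm
    by_cases hl : q ^ l = 1
    · rw [hl, mul_one] at hne' hws
      exact absurd (back hyS (zpow_mem (mem_zpowers y) k) hne' hws) hyw
    · exact back hq (zpow_mem (mem_zpowers q) l) hl
        (by simpa using (hcy.zpow_right k).inv_right.mul_right hcs)
  obtain ⟨X₀, hX₀, Y₀, hY₀, hXY, hcom⟩ := hex
  have ne_bot : ∀ X ∈ K, X ≠ (⊥ : Subgroup G) := fun X hX h1 => by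
    have := hK X hX
    rw [h1, Subgroup.card_bot] at this
    exact hp.ne_one this.symm
  obtain ⟨x₀, hx₀, hx₀1⟩ := (Subgroup.bot_or_exists_ne_one X₀).resolve_left (ne_bot _ hX₀)
  obtain ⟨y₀, hy₀, hy₀1⟩ := (Subgroup.bot_or_exists_ne_one Y₀).resolve_left (ne_bot _ hY₀)
  have hx₀S := mem_S hX₀ hx₀ hx₀1
  have hy₀S := mem_S hY₀ hy₀ hy₀1
  have hxy₀ : Commute x₀ y₀ := hcom _ hx₀ _ hy₀
  have hy₀x : y₀ ∉ zpowers x₀ := fun h1 => hXY (by
    rw [← gen hX₀ hx₀ hx₀1, ← gen hx₀S.2 h1 hy₀1, gen hY₀ hy₀ hy₀1])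
  have hrad : ∃ c ∈ S, ∀ q ∈ S, Commute c q := by
    by_contra hno
    push Not at hno
    obtain ⟨w, hw, hxw⟩ := hno x₀ hx₀S
    obtain ⟨i, j, hne, hwu⟩ := meet hx₀S hy₀S hxy₀ hy₀x hw
    set u := x₀ ^ i * y₀ ^ j with hu
    have huS : u ∈ S := line hx₀S hy₀S hxy₀ i j hne
    have hux : Commute u x₀ :=
      ((Commute.refl x₀).zpow_left i).mul_left (hxy₀.symm.zpow_left j)
    obtain ⟨v, hv, hvx, hvw, huv⟩ : ∃ v ∈ S, Commute v x₀ ∧ Commute v w ∧ ¬ Commute u v := by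
      by_contra hcon
      push Not at hcon
      obtain ⟨q, hq, hnq⟩ := hno u huS
      exact hnq (hL u x₀ w huS hx₀S hw hxw hux hwu.symm hcon q hq)
    have hxu1 : x₀ * u ≠ 1 := fun h1 => hxw (by
      rw [mul_eq_one_iff_eq_inv.1 h1]; exact hwu.symm.inv_left)
    have hxuS : x₀ * u ∈ S := by simpa using line hx₀S huS hux.symm 1 1 (by simpa using hxu1)
    have hvnot : v ∉ zpowers w := fun h1 => hxw (back hw h1 hv.1 hvx.symm)
    obtain ⟨a, b, hab1, hab⟩ := meet hw hv hvw.symm hvnot hxuS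
    set W := w ^ a with hW
    set V := v ^ b with hV
    have hxV : Commute x₀ V := hvx.symm.zpow_right b
    have huW : Commute u W := hwu.symm.zpow_right a
    have hW1 : W ≠ 1 := by
      intro h1
      rw [h1, one_mul] at hab hab1
      apply huv
      have := back hv (zpow_mem (mem_zpowers v) b) hab1 hab
      simpa using hvx.symm.inv_left.mul_left this
    have hxW : ¬ Commute x₀ W := fun h1 => hxw (back hw (zpow_mem (mem_zpowers w) a) hW1 h1)
    set t := x₀⁻¹ * W⁻¹ * x₀ * W with ht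
    have hteq : t = V * u * (u * V)⁻¹ := by
      have h1 : x₀ * W * (u * V) = W * x₀ * (V * u) := by
        calc x₀ * W * (u * V) = x₀ * u * (W * V) := by
              rw [mul_assoc x₀ W, ← mul_assoc W u, ← huW.eq, mul_assoc u, ← mul_assoc x₀]
          _ = W * V * (x₀ * u) := hab.eq
          _ = W * x₀ * (V * u) := by
              rw [mul_assoc W V, ← mul_assoc V x₀, ← hxV.eq, mul_assoc x₀, ← mul_assoc W]
      calc t = (W * x₀)⁻¹ * (x₀ * W * (u * V)) * (u * V)⁻¹ := by rw [ht]; group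
        _ = _ := by rw [h1]; group
    have hVw : Commute V w := hvw.zpow_left b
    have htx : Commute t x₀ := by
      rw [hteq]
      exact (hxV.symm.mul_left hux).mul_left (hux.mul_left hxV.symm).inv_left
    have htw : Commute t w := by
      rw [hteq]
      exact (hVw.mul_left hwu.symm).mul_left (hwu.symm.mul_left hVw).inv_left
    have htH : ∀ h ∈ S, Commute h x₀ → Commute h w → Commute t h := by
      intro h _ h1 h2
      rw [ht]
      exact (((h1.symm.inv_left.mul_left (h2.symm.zpow_left a).inv_left).mul_left h1.symm).mul_left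
        (h2.symm.zpow_left a))
    have ht1 : t ≠ 1 := by
      intro h1
      apply hxW
      calc x₀ * W = W * x₀ * t := by rw [ht]; group
        _ = W * x₀ := by rw [h1, mul_one]
    have hxt : x₀ * t = W⁻¹ * x₀ * W := by rw [ht]; group
    have htS : t ∈ S := by
      have h1 : W⁻¹ * x₀ * W ∈ S := by simpa using conjS W⁻¹ hx₀S
      have h2 : Commute x₀ (W⁻¹ * x₀ * W) := hxt ▸ (Commute.refl x₀).mul_right htx.symm
      have h3 : x₀ ^ (-1 : ℤ) * (W⁻¹ * x₀ * W) ^ (1 : ℤ) = t := by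
        rw [zpow_neg_one, zpow_one, ← hxt, inv_mul_cancel_left]
      have := line hx₀S h1 h2 (-1) 1 (by rw [h3]; exact ht1)
      rwa [h3] at this
    obtain ⟨q, hq, hnq⟩ := hno t htS
    exact hnq (hL t x₀ w htS hx₀S hw hxw htx htw htH q hq)
  obtain ⟨c, hc, hcall⟩ := hrad
  -- the radical generates a normal `p`-subgroup
  set R : Subgroup G :=
    { carrier := {g | g ^ p = 1 ∧ g ∈ closure S ∧ g ∈ centralizer S}
      mul_mem' := fun {a b} ha' hb' => ⟨by
        have : Commute a b := mem_centralizer_singleton_iff.1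
          (Subgroup.centralizer_le (Set.singleton_subset_iff.2 hb'.2.1)
            (by rw [centralizer_closure]; exact ha'.2.2))
        rw [this.mul_pow, ha'.1, hb'.1, one_mul], mul_mem ha'.2.1 hb'.2.1, mul_mem ha'.2.2 hb'.2.2⟩
      one_mem' := ⟨one_pow p, one_mem _, one_mem _⟩
      inv_mem' := fun {a} ha' =>
        ⟨by rw [inv_pow, ha'.1, inv_one], inv_mem ha'.2.1, inv_mem ha'.2.2⟩ } with hR
  have hcR : c ∈ R := ⟨by rw [← ord hc, pow_orderOf_eq_one], subset_closure hc,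
    fun s hs => (hcall s hs).symm.eq⟩
  have hRn : R.Normal := ⟨fun n hn g => by
    refine ⟨by rw [conj_pow, hn.1, mul_one, mul_inv_cancel], ?_, fun s hs => ?_⟩
    · have h1 : (closure S).map (MulAut.conj g).toMonoidHom ≤ closure S := by
        rw [MonoidHom.map_closure, closure_le]
        rintro _ ⟨s, hs, rfl⟩
        exact subset_closure (conjS g hs)
      exact h1 (Subgroup.mem_map_of_mem _ hn.2.1)
    · have h2 : g⁻¹ * s * g ∈ S := by simpa using conjS g⁻¹ hs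
      have h3 := hn.2.2 _ h2
      calc s * (g * n * g⁻¹) = g * ((g⁻¹ * s * g) * n) * g⁻¹ := by group
        _ = g * (n * (g⁻¹ * s * g)) * g⁻¹ := by rw [h3]
        _ = g * n * g⁻¹ * s := by group⟩
  have hRp : IsPGroup p R := fun r => ⟨1, Subtype.ext (by simpa using r.2.1)⟩
  refine ⟨⟨zpowers c, hc.2, ?_, ?_⟩, ?_⟩
  · intro W hW v hv w hw
    by_cases hw1 : w = 1
    · simp [hw1]
    exact (comm_zp (hcall w (mem_S hW hw hw1)).symm hv).symm.eq
  · rw [zpowers_le]; exact Cores.le_pCore hRn hRp hcR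
  · intro hsimple
    have htop : R = ⊤ := by
      refine (IsSimpleGroup.eq_bot_or_eq_top_of_normal R hRn).resolve_left fun h1 => ?_
      rw [h1] at hcR
      exact hc.1 hcR
    have hab : ∀ a b : G, a * b = b * a := fun a b =>
      mem_centralizer_singleton_iff.1 (Subgroup.centralizer_le
        (Set.singleton_subset_iff.2 ((htop.ge (mem_top b)).2.1))
        (by rw [centralizer_closure]; exact (htop.ge (mem_top a)).2.2))
    letI : CommGroup G := { (inferInstance : Group G) with mul_comm := hab }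
    haveI : IsSimpleGroup G := hsimple
    have hG : (Nat.card G).Prime := IsSimpleGroup.prime_card
    have key : ∀ X ∈ K, X = ⊤ := fun X hX => by
      refine (IsSimpleGroup.eq_bot_or_eq_top_of_normal X ?_).resolve_left (ne_bot X hX)
      exact Subgroup.normal_of_comm X
    exact hXY ((key X₀ hX₀).trans (key Y₀ hY₀).symm)

end Cfsg.Agent.CharTwo
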