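import Cfsg.Agent.CharTwo.EarlyCores
import Mathlib.GroupTheory.Subgroup.Simple
import Mathlib.GroupTheory.SpecificGroups.Cyclic

/-!
# A simple group of early characteristic 2 type has a maximal 2-local with non-cyclic `Z(O₂)`

If all `Z(O₂(M))` are cyclic, every maximal 2-local is the centralizer of a 2-central involution `z`,
so `z` is isolated and `C(z)` contains the centralizer of each of its involutions; this makes all
involutions conjugate, which is absurd.
-/

set_option autoImplicit false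

namespace Cfsg.Agent.CharTwo

open Subgroup
open Cfsg.Agent

variable {G : Type*} [Group G] [Finite G]

/-- The Sylow 2-subgroups of an involution centralizer contain all its central 2-elements. -/
theorem mem_of_sylow_centralizer {x : G} (hx : orderOf x = 2) {D M : Subgroup G}
    (hD : IsPGroup 2 D) (hDM : D ≤ M) (hidx : ¬ 2 ∣ D.relIndex M)
    (hxM : x ∈ M) (hxc : ∀ y ∈ M, Commute x y) : x ∈ D := by
  have hp : IsPGroup 2 ↥(D ⊔ zpowers x) :=
    hD.to_sup_of_normal_left' (isPGroup_zpowers_two hx) (zpowers_le.2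
      (normalizer_le_centralizer_of_coe _ fun d hd => ((hxc d (hDM hd)).symm).eq))
  have hle : D ⊔ zpowers x ≤ M := sup_le hDM (zpowers_le.2 hxM)
  obtain ⟨k, hk⟩ := IsPGroup.iff_card.1 hp
  have h1 : D.relIndex (D ⊔ zpowers x) ∣ 2 ^ k := hk ▸ relIndex_dvd_card _ _
  have h2 : D.relIndex (D ⊔ zpowers x) ∣ D.relIndex M :=
    relIndex_mul_relIndex D (D ⊔ zpowers x) M le_sup_left hle ▸ dvd_mul_right _ _
  have h3 : D.relIndex (D ⊔ zpowers x) = 1 := by
    obtain ⟨j, -, hj⟩ := (Nat.dvd_prime_pow Nat.prime_two).1 h1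
    rcases j with _ | j
    · simpa using hj
    · exact absurd ((dvd_pow_self 2 (Nat.succ_ne_zero j)).trans (hj ▸ h2)) hidx
  exact relIndex_eq_one.1 h3 (mem_sup_right (mem_zpowers x))

theorem eq_of_isCyclic_orderOf_two {H : Type*} [Group H] [Finite H] [IsCyclic H] {a b : H}
    (ha : orderOf a = 2) (hb : orderOf b = 2) : a = b := by
  classical
  haveI := Fintype.ofFinite H
  have h2 : 2 ∣ Fintype.card H := ha ▸ orderOf_dvd_card
  have h1 := IsCyclic.card_orderOf_eq_totient h2
  rw [Nat.totient_two] at h1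
  exact Finset.card_le_one.1 h1.le a (by simpa using ha) b (by simpa using hb)

/-- `Good z`: `C(z)` is a maximal 2-local in which `z` is the only involution centralizing `O₂`. -/
def IsGood (w : G) : Prop :=
  orderOf w = 2 ∧ Cfsg.IsMaximalTwoLocal (centralizer ({w} : Set G)) ∧
    ∀ v ∈ centralizer ({w} : Set G), orderOf v = 2 →
      (∀ r ∈ (Cfsg.pCore 2 (centralizer ({w} : Set G))).map (centralizer ({w} : Set G)).subtype,
        Commute r v) → v = w

theorem exists_good (hcf : ∀ t : G, orderOf t = 2 → CFCon 2 (centralizer ({t} : Set G)))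
    (hcyc : ∀ M : Subgroup G, Cfsg.IsMaximalTwoLocal M →
      IsCyclic ↥(center ↥(Cfsg.pCore 2 ↥M)))
    {N : Subgroup G} (hN : Cfsg.IsTwoLocal N) :
    ∃ w : G, IsGood w ∧ N ≤ centralizer ({w} : Set G) := by
  obtain ⟨M, hNM, hM⟩ := exists_maximal_two_local hN
  obtain ⟨T, hT, hT1, hMT⟩ := hM.1
  have hMcf : CFCon 2 M := by
    rw [hMT]; exact cfcon_normalizer_of_centralizers hcf hT hT1
  have hTM : T ≤ M := hMT ▸ le_normalizer
  haveI : (T.subgroupOf M).Normal := ⟨fun n hn y =>
    (((hMT.le y.2 : (y : G) ∈ normalizer (T : Set G))) (n : G)).1 hn⟩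
  set R := Cfsg.pCore 2 M with hR
  have hTR : T.subgroupOf M ≤ R := Cores.le_pCore inferInstance hT.comap_subtype
  have hR1 : R ≠ ⊥ := by
    intro h
    apply hT1
    rw [h, le_bot_iff, Subgroup.subgroupOf_eq_bot] at hTR
    exact disjoint_self.1 (hTR.mono_right hTM)
  obtain ⟨c, hcR, hc, hcc⟩ := exists_central_orderOf (p := 2) Cores.pCore_isPGroup hR1
  have uniq : ∀ d : M, d ∈ R → orderOf d = 2 → d ∈ centralizer (R : Set M) → d = c := by
    intro d hdR hd hdc
    haveI := hcyc M hM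
    have key : ∀ (e : M) (he : e ∈ R), e ∈ centralizer (R : Set M) →
        (⟨e, he⟩ : R) ∈ center R := fun e he hec =>
      mem_center_iff.2 fun r => Subtype.ext (hec (r : M) r.2)
    have h1 := eq_of_isCyclic_orderOf_two (a := (⟨⟨d, hdR⟩, key d hdR hdc⟩ : center R))
      (b := ⟨⟨c, hcR⟩, key c hcR hcc⟩)
      (by rw [← orderOf_submonoid, ← orderOf_submonoid]; exact hd)
      (by rw [← orderOf_submonoid, ← orderOf_submonoid]; exact hc)
    exact congrArg (fun v : center R => ((v : R) : M)) h1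
  have hRn : ∀ g : M, g ∈ normalizer (R : Set M) := fun g => by
    rw [normalizer_eq_top_iff.2 inferInstance]; trivial
  have hMc : M ≤ centralizer ({(c : G)} : Set G) := by
    intro m hm
    let m' : M := ⟨m, hm⟩
    have h1 : m' * c * m'⁻¹ = c := by
      refine uniq _ ((hRn m' c).1 hcR) (by rw [Invol.orderOf_conj]; exact hc) fun r hr => ?_
      have h2 : m'⁻¹ * r * m' ∈ R := by simpa using ((hRn m'⁻¹) r).1 hr
      have h3 := hcc _ h2
      calc r * (m' * c * m'⁻¹) = m' * ((m'⁻¹ * r * m') * c) * m'⁻¹ := by group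
        _ = m' * (c * (m'⁻¹ * r * m')) * m'⁻¹ := by rw [h3]
        _ = (m' * c * m'⁻¹) * r := by group
    rw [mem_centralizer_singleton_iff]
    exact congrArg Subtype.val (mul_inv_eq_iff_eq_mul.1 h1)
  have hcG : orderOf (c : G) = 2 := by rwa [orderOf_submonoid]
  have hMeq : centralizer ({(c : G)} : Set G) = M := hM.2 _ (isTwoLocal_centralizer hcG) hMc
  refine ⟨(c : G), ⟨hcG, hMeq.symm ▸ hM, ?_⟩, hMeq.symm ▸ hNM⟩
  rw [hMeq]
  intro v hvM hv hvR
  have hv' : (⟨v, hvM⟩ : M) ∈ centralizer (R : Set M) := fun r hr =>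
    Subtype.ext (hvR (r : G) ⟨r, hr, rfl⟩).eq
  exact congrArg Subtype.val (uniq _ (hMcf hv') (by rw [← orderOf_submonoid]; exact hv) hv')

theorem IsGood.eq_of_centralizes {w v : G} (hw : IsGood w) {P : Subgroup G} (hP : IsPGroup 2 P)
    (hPw : P ≤ centralizer ({w} : Set G))
    (hidx : ¬ 2 ∣ P.relIndex (centralizer ({w} : Set G)))
    (hv : orderOf v = 2) (hvw : v ∈ centralizer ({w} : Set G)) (hvP : ∀ x ∈ P, Commute x v) :
    v = w := by
  refine hw.2.2 v hvw hv ?_
  rintro _ ⟨r, hr, rfl⟩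
  have hQ := Cores.pCore_le_sylow ((hP.comap_subtype).toSylow hidx) hr
  exact hvP _ hQ

theorem sylow_le_of_relIndex {C : Subgroup G} (P Q : Sylow 2 G) (hQ : (Q : Subgroup G) ≤ C)
    (hP : ¬ 2 ∣ ((P : Subgroup G) ⊓ C).relIndex C) : (P : Subgroup G) ≤ C := by
  have h1 : ((P : Subgroup G) ⊓ C).relIndex (P : Subgroup G) ∣ ((P : Subgroup G) ⊓ C).index :=
    Dvd.intro _ (relIndex_mul_index inf_le_left)
  have h2 : ¬ 2 ∣ ((P : Subgroup G) ⊓ C).index := by
    rw [← relIndex_mul_index (inf_le_right : (P : Subgroup G) ⊓ C ≤ C), Nat.prime_two.dvd_mul]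
    rintro (h | h)
    · exact hP h
    · exact Q.not_dvd_index (h.trans (Subgroup.index_dvd_of_le hQ))
  obtain ⟨k, hk⟩ := IsPGroup.iff_card.1 P.2
  obtain ⟨j, -, hj⟩ := (Nat.dvd_prime_pow Nat.prime_two).1
    (hk ▸ relIndex_dvd_card ((P : Subgroup G) ⊓ C) (P : Subgroup G))
  rcases j with _ | j
  · exact (relIndex_eq_one.1 (hj.trans (pow_zero 2))).trans inf_le_right
  · exact absurd ((dvd_pow_self 2 (Nat.succ_ne_zero j)).trans (hj ▸ h1)) h2

theorem central_involution_unique (S : Sylow 2 G) {z : G} (hzmem : z ∈ (S : Subgroup G))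
    (hzS : (S : Subgroup G) ≤ centralizer ({z} : Set G)) (hgood : IsGood z) (P : Sylow 2 G)
    {a b : G} (ha : orderOf a = 2) (hb : orderOf b = 2)
    (haP : ∀ x ∈ (P : Subgroup G), Commute x a) (hbP : ∀ x ∈ (P : Subgroup G), Commute x b) :
    a = b := by
  obtain ⟨g, hg⟩ := Fusion.exists_cj_sylow P S
  have key : ∀ c : G, orderOf c = 2 → (∀ x ∈ (P : Subgroup G), Commute x c) → g * c * g⁻¹ = z := by
    intro c hc hcP
    have hall : ∀ s ∈ (S : Subgroup G), Commute s (g * c * g⁻¹) := by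
      intro s hs
      rw [← hg, Fusion.mem_cj] at hs
      refine mul_inv_eq_iff_eq_mul.1 ?_
      calc s * (g * c * g⁻¹) * s⁻¹ = g * ((g⁻¹ * s * g) * c * (g⁻¹ * s * g)⁻¹) * g⁻¹ := by group
        _ = _ := by rw [(hcP _ hs).eq, mul_inv_cancel_right]
    refine hgood.eq_of_centralizes S.2 hzS ?_ (by rw [Invol.orderOf_conj]; exact hc)
      (mem_centralizer_singleton_iff.2 (hall z hzmem).symm.eq) hall
    exact fun h => S.not_dvd_index (h.trans (Dvd.intro _ (relIndex_mul_index hzS)))
  exact mul_left_cancel (mul_right_cancel ((key a ha haP).trans (key b hb hbP).symm))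

/-- All good involutions are central in a Sylow 2-subgroup; there is exactly one central
involution in a Sylow 2-subgroup. -/
theorem good_structure (hcf : ∀ t : G, orderOf t = 2 → CFCon 2 (centralizer ({t} : Set G)))
    (hcyc : ∀ M : Subgroup G, Cfsg.IsMaximalTwoLocal M →
      IsCyclic ↥(center ↥(Cfsg.pCore 2 ↥M)))
    (S : Sylow 2 G) (hS1 : (S : Subgroup G) ≠ ⊥) {z : G} (hz : orderOf z = 2)
    (hzmem : z ∈ (S : Subgroup G)) (hzS : ∀ s ∈ (S : Subgroup G), Commute s z) :
    IsGood z ∧ ∀ w : G, IsGood w → ∃ g : G, g * w * g⁻¹ = z := by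
  have hloc : Cfsg.IsTwoLocal (normalizer ((S : Subgroup G) : Set G)) := ⟨S, S.2, hS1, rfl⟩
  obtain ⟨w₀, hw₀, hw₀S⟩ := exists_good hcf hcyc hloc
  have hSw : (S : Subgroup G) ≤ centralizer ({w₀} : Set G) := le_normalizer.trans hw₀S
  have hidx : ¬ 2 ∣ (S : Subgroup G).relIndex (centralizer ({w₀} : Set G)) := fun h =>
    S.not_dvd_index (h.trans (Dvd.intro _ (relIndex_mul_index hSw)))
  have hcen : ∀ v : G, orderOf v = 2 → v ∈ (S : Subgroup G) →
      (∀ s ∈ (S : Subgroup G), Commute s v) → v = w₀ := fun v hv hvS hvc =>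
    hw₀.eq_of_centralizes S.2 hSw hidx hv (hSw hvS) hvc
  have hzw : z = w₀ := hcen z hz hzmem hzS
  refine ⟨hzw ▸ hw₀, fun w hw => ?_⟩
  set X := centralizer ({w} : Set G) with hX
  obtain ⟨P, -, hP⟩ := Fusion.exists_sylow_inf_relIndex (U := (⊥ : Subgroup G)) (N := X)
    (IsPGroup.of_bot (p := 2)) bot_le
  set Q := (P : Subgroup G) ⊓ X with hQ
  have hQp : IsPGroup 2 Q := P.2.to_le inf_le_left
  have hwQ : w ∈ Q := mem_of_sylow_centralizer hw.1 hQp inf_le_right hP
    (mem_centralizer_singleton_iff.2 rfl) fun y hy => (mem_centralizer_singleton_iff.1 hy).symm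
  have hQP : Q = (P : Subgroup G) := by
    by_contra hne
    have hlt := Fusion.lt_normalizer_inf P.2 (lt_of_le_of_ne inf_le_left hne)
    obtain ⟨x, hx, hxQ⟩ := SetLike.exists_of_lt hlt
    have hxn : x ∈ normalizer (Q : Set G) := hx.2
    have hfix : x * w * x⁻¹ = w := by
      refine hw.eq_of_centralizes hQp inf_le_right hP (by rw [Invol.orderOf_conj]; exact hw.1)
        (inf_le_right (α := Subgroup G) ((hxn w).1 hwQ)) fun y hy => ?_
      have h1 : x⁻¹ * y * x ∈ Q := by
        simpa using ((inv_mem hxn : x⁻¹ ∈ normalizer (Q : Set G)) y).1 hy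
      have h2 : Commute (x⁻¹ * y * x) w :=
        mem_centralizer_singleton_iff.1 (inf_le_right (α := Subgroup G) h1)
      refine mul_inv_eq_iff_eq_mul.1 ?_
      calc y * (x * w * x⁻¹) * y⁻¹ = x * ((x⁻¹ * y * x) * w * (x⁻¹ * y * x)⁻¹) * x⁻¹ := by group
        _ = _ := by rw [h2.eq, mul_inv_cancel_right]
    exact hxQ ⟨hx.1, mem_centralizer_singleton_iff.2 (mul_inv_eq_iff_eq_mul.1 hfix)⟩
  obtain ⟨g, hg⟩ := Fusion.exists_cj_sylow P S
  refine ⟨g, hzw ▸ hcen _ (by rw [Invol.orderOf_conj]; exact hw.1) ?_ ?_⟩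
  · rw [← hg, Fusion.conj_mem_cj]; exact inf_le_left (α := Subgroup G) hwQ
  · intro s hs
    rw [← hg, Fusion.mem_cj] at hs
    have h2 : Commute (g⁻¹ * s * g) w :=
      mem_centralizer_singleton_iff.1 (inf_le_right (α := Subgroup G) (hQP.ge hs))
    refine mul_inv_eq_iff_eq_mul.1 ?_
    calc s * (g * w * g⁻¹) * s⁻¹ = g * ((g⁻¹ * s * g) * w * (g⁻¹ * s * g)⁻¹) * g⁻¹ := by group
      _ = _ := by rw [h2.eq, mul_inv_cancel_right]

/-- The involution `z` commutes with no other conjugate of itself. -/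
theorem isolated_of_good (hcf : ∀ t : G, orderOf t = 2 → CFCon 2 (centralizer ({t} : Set G)))
    (hcyc : ∀ M : Subgroup G, Cfsg.IsMaximalTwoLocal M →
      IsCyclic ↥(center ↥(Cfsg.pCore 2 ↥M)))
    (S : Sylow 2 G) {z : G} (hzS : (S : Subgroup G) ≤ centralizer ({z} : Set G))
    (hzmem : z ∈ (S : Subgroup G)) (hgood : IsGood z) (hconj : ∀ w : G, IsGood w → ∃ g : G, g * w * g⁻¹ = z) :
    ∀ u v : G, IsConj z u → IsConj z v → Commute u v → u = v := by
  suffices key : ∀ n : ℕ, ∀ u v : G, ∀ D : Subgroup G, IsConj z u → IsConj z v → Commute u v →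
      IsPGroup 2 D → D ≤ centralizer ({u} : Set G) ⊓ centralizer ({v} : Set G) →
      Nat.card G - Nat.card D = n → u = v from
    fun u v hu hv huv => key _ u v ⊥ hu hv huv IsPGroup.of_bot bot_le rfl
  intro n
  induction n using Nat.strong_induction_on with
  | _ n ih =>
    intro u v D hu hv huv hD hDuv hn
    set I := centralizer ({u} : Set G) ⊓ centralizer ({v} : Set G) with hI
    obtain ⟨Q, hDQ, hQ⟩ := Fusion.exists_sylow_inf_relIndex hD hDuv
    set E := (Q : Subgroup G) ⊓ I with hE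
    have hEp : IsPGroup 2 E := Q.2.to_le inf_le_left
    by_cases hlt : D < E
    · refine ih _ ?_ u v E hu hv huv hEp inf_le_right rfl
      have := Fusion.card_lt_card hlt
      have := E.card_le_card_group
      omega
    have hDE : D = E := by
      by_contra hne; exact hlt (lt_of_le_of_ne (le_inf hDQ hDuv) hne)
    have hz2 := hgood.1
    have ho : ∀ y : G, IsConj z y → orderOf y = 2 := fun y hy => by
      rw [← Invol.orderOf_eq_of_isConj hy]; exact hz2
    have hmemE : ∀ y : G, IsConj z y → y ∈ I → (∀ x ∈ I, Commute y x) → y ∈ E := fun y hy hyI hyc =>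
      mem_of_sylow_centralizer (ho y hy) hEp inf_le_right hQ hyI hyc
    have huI : u ∈ I := ⟨mem_centralizer_singleton_iff.2 rfl,
      mem_centralizer_singleton_iff.2 huv.eq⟩
    have hvI : v ∈ I := ⟨mem_centralizer_singleton_iff.2 huv.symm.eq,
      mem_centralizer_singleton_iff.2 rfl⟩
    have huD : u ∈ D := hDE ▸ hmemE u hu huI fun x hx =>
      (mem_centralizer_singleton_iff.1 hx.1).symm
    have hvD : v ∈ D := hDE ▸ hmemE v hv hvI fun x hx =>
      (mem_centralizer_singleton_iff.1 hx.2).symm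
    have hD1 : D ≠ ⊥ := fun h => Invol.inv_ne_one (ho u hu) (by rw [h] at huD; exact huD)
    obtain ⟨w, hw, hNw⟩ := exists_good hcf hcyc ⟨D, hD, hD1, rfl⟩
    have hwz : IsConj z w := by
      obtain ⟨g, hg⟩ := hconj w hw
      exact (isConj_iff.2 ⟨g, hg⟩).symm
    have hDw : D ≤ centralizer ({w} : Set G) := le_normalizer.trans hNw
    have huw : Commute u w := mem_centralizer_singleton_iff.1 (hDw huD)
    have hvw : Commute v w := mem_centralizer_singleton_iff.1 (hDw hvD)
    have step : ∀ y : G, IsConj z y → D ≤ centralizer ({y} : Set G) → Commute y w → y = w := by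
      intro y hy hDy hyw
      by_contra hne
      obtain ⟨P, hDP, hP⟩ := Fusion.exists_sylow_inf_relIndex hD hDy
      have hfull : (P : Subgroup G) ≤ centralizer ({y} : Set G) := by
        obtain ⟨g, hg⟩ := isConj_iff.1 hy
        refine sylow_le_of_relIndex P (g • S) ?_ hP
        rw [Fusion.coe_smul_sylow]
        intro x hx
        rw [Fusion.mem_cj] at hx
        have h1 : Commute (g⁻¹ * x * g) z := mem_centralizer_singleton_iff.1 (hzS hx)
        rw [mem_centralizer_singleton_iff, ← hg]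
        refine mul_inv_eq_iff_eq_mul.1 ?_
        calc x * (g * z * g⁻¹) * x⁻¹
            = g * ((g⁻¹ * x * g) * z * (g⁻¹ * x * g)⁻¹) * g⁻¹ := by group
          _ = _ := by rw [h1.eq, mul_inv_cancel_right]
      by_cases hDP' : D = (P : Subgroup G)
      · exact hne (central_involution_unique S hzmem hzS hgood P (ho y hy) hw.1
          (fun x hx => mem_centralizer_singleton_iff.1 (hfull hx))
          (fun x hx => mem_centralizer_singleton_iff.1 (hDw (hDP' ▸ hx))))
      have hlt' := Fusion.lt_normalizer_inf P.2 (lt_of_le_of_ne hDP hDP')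
      set D' := (P : Subgroup G) ⊓ normalizer (D : Set G) with hD'
      refine hne (ih _ ?_ y w D' hy hwz hyw (P.2.to_le inf_le_left)
        (le_inf (inf_le_left.trans hfull) (inf_le_right.trans hNw)) rfl)
      have := Fusion.card_lt_card hlt'
      have := D'.card_le_card_group
      omega
    exact (step u hu (hDuv.trans inf_le_left) huw).trans
      (step v hv (hDuv.trans inf_le_right) hvw).symm

theorem exists_noncyclic_center [IsSimpleGroup G] (hG : ¬ IsMulCommutative G) (S : Sylow 2 G)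
    (A : Subgroup G) (hA : Cfsg.IsSCN (S : Subgroup G) A) (hA3 : ¬ Cfsg.PRankLE 2 2 ↥A)
    (hinv : ∀ X : Subgroup G, Odd (Nat.card ↥X) →
      (S : Subgroup G) ≤ normalizer (X : Set G) → X = ⊥)
    (hcon : ∀ T : Subgroup G, IsPGroup 2 ↥T → T ≠ ⊥ →
      Cfsg.IsPConstrained 2 ↥(normalizer (T : Set G))) :
    ∃ M : Subgroup G, Cfsg.IsMaximalTwoLocal M ∧ ¬ IsCyclic ↥(center ↥(Cfsg.pCore 2 ↥M)) := by
  by_contra hno
  push Not at hno
  have hcon' : ∀ t : G, orderOf t = 2 → Cfsg.IsPConstrained 2 (centralizer ({t} : Set G)) :=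
    fun t ht => by
      have := hcon _ (isPGroup_zpowers_two ht) (zpowers_ne_bot ht)
      rwa [normalizer_zpowers_eq ht] at this
  have hcf : ∀ t : G, orderOf t = 2 → CFCon 2 (centralizer ({t} : Set G)) :=
    fun t ht => cfcon_centralizer_of_early hcon' S hA hA3 hinv ht
  obtain ⟨B, hBS, hSB, hBc, hB2, hB8⟩ := exists_elementary_of_scn S.2 hA hA3
  have hB1 : B ≠ ⊥ := by rintro rfl; rw [Subgroup.card_bot] at hB8; omega
  obtain ⟨z, hzB, hz, hzS⟩ := exists_involution_center_inf S.2 hBS hSB hB1 hB2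
  have hS1 : (S : Subgroup G) ≠ ⊥ := fun h => hB1 (le_bot_iff.1 (h ▸ hBS))
  obtain ⟨hgood, hconj⟩ := good_structure hcf hno S hS1 hz (hBS hzB) hzS
  have hiso := isolated_of_good hcf hno S
    (fun s hs => mem_centralizer_singleton_iff.2 (hzS s hs).eq) (hBS hzB) hgood hconj
  have hcentr : ∀ i : G, orderOf i = 2 → Commute i z →
      centralizer ({i} : Set G) ≤ centralizer ({z} : Set G) := by
    intro i hi hiz
    obtain ⟨w, hw, hle⟩ := exists_good hcf hno (isTwoLocal_centralizer hi)
    obtain ⟨g, hg⟩ := hconj w hw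
    have hzw : Commute z w :=
      mem_centralizer_singleton_iff.1 (hle (mem_centralizer_singleton_iff.2 hiz.symm.eq))
    rwa [← hiso z w (IsConj.refl z) (isConj_iff.2 ⟨g, hg⟩).symm hzw] at hle
  obtain ⟨g, hgj⟩ : ∃ g : G, ¬ Commute (g * z * g⁻¹) z := by
    by_contra h
    push Not at h
    apply hG
    have hfix : ∀ g : G, g * z * g⁻¹ = z := fun g =>
      (hiso z _ (IsConj.refl z) (Invol.isConj_conj g z) (h g).symm).symm
    have hzc : z ∈ center G := mem_center_iff.2 fun g => mul_inv_eq_iff_eq_mul.1 (hfix g)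
    have htop : center G = ⊤ := by
      rcases IsSimpleGroup.eq_bot_or_eq_top_of_normal (center G) inferInstance with h' | h'
      · rw [h'] at hzc; exact absurd hzc (Invol.inv_ne_one hz)
      · exact h'
    exact ⟨⟨fun a b => mem_center_iff.1 (htop ▸ mem_top b : b ∈ center G) a⟩⟩
  set j := g * z * g⁻¹ with hj
  have hall : ∀ i : G, orderOf i = 2 → Commute i z → i = z := by
    intro i hi hiz
    have hij : IsConj i j := by
      by_contra hnc
      obtain ⟨k, hk, hki, hkj⟩ := Invol.exists_common_of_not_isConj hi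
        (show orderOf j = 2 by rw [hj, Invol.orderOf_conj]; exact hz) hnc
      have hkz : Commute k z := mem_centralizer_singleton_iff.1
        (hcentr i hi hiz (mem_centralizer_singleton_iff.2 hki.eq))
      exact hgj (mem_centralizer_singleton_iff.1
        (hcentr k hk hkz (mem_centralizer_singleton_iff.2 hkj.symm.eq)))
    exact hiso i z ((Invol.isConj_conj g z).trans hij.symm) (IsConj.refl z) hiz
  have hle : Nat.card B ≤ 2 :=
    calc Nat.card B = (B : Set G).ncard := (Nat.card_coe_set_eq _)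
      _ ≤ ({1, z} : Set G).ncard := Set.ncard_le_ncard (fun v hv => by
        by_cases h1 : v = 1
        · exact Or.inl h1
        · exact Or.inr (hall v (Invol.orderOf_eq_two (hB2 v hv) h1) (hBc v hv z hzB)))
        (Set.toFinite _)
      _ ≤ 2 := by
        refine (Set.ncard_insert_le _ _).trans ?_
        rw [Set.ncard_singleton]
  omega

end Cfsg.Agent.CharTwo
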