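import Cfsg.Agent.CharTwo.AutPSLTwoSylow
import Cfsg.Agent.LocalEven.TransferIndexTwo
import Cfsg.Agent.CentralExt.Sylow
import Cfsg.Prelude.Def_TwoFusion
import Mathlib.GroupTheory.NoncommCoprod

/-!
# Simple groups of Janko–Ree type: covers and automorphisms fixing a Sylow 2-subgroup
-/

set_option autoImplicit false

namespace Cfsg.Agent.CharTwo.JankoRee

open Subgroup
open scoped commutatorElement MatrixGroups

theorem ofAdd_facts :
    Multiplicative.ofAdd (1 : ZMod 2) * Multiplicative.ofAdd 1 = 1 ∧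
      Multiplicative.ofAdd (1 : ZMod 2) ≠ 1 := by decide

/-- A normaliser element whose square centralises an abelian Sylow 2-subgroup centralises it. -/
theorem commute_of_sq {G : Type*} [Group G] [Finite G] {P : Subgroup G} (hP : IsPGroup 2 P)
    (hmax : ∀ Q : Subgroup G, IsPGroup 2 Q → P ≤ Q → Q = P)
    (hab : ∀ a ∈ P, ∀ b ∈ P, a * b = b * a) {n : G} (hn : n ∈ normalizer (P : Set G))
    (hn2 : ∀ a ∈ P, n * n * a = a * (n * n)) : ∀ a ∈ P, n * a = a * n := by
  haveI : Fact (Nat.Prime 2) := ⟨Nat.prime_two⟩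
  obtain ⟨i, m, hm, hmi⟩ := Nat.exists_eq_two_pow_mul_odd (orderOf_pos n).ne'
  have hmem : n ^ m ∈ P := by
    have hp : IsPGroup 2 (zpowers (n ^ m)) := by
      refine IsPGroup.of_card_dvd_pow (n := i) ?_
      rw [Nat.card_zpowers]
      refine orderOf_dvd_of_pow_eq_one ?_
      rw [← pow_mul, mul_comm, ← hmi, pow_orderOf_eq_one]
    have := hmax _ (IsPGroup.to_sup_of_normal_right' hp hP (zpowers_le.2 (pow_mem hn m))) le_sup_right
    exact this ▸ mem_sup_left (mem_zpowers _)
  obtain ⟨r, rfl⟩ := hm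
  intro a ha
  have h1 : Commute (n * n) a := hn2 a ha
  have h2 : Commute (n ^ (2 * r + 1)) a := hab _ hmem a ha
  have h3 : n = n ^ (2 * r + 1) * ((n * n) ^ r)⁻¹ := by
    rw [← pow_two, ← pow_mul, pow_succ', mul_inv_cancel_right]
  rw [h3]
  exact (h2.mul_left (h1.pow_left r).inv_left).eq

/-- The hypotheses of Janko–Ree type. -/
structure Hyp (G : Type*) [Group G] (t : G) (E : Subgroup G) (F : Type*) [Field F] [Fintype F]
    (N : Subgroup ↥E) : Prop where
  simple : IsSimpleGroup G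
  nab : ¬ IsMulCommutative G
  ab : ∀ S : Sylow 2 G, IsMulCommutative ↥(S : Subgroup G)
  ht : orderOf t = 2
  max : IsCoatom (centralizer ({t} : Set G))
  prod : Cfsg.IsInternalDirectProduct (zpowers t) E (centralizer ({t} : Set G))
  odd : Odd (Fintype.card F)
  three : 3 < Fintype.card F
  normal : N.Normal
  iso : Nonempty (↥N ≃* Matrix.ProjectiveSpecialLinearGroup (Fin 2) F)
  cent : centralizer (N : Set ↥E) = ⊥

variable {G : Type*} [Group G] [Finite G] {t : G} {E : Subgroup G} {F : Type*} [Field F] [Fintype F]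
  {N : Subgroup ↥E}

/-- The `PSL(2, q)` inside `C(t)`. -/
abbrev N0 (N : Subgroup ↥E) : Subgroup G := N.map E.subtype

section
variable (h : Hyp G t E F N)
include h

omit [Finite G] in
theorem Hyp.le_cent : N0 N ≤ centralizer ({t} : Set G) := (map_subtype_le N).trans h.prod.2.1

omit [Finite G] in
theorem Hyp.t_comm {x : G} (hx : x ∈ centralizer ({t} : Set G)) : t * x = x * t :=
  (mem_centralizer_singleton_iff.1 hx).symm

omit [Finite G] in
theorem Hyp.tt : t * t = 1 := by rw [← pow_two, ← h.ht, pow_orderOf_eq_one]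

omit [Finite G] in
theorem Hyp.zpow_cases {x : G} (hx : x ∈ zpowers t) : x = 1 ∨ x = t := by
  obtain ⟨i, rfl⟩ := mem_zpowers_iff.1 hx
  rcases Int.even_or_odd i with ⟨j, rfl⟩ | ⟨j, rfl⟩
  · left; rw [← two_mul, zpow_mul, zpow_two, h.tt, one_zpow]
  · right; rw [zpow_add, zpow_mul, zpow_two, h.tt, one_zpow, one_mul, zpow_one]

omit [Finite G] in
theorem Hyp.decomp {c : G} (hc : c ∈ centralizer ({t} : Set G)) :
    ∃ a ∈ zpowers t, ∃ y ∈ E, c = a * y := by
  obtain ⟨-, -, hcomm, -, hsup⟩ := h.prod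
  let f : ↥(zpowers t) × ↥E →* G := MonoidHom.noncommCoprod (zpowers t).subtype E.subtype
    fun a b => hcomm a a.2 b b.2
  have hr : centralizer ({t} : Set G) ≤ f.range := by
    rw [← hsup, sup_le_iff]
    exact ⟨fun a ha => ⟨(⟨a, ha⟩, 1), mul_one a⟩, fun y hy => ⟨(1, ⟨y, hy⟩), one_mul y⟩⟩
  obtain ⟨⟨a, y⟩, rfl⟩ := hr hc
  exact ⟨a, a.2, y, y.2, rfl⟩

omit [Finite G] in
theorem Hyp.normal_N0 {c : G} (hc : c ∈ centralizer ({t} : Set G)) {x : G} (hx : x ∈ N0 N) :
    c * x * c⁻¹ ∈ N0 N := by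
  obtain ⟨a, ha, y, hy, rfl⟩ := h.decomp hc
  obtain ⟨x', hx', rfl⟩ := hx
  refine ⟨⟨y, hy⟩ * x' * ⟨y, hy⟩⁻¹, h.normal.conj_mem x' hx' _, ?_⟩
  have hcom := h.prod.2.2.1 a ha (y * x' * y⁻¹) (mul_mem (mul_mem hy x'.2) (inv_mem hy))
  show y * (x' : G) * y⁻¹ = a * y * x' * (a * y)⁻¹
  calc y * (x' : G) * y⁻¹ = (y * x' * y⁻¹) * a * a⁻¹ := by group
    _ = a * (y * x' * y⁻¹) * a⁻¹ := by rw [hcom]
    _ = a * y * x' * (a * y)⁻¹ := by group

omit [Finite G] in
theorem Hyp.cent_N0 {c : G} (hc : c ∈ centralizer ({t} : Set G))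
    (hcN : ∀ x ∈ N0 N, c * x = x * c) : c ∈ zpowers t := by
  obtain ⟨a, ha, y, hy, rfl⟩ := h.decomp hc
  have h1 : (⟨y, hy⟩ : E) ∈ centralizer (N : Set ↥E) := by
    intro x hx
    have hax := h.prod.2.2.1 a ha x x.2
    have hay := h.prod.2.2.1 a ha y hy
    have := hcN x ⟨x, hx, rfl⟩
    refine Subtype.ext (mul_left_cancel (a := a) ?_)
    show a * ((x : G) * y) = a * (y * x)
    rw [← mul_assoc a y, this, ← mul_assoc, hax, mul_assoc]
  rw [h.cent, Subgroup.mem_bot, Subtype.ext_iff] at h1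
  rw [show y = 1 from h1, mul_one]
  exact ha

omit [Finite G] in
theorem Hyp.exists_iso : Nonempty (↥(N0 N) ≃* Matrix.ProjectiveSpecialLinearGroup (Fin 2) F) := by
  obtain ⟨e⟩ := h.iso
  exact ⟨((N.equivMapOfInjective E.subtype E.subtype_injective).symm).trans e⟩

theorem Hyp.simple_N0 : IsSimpleGroup ↥(N0 N) := by
  obtain ⟨e⟩ := h.exists_iso
  haveI : IsSimpleGroup (Matrix.ProjectiveSpecialLinearGroup (Fin 2) F) :=
    Linear.isSimpleGroup_PSL_fin 2 le_rfl fun _ => by
      have := h.three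
      rw [Nat.card_eq_fintype_card]; omega
  exact e.isSimpleGroup

theorem Hyp.exists_sylow_t : ∃ S : Sylow 2 G, t ∈ (S : Subgroup G) := by
  haveI : Fact (Nat.Prime 2) := ⟨Nat.prime_two⟩
  have hp : IsPGroup 2 (zpowers t) :=
    IsPGroup.of_card (n := 1) (by rw [Nat.card_zpowers, h.ht, pow_one])
  obtain ⟨S, hS⟩ := hp.exists_le_sylow
  exact ⟨S, hS (mem_zpowers t)⟩

omit [Finite G] in
theorem Hyp.comm (S : Sylow 2 G) : ∀ a ∈ (S : Subgroup G), ∀ b ∈ (S : Subgroup G), a * b = b * a :=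
  fun a ha b hb => congrArg Subtype.val ((h.ab S).is_comm.comm ⟨a, ha⟩ ⟨b, hb⟩)

omit [Finite G] in
theorem Hyp.sylow_le {S : Sylow 2 G} (hS : t ∈ (S : Subgroup G)) :
    (S : Subgroup G) ≤ centralizer ({t} : Set G) :=
  fun s hs => mem_centralizer_singleton_iff.2 (h.comm S s hs t hS)

theorem Hyp.mod_eight : Fintype.card F % 8 = 3 ∨ Fintype.card F % 8 = 5 := by
  haveI : Fact (Nat.Prime 2) := ⟨Nat.prime_two⟩
  obtain ⟨e⟩ := h.exists_iso
  obtain ⟨P⟩ := (inferInstance : Nonempty (Sylow 2 (Matrix.ProjectiveSpecialLinearGroup (Fin 2) F)))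
  refine AutPSLTwo.mod_eight h.odd P ?_
  let f : Matrix.ProjectiveSpecialLinearGroup (Fin 2) F →* G := (N0 N).subtype.comp e.symm.toMonoidHom
  have hf : Function.Injective f := (N0 N).subtype_injective.comp e.symm.injective
  obtain ⟨S, hS⟩ := (P.isPGroup'.map f).exists_le_sylow
  intro a ha b hb
  exact hf (by
    rw [map_mul, map_mul]
    exact h.comm S _ (hS ⟨a, ha, rfl⟩) _ (hS ⟨b, hb, rfl⟩))

theorem Hyp.card_abelian_aut (A : Subgroup (MulAut ↥(N0 N))) (hA : IsPGroup 2 A)
    (hab : ∀ a ∈ A, ∀ b ∈ A, a * b = b * a) : Nat.card A ≤ 4 := by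
  obtain ⟨e⟩ := h.exists_iso
  let ρ := MulAut.congr e
  rw [Nat.card_congr (A.equivMapOfInjective ρ.toMonoidHom ρ.injective).toEquiv]
  refine AutPSLTwo.card_abelian_two_subgroup h.mod_eight h.three _ (hA.map _) ?_
  rintro _ ⟨a, ha, rfl⟩ _ ⟨b, hb, rfl⟩
  rw [← map_mul, ← map_mul, hab a ha b hb]

omit [Finite G] in
/-- The action of `C(t)` on `N0`. -/
theorem Hyp.exists_action : ∃ τ : ↥(centralizer ({t} : Set G)) →* MulAut ↥(N0 N),
    ∀ c x, ((τ c x : ↥(N0 N)) : G) = c * x * (c : G)⁻¹ := by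
  refine ⟨MonoidHom.mk'
    (fun c =>
      { toFun := fun x => ⟨c * x * (c : G)⁻¹, h.normal_N0 c.2 x.2⟩
        invFun := fun x => ⟨(c : G)⁻¹ * x * c, by simpa using h.normal_N0 (inv_mem c.2) x.2⟩
        left_inv := fun x => Subtype.ext (by simp [mul_assoc])
        right_inv := fun x => Subtype.ext (by simp [mul_assoc])
        map_mul' := fun x y => Subtype.ext (by simp [mul_assoc]) })
    (fun c d => MulEquiv.ext fun x => Subtype.ext (by simp [mul_assoc, MulAut.mul_apply])), fun c x => rfl⟩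

theorem Hyp.exists_four_group : ∃ V : Subgroup G, V ≤ N0 N ∧ IsPGroup 2 V ∧ Nat.card V = 4 ∧
    (∀ x ∈ V, x * x = 1) ∧ (∀ Q : Subgroup G, IsPGroup 2 Q → Q ≤ N0 N → V ≤ Q → Q = V) := by
  classical
  haveI : Fact (Nat.Prime 2) := ⟨Nat.prime_two⟩
  obtain ⟨e⟩ := h.exists_iso
  obtain ⟨P⟩ := (inferInstance : Nonempty (Sylow 2 (Matrix.ProjectiveSpecialLinearGroup (Fin 2) F)))
  have hK := S0276.result rfl h.mod_eight P
  let f : Matrix.ProjectiveSpecialLinearGroup (Fin 2) F →* G := (N0 N).subtype.comp e.symm.toMonoidHom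
  have hf : Function.Injective f := (N0 N).subtype_injective.comp e.symm.injective
  refine ⟨(P : Subgroup _).map f, ?_, P.isPGroup'.map f, ?_, ?_, ?_⟩
  · rintro _ ⟨x, -, rfl⟩
    exact (e.symm x).2
  · rw [Nat.card_congr ((P : Subgroup _).equivMapOfInjective f hf).toEquiv.symm]
    exact hK.card_four
  · rintro _ ⟨x, hx, rfl⟩
    have := congrArg Subtype.val (IsKleinFour.mul_self (⟨x, hx⟩ : (P : Subgroup _)))
    rw [← map_mul, show x * x = 1 from this, map_one]
  · intro Q hQ hQN hVQ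
    have h1 : Q.comap f = (P : Subgroup _) :=
      P.is_maximal' (hQ.comap_of_injective f hf) fun x hx => hVQ ⟨x, hx, rfl⟩
    rw [← h1, map_comap_eq_self]
    intro q hq
    exact ⟨e ⟨q, hQN hq⟩, congrArg Subtype.val (e.symm_apply_apply _)⟩

/-- Every Sylow 2-subgroup containing `t` is `⟨t⟩ × V`. -/
theorem Hyp.sylow_structure {S : Sylow 2 G} (hS : t ∈ (S : Subgroup G)) :
    Nat.card S = 8 ∧ (∀ x ∈ (S : Subgroup G), x * x = 1) ∧
    ∃ V : Subgroup G, V ≤ N0 N ∧ V ≤ (S : Subgroup G) ∧ Nat.card V = 4 ∧ t ∉ V ∧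
      (∀ x ∈ (S : Subgroup G), x ∈ V ∨ t * x ∈ V) ∧
      (∀ Q : Subgroup G, IsPGroup 2 Q → Q ≤ N0 N → V ≤ Q → Q = V) := by
  classical
  haveI : Fact (Nat.Prime 2) := ⟨Nat.prime_two⟩
  set C := centralizer ({t} : Set G) with hC
  obtain ⟨τ, hτ⟩ := h.exists_action
  obtain ⟨V, hVN, hVp, hV4, hV2, hVmax⟩ := h.exists_four_group
  have hcard : ∀ R : Sylow 2 G, t ∈ (R : Subgroup G) → Nat.card R ≤ 8 := by
    intro R hR
    let f := τ.comp (Subgroup.inclusion (h.sylow_le hR))
    have hker : Nat.card f.ker ≤ 2 := by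
      have hsub : ∀ x : f.ker, ((x : ↥(R : Subgroup G)) : G) ∈ zpowers t := fun x =>
        h.cent_N0 (h.sylow_le hR x.1.2) fun y hy => by
          have h1 := congrArg (fun σ : MulAut ↥(N0 N) => ((σ ⟨y, hy⟩ : ↥(N0 N)) : G)) x.2
          simp only [f, MonoidHom.comp_apply, hτ, MulAut.one_apply] at h1
          exact mul_inv_eq_iff_eq_mul.1 h1
      refine le_trans (Nat.card_le_card_of_injective (fun x => (⟨_, hsub x⟩ : zpowers t))
        fun x y e => Subtype.ext (Subtype.ext (congrArg Subtype.val e :))) ?_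
      rw [Nat.card_zpowers, h.ht]
    have hr : Nat.card f.range ≤ 4 := by
      refine h.card_abelian_aut _ (R.isPGroup'.of_surjective f.rangeRestrict f.rangeRestrict_surjective) ?_
      rintro _ ⟨a, rfl⟩ _ ⟨b, rfl⟩
      rw [← map_mul, ← map_mul, show a * b = b * a from Subtype.ext (h.comm R a a.2 b b.2)]
    have h1 := f.ker.card_mul_index
    rw [Subgroup.index_ker] at h1
    have h3 : Nat.card f.ker * Nat.card f.range ≤ 2 * 4 := Nat.mul_le_mul hker hr
    calc Nat.card R = Nat.card f.ker * Nat.card f.range := h1.symm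
      _ ≤ 8 := h3
  have htV : t ∉ V := fun htV => by
    have h1 : (⟨t, hVN htV⟩ : ↥(N0 N)) ∈ Subgroup.center ↥(N0 N) :=
      Subgroup.mem_center_iff.2 fun x => Subtype.ext (h.t_comm (h.le_cent x.2)).symm
    haveI := h.simple_N0
    rcases IsSimpleGroup.eq_bot_or_eq_top_of_normal (Subgroup.center ↥(N0 N)) inferInstance with e | e
    · rw [e, Subgroup.mem_bot, Subtype.ext_iff] at h1
      have := h.ht
      rw [show t = 1 from h1, orderOf_one] at this
      omega
    · -- an abelian simple group is too small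
      have hall : V = N0 N := by
        refine le_antisymm hVN ?_
        have hab : ∀ x y : ↥(N0 N), x * y = y * x := fun x y =>
          (Subgroup.mem_center_iff.1 (e ▸ Subgroup.mem_top y) x)
        rcases IsSimpleGroup.eq_bot_or_eq_top_of_normal (V.subgroupOf (N0 N))
          ⟨fun x hx g => by rw [hab g x, mul_inv_cancel_right]; exact hx⟩ with e' | e'
        · replace e' := (subgroupOf_eq_bot.1 e').eq_bot
          rw [inf_of_le_left hVN] at e'
          rw [e', Subgroup.card_bot] at hV4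
          omega
        · exact subgroupOf_eq_top.1 e'
      rcases IsSimpleGroup.eq_bot_or_eq_top_of_normal
        ((zpowers t).subgroupOf (N0 N))
        ⟨fun x hx g => by
          rw [Subgroup.mem_center_iff.1 (e ▸ Subgroup.mem_top x) g, mul_inv_cancel_right]; exact hx⟩
        with e' | e'
      · have : (⟨t, hVN htV⟩ : ↥(N0 N)) ∈ (zpowers t).subgroupOf (N0 N) := mem_zpowers t
        rw [e', Subgroup.mem_bot, Subtype.ext_iff] at this
        have h' := h.ht
        rw [show t = 1 from this, orderOf_one] at h'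
        omega
      · have hle := Subgroup.card_le_of_le (subgroupOf_eq_top.1 e')
        rw [← hall, hV4, Nat.card_zpowers, h.ht] at hle
        omega
  let g : ↥(zpowers t) × ↥V →* G := MonoidHom.noncommCoprod (zpowers t).subtype V.subtype
    fun a b => by
      rcases h.zpow_cases a.2 with e | e <;> simp only [Subgroup.coe_subtype, e]
      · exact Commute.one_left _
      · exact h.t_comm (h.le_cent (hVN b.2))
  have hg : Function.Injective g := by
    rw [injective_iff_map_eq_one]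
    rintro ⟨a, b⟩ e
    have e' : (a : G) * b = 1 := e
    rcases h.zpow_cases a.2 with ha | ha
    · rw [ha, one_mul] at e'
      exact Prod.ext (Subtype.ext ha) (Subtype.ext e')
    · rw [ha] at e'
      exact absurd ((inv_mem_iff (H := V)).1 (by rw [inv_eq_of_mul_eq_one_right e']; exact b.2)) htV
  have hW8 : Nat.card g.range = 8 := by
    rw [← Nat.card_congr (MonoidHom.ofInjective hg).toEquiv, Nat.card_prod, Nat.card_zpowers, h.ht, hV4]
  obtain ⟨R, hR⟩ := (IsPGroup.of_card (p := 2) (n := 3) hW8).exists_le_sylow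
  have htR : t ∈ (R : Subgroup G) := hR ⟨(⟨t, mem_zpowers t⟩, 1), by simp [g]⟩
  have hReq : g.range = (R : Subgroup G) :=
    Subgroup.eq_of_le_of_card_ge hR (by rw [hW8]; exact hcard R htR)
  obtain ⟨c, hc⟩ := MulAction.exists_smul_eq ↥C (R.subtype (h.sylow_le htR)) (S.subtype (h.sylow_le hS))
  have hmem : ∀ x : G, x ∈ (S : Subgroup G) ↔ (c : G)⁻¹ * x * c ∈ (R : Subgroup G) := by
    intro x
    have hc' := congrArg Sylow.toSubgroup hc
    rw [Sylow.coe_subgroup_smul] at hc'
    constructor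
    · intro hx
      have h1 : (⟨x, h.sylow_le hS hx⟩ : ↥C) ∈ ((S.subtype (h.sylow_le hS) : Sylow 2 ↥C) : Subgroup ↥C) := hx
      rw [← hc'] at h1
      obtain ⟨y, hy, hyx⟩ := h1
      have e : x = c * y * (c : G)⁻¹ := (congrArg Subtype.val hyx).symm
      rw [e]
      simpa [mul_assoc, mem_subgroupOf] using hy
    · intro hx
      have h1 : (c * ⟨_, h.sylow_le htR hx⟩ * c⁻¹ : ↥C) ∈ ((S.subtype (h.sylow_le hS) : Sylow 2 ↥C) : Subgroup ↥C) := by
        rw [← hc']; exact ⟨⟨_, h.sylow_le htR hx⟩, hx, rfl⟩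
      have h2 : (c : G) * ((c : G)⁻¹ * x * c) * (c : G)⁻¹ ∈ (S : Subgroup G) := h1
      simpa [mul_assoc] using h2
  have hS8 : Nat.card S = 8 := by
    rw [S.card_eq_multiplicity, ← R.card_eq_multiplicity, ← hW8, ← hReq]
  let V' := V.map (MulAut.conj (c : G)).toMonoidHom
  have hct : (c : G)⁻¹ * t * c = t := by
    rw [mul_assoc, h.t_comm c.2, inv_mul_cancel_left]
  refine ⟨hS8, fun x hx => ?_, V', ?_, ?_, ?_, ?_, ?_, ?_⟩
  · have hx' := (hmem x).1 hx
    rw [← hReq] at hx'
    obtain ⟨⟨a, b⟩, hab⟩ := hx'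
    have h2 : ((c : G)⁻¹ * x * c) * ((c : G)⁻¹ * x * c) = 1 := by
      rw [← hab, ← map_mul]
      refine (congrArg g (Prod.ext (Subtype.ext ?_) (Subtype.ext (hV2 b b.2)))).trans (map_one g)
      rcases h.zpow_cases a.2 with e | e <;> simp [e, h.tt]
    calc x * x = c * (((c : G)⁻¹ * x * c) * ((c : G)⁻¹ * x * c)) * (c : G)⁻¹ := by group
      _ = 1 := by rw [h2]; simp
  · rintro _ ⟨v, hv, rfl⟩
    exact h.normal_N0 c.2 (hVN hv)
  · rintro _ ⟨v, hv, rfl⟩
    rw [hmem]
    have : (c : G)⁻¹ * (c * v * (c : G)⁻¹) * c = v := by simp [mul_assoc]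
    show (c : G)⁻¹ * (c * v * (c : G)⁻¹) * c ∈ _
    rw [this, ← hReq]
    exact ⟨(1, ⟨v, hv⟩), by simp [g]⟩
  · rw [Nat.card_congr (V.equivMapOfInjective _ (MulAut.conj (c : G)).injective).toEquiv.symm, hV4]
  · rintro ⟨v, hv, hvt⟩
    refine htV ?_
    rw [← hct, ← hvt]
    show (c : G)⁻¹ * (c * v * (c : G)⁻¹) * c ∈ V
    simpa [mul_assoc] using hv
  · intro x hx
    have hx' := (hmem x).1 hx
    rw [← hReq] at hx'
    obtain ⟨⟨a, b⟩, hab⟩ := hx'
    have hab' : (a : G) * b = (c : G)⁻¹ * x * c := hab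
    rcases h.zpow_cases a.2 with e | e <;> rw [e] at hab'
    · left
      refine ⟨b, b.2, ?_⟩
      show (c : G) * b * (c : G)⁻¹ = x
      rw [one_mul] at hab'
      rw [hab']; simp [mul_assoc]
    · right
      refine ⟨b, b.2, ?_⟩
      show (c : G) * b * (c : G)⁻¹ = t * x
      have hb : (b : G) = t * ((c : G)⁻¹ * x * c) := by rw [← hab', ← mul_assoc, h.tt, one_mul]
      rw [hb, ← mul_assoc (c : G) t, ← h.t_comm c.2]
      simp [mul_assoc]
  · intro Q hQ hQN hVQ
    have h1 := hVmax (Q.map (MulAut.conj (c : G)⁻¹).toMonoidHom) (hQ.map _) (by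
      rintro _ ⟨q, hq, rfl⟩
      exact h.normal_N0 (inv_mem c.2) (hQN hq)) (fun v hv => ⟨c * v * (c : G)⁻¹, hVQ ⟨v, hv, rfl⟩, by
        simp [mul_assoc]⟩)
    refine le_antisymm (fun q hq => ?_) hVQ
    have h2 : (c : G)⁻¹ * q * c ∈ V := h1 ▸ ⟨q, hq, by simp⟩
    exact ⟨_, h2, by simp [mul_assoc]⟩

/-- An element of `N0` normalising `S` with fixed points `⟨t⟩`, and the Sylow normaliser moves `t`. -/
theorem Hyp.normalizer_facts {S : Sylow 2 G} (hS : t ∈ (S : Subgroup G)) :
    (∃ g : G, g ∈ N0 N ∧ g ∈ normalizer ((S : Subgroup G) : Set G) ∧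
      ∀ x ∈ (S : Subgroup G), g * x = x * g → x ∈ zpowers t) ∧
    (∃ n ∈ normalizer ((S : Subgroup G) : Set G), n ∉ centralizer ({t} : Set G)) := by
  classical
  haveI : Fact (Nat.Prime 2) := ⟨Nat.prime_two⟩
  obtain ⟨h8, h2, V, hVN, hVS, hV4, htV, hdec, hVmax⟩ := h.sylow_structure hS
  constructor
  · -- Burnside in `N0`
    haveI := h.simple_N0
    have hVp : IsPGroup 2 V := S.isPGroup'.to_le hVS
    let VN : Sylow 2 ↥(N0 N) :=
      ⟨V.subgroupOf (N0 N), hVp.comap_subtype, fun {Q} hQ hle => by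
        have h1 := hVmax (Q.map (N0 N).subtype) (hQ.map _) (map_subtype_le Q) (fun v hv =>
          ⟨⟨v, hVN hv⟩, hle hv, rfl⟩)
        rw [← h1, subgroupOf, comap_map_eq_self_of_injective (N0 N).subtype_injective]⟩
    obtain ⟨g, hg, hgc⟩ : ∃ g : ↥(N0 N), g ∈ normalizer ((VN : Subgroup ↥(N0 N)) : Set ↥(N0 N)) ∧
        ∃ v ∈ V, (g : G) * v ≠ v * g := by
      by_contra hcon
      push Not at hcon
      have hc := MonoidHom.ker_transferSylow_isComplement' VN (fun g hg v hv =>
        Subtype.ext (hcon g hg v hv).symm)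
      rcases IsSimpleGroup.eq_bot_or_eq_top_of_normal _
        (MonoidHom.normal_ker (MonoidHom.transferSylow VN fun g hg v hv =>
          Subtype.ext (hcon g hg v hv).symm)) with e | e
      · rw [e, isComplement'_bot_left] at hc
        have hcN : (⊤ : Subgroup ↥(N0 N)) = Subgroup.center ↥(N0 N) := by
          refine le_antisymm (fun x _ => Subgroup.mem_center_iff.2 fun y => Subtype.ext ?_) le_top
          have hx : (x : G) ∈ V := (hc ▸ Subgroup.mem_top x : x ∈ (VN : Subgroup ↥(N0 N)))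
          have hy : (y : G) ∈ V := (hc ▸ Subgroup.mem_top y : y ∈ (VN : Subgroup ↥(N0 N)))
          exact h.comm S _ (hVS hy) _ (hVS hx)
        obtain ⟨v, hv, hv1⟩ : ∃ v ∈ V, v ≠ (1 : G) := by
          refine V.bot_or_exists_ne_one.resolve_left fun e' => ?_
          rw [e', Subgroup.card_bot] at hV4; omega
        -- a simple abelian group has no proper nontrivial subgroup
        rcases IsSimpleGroup.eq_bot_or_eq_top_of_normal (zpowers (⟨v, hVN hv⟩ : ↥(N0 N)))
          ⟨fun x hx y => by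
            rw [Subgroup.mem_center_iff.1 (hcN ▸ Subgroup.mem_top x) y, mul_inv_cancel_right]
            exact hx⟩ with e' | e'
        · exact hv1 (congrArg Subtype.val (Subgroup.zpowers_eq_bot.1 e'))
        · have hle : Nat.card ↥(N0 N) ≤ 2 := by
            rw [← Subgroup.card_top, ← e', Nat.card_zpowers]
            exact Nat.le_of_dvd two_pos (orderOf_dvd_of_pow_eq_one (Subtype.ext (by
              rw [Subgroup.coe_pow, pow_two]; exact h2 v (hVS hv))))
          have := Subgroup.card_le_of_le hVN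
          omega
      · rw [e, isComplement'_top_left] at hc
        have : Nat.card V = 1 := by
          rw [← Nat.card_congr (Subgroup.subgroupOfEquivOfLe hVN).toEquiv,
            show V.subgroupOf (N0 N) = ⊥ from hc, Subgroup.card_bot]
        omega
    obtain ⟨v, hv, hgv⟩ := hgc
    have hnV : ∀ x : G, x ∈ V → (g : G) * x * (g : G)⁻¹ ∈ V := fun x hx =>
      (mem_normalizer_iff.1 hg ⟨x, hVN hx⟩).1 hx
    have hgt : (g : G) * t = t * g := (h.t_comm (h.le_cent g.2)).symm
    refine ⟨g, g.2, ?_, ?_⟩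
    · rw [mem_normalizer_iff]
      have key : ∀ y : G, (∀ x ∈ V, y * x * y⁻¹ ∈ V) → y * t = t * y →
          ∀ x ∈ (S : Subgroup G), y * x * y⁻¹ ∈ (S : Subgroup G) := by
        intro y hy hyt x hx
        rcases hdec x hx with hx' | hx'
        · exact hVS (hy x hx')
        · have h3 := mul_mem hS (hVS (hy _ hx'))
          have : t * (y * (t * x) * y⁻¹) = y * x * y⁻¹ := by
            rw [← mul_assoc y t x, hyt, ← mul_assoc, ← mul_assoc, ← mul_assoc, h.tt, one_mul]
          rwa [this] at h3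
      refine fun x => ⟨key g hnV hgt x, fun hx => ?_⟩
      have h3 := key (g : G)⁻¹ (fun y hy => by
        have := (mem_normalizer_iff.1 (inv_mem hg) ⟨y, hVN hy⟩).1 hy
        exact this) (Commute.inv_left hgt).eq _ hx
      simpa [mul_assoc] using h3
    · intro x hx hgx
      by_contra hxt
      -- reduce to a fixed point in `V`
      obtain ⟨u, huV, hu1, hgu⟩ : ∃ u ∈ V, u ≠ 1 ∧ (g : G) * u = u * g := by
        rcases hdec x hx with hx' | hx'
        · exact ⟨x, hx', fun e => hxt (e ▸ one_mem _), hgx⟩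
        · refine ⟨t * x, hx', fun e => hxt ?_, ?_⟩
          · rw [eq_inv_of_mul_eq_one_right e]; exact inv_mem (mem_zpowers t)
          · rw [← mul_assoc, hgt, mul_assoc, hgx, ← mul_assoc]
      refine hgv ?_
      have hVmax' : ∀ Q : Subgroup ↥(N0 N), IsPGroup 2 Q → (VN : Subgroup ↥(N0 N)) ≤ Q →
          Q = (VN : Subgroup ↥(N0 N)) := fun Q hQ hle => VN.is_maximal' hQ hle
      refine congrArg Subtype.val (commute_of_sq VN.isPGroup' hVmax'
        (fun a ha b hb => Subtype.ext (h.comm S _ (hVS ha) _ (hVS hb))) hg ?_ ⟨v, hVN hv⟩ hv :)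
      -- the square fixes `V` pointwise
      have hsq : ∀ w ∈ V, (g : G) * g * w = w * (g * g) := by
        intro w hw
        have hgw := hnV w hw
        -- `V = {1, u, w, u w}`
        by_cases hw1 : w = 1
        · simp [hw1]
        by_cases hwu : w = u
        · rw [hwu, mul_assoc, hgu, ← mul_assoc, hgu, mul_assoc]
        have hVlist : ∀ y ∈ V, y = 1 ∨ y = u ∨ y = w ∨ y = u * w := by
          intro y hy
          by_contra hcon
          push Not at hcon
          obtain ⟨c1, c2, c3, c4⟩ := hcon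
          have huw1 : u * w ≠ 1 := fun e => hwu (by
            rw [eq_inv_of_mul_eq_one_right e, inv_eq_of_mul_eq_one_right (h2 u (hVS huV))])
          have hfin : ({1, u, w, u * w, y} : Finset G).card = 5 := by
            rw [Finset.card_insert_of_notMem, Finset.card_insert_of_notMem,
              Finset.card_insert_of_notMem, Finset.card_insert_of_notMem, Finset.card_singleton] <;>
              simp [hu1.symm, Ne.symm hw1, huw1.symm, Ne.symm c1, Ne.symm c2, Ne.symm c3, Ne.symm c4,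
                Ne.symm hwu, hw1, hu1]
          have hle : ({1, u, w, u * w, y} : Finset G).card ≤ Nat.card V := by
            haveI := Fintype.ofFinite ↥V
            rw [Nat.card_eq_fintype_card, ← Finset.card_univ,
              ← Finset.card_map ⟨((↑) : ↥V → G), Subtype.val_injective⟩]
            refine Finset.card_le_card fun z hz => ?_
            simp only [Finset.mem_insert, Finset.mem_singleton] at hz
            rw [Finset.mem_map]
            rcases hz with rfl | rfl | rfl | rfl | rfl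
            · exact ⟨1, Finset.mem_univ _, rfl⟩
            · exact ⟨⟨_, huV⟩, Finset.mem_univ _, rfl⟩
            · exact ⟨⟨_, hw⟩, Finset.mem_univ _, rfl⟩
            · exact ⟨⟨_, mul_mem huV hw⟩, Finset.mem_univ _, rfl⟩
            · exact ⟨⟨_, hy⟩, Finset.mem_univ _, rfl⟩
          omega
        have hconju : (g : G) * u * (g : G)⁻¹ = u := by rw [hgu, mul_inv_cancel_right]
        rcases hVlist _ hgw with e | e | e | e
        · exact absurd (conj_eq_one_iff.1 e) hw1
        · exact absurd (mul_left_cancel (mul_right_cancel (e.trans hconju.symm))) hwu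
        · have e' := mul_inv_eq_iff_eq_mul.1 e
          rw [mul_assoc, e', ← mul_assoc, e', mul_assoc]
        · have e' : (g : G) * w = u * w * g := mul_inv_eq_iff_eq_mul.1 e
          calc (g : G) * g * w = g * (u * w * g) := by rw [mul_assoc, e']
            _ = ((g : G) * u) * (w * g) := by group
            _ = u * (g * w) * g := by rw [hgu]; group
            _ = (u * u) * w * (g * g) := by rw [e']; group
            _ = w * (g * g) := by rw [h2 u (hVS huV), one_mul]
      exact fun a ha => Subtype.ext (hsq a ha)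
  · by_contra hcon
    push Not at hcon
    haveI := h.simple
    have hVidx : (V.subgroupOf (S : Subgroup G)).index = 2 := by
      have h1 := (V.subgroupOf (S : Subgroup G)).card_mul_index
      rw [Nat.card_congr (subgroupOfEquivOfLe hVS).toEquiv, hV4, h8] at h1
      omega
    let χ : ↥(S : Subgroup G) →* Multiplicative (ZMod 2) := MonoidHom.mk'
      (fun x => if x ∈ V.subgroupOf (S : Subgroup G) then 1 else Multiplicative.ofAdd 1) (fun a b => by
        have hiff := Subgroup.mul_mem_iff_of_index_two hVidx (a := a) (b := b)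
        by_cases ha : a ∈ V.subgroupOf (S : Subgroup G) <;>
          by_cases hb : b ∈ V.subgroupOf (S : Subgroup G) <;> simp [ha, hb, hiff, ofAdd_facts.1])
    obtain ⟨H, hH⟩ := LocalEven.exists_index_two_of_central S χ hS h.tt
      (fun s hs => h.comm S s hs t hS) (fun g hg hm => by
        have e : g⁻¹ * t * g = t := by
          rw [mul_assoc, h.t_comm (hcon g hg), inv_mul_cancel_left]
        have htV' : (⟨g⁻¹ * t * g, hm⟩ : ↥(S : Subgroup G)) ∉ V.subgroupOf (S : Subgroup G) := by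
          rw [mem_subgroupOf]; show g⁻¹ * t * g ∉ V; rwa [e]
        show (if _ then _ else _) ≠ _
        rw [if_neg htV']
        exact ofAdd_facts.2)
    rcases IsSimpleGroup.eq_bot_or_eq_top_of_normal H (normal_of_index_eq_two hH) with e | e
    · refine h.nab ⟨⟨fun a b => ?_⟩⟩
      rw [e, Subgroup.index_bot] at hH
      haveI : Fact (Nat.Prime 2) := ⟨Nat.prime_two⟩
      haveI := isCyclic_of_prime_card hH
      obtain ⟨x, hx⟩ := IsCyclic.exists_generator (α := G)
      obtain ⟨i, rfl⟩ := hx a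
      obtain ⟨j, rfl⟩ := hx b
      show x ^ i * x ^ j = x ^ j * x ^ i
      rw [← zpow_add, ← zpow_add, add_comm]
    · rw [e, Subgroup.index_top] at hH; omega

/-- No proper nontrivial subgroup of `S` is invariant under `N(S)`. -/
theorem Hyp.no_invariant {S : Sylow 2 G} (hS : t ∈ (S : Subgroup G)) (R : Subgroup G)
    (hR : R ≤ (S : Subgroup G))
    (hinv : ∀ n ∈ normalizer ((S : Subgroup G) : Set G), ∀ x ∈ R, n * x * n⁻¹ ∈ R) :
    R = ⊥ ∨ R = (S : Subgroup G) := by
  classical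
  haveI : Fact (Nat.Prime 2) := ⟨Nat.prime_two⟩
  obtain ⟨⟨g, hgN, hgS, hgfix⟩, n, hn, hnC⟩ := h.normalizer_facts hS
  obtain ⟨h8, h2, V, hVN, hVS, hV4, htV, hdec, hVmax⟩ := h.sylow_structure hS
  by_contra hcon
  push Not at hcon
  obtain ⟨hR1, hR2⟩ := hcon
  -- orbit of `t` has odd length, the others are moved
  set M := normalizer ((S : Subgroup G) : Set G) with hM
  have hSV : ∀ x ∈ R, x ∈ V → x ≠ 1 → V ≤ R := by
    intro x hxR hxV hx1 v hv
    have hy : g * x * g⁻¹ ∈ R := hinv g hgS x hxR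
    have hne : g * x * g⁻¹ ≠ x := fun e => by
      rcases h.zpow_cases (hgfix x (hVS hxV) (mul_inv_eq_iff_eq_mul.1 e)) with rfl | rfl
      · exact hx1 rfl
      · exact htV hxV
    have hyV : g * x * g⁻¹ ∈ V := by
      have hyS : g * x * g⁻¹ ∈ (S : Subgroup G) := hR hy
      refine (hdec _ hyS).resolve_right fun e => htV ?_
      have hyN := h.normal_N0 (h.le_cent hgN) (hVN hxV)
      have htN : t ∈ N0 N := by
        have := mul_mem (hVN e) (inv_mem hyN)
        rwa [mul_inv_cancel_right] at this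
      have h1 : zpowers t ⊔ V ≤ N0 N := sup_le (zpowers_le.2 htN) hVN
      have h3 : zpowers t ⊔ V ≤ (S : Subgroup G) := sup_le (zpowers_le.2 hS) hVS
      rw [← hVmax _ (S.isPGroup'.to_le h3) h1 le_sup_right]
      exact mem_sup_left (mem_zpowers t)
    have hcard : 4 ≤ Nat.card ↥(V ⊓ R) := by
      have hsub : ({1, x, g * x * g⁻¹, x * (g * x * g⁻¹)} : Finset G) ⊆
          ((↑(V ⊓ R) : Set G).toFinite.toFinset) := by
        intro z hz
        simp only [Finset.mem_insert, Finset.mem_singleton] at hz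
        rw [Set.Finite.mem_toFinset, SetLike.mem_coe]
        rcases hz with rfl | rfl | rfl | rfl
        exacts [one_mem _, ⟨hxV, hxR⟩, ⟨hyV, hy⟩, mul_mem (show x ∈ V ⊓ R from ⟨hxV, hxR⟩) ⟨hyV, hy⟩]
      refine le_trans (le_of_eq ?_) ((Finset.card_le_card hsub).trans (le_of_eq ?_))
      · have hy1 : g * x * g⁻¹ ≠ 1 := fun e => hx1 (conj_eq_one_iff.1 e)
        have hxy : x * (g * x * g⁻¹) ≠ 1 := fun e => hne (by
          rw [eq_inv_of_mul_eq_one_right e, inv_eq_of_mul_eq_one_right (h2 x (hVS hxV))])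
        rw [Finset.card_insert_of_notMem, Finset.card_insert_of_notMem,
          Finset.card_insert_of_notMem, Finset.card_singleton] <;>
          simp [hx1.symm, hy1.symm, hxy.symm, hne.symm, hx1, hy1]
      · rw [← Set.ncard_eq_toFinset_card _, ← Nat.card_coe_set_eq]
        rfl
    have : V ⊓ R = V := eq_of_le_of_card_ge inf_le_left (by rw [hV4]; exact hcard)
    exact (this.ge hv).2
  by_cases hall : ∀ x ∈ R, x ∈ zpowers t
  · obtain ⟨x, hx, hx1⟩ := R.bot_or_exists_ne_one.resolve_left hR1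
    obtain rfl : x = t := (h.zpow_cases (hall x hx)).resolve_left hx1
    refine hnC (mem_centralizer_singleton_iff.2 (mul_inv_eq_iff_eq_mul.1 ?_))
    exact (h.zpow_cases (hall _ (hinv n hn x hx))).resolve_left fun e => hx1 (conj_eq_one_iff.1 e)
  push Not at hall
  obtain ⟨x, hxR, hxt⟩ := hall
  have hVR : V ≤ R := by
    rcases hdec x (hR hxR) with hx' | hx'
    · exact hSV x hxR hx' fun e => hxt (e ▸ one_mem _)
    · -- `x = t v`: then `x (g x g⁻¹)` is in `V`
      have hgx : g * x * g⁻¹ ∈ R := hinv g hgS x hxR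
      have hgt : g * t = t * g := (h.t_comm (h.le_cent hgN)).symm
      have hx2 := h2 x (hR hxR)
      have e1 : x * (g * x * g⁻¹) = (t * x) * (g * (t * x) * g⁻¹) := by
        have : g * (t * x) * g⁻¹ = t * (g * x * g⁻¹) := by rw [← mul_assoc, hgt]; group
        rw [this, ← mul_assoc (t * x) t, mul_assoc t x t, h.comm S x (hR hxR) t hS, ← mul_assoc t t x,
          h.tt, one_mul]
      have hgV : g * (t * x) * g⁻¹ ∈ V := by
        refine (hdec _ ((mem_normalizer_iff.1 hgS _).1 (hVS hx'))).resolve_right fun e => htV ?_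
        have hyN := h.normal_N0 (h.le_cent hgN) (hVN hx')
        have htN : t ∈ N0 N := by
          have := mul_mem (hVN e) (inv_mem hyN)
          rwa [mul_inv_cancel_right] at this
        have h1 : zpowers t ⊔ V ≤ N0 N := sup_le (zpowers_le.2 htN) hVN
        have h3 : zpowers t ⊔ V ≤ (S : Subgroup G) := sup_le (zpowers_le.2 hS) hVS
        rw [← hVmax _ (S.isPGroup'.to_le h3) h1 le_sup_right]
        exact mem_sup_left (mem_zpowers t)
      refine hSV (x * (g * x * g⁻¹)) (mul_mem hxR hgx) (e1 ▸ mul_mem hx' hgV) fun e => hxt ?_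
      have h4 : g * x * g⁻¹ = x := by
        rw [eq_inv_of_mul_eq_one_right e, inv_eq_of_mul_eq_one_right hx2]
      exact hgfix x (hR hxR) (mul_inv_eq_iff_eq_mul.1 h4)
  have htR : t ∉ R := by
    intro htR
    refine hR2 (le_antisymm hR fun s hs => ?_)
    rcases hdec s hs with hs' | hs'
    · exact hVR hs'
    · have := mul_mem htR (hVR hs')
      rwa [← mul_assoc, h.tt, one_mul] at this
  have hRV : R = V := by
    refine le_antisymm (fun r hr => (hdec r (hR hr)).resolve_right fun e => htR ?_) hVR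
    have := mul_mem (hVR e) (inv_mem hr)
    simpa using this
  -- the orbit of `t` is inside `S \ V`, of odd length at most four; it is `{t}`
  have hSM : (S : Subgroup G) ≤ M := le_normalizer
  have hcC : (S : Subgroup G) ≤ M ⊓ centralizer ({t} : Set G) := le_inf hSM (h.sylow_le hS)
  set k := (M ⊓ centralizer ({t} : Set G)).relIndex M with hk
  have hodd : ¬ 2 ∣ k := fun hd => S.not_dvd_index
    (dvd_trans (hd.trans (relIndex_dvd_of_le_left _ hcC)) (relIndex_dvd_index_of_le hSM))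
  let f : ↥M ⧸ (M ⊓ centralizer ({t} : Set G)).subgroupOf M → {s : ↥(S : Subgroup G) // (s : G) ∉ V} :=
    fun q => ⟨⟨q.out * t * (q.out : G)⁻¹, (mem_normalizer_iff.1 q.out.2 t).1 hS⟩, fun hv => htR (by
      have := hinv (q.out : G)⁻¹ (inv_mem q.out.2) _ (hRV ▸ hv)
      simpa [mul_assoc] using this)⟩
  have hf : Function.Injective f := by
    intro a b e
    have e' : (a.out : G) * t * (a.out : G)⁻¹ = b.out * t * (b.out : G)⁻¹ :=
      congrArg (fun z : {s : ↥(S : Subgroup G) // (s : G) ∉ V} => ((z.1 : ↥(S : Subgroup G)) : G)) e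
    have h5 : (b.out : G)⁻¹ * a.out ∈ centralizer ({t} : Set G) := by
      refine mem_centralizer_singleton_iff.2 ?_
      have := congrArg (fun z => (b.out : G)⁻¹ * z * a.out) e'
      simpa [mul_assoc] using this
    rw [← QuotientGroup.out_eq' a, ← QuotientGroup.out_eq' b]
    exact ((QuotientGroup.eq (a := b.out) (b := a.out)).2 (mem_subgroupOf.2
      (Subgroup.mem_inf.2 ⟨mul_mem (inv_mem b.out.2) a.out.2, h5⟩))).symm
  have h4 : Nat.card {s : ↥(S : Subgroup G) // (s : G) ∉ V} = 4 := by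
    haveI := Fintype.ofFinite ↥(S : Subgroup G)
    haveI := Fintype.ofFinite ↥V
    rw [Nat.card_eq_fintype_card, Fintype.card_subtype_compl, ← Nat.card_eq_fintype_card, h8,
      ← Nat.card_eq_fintype_card,
      show Nat.card {s : ↥(S : Subgroup G) // (s : G) ∈ V} = Nat.card ↥(V.subgroupOf (S : Subgroup G)) from rfl,
      Nat.card_congr (subgroupOfEquivOfLe hVS).toEquiv, hV4]
  have hk' : Nat.card (↥M ⧸ (M ⊓ centralizer ({t} : Set G)).subgroupOf M) = k := rfl
  have hle : k ≤ 4 := by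
    rw [← hk', ← h4]; exact Nat.card_le_card_of_injective f hf
  have hk1 : k ≠ 1 := fun e => hnC ((relIndex_eq_one.1 e) hn).2
  have hk3 : k ≠ 3 := by
    intro e
    -- then the missed element would be fixed by `M`
    have hsurjcard : Nat.card (↥M ⧸ (M ⊓ centralizer ({t} : Set G)).subgroupOf M) = 3 := hk'.trans e
    have hgorb : ∀ s : {s : ↥(S : Subgroup G) // (s : G) ∉ V}, s ∉ Set.range f →
        (g * (s.1 : G) * g⁻¹) = s.1 := by
      intro s hs
      by_contra hgs
      have hgS' : g * (s.1 : G) * g⁻¹ ∈ (S : Subgroup G) := (mem_normalizer_iff.1 hgS _).1 s.1.2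
      have hnV : g * (s.1 : G) * g⁻¹ ∉ V := fun hv => s.2 (by
        have := hinv g⁻¹ (inv_mem hgS) _ (hRV.ge hv)
        exact hRV.le (by simpa [mul_assoc] using this))
      have hmem : (⟨⟨_, hgS'⟩, hnV⟩ : {s : ↥(S : Subgroup G) // (s : G) ∉ V}) ∈ Set.range f := by
        by_contra hnot
        have h5 : ({s, ⟨⟨_, hgS'⟩, hnV⟩} : Set _).ncard + (Set.range f).ncard ≤ 4 := by
          rw [← Set.ncard_union_eq (by
            rw [Set.disjoint_left]
            rintro a (rfl | rfl) <;> assumption), ← h4, ← Set.ncard_univ]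
          exact Set.ncard_le_ncard (Set.subset_univ _)
        rw [Set.ncard_pair (fun e' => hgs (congrArg (fun z : {s : ↥(S : Subgroup G) // (s : G) ∉ V} =>
          ((z.1 : ↥(S : Subgroup G)) : G)) e').symm), Set.ncard_range_of_injective hf, hsurjcard] at h5
        omega
      obtain ⟨q, hq⟩ := hmem
      have hq' : (q.out : G) * t * (q.out : G)⁻¹ = g * (s.1 : G) * g⁻¹ :=
        congrArg (fun z : {s : ↥(S : Subgroup G) // (s : G) ∉ V} => ((z.1 : ↥(S : Subgroup G)) : G)) hq
      let m : ↥M := ⟨g⁻¹ * q.out, mul_mem (inv_mem hgS) q.out.2⟩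
      refine hs ⟨(m : ↥M ⧸ _), Subtype.ext (Subtype.ext ?_)⟩
      obtain ⟨z, hz⟩ := QuotientGroup.mk_out_eq_mul ((M ⊓ centralizer ({t} : Set G)).subgroupOf M) m
      show ((Quotient.out (m : ↥M ⧸ (M ⊓ centralizer ({t} : Set G)).subgroupOf M) : ↥M) : G) * t *
        ((Quotient.out (m : ↥M ⧸ (M ⊓ centralizer ({t} : Set G)).subgroupOf M) : ↥M) : G)⁻¹ = s.1
      rw [hz, Subgroup.coe_mul]
      have hzt : ((z : ↥M) : G) * t * ((z : ↥M) : G)⁻¹ = t :=
        mul_inv_eq_iff_eq_mul.2 (mem_centralizer_singleton_iff.1 (mem_subgroupOf.1 z.2).2)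
      calc (m : G) * (z : ↥M) * t * ((m : G) * (z : ↥M))⁻¹
          = (m : G) * (((z : ↥M) : G) * t * ((z : ↥M) : G)⁻¹) * (m : G)⁻¹ := by group
        _ = g⁻¹ * ((q.out : G) * t * (q.out : G)⁻¹) * g := by rw [hzt]; show g⁻¹ * q.out * t * (g⁻¹ * q.out)⁻¹ = _; group
        _ = s.1 := by rw [hq']; group
    obtain ⟨s, hs⟩ : ∃ s, s ∉ Set.range f := by
      by_contra hcon'
      push Not at hcon'
      have h5 := Nat.card_le_card_of_surjective f hcon'
      omega
    have hst : (s.1 : G) = t := by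
      rcases h.zpow_cases (hgfix _ s.1.2 (mul_inv_eq_iff_eq_mul.1 (hgorb s hs))) with e' | e'
      · exact absurd (e' ▸ one_mem V) s.2
      · exact e'
    refine hs ⟨((1 : ↥M) : ↥M ⧸ _), Subtype.ext (Subtype.ext ?_)⟩
    obtain ⟨z, hz⟩ := QuotientGroup.mk_out_eq_mul ((M ⊓ centralizer ({t} : Set G)).subgroupOf M) 1
    show ((Quotient.out ((1 : ↥M) : ↥M ⧸ (M ⊓ centralizer ({t} : Set G)).subgroupOf M) : ↥M) : G) * t *
      ((Quotient.out ((1 : ↥M) : ↥M ⧸ (M ⊓ centralizer ({t} : Set G)).subgroupOf M) : ↥M) : G)⁻¹ = s.1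
    rw [hz, hst, one_mul]
    exact mul_inv_eq_iff_eq_mul.2 (mem_centralizer_singleton_iff.1 (mem_subgroupOf.1 z.2).2)
  have hk0 : 0 < k := by rw [← hk']; exact Nat.card_pos
  interval_cases k
  · omega
  · exact hodd (dvd_refl 2)
  · omega
  · exact hodd (by norm_num)

/-- No nontrivial central extension by a 2-group. -/
theorem Hyp.cover {L : Type*} [Group L] [Finite L] (Z : Subgroup L) [Z.Normal]
    (hperf : commutator L = ⊤) (hZc : Z ≤ Subgroup.center L) (hZp : IsPGroup 2 Z)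
    (e : L ⧸ Z ≃* G) : Z = ⊥ := by
  classical
  haveI : Fact (Nat.Prime 2) := ⟨Nat.prime_two⟩
  by_contra hZ
  obtain ⟨S, hS⟩ := h.exists_sylow_t
  obtain ⟨h8, h2, -⟩ := h.sylow_structure hS
  let f : L →* G := e.toMonoidHom.comp (QuotientGroup.mk' Z)
  have hf : Function.Surjective f := e.surjective.comp (QuotientGroup.mk'_surjective Z)
  have hker : f.ker = Z := by
    ext x
    simp [f, MonoidHom.mem_ker]
  set T := (S : Subgroup G).comap f with hT
  have hZT : Z ≤ T := fun z hz => by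
    rw [hT, mem_comap, MonoidHom.mem_ker.1 (hker.symm ▸ hz : z ∈ f.ker)]; exact one_mem _
  obtain ⟨n, hn⟩ := IsPGroup.iff_card.1 hZp
  have hTidx : T.index = (S : Subgroup G).index := index_comap_of_surjective _ hf
  have hTcomm : ∀ z ∈ Z, z ∈ (commutator ↥T).map T.subtype := by
    intro z hz
    refine CentralExt.mem_commutator_of_coprime T (hZc hz) (hperf ▸ mem_top z) (hZT hz) (n := 2 ^ n)
      (by rw [← hn]; exact congrArg Subtype.val (pow_card_eq_one' (x := (⟨z, hz⟩ : Z)))) ?_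
    rw [hTidx]
    exact Nat.Coprime.pow_right n (((Nat.Prime.coprime_iff_not_dvd Nat.prime_two).2 S.not_dvd_index).symm)
  have hcen : ∀ z ∈ Z, ∀ x : L, x * z = z * x := fun z hz x => mem_center_iff.1 (hZc hz) x
  obtain ⟨Z0', hZ0⟩ : ∃ K : Subgroup ↥Z, Nat.card K = 2 ^ (n - 1) :=
    Sylow.exists_subgroup_card_pow_prime 2 (hn ▸ Nat.pow_dvd_pow 2 (Nat.sub_le n 1))
  have hn0 : n ≠ 0 := fun e0 => hZ (eq_bot_of_card_le Z (by rw [hn, e0, pow_zero]))
  have hidx : Z0'.index = 2 := by
    have h1 := Z0'.card_mul_index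
    rw [hZ0, hn, show 2 ^ n = 2 ^ (n - 1) * 2 by rw [← pow_succ, Nat.sub_add_cancel (by omega)]] at h1
    exact Nat.eq_of_mul_eq_mul_left (by positivity) h1
  set Z0 := Z0'.map Z.subtype with hZ0def
  have hprod : ∀ a ∈ Z, ∀ b ∈ Z, a ∉ Z0 → b ∉ Z0 → a * b ∈ Z0 := by
    intro a ha b hb ha0 hb0
    refine ⟨⟨a, ha⟩ * ⟨b, hb⟩, (mul_mem_iff_of_index_two hidx).2 (iff_of_false ?_ ?_), rfl⟩
    · exact fun h' => ha0 ⟨_, h', rfl⟩
    · exact fun h' => hb0 ⟨_, h', rfl⟩
  have hcZ : ∀ a ∈ T, ∀ b ∈ T, ⁅a, b⁆ ∈ Z := by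
    intro a ha b hb
    rw [← hker, MonoidHom.mem_ker, map_commutatorElement, commutatorElement_eq_one_iff_mul_comm]
    exact h.comm S _ ha _ hb
  have hmulr : ∀ a ∈ T, ∀ b ∈ T, ∀ c ∈ T, ⁅a, b * c⁆ = ⁅a, b⁆ * ⁅a, c⁆ := by
    intro a ha b hb c hc
    have hz := hcen _ (hcZ a ha c hc) b
    calc ⁅a, b * c⁆ = ⁅a, b⁆ * (b * ⁅a, c⁆ * b⁻¹) := by simp only [commutatorElement_def]; group
      _ = ⁅a, b⁆ * ⁅a, c⁆ := by rw [hz, mul_inv_cancel_right]
  have hsymm : ∀ a ∈ T, ∀ b ∈ T, ⁅a, b⁆ ∈ Z0 → ⁅b, a⁆ ∈ Z0 := fun a _ b _ hab => by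
    rw [← commutatorElement_inv]; exact inv_mem hab
  have hmull : ∀ a ∈ T, ∀ b ∈ T, ∀ c ∈ T, ⁅a * b, c⁆ = ⁅a, c⁆ * ⁅b, c⁆ := by
    intro a ha b hb c hc
    have hz := hcen _ (hcZ b hb c hc) a
    calc ⁅a * b, c⁆ = (a * ⁅b, c⁆ * a⁻¹) * ⁅a, c⁆ := by simp only [commutatorElement_def]; group
      _ = ⁅a, c⁆ * ⁅b, c⁆ := by
        rw [hz, mul_inv_cancel_right]
        exact (hcen _ (hcZ b hb c hc) _).symm
  have hZl : ∀ z ∈ Z, ∀ b : L, ⁅z, b⁆ = 1 := fun z hz b =>
    commutatorElement_eq_one_iff_mul_comm.2 (hcen z hz b).symm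
  -- the radical
  let R : Subgroup G :=
    { carrier := {x | x ∈ (S : Subgroup G) ∧ ∀ a, f a = x → ∀ b ∈ T, ⁅a, b⁆ ∈ Z0}
      one_mem' := ⟨one_mem _, fun a ha b _ => by
        rw [hZl a (hker ▸ MonoidHom.mem_ker.2 ha) b]; exact one_mem _⟩
      mul_mem' := fun {x y} hx hy => ⟨mul_mem hx.1 hy.1, fun a ha b hb => by
        obtain ⟨p, rfl⟩ := hf x
        have hp : p ∈ T := hx.1
        have hq : p⁻¹ * a ∈ T := by
          show f (p⁻¹ * a) ∈ (S : Subgroup G)
          rw [map_mul, map_inv, ha, inv_mul_cancel_left]; exact hy.1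
        have := mul_mem (hx.2 p rfl b hb) (hy.2 (p⁻¹ * a) (by
          rw [map_mul, map_inv, ha, inv_mul_cancel_left]) b hb)
        rwa [← hmull p hp _ hq b hb, mul_inv_cancel_left] at this⟩
      inv_mem' := fun {x} hx => ⟨inv_mem hx.1, fun a ha b hb => by
        have haT : a ∈ T := by show f a ∈ (S : Subgroup G); rw [ha]; exact inv_mem hx.1
        have h1 := hx.2 a⁻¹ (by rw [map_inv, ha, inv_inv]) b hb
        have h3 : ⁅a * a⁻¹, b⁆ = ⁅a, b⁆ * ⁅a⁻¹, b⁆ := hmull a haT a⁻¹ (inv_mem haT) b hb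
        rw [mul_inv_cancel, commutatorElement_one_left, eq_comm, ← eq_inv_iff_mul_eq_one] at h3
        rw [h3]; exact inv_mem h1⟩ }
  have hmem : ∀ a ∈ T, (∀ b ∈ T, ⁅a, b⁆ ∈ Z0) → f a ∈ R := fun a ha hab =>
    ⟨ha, fun a' ha' b hb => by
      have haz : a⁻¹ * a' ∈ Z := by
        rw [← hker, MonoidHom.mem_ker, map_mul, map_inv, ha', inv_mul_cancel]
      have := hmull a ha (a⁻¹ * a') (hZT haz) b hb
      rw [mul_inv_cancel_left, hZl _ haz, mul_one] at this
      rw [this]; exact hab b hb⟩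
  rcases h.no_invariant hS R (fun x hx => hx.1) (fun m hm x hx => by
      refine ⟨(mem_normalizer_iff.1 hm x).1 hx.1, fun a ha b hb => ?_⟩
      obtain ⟨l, rfl⟩ := hf m
      have h1 : l⁻¹ * b * l ∈ T := by
        show f (l⁻¹ * b * l) ∈ (S : Subgroup G)
        rw [map_mul, map_mul, map_inv]
        exact (mem_normalizer_iff''.1 hm _).1 hb
      have h3 := hx.2 (l⁻¹ * a * l) (by simp [map_mul, ha, mul_assoc]) _ h1
      have hzc : ⁅l⁻¹ * a * l, l⁻¹ * b * l⁆ ∈ Z := by
        refine hcZ _ ?_ _ h1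
        show f _ ∈ (S : Subgroup G)
        simp only [map_mul, ha, map_inv]
        simpa [mul_assoc] using hx.1
      have : ⁅a, b⁆ = l * ⁅l⁻¹ * a * l, l⁻¹ * b * l⁆ * l⁻¹ := by
        simp only [commutatorElement_def]; group
      rw [this, hcen _ hzc l, mul_inv_cancel_right]; exact h3) with hR | hR
  · -- a nontrivial element of the radical
    obtain ⟨a, ha⟩ := hf t
    have haT : a ∈ T := by show f a ∈ (S : Subgroup G); rw [ha]; exact hS
    by_cases hall : ∀ b ∈ T, ⁅a, b⁆ ∈ Z0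
    · have := hmem a haT hall
      rw [hR, Subgroup.mem_bot, ha] at this
      have h' := h.ht; rw [this, orderOf_one] at h'; omega
    push Not at hall
    obtain ⟨b0, hb0, hb0'⟩ := hall
    let K : Subgroup ↥T :=
      { carrier := {b | ⁅a, (b : L)⁆ ∈ Z0}
        one_mem' := by simp
        mul_mem' := fun {b c} hb hc => by
          show ⁅a, (b : L) * c⁆ ∈ Z0
          rw [hmulr a haT b b.2 c c.2]; exact mul_mem hb hc
        inv_mem' := fun {b} hb => by
          show ⁅a, ((b : L))⁻¹⁆ ∈ Z0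
          have h3 := hmulr a haT b b.2 _ (inv_mem b.2)
          rw [mul_inv_cancel, commutatorElement_one_right, eq_comm, ← eq_inv_iff_mul_eq_one] at h3
          have hb' : ⁅a, (b : L)⁆ ∈ Z0 := hb
          rw [h3] at hb'
          exact inv_mem_iff.1 hb' }
    have hK2 : ∀ b c : ↥T, b ∉ K → c ∉ K → b * c ∈ K := fun b c hb hc => by
      show ⁅a, (b : L) * c⁆ ∈ Z0
      rw [hmulr a haT b b.2 c c.2]
      exact hprod _ (hcZ a haT b b.2) _ (hcZ a haT c c.2) hb hc
    have hKi : K.index = 2 := Subgroup.index_eq_two_iff.2 ⟨⟨b0, hb0⟩, fun b => by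
      by_cases hb : b ∈ K
      · exact Or.inr ⟨hb, fun hb2 => hb0' ((Subgroup.mul_mem_cancel_left _ hb).1 hb2)⟩
      · exact Or.inl ⟨hK2 b _ hb hb0', hb⟩⟩
    let φ : ↥T →* G := f.comp T.subtype
    have hKge : φ.ker ≤ K := fun z hz => by
      show ⁅a, (z : L)⁆ ∈ Z0
      rw [← commutatorElement_inv, hZl _ (hker ▸ (hz : (z : L) ∈ f.ker)), inv_one]
      exact one_mem _
    have himg : Nat.card (K.map φ) = 4 := by
      have h1 : (K.map φ).relIndex φ.range = 2 := by
        rw [MonoidHom.range_eq_map, relIndex_map_map, sup_eq_left.2 hKge, top_sup_eq, relIndex_top_right, hKi]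
      have hr : φ.range = (S : Subgroup G) := by
        rw [MonoidHom.range_comp, range_subtype, hT, map_comap_eq_self_of_surjective hf]
      rw [hr] at h1
      have hle : K.map φ ≤ (S : Subgroup G) := hr ▸ map_le_range φ K
      have h5 := relIndex_mul_relIndex ⊥ (K.map φ) (S : Subgroup G) bot_le hle
      rw [relIndex_bot_left, relIndex_bot_left, h1, h8] at h5
      omega
    obtain ⟨c, hcK, hct⟩ : ∃ c : ↥T, c ∈ K ∧ f c ∉ zpowers t := by
      by_contra hcon
      push Not at hcon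
      have := card_le_of_le (show K.map φ ≤ zpowers t by rintro _ ⟨c, hc, rfl⟩; exact hcon c hc)
      rw [himg, Nat.card_zpowers, h.ht] at this
      omega
    have haK : (⟨a, haT⟩ : ↥T) ∈ K := by
      show ⁅a, a⁆ ∈ Z0; rw [commutatorElement_self]; exact one_mem _
    have hlist : ∀ b ∈ K, ⁅(c : L), (b : L)⁆ ∈ Z0 := by
      intro b hb
      have hfb : φ b ∈ K.map φ := ⟨b, hb, rfl⟩
      have hmem4 : φ b ∈ ({1, t, f c, t * f c} : Set G) := by
        have hsub : ({1, t, f c, t * f c} : Finset G) ⊆ ((K.map φ : Set G).toFinite.toFinset) := by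
          intro z hz
          simp only [Finset.mem_insert, Finset.mem_singleton] at hz
          rw [Set.Finite.mem_toFinset, SetLike.mem_coe]
          have htK : t ∈ K.map φ := ⟨_, haK, ha⟩
          rcases hz with rfl | rfl | rfl | rfl
          exacts [one_mem _, htK, ⟨c, hcK, rfl⟩, mul_mem htK ⟨c, hcK, rfl⟩]
        have hc1 : f c ≠ 1 := fun e1 => hct (e1 ▸ one_mem _)
        have hct' : f c ≠ t := fun e1 => hct (e1 ▸ mem_zpowers t)
        have htc1 : t * f c ≠ 1 := fun e1 => hct (eq_inv_of_mul_eq_one_right e1 ▸ inv_mem (mem_zpowers t))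
        have ht1 : t ≠ 1 := fun e1 => by have h' := h.ht; rw [e1, orderOf_one] at h'; omega
        have hc4 : ({1, t, f c, t * f c} : Finset G).card = 4 := by
          rw [Finset.card_insert_of_notMem, Finset.card_insert_of_notMem,
            Finset.card_insert_of_notMem, Finset.card_singleton] <;>
            simp [ht1, ht1.symm, hc1, hc1.symm, hct'.symm, htc1.symm]
        have heq := Finset.eq_of_subset_of_card_le hsub (by
          rw [hc4, ← Set.ncard_eq_toFinset_card _, ← Nat.card_coe_set_eq]; exact le_of_eq himg)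
        have : φ b ∈ ((K.map φ : Set G).toFinite.toFinset) := (Set.Finite.mem_toFinset _).2 hfb
        rw [← heq] at this
        simpa using this
      -- adjust by an element of `Z`
      have key : ∀ p ∈ T, ⁅(c : L), p⁆ ∈ Z0 → f p = φ b → ⁅(c : L), (b : L)⁆ ∈ Z0 := by
        intro p hp hcp hpb
        have hz : p⁻¹ * (b : L) ∈ Z := by
          rw [← hker, MonoidHom.mem_ker, map_mul, map_inv, hpb]; exact inv_mul_cancel _
        have := hmulr c c.2 p hp _ (hZT hz)
        rw [mul_inv_cancel_left, ← commutatorElement_inv (p⁻¹ * (b : L)), hZl _ hz, inv_one, mul_one] at this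
        rw [this]; exact hcp
      have hca : ⁅(c : L), a⁆ ∈ Z0 := hsymm a haT c c.2 hcK
      rcases hmem4 with e1 | e1 | e1 | e1
      · exact key 1 (one_mem T) (by simp) (by rw [map_one, e1])
      · exact key a haT hca (by rw [ha, e1])
      · exact key c c.2 (by simp) e1.symm
      · refine key (a * c) (mul_mem haT c.2) ?_ (by rw [map_mul, ha]; exact e1.symm)
        rw [hmulr c c.2 a haT c c.2, commutatorElement_self, mul_one]; exact hca
    by_cases hcall : ∀ b ∈ T, ⁅(c : L), b⁆ ∈ Z0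
    · have := hmem c c.2 hcall
      rw [hR, Subgroup.mem_bot] at this
      exact hct (this ▸ one_mem _)
    push Not at hcall
    obtain ⟨b1, hb1, hb1'⟩ := hcall
    have hall2 : ∀ b ∈ T, ⁅a * c, b⁆ ∈ Z0 := by
      intro b hb
      rw [hmull a haT c c.2 b hb]
      by_cases hbK : (⟨b, hb⟩ : ↥T) ∈ K
      · exact mul_mem hbK (hlist _ hbK)
      · refine hprod _ (hcZ a haT b hb) _ (hcZ c c.2 b hb) hbK fun hcb => hb1' ?_
        by_cases hb1K : (⟨b1, hb1⟩ : ↥T) ∈ K
        · exact hlist _ hb1K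
        · have h1 := hlist _ (hK2 _ _ hb1K hbK)
          rw [show ((⟨b1, hb1⟩ * ⟨b, hb⟩ : ↥T) : L) = b1 * b from rfl, hmulr c c.2 b1 hb1 b hb] at h1
          exact (Subgroup.mul_mem_cancel_right _ hcb).1 h1
    have := hmem _ (mul_mem haT c.2) hall2
    rw [hR, Subgroup.mem_bot, map_mul, ha] at this
    exact hct (eq_inv_of_mul_eq_one_right this ▸ inv_mem (mem_zpowers t))
  · -- all commutators fall into `Z0`
    have hle : (commutator ↥T).map T.subtype ≤ Z0 := by
      rw [map_le_iff_le_comap, _root_.commutator_def, commutator_le]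
      intro a _ b _
      exact ((hR.ge a.2 : f a ∈ R)).2 a rfl b b.2
    obtain ⟨z, hz⟩ : ∃ z : ↥Z, z ∉ Z0' := by
      by_contra hcon
      push Not at hcon
      rw [(eq_top_iff' Z0').2 hcon, index_top] at hidx
      omega
    obtain ⟨z', hz', hzz⟩ := hle (hTcomm z z.2)
    exact hz (Subtype.ext hzz ▸ hz')

/-- A 2-automorphism fixing a Sylow 2-subgroup containing `t` is inner. -/
theorem Hyp.inner {S : Sylow 2 G} (hS : t ∈ (S : Subgroup G)) (φ : MulAut G) (k : ℕ)
    (hk : φ ^ (2 ^ k) = 1) (hfix : ∀ s ∈ (S : Subgroup G), φ s = s) :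
    ∃ a : G, φ = MulAut.conj a := by
  classical
  haveI : Fact (Nat.Prime 2) := ⟨Nat.prime_two⟩
  haveI := h.simple_N0
  obtain ⟨h8, h2, V, hVN, hVS, hV4, htV, hdec, hVmax⟩ := h.sylow_structure hS
  obtain ⟨⟨g, hgN, hgS, hgfix⟩, n₀, hn₀, hn₀C⟩ := h.normalizer_facts hS
  set C := centralizer ({t} : Set G) with hC
  have hφC : ∀ c, c ∈ C → φ c ∈ C := fun c hc => mem_centralizer_singleton_iff.2 (by
    have := congrArg φ (mem_centralizer_singleton_iff.1 hc)
    rwa [map_mul, map_mul, hfix t hS] at this)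
  -- `φ` stabilises `N0`
  set K := closure {x : G | x ∈ C ∧ x * x = 1} with hK
  have hSN : ∀ x ∈ (S : Subgroup G), ∃ a ∈ zpowers t, ∃ y ∈ N0 N, x = a * y := by
    intro x hx
    rcases hdec x hx with hx' | hx'
    · exact ⟨1, one_mem _, x, hVN hx', (one_mul x).symm⟩
    · exact ⟨t, mem_zpowers t, t * x, hVN hx', by rw [← mul_assoc, h.tt, one_mul]⟩
  let M : Subgroup G :=
    { carrier := {x | ∃ a ∈ zpowers t, ∃ y ∈ N0 N, x = a * y}
      one_mem' := ⟨1, one_mem _, 1, one_mem _, (one_mul 1).symm⟩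
      mul_mem' := by
        rintro _ _ ⟨a, ha, y, hy, rfl⟩ ⟨a', ha', y', hy', rfl⟩
        refine ⟨a * a', mul_mem ha ha', y * y', mul_mem hy hy', ?_⟩
        have hc : y * a' = a' * y := (h.prod.2.2.1 a' ha' y (map_subtype_le N hy)).symm
        calc a * y * (a' * y') = a * (y * a') * y' := by group
          _ = a * a' * (y * y') := by rw [hc]; group
      inv_mem' := by
        rintro _ ⟨a, ha, y, hy, rfl⟩
        refine ⟨a⁻¹, inv_mem ha, y⁻¹, inv_mem hy, ?_⟩
        rw [mul_inv_rev]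
        exact (h.prod.2.2.1 _ (inv_mem ha) _ (map_subtype_le N (inv_mem hy))).symm }
  have hKM : K ≤ M := by
    rw [closure_le]
    rintro x ⟨hxC, hx2⟩
    have hp : IsPGroup 2 (zpowers (⟨x, hxC⟩ : ↥C)) := IsPGroup.of_card_dvd_pow (n := 1) (by
      rw [Nat.card_zpowers]
      exact orderOf_dvd_of_pow_eq_one (Subtype.ext (by rw [pow_one, Subgroup.coe_pow, pow_two]; exact hx2)))
    obtain ⟨P, hP⟩ := hp.exists_le_sylow
    obtain ⟨c, hc⟩ := MulAction.exists_smul_eq ↥C (S.subtype (h.sylow_le hS)) P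
    have hx1 : (⟨x, hxC⟩ : ↥C) ∈ (P : Subgroup ↥C) := hP (mem_zpowers _)
    rw [← hc, Sylow.coe_subgroup_smul] at hx1
    obtain ⟨y, hy, hyx⟩ := hx1
    have e : x = c * y * (c : G)⁻¹ := (congrArg Subtype.val hyx).symm
    obtain ⟨a, ha, z, hz, hyz⟩ := hSN y hy
    refine ⟨a, ha, c * z * (c : G)⁻¹, h.normal_N0 c.2 hz, ?_⟩
    have hca : (c : G) * a = a * c := by
      rcases h.zpow_cases ha with e' | e' <;> rw [e']
      · simp
      · exact (h.t_comm c.2).symm
    rw [e, show (y : G) = a * z from hyz]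
    calc (c : G) * (a * z) * (c : G)⁻¹ = ((c : G) * a) * z * (c : G)⁻¹ := by group
      _ = a * (c * z * (c : G)⁻¹) := by rw [hca]; group
  obtain ⟨v1, hv1, hv1ne⟩ : ∃ v ∈ V, v ≠ (1 : G) := by
    refine V.bot_or_exists_ne_one.resolve_left fun e' => ?_
    rw [e', Subgroup.card_bot] at hV4; omega
  have hNK : N0 N ≤ K := by
    have hKn : (K.subgroupOf (N0 N)).Normal := ⟨fun x hx y => by
      show (y : G) * x * (y : G)⁻¹ ∈ K
      have : ∀ z ∈ K, (y : G) * z * (y : G)⁻¹ ∈ K := fun z hz => by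
        have hmap : K.map (MulAut.conj (y : G)).toMonoidHom ≤ K := by
          rw [hK, MonoidHom.map_closure, closure_le]
          rintro _ ⟨w, ⟨hw, hw2⟩, rfl⟩
          refine subset_closure ⟨mul_mem (mul_mem (h.le_cent y.2) hw) (inv_mem (h.le_cent y.2)), ?_⟩
          show (y : G) * w * (y : G)⁻¹ * ((y : G) * w * (y : G)⁻¹) = 1
          rw [conj_mul, hw2]; simp
        exact hmap ⟨z, hz, rfl⟩
      exact this x hx⟩
    rcases IsSimpleGroup.eq_bot_or_eq_top_of_normal _ hKn with e | e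
    · have : (⟨v1, hVN hv1⟩ : ↥(N0 N)) ∈ K.subgroupOf (N0 N) :=
        subset_closure ⟨h.le_cent (hVN hv1), h2 v1 (hVS hv1)⟩
      rw [e, Subgroup.mem_bot, Subtype.ext_iff] at this
      exact absurd this hv1ne
    · exact subgroupOf_eq_top.1 e
  have hperf : ⁅N0 N, N0 N⁆ = N0 N := by
    have hc : commutator ↥(N0 N) = ⊤ := by
      rcases IsSimpleGroup.eq_bot_or_eq_top_of_normal (commutator ↥(N0 N)) inferInstance with e | e
      · exfalso
        -- then `g` would fix `V`
        have hcom : ∀ a b : ↥(N0 N), a * b = b * a := fun a b => by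
          rw [← commutatorElement_eq_one_iff_mul_comm, ← Subgroup.mem_bot, ← e]
          exact commutator_mem_commutator (mem_top a) (mem_top b)
        rcases h.zpow_cases (hgfix v1 (hVS hv1)
          (congrArg Subtype.val (hcom ⟨g, hgN⟩ ⟨v1, hVN hv1⟩))) with e' | e'
        · exact hv1ne e'
        · exact htV (e' ▸ hv1)
      · exact e
    rw [← map_subtype_commutator, hc, ← MonoidHom.range_eq_map, range_subtype]
  have hNeq : ⁅K, K⁆ = N0 N := by
    refine le_antisymm ?_ (hperf ▸ commutator_mono hNK hNK)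
    rw [commutator_le]
    intro x hx y hy
    obtain ⟨a, ha, n, hn, rfl⟩ := hKM hx
    obtain ⟨b, hb, m, hm, rfl⟩ := hKM hy
    have hz : ∀ p ∈ zpowers t, ∀ q ∈ C, p * q = q * p := fun p hp q hq => by
      rcases h.zpow_cases hp with e | e <;> rw [e]
      · simp
      · exact h.t_comm hq
    have hnC := h.le_cent hn
    have hmC := h.le_cent hm
    have hbC : b ∈ C := h.prod.1 hb
    have h1 : ⁅a * n, b * m⁆ = ⁅n, m⁆ := by
      have e1 : ⁅n, b * m⁆ = ⁅n, m⁆ := by
        calc ⁅n, b * m⁆ = n * b * m * n⁻¹ * m⁻¹ * b⁻¹ := by simp only [commutatorElement_def]; group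
          _ = b * (n * m * n⁻¹ * m⁻¹) * b⁻¹ := by rw [← hz b hb n hnC]; group
          _ = ⁅n, m⁆ := by
            rw [hz b hb _ (mul_mem (mul_mem (mul_mem hnC hmC) (inv_mem hnC)) (inv_mem hmC)),
              mul_inv_cancel_right, commutatorElement_def]
      rw [← e1]
      calc ⁅a * n, b * m⁆ = a * ⁅n, b * m⁆ * ((b * m) * a⁻¹ * (b * m)⁻¹) := by
            simp only [commutatorElement_def]; group
        _ = ⁅n, b * m⁆ := by
            rw [← hz a⁻¹ (inv_mem ha) _ (mul_mem hbC hmC), mul_inv_cancel_right,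
              hz a ha _ (e1 ▸ by rw [commutatorElement_def]; exact mul_mem (mul_mem (mul_mem hnC hmC) (inv_mem hnC)) (inv_mem hmC)),
              mul_inv_cancel_right]
    rw [h1, commutatorElement_def]
    exact mul_mem (mul_mem (mul_mem hn hm) (inv_mem hn)) (inv_mem hm)
  have hφN : ∀ x ∈ N0 N, φ x ∈ N0 N := by
    intro x hx
    rw [← hNeq] at hx ⊢
    have hKmap : K.map φ.toMonoidHom ≤ K := by
      rw [hK, MonoidHom.map_closure, closure_le]
      rintro _ ⟨w, ⟨hw, hw2⟩, rfl⟩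
      refine subset_closure ⟨hφC w hw, ?_⟩
      show φ w * φ w = 1
      rw [← map_mul, hw2, map_one]
    have := commutator_mono hKmap hKmap
    rw [← map_commutator] at this
    exact this ⟨x, hx, rfl⟩
  have hbij : Function.Bijective fun x : ↥(N0 N) => (⟨φ x, hφN x x.2⟩ : ↥(N0 N)) := by
    have hinj : Function.Injective fun x : ↥(N0 N) => (⟨φ x, hφN x x.2⟩ : ↥(N0 N)) := fun a b e =>
      Subtype.ext (φ.injective (congrArg Subtype.val e))
    exact ⟨hinj, (Finite.injective_iff_surjective.1 hinj)⟩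
  let φN : MulAut ↥(N0 N) := MulEquiv.ofBijective
    (MonoidHom.mk' (fun x : ↥(N0 N) => (⟨φ x, hφN x x.2⟩ : ↥(N0 N)))
      fun a b => Subtype.ext (map_mul φ (a : G) b)) hbij
  have hφNapp : ∀ x, ((φN x : ↥(N0 N)) : G) = φ x := fun x => rfl
  obtain ⟨τ, hτ⟩ := h.exists_action
  let ι : ↥V →* MulAut ↥(N0 N) := τ.comp (inclusion (hVN.trans h.le_cent))
  have hι : Function.Injective ι := by
    rw [injective_iff_map_eq_one]
    intro v hv
    have h1 := h.cent_N0 (h.le_cent (hVN v.2)) fun x hx => by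
      have h3 := congrArg (fun σ : MulAut ↥(N0 N) => ((σ ⟨x, hx⟩ : ↥(N0 N)) : G)) hv
      simp only [ι, MonoidHom.comp_apply, hτ, MulAut.one_apply] at h3
      exact mul_inv_eq_iff_eq_mul.1 h3
    rcases h.zpow_cases h1 with e | e
    · exact Subtype.ext e
    · exact absurd (e ▸ v.2) htV
  have hcommι : ∀ v : ↥V, φN * ι v = ι v * φN := fun v => MulEquiv.ext fun x => Subtype.ext (by
    show φ ((ι v x : ↥(N0 N)) : G) = ((ι v (φN x) : ↥(N0 N)) : G)
    simp only [ι, MonoidHom.comp_apply, hτ, hφNapp, map_mul, map_inv, coe_inclusion,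
      hfix v (hVS v.2)])
  have hφNp : φN ^ 2 ^ k = 1 := by
    have hpow : ∀ i (x : ↥(N0 N)), (((φN ^ i) x : ↥(N0 N)) : G) = (φ ^ i) x := by
      intro i
      induction i with
      | zero => intro x; simp
      | succ i ih =>
        intro x
        rw [pow_succ', pow_succ', MulAut.mul_apply, MulAut.mul_apply, hφNapp, ih]
    exact MulEquiv.ext fun x => Subtype.ext (by rw [hpow, hk]; rfl)
  let A : Subgroup (MulAut ↥(N0 N)) := zpowers φN ⊔ ι.range
  have hAab : ∀ a ∈ A, ∀ b ∈ A, a * b = b * a := by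
    have hgen : A = closure (insert φN (Set.range ι)) := by
      simp only [A, zpowers_eq_closure, ← MonoidHom.coe_range, Set.insert_eq, Subgroup.closure_union, Subgroup.closure_eq]
    have hA' : ∀ a ∈ insert φN (Set.range ι), ∀ b ∈ insert φN (Set.range ι), a * b = b * a := by
      rintro a (rfl | ⟨v, rfl⟩) b (rfl | ⟨w, rfl⟩)
      · rfl
      · exact hcommι w
      · exact (hcommι v).symm
      · rw [← map_mul, ← map_mul]
        exact congrArg ι (Subtype.ext (h.comm S _ (hVS v.2) _ (hVS w.2)))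
    rw [hgen]
    intro a ha b hb
    have := (Subgroup.closure_le (K := centralizer (insert φN (Set.range ι)))).2
      fun x hx y hy => hA' y hy x hx
    have hb' : b ∈ centralizer ((closure (insert φN (Set.range ι)) : Subgroup _) : Set _) := by
      rw [centralizer_closure]; exact this hb
    exact hb' a ha
  have hAp : IsPGroup 2 A := by
    refine IsPGroup.to_sup_of_normal_right' ?_ ?_ ?_
    · exact IsPGroup.of_card_dvd_pow (n := k) (by rw [Nat.card_zpowers]; exact orderOf_dvd_of_pow_eq_one hφNp)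
    · exact (S.isPGroup'.to_le hVS).of_surjective ι.rangeRestrict ι.rangeRestrict_surjective
    · rw [zpowers_le]
      refine Subgroup.mem_normalizer_iff.2 fun x => ⟨?_, ?_⟩
      · rintro ⟨v, rfl⟩; exact ⟨v, by rw [hcommι, mul_inv_cancel_right]⟩
      · rintro ⟨v, hv⟩
        refine ⟨v, ?_⟩
        have := hv
        rw [eq_mul_inv_iff_mul_eq, ← hcommι] at this
        exact mul_left_cancel this
  have hA4 : Nat.card A ≤ 4 := h.card_abelian_aut A hAp hAab
  have hιA : ι.range = A := eq_of_le_of_card_ge le_sup_right (by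
    rw [← Nat.card_congr (MonoidHom.ofInjective hι).toEquiv, hV4]; exact hA4)
  obtain ⟨v, hv⟩ : φN ∈ ι.range := hιA ▸ mem_sup_left (mem_zpowers φN)
  have hvN : ∀ x ∈ N0 N, φ x = (v : G) * x * (v : G)⁻¹ := fun x hx => by
    have := congrArg (fun σ : MulAut ↥(N0 N) => ((σ ⟨x, hx⟩ : ↥(N0 N)) : G)) hv
    simp only [ι, MonoidHom.comp_apply, hτ, hφNapp, coe_inclusion] at this
    exact this.symm
  -- correct by `v`
  set ψ : MulAut G := MulAut.conj (v : G)⁻¹ * φ with hψ
  have hψapp : ∀ x, ψ x = (v : G)⁻¹ * φ x * v := fun x => by simp [hψ, MulAut.mul_apply]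
  have hvinv : (v : G)⁻¹ = v := inv_eq_of_mul_eq_one_right (h2 v (hVS v.2))
  have hψS : ∀ s ∈ (S : Subgroup G), ψ s = s := fun s hs => by
    rw [hψapp, hfix s hs, mul_assoc, h.comm S s hs v (hVS v.2), inv_mul_cancel_left]
  have hψN : ∀ x ∈ N0 N, ψ x = x := fun x hx => by
    rw [hψapp, hvN x hx]; simp [mul_assoc]
  have hψp : ψ ^ (2 ^ (k + 1)) = 1 := by
    have hcm : Commute (MulAut.conj (v : G)⁻¹) φ := MulEquiv.ext fun x => by
      show (v : G)⁻¹ * φ x * (v : G)⁻¹⁻¹ = φ ((v : G)⁻¹ * x * (v : G)⁻¹⁻¹)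
      simp only [map_mul, map_inv, hfix v (hVS v.2)]
    rw [hψ, hcm.mul_pow, pow_succ' 2 k, pow_mul, pow_mul', hk, one_pow, mul_one, ← map_pow,
      pow_two, hvinv, h2 v (hVS v.2), map_one, one_pow]
  have hψC : ∀ c ∈ C, ψ c = c := by
    have hψC' : ∀ c ∈ C, ψ c ∈ C := fun c hc => mem_centralizer_singleton_iff.2 (by
      have := congrArg ψ (mem_centralizer_singleton_iff.1 hc)
      rwa [map_mul, map_mul, hψS t hS] at this)
    have hdiff : ∀ c : ↥C, (c : G)⁻¹ * ψ c ∈ zpowers t := by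
      intro c
      refine h.cent_N0 (mul_mem (inv_mem c.2) (hψC' c c.2)) fun x hx => ?_
      have h1 := hψN _ (h.normal_N0 c.2 hx)
      rw [map_mul, map_mul, map_inv, hψN x hx] at h1
      calc (c : G)⁻¹ * ψ c * x = (c : G)⁻¹ * (ψ c * x * (ψ c)⁻¹) * ψ c := by group
        _ = x * ((c : G)⁻¹ * ψ c) := by rw [h1]; group
    let δ : ↥C →* G := MonoidHom.mk' (fun c => (c : G)⁻¹ * ψ c) fun c d => by
      have hz : (d : G)⁻¹ * ((c : G)⁻¹ * ψ c) = ((c : G)⁻¹ * ψ c) * (d : G)⁻¹ := by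
        rcases h.zpow_cases (hdiff c) with e | e <;> rw [e]
        · simp
        · exact (h.t_comm (inv_mem d.2)).symm
      show ((c : G) * d)⁻¹ * ψ ((c : G) * d) = (c : G)⁻¹ * ψ c * ((d : G)⁻¹ * ψ d)
      rw [map_mul, ← mul_assoc ((c : G)⁻¹ * ψ c), ← hz]
      group
    have hker : ((S : Subgroup G).subgroupOf C) ≤ δ.ker := fun x hx => by
      show (x : G)⁻¹ * ψ x = 1
      rw [hψS x hx, inv_mul_cancel]
    have hodd : ¬ 2 ∣ δ.ker.index := fun hd =>
      (S.subtype (h.sylow_le hS)).not_dvd_index (hd.trans (index_dvd_of_le hker))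
    have hidx : δ.ker.index ∣ 2 := by
      rw [Subgroup.index_ker]
      have hle : δ.range ≤ zpowers t := by rintro _ ⟨c, rfl⟩; exact hdiff c
      have := card_dvd_of_le hle
      rwa [Nat.card_zpowers, h.ht] at this
    have h1 : δ.ker = ⊤ := by
      rcases (Nat.dvd_prime Nat.prime_two).1 hidx with e | e
      · exact index_eq_one.1 e
      · exact absurd (dvd_of_eq e.symm) hodd
    intro c hc
    have : (⟨c, hc⟩ : ↥C) ∈ δ.ker := h1 ▸ mem_top _
    exact (inv_mul_eq_one.1 (MonoidHom.mem_ker.1 this : c⁻¹ * ψ c = 1)).symm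
  -- the cocycle on the normaliser
  set MS := normalizer ((S : Subgroup G) : Set G) with hMS
  let c : ↥MS → G := fun n => (n : G)⁻¹ * ψ n
  have hcS : ∀ n, c n ∈ (S : Subgroup G) := by
    intro n
    have hcent : ∀ s ∈ (S : Subgroup G), c n * s = s * c n := by
      intro s hs
      have h1 : ψ ((n : G) * s * (n : G)⁻¹) = n * s * (n : G)⁻¹ :=
        hψS _ ((mem_normalizer_iff.1 n.2 s).1 hs)
      rw [map_mul, map_mul, map_inv, hψS s hs] at h1
      calc (n : G)⁻¹ * ψ n * s = (n : G)⁻¹ * (ψ n * s * (ψ n)⁻¹) * ψ n := by group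
        _ = s * ((n : G)⁻¹ * ψ n) := by rw [h1]; group
    have hcC : c n ∈ C := mem_centralizer_singleton_iff.2 (hcent t hS)
    have hψn : ψ (n : G) = n * c n := by simp [c]
    have hiter : ∀ i, (ψ ^ i) (n : G) = n * c n ^ i := by
      intro i
      induction i with
      | zero => simp
      | succ i ih =>
        rw [pow_succ', MulAut.mul_apply, ih, map_mul, map_pow, hψC _ hcC, hψn, mul_assoc, ← pow_succ']
    have h1 := hiter (2 ^ (k + 1))
    rw [hψp, MulAut.one_apply] at h1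
    have h3 : c n ^ 2 ^ (k + 1) = 1 := left_eq_mul.1 h1
    have hp : IsPGroup 2 (zpowers (c n)) :=
      IsPGroup.of_card_dvd_pow (by rw [Nat.card_zpowers]; exact orderOf_dvd_of_pow_eq_one h3)
    have hsup : IsPGroup 2 (zpowers (c n) ⊔ (S : Subgroup G) : Subgroup G) :=
      IsPGroup.to_sup_of_normal_right' hp S.isPGroup' (zpowers_le.2 (mem_normalizer_iff.2 fun x =>
        ⟨fun hx => by rw [hcent x hx, mul_inv_cancel_right]; exact hx, fun hx => by
          have h4 := hcent _ hx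
          have : x = c n * x * (c n)⁻¹ := by
            refine (mul_left_cancel (a := c n) ?_).symm
            rw [h4]; group
          rw [this]; exact hx⟩))
    exact S.is_maximal' hsup le_sup_right ▸ mem_sup_left (mem_zpowers (c n))
  have hcmul : ∀ n m : ↥MS, c (n * m) = (m : G)⁻¹ * c n * m * c m := fun n m => by
    simp only [c, Subgroup.coe_mul, map_mul]; group
  let Q : Subgroup ↥MS := (centralizer ((S : Subgroup G) : Set G)).subgroupOf MS
  have hCSC : centralizer ((S : Subgroup G) : Set G) ≤ C := fun x hx =>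
    mem_centralizer_singleton_iff.2 (hx t hS).symm
  have hcQ : ∀ n : ↥MS, ∀ z ∈ Q, c (n * z) = c n := fun n z hz => by
    have hz' : (z : G) ∈ centralizer ((S : Subgroup G) : Set G) := hz
    have hc1 : c z = 1 := by simp [c, hψC _ (hCSC hz')]
    rw [hcmul, hc1, mul_one, mul_assoc, hz' (c n) (hcS n), inv_mul_cancel_left]
  haveI hQn : Q.Normal := ⟨fun z hz m => by
    show (m : G) * z * (m : G)⁻¹ ∈ centralizer ((S : Subgroup G) : Set G)
    intro s hs
    have hs' : (m : G)⁻¹ * s * m ∈ (S : Subgroup G) := (mem_normalizer_iff''.1 m.2 s).1 hs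
    have h1 := (hz : (z : G) ∈ centralizer ((S : Subgroup G) : Set G)) _ hs'
    have := congrArg (fun y => (m : G) * y * (m : G)⁻¹) h1
    simpa [mul_assoc] using this⟩
  letI : CommGroup ↥(S : Subgroup G) :=
    { (inferInstance : Group ↥(S : Subgroup G)) with
      mul_comm := fun a b => Subtype.ext (h.comm S _ a.2 _ b.2) }
  haveI := Fintype.ofFinite (↥MS ⧸ Q)
  let cS : ↥MS ⧸ Q → ↥(S : Subgroup G) := fun q => ⟨c q.out, hcS _⟩
  set s : ↥(S : Subgroup G) := ∏ q, cS q with hs
  have hQodd : Odd (Fintype.card (↥MS ⧸ Q)) := by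
    rw [← Nat.card_eq_fintype_card, ← Subgroup.index, ← Nat.not_even_iff_odd, even_iff_two_dvd]
    intro hd
    have hle : (S : Subgroup G).subgroupOf MS ≤ Q := fun x hx y hy => h.comm S y hy x hx
    exact S.not_dvd_index ((hd.trans (index_dvd_of_le hle)).trans
      (relIndex_dvd_index_of_le (le_normalizer (H := (S : Subgroup G)))))
  have hkey : ∀ m : ↥MS, c m = (m : G)⁻¹ * s * m * (s : G) := by
    intro m
    let α : ↥(S : Subgroup G) →* ↥(S : Subgroup G) := MonoidHom.mk'
      (fun x => ⟨(m : G)⁻¹ * x * m, (mem_normalizer_iff''.1 m.2 x).1 x.2⟩)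
      fun a b => Subtype.ext (by simp [mul_assoc])
    have hperm : ∀ q : ↥MS ⧸ Q, cS (q * (m : ↥MS ⧸ Q)) = α (cS q) * ⟨c m, hcS m⟩ := by
      intro q
      refine Subtype.ext ?_
      show c (Quotient.out (q * (m : ↥MS ⧸ Q))) = (m : G)⁻¹ * c q.out * m * c m
      rw [← hcmul]
      have e : q * (m : ↥MS ⧸ Q) = ((q.out * m : ↥MS) : ↥MS ⧸ Q) := by
        rw [QuotientGroup.mk_mul, QuotientGroup.out_eq']
      obtain ⟨z, hz⟩ := QuotientGroup.mk_out_eq_mul Q (q.out * m)
      rw [e, hz, hcQ _ _ z.2]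
    have h1 : s = α s * (⟨c m, hcS m⟩ : ↥(S : Subgroup G)) ^ Fintype.card (↥MS ⧸ Q) := by
      conv_lhs => rw [hs, ← Equiv.prod_comp (Equiv.mulRight (m : ↥MS ⧸ Q)) cS]
      simp only [Equiv.coe_mulRight, hperm, Finset.prod_mul_distrib, Finset.prod_const,
        Finset.card_univ, ← map_prod, ← hs]
    obtain ⟨r, hr⟩ := hQodd
    have hsq : (⟨c m, hcS m⟩ : ↥(S : Subgroup G)) ^ 2 = 1 :=
      Subtype.ext (by rw [Subgroup.coe_pow, pow_two]; exact h2 _ (hcS m))
    rw [hr, pow_succ, pow_mul, hsq, one_pow, one_mul] at h1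
    have h4 : (s : G) = (m : G)⁻¹ * s * m * c m := congrArg Subtype.val h1
    have hw : (m : G)⁻¹ * s * m ∈ (S : Subgroup G) := (mem_normalizer_iff''.1 m.2 _).1 s.2
    calc c m = ((m : G)⁻¹ * s * m)⁻¹ * ((m : G)⁻¹ * s * m * c m) := by group
      _ = (m : G)⁻¹ * s * m * s := by rw [← h4, inv_eq_of_mul_eq_one_right (h2 _ hw)]
  have hst : (s : G) ∈ zpowers t := by
    refine hgfix s s.2 ?_
    have h1 := hkey ⟨g, hgS⟩
    simp only [c, hψN g hgN, inv_mul_cancel] at h1
    have h4 : g⁻¹ * s * g = s := by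
      have h5 := eq_inv_of_mul_eq_one_left h1.symm
      rwa [inv_eq_of_mul_eq_one_right (h2 _ s.2)] at h5
    calc g * (s : G) = g * (g⁻¹ * s * g) := by rw [h4]
      _ = s * g := by group
  have hsC : ∀ x ∈ C, (s : G) * x = x * s := fun x hx => by
    rcases h.zpow_cases hst with e | e <;> rw [e]
    · simp
    · exact h.t_comm hx
  -- the fixed points of the corrected automorphism
  let H : Subgroup G :=
    { carrier := {x | (s : G) * ψ x * (s : G)⁻¹ = x}
      one_mem' := by simp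
      mul_mem' := fun {a b} ha hb => by
        show (s : G) * ψ (a * b) * (s : G)⁻¹ = a * b
        conv_rhs => rw [← ha, ← hb]
        rw [map_mul, conj_mul]
      inv_mem' := fun {a} ha => by
        show (s : G) * ψ a⁻¹ * (s : G)⁻¹ = a⁻¹
        conv_rhs => rw [← ha]
        rw [map_inv]; group }
  have hCH : C ≤ H := fun x hx => by
    show (s : G) * ψ x * (s : G)⁻¹ = x
    rw [hψC x hx, hsC x hx, mul_inv_cancel_right]
  have hnH : n₀ ∈ H := by
    show (s : G) * ψ n₀ * (s : G)⁻¹ = n₀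
    have h1 := hkey ⟨n₀, hn₀⟩
    have h3 : ψ n₀ = n₀ * (n₀⁻¹ * s * n₀ * s) := by
      simp only [c] at h1
      rw [← h1, mul_inv_cancel_left]
    rw [h3]
    calc (s : G) * (n₀ * (n₀⁻¹ * s * n₀ * s)) * (s : G)⁻¹ = ((s : G) * s) * n₀ := by group
      _ = n₀ := by rw [h2 _ s.2, one_mul]
  have htop : H = ⊤ := h.max.2 H (lt_of_le_of_ne hCH fun e => hn₀C (e.ge hnH))
  refine ⟨(v : G) * (s : G)⁻¹, MulEquiv.ext fun x => ?_⟩
  have hx : (s : G) * ψ x * (s : G)⁻¹ = x := htop.ge (mem_top x)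
  rw [hψapp] at hx
  rw [MulAut.conj_apply]
  conv_rhs => rw [← hx]
  group

end

end Cfsg.Agent.CharTwo.JankoRee
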