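import Cfsg.Agent.Suzuki.Structure
import Cfsg.Agent.Linear.Torus
import Cfsg.Prelude.Def_Classical
import Cfsg.Prelude.Def_Sz

/-!
# Sections of `GL(5,2)` of Bender type
-/

set_option autoImplicit false

namespace Cfsg.Agent.CharTwo

open Matrix

/-! ### The two Suzuki definitions -/

section Suzuki

open Suzuki

variable {F : Type*} [Field F] [Fintype F] {m : ℕ} [hS : SuzukiField F m]

include hS in
theorem star4_of_gen {g : Matrix (Fin 4) (Fin 4) F}
    (h : (∃ a b, g = matT (th F m) a b) ∨ (∃ l : Fˣ, g = matD (th F m) (l : F)) ∨ g = suzukiForm F) :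
    Cfsg.Lie.star4 g = g.map (fun x => x ^ 2 ^ (m + 1)) := by
  simp only [← th_apply]
  rcases h with ⟨a, b, rfl⟩ | ⟨l, rfl⟩ | rfl
  · ext i j
    fin_cases i <;> fin_cases j <;>
      simp [Cfsg.Lie.star4, Cfsg.Lie.pairOf, matT, ovf, th_th] <;> grind
  · have h0 : th F m (l : F) ≠ 0 := by simp [l.ne_zero]
    ext i j
    fin_cases i <;> fin_cases j <;>
      simp [Cfsg.Lie.star4, Cfsg.Lie.pairOf, matD, th_th, map_inv₀] <;> field_simp
  · ext i j
    fin_cases i <;> fin_cases j <;>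
      simp [Cfsg.Lie.star4, Cfsg.Lie.pairOf, suzukiForm, CharTwo.neg_eq]

include hS in
theorem toGL_mem_lieSz (g : Cfsg.Sz F m) :
    SpecialLinearGroup.toGL (g : SpecialLinearGroup (Fin 4) F) ∈ Cfsg.Lie.Sz F (2 ^ (m + 1)) := by
  have hsp : ∀ g : Cfsg.Sz F m,
      SpecialLinearGroup.toGL (g : SpecialLinearGroup (Fin 4) F) ∈ Cfsg.Lie.Sp4 F := by
    intro g u v
    have hf : ∀ u v : Fin 4 → F,
        Cfsg.Lie.altForm4 u v = dotProduct u (suzukiForm F *ᵥ v) := by
      intro u v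
      simp [Cfsg.Lie.altForm4, suzukiForm, Matrix.mulVec, dotProduct, Fin.sum_univ_four]
    rw [hf, hf]
    show dotProduct ((g : SpecialLinearGroup (Fin 4) F).1 *ᵥ u)
      (suzukiForm F *ᵥ ((g : SpecialLinearGroup (Fin 4) F).1 *ᵥ v)) = _
    rw [Matrix.mulVec_mulVec, Matrix.dotProduct_mulVec, Matrix.vecMul_mulVec, ← Matrix.mul_assoc,
      sz_preserves_form g, ← Matrix.dotProduct_mulVec]
  induction g using sz_induction with
  | hT a b => exact Subgroup.subset_closure ⟨hsp _, star4_of_gen (Or.inl ⟨a, b, rfl⟩)⟩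
  | hD l => exact Subgroup.subset_closure ⟨hsp _, star4_of_gen (Or.inr (Or.inl ⟨l, rfl⟩))⟩
  | hW => exact Subgroup.subset_closure ⟨hsp _, star4_of_gen (Or.inr (Or.inr rfl))⟩
  | hmul g h hg hh =>
    rw [Subgroup.coe_mul, map_mul]
    exact mul_mem hg hh

include hS in
theorem card_sz_dvd_card_lieSz :
    Nat.card (Cfsg.Sz F m) ∣ Nat.card (Cfsg.Lie.Sz F (2 ^ (m + 1))) := by
  refine Subgroup.card_dvd_of_injective
    (((SpecialLinearGroup.toGL).comp (Cfsg.Sz F m).subtype).codRestrict _ toGL_mem_lieSz) ?_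
  intro a b h
  exact Subtype.ext (Subtype.ext (congrArg (fun x => (x : GL (Fin 4) F).1) (congrArg Subtype.val h)))

end Suzuki

/-! ### A torus of `PSU(3,q)` -/

section Unitary

variable {F : Type*} [Field F]

theorem diag_mem_SU {q : ℕ} (d : Fin 3 → F) (hd : ∀ i, d i ^ (q + 1) = 1)
    (hdet : (Matrix.diagonal d).det = 1) :
    (⟨Matrix.diagonal d, hdet⟩ : SpecialLinearGroup (Fin 3) F) ∈ Cfsg.SU 3 F q := by
  intro u v
  simp only [Cfsg.hermForm]
  refine Finset.sum_congr rfl fun i _ => ?_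
  show (Matrix.diagonal d *ᵥ u) i * (Matrix.diagonal d *ᵥ v) i ^ q = _
  rw [Matrix.mulVec_diagonal, Matrix.mulVec_diagonal, mul_pow]
  calc d i * u i * (d i ^ q * v i ^ q) = d i ^ (q + 1) * (u i * v i ^ q) := by ring
    _ = _ := by rw [hd, one_mul]

theorem sq_dvd_three_mul_card_PSU {F : Type*} [Field F] [Fintype F] {q : ℕ}
    (hF : Fintype.card F = q ^ 2) : (q + 1) ^ 2 ∣ 3 * Nat.card (Cfsg.PSU 3 F q) := by
  haveI : Finite (Cfsg.SU 3 F q) := inferInstance
  let R := rootsOfUnity (q + 1) F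
  have hR : Nat.card R = q + 1 := by
    rw [Linear.card_rootsOfUnity_finite, hF]
    refine Nat.gcd_eq_left ⟨q - 1, ?_⟩
    rw [← Nat.sq_sub_sq q 1, one_pow]
  have hr : ∀ a : R, ((a : Fˣ) : F) ^ (q + 1) = 1 := fun a => by
    rw [← Units.val_pow_eq_pow_val, (mem_rootsOfUnity _ _).1 a.2, Units.val_one]
  let d : R × R → Fin 3 → F := fun p =>
    ![((p.1 : Fˣ) : F), ((p.2 : Fˣ) : F), (((p.1 * p.2)⁻¹ : R) : Fˣ)]
  have hdet : ∀ p, (Matrix.diagonal (d p)).det = 1 := fun p => by
    rw [Matrix.det_diagonal, Fin.prod_univ_three]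
    simp [d]
    field_simp
  let φ : R × R →* Cfsg.SU 3 F q := MonoidHom.mk'
    (fun p => ⟨⟨Matrix.diagonal (d p), hdet p⟩, diag_mem_SU _ (fun i => by
      fin_cases i
      · exact hr p.1
      · exact hr p.2
      · exact hr (p.1 * p.2)⁻¹) _⟩)
    (fun p r => by
      apply Subtype.ext; apply Subtype.ext
      show Matrix.diagonal (d (p * r)) = Matrix.diagonal (d p) * Matrix.diagonal (d r)
      rw [Matrix.diagonal_mul_diagonal]
      congr 1
      ext i
      fin_cases i <;> simp [d] <;> ring)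
  let ψ : R × R →* Cfsg.PSU 3 F q := (QuotientGroup.mk' _).comp φ
  -- a cyclic permutation matrix
  let P : Matrix (Fin 3) (Fin 3) F := !![0, 1, 0; 0, 0, 1; 1, 0, 0]
  have hP : P.det = 1 := by simp [P, Matrix.det_fin_three]
  have hPm : (⟨P, hP⟩ : SpecialLinearGroup (Fin 3) F) ∈ Cfsg.SU 3 F q := by
    intro u v
    simp only [Cfsg.hermForm]
    show ∑ i, (P *ᵥ u) i * (P *ᵥ v) i ^ q = _
    simp [P, Matrix.mulVec, dotProduct, Fin.sum_univ_three]
    ring
  have hker : ∀ p ∈ ψ.ker, p.1 = p.2 ∧ (p.1 : Fˣ) ^ 3 = 1 := by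
    intro p hp
    rw [MonoidHom.mem_ker, MonoidHom.comp_apply, QuotientGroup.mk'_apply,
      QuotientGroup.eq_one_iff] at hp
    have h := congrArg (fun x : Cfsg.SU 3 F q => (x.1.1 : Matrix (Fin 3) (Fin 3) F))
      (Subgroup.mem_center_iff.1 hp ⟨_, hPm⟩)
    have h01 : P * Matrix.diagonal (d p) = Matrix.diagonal (d p) * P := h
    have e1 := congrFun (congrFun h01 0) 1
    have e2 := congrFun (congrFun h01 1) 2
    simp [P, d, Matrix.mul_diagonal, Matrix.diagonal_mul] at e1 e2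
    have h12 : p.1 = p.2 := Subtype.ext (Units.ext e1.symm)
    refine ⟨h12, Units.ext ?_⟩
    rw [← h12] at e2
    have hne : ((p.1 : Fˣ) : F) ≠ 0 := Units.ne_zero _
    field_simp at e2
    rw [Units.val_pow_eq_pow_val, Units.val_one]
    linear_combination -e2
  have h3 : Nat.card ψ.ker ∣ 3 := by
    have h1 : Nat.card ψ.ker ∣ Nat.card (rootsOfUnity 3 F) := by
      refine Subgroup.card_dvd_of_injective (MonoidHom.mk'
        (fun p : ψ.ker => (⟨((p : R × R).1 : Fˣ),
          (mem_rootsOfUnity _ _).2 (hker _ p.2).2⟩ : rootsOfUnity 3 F))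
        (fun _ _ => rfl)) ?_
      intro a b h
      have h1 : (a : R × R).1 = (b : R × R).1 := Subtype.ext (congrArg Subtype.val h :)
      exact Subtype.ext (Prod.ext h1 (((hker _ a.2).1.symm.trans h1).trans (hker _ b.2).1))
    exact h1.trans (by rw [Linear.card_rootsOfUnity_finite]; exact Nat.gcd_dvd_left _ _)
  have h1 := Subgroup.card_eq_card_quotient_mul_card_subgroup ψ.ker
  rw [Nat.card_prod, hR, ← pow_two, Nat.card_congr (QuotientGroup.quotientKerEquivRange ψ).toEquiv]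
    at h1
  rw [h1, mul_comm 3]
  exact Nat.mul_dvd_mul ψ.range.card_subgroup_dvd_card h3

end Unitary

/-! ### Elements of order 9 -/

/-- The first block element of order 3. -/
def gl52a : GL (Fin 5) (ZMod 2) :=
  ⟨!![0,1,0,0,0; 1,1,0,0,0; 0,0,1,0,0; 0,0,0,1,0; 0,0,0,0,1],
   !![1,1,0,0,0; 1,0,0,0,0; 0,0,1,0,0; 0,0,0,1,0; 0,0,0,0,1], by decide, by decide⟩

/-- The second block element of order 3. -/
def gl52b : GL (Fin 5) (ZMod 2) :=
  ⟨!![1,0,0,0,0; 0,1,0,0,0; 0,0,0,1,0; 0,0,1,1,0; 0,0,0,0,1],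
   !![1,0,0,0,0; 0,1,0,0,0; 0,0,1,1,0; 0,0,1,0,0; 0,0,0,0,1], by decide, by decide⟩

theorem gl52_card : Nat.card (GL (Fin 5) (ZMod 2)) = 9999360 := by
  rw [Matrix.card_GL_field, Fintype.card_eq_nat_card, Nat.card_zmod, Fin.prod_univ_five]
  rfl

theorem gl52_no_order_nine (g : GL (Fin 5) (ZMod 2)) : orderOf g ≠ 9 := by
  intro hg
  haveI : Fact (Nat.Prime 3) := ⟨by norm_num⟩
  have ha : gl52a ^ 3 = 1 := by apply Units.ext; decide
  have hb : gl52b ^ 3 = 1 := by apply Units.ext; decide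
  have hab : Commute gl52a gl52b := by apply Units.ext; decide
  have hbn : gl52b ∉ Subgroup.zpowers gl52a := by
    intro h
    obtain ⟨k, hk⟩ := mem_powers_iff_mem_zpowers.2 h
    simp only at hk
    rw [pow_eq_pow_mod k ha] at hk
    have : k % 3 < 3 := Nat.mod_lt _ (by norm_num)
    have h0 : gl52a ^ 0 ≠ gl52b := fun e => absurd (congrArg Units.val e) (by decide)
    have h1 : gl52a ^ 1 ≠ gl52b := fun e => absurd (congrArg Units.val e) (by decide)
    have h2 : gl52a ^ 2 ≠ gl52b := fun e => absurd (congrArg Units.val e) (by decide)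
    interval_cases hm : k % 3
    · exact h0 hk
    · exact h1 hk
    · exact h2 hk
  set E : Subgroup (GL (Fin 5) (ZMod 2)) := Subgroup.closure {gl52a, gl52b}
  haveI hE : IsMulCommutative E := Subgroup.isMulCommutative_closure (by
    rintro x (rfl | rfl) y (rfl | rfl)
    exacts [rfl, hab.eq, hab.eq.symm, rfl])
  have hE3 : ∀ x ∈ E, x ^ 3 = 1 := by
    intro x hx
    induction hx using Subgroup.closure_induction with
    | mem y hy =>
      rcases hy with rfl | rfl
      exacts [ha, hb]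
    | one => exact one_pow 3
    | mul y z hy hz ihy ihz =>
      have : Commute y z := congrArg Subtype.val (hE.is_comm.comm ⟨y, hy⟩ ⟨z, hz⟩)
      rw [this.mul_pow, ihy, ihz, one_mul]
    | inv y _ ih => rw [inv_pow, ih, inv_one]
  have hEp : IsPGroup 3 E := fun x => ⟨1, Subtype.ext (by simpa using hE3 x.1 x.2)⟩
  obtain ⟨R, hR⟩ := hEp.exists_le_sylow
  -- `g` generates a Sylow subgroup
  have hgp : IsPGroup 3 (Subgroup.zpowers g) := IsPGroup.of_card (n := 2) (by
    rw [Nat.card_zpowers, hg]; norm_num)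
  obtain ⟨Q, hQ⟩ := hgp.exists_le_sylow
  have hQc : Nat.card (Q : Subgroup (GL (Fin 5) (ZMod 2))) = 9 := by
    have h1 := (Q : Subgroup (GL (Fin 5) (ZMod 2))).card_subgroup_dvd_card
    obtain ⟨k, hk⟩ := IsPGroup.iff_card.1 Q.2
    rw [gl52_card, hk] at h1
    have h2 : 9 ≤ Nat.card (Q : Subgroup (GL (Fin 5) (ZMod 2))) := by
      rw [← hg, ← Nat.card_zpowers]; exact Subgroup.card_le_of_le hQ
    have h3 : k ≤ 2 := by
      by_contra! hk3
      have h4 : 3 ^ 3 ∣ 9999360 := (Nat.pow_dvd_pow 3 hk3).trans h1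
      norm_num at h4
    rw [hk] at h2 ⊢
    interval_cases k
    all_goals (revert h2; norm_num)
  have hQeq : Subgroup.zpowers g = (Q : Subgroup (GL (Fin 5) (ZMod 2))) :=
    Subgroup.eq_of_le_of_card_ge hQ (by rw [Nat.card_zpowers, hg, hQc])
  haveI : IsCyclic (Q : Subgroup (GL (Fin 5) (ZMod 2))) := by rw [← hQeq]; infer_instance
  haveI : IsCyclic (R : Subgroup (GL (Fin 5) (ZMod 2))) :=
    isCyclic_of_surjective _ (Sylow.equiv Q R).surjective
  haveI : IsCyclic E :=
    isCyclic_of_injective (Subgroup.inclusion hR) (Subgroup.inclusion_injective hR)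
  obtain ⟨⟨c, hc⟩, hgen⟩ := IsCyclic.exists_generator (α := E)
  have hE3' : Nat.card E ∣ 3 := by
    rw [← orderOf_eq_card_of_forall_mem_zpowers hgen]
    exact orderOf_dvd_of_pow_eq_one (Subtype.ext (by simpa using hE3 c hc))
  have haE : Subgroup.zpowers gl52a ≤ E :=
    Subgroup.zpowers_le.2 (Subgroup.subset_closure (Or.inl rfl))
  have hao : orderOf gl52a = 3 :=
    orderOf_eq_prime ha fun e => absurd (congrArg Units.val e) (by decide)
  have := Subgroup.eq_of_le_of_card_ge haE (by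
    rw [Nat.card_zpowers, hao]; exact Nat.le_of_dvd (by norm_num) hE3')
  exact hbn (this ▸ Subgroup.subset_closure (Or.inr rfl))

/-! ### The statement -/

theorem orderOf_quotient_section {G : Type*} [Group G] [Finite G] {H : Subgroup G}
    {K : Subgroup H} [K.Normal] (x : H ⧸ K) : ∃ g : G, orderOf g = orderOf x := by
  obtain ⟨h, rfl⟩ := QuotientGroup.mk'_surjective K x
  have hd : orderOf (QuotientGroup.mk' K h) ∣ orderOf h := orderOf_map_dvd _ _
  refine ⟨(h : G) ^ (orderOf h / orderOf (QuotientGroup.mk' K h)), ?_⟩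
  rw [← orderOf_submonoid (H := H.toSubmonoid) h] at *
  exact orderOf_pow_orderOf_div (orderOf_pos _).ne' hd

theorem bender_section_gl52 {H : Subgroup (GL (Fin 5) (ZMod 2))}
    {K : Subgroup ↥H} [K.Normal]
    (hX : (∃ (n : ℕ) (F : Type) (_ : Field F) (_ : Fintype F), 2 ≤ n ∧ Fintype.card F = 2 ^ n ∧
        Nonempty (↥H ⧸ K ≃* Matrix.ProjectiveSpecialLinearGroup (Fin 2) F)) ∨
      (∃ (m : ℕ) (F : Type) (_ : Field F) (_ : Fintype F), 1 ≤ m ∧ Fintype.card F = 2 ^ (2 * m + 1) ∧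
        Nonempty (↥H ⧸ K ≃* ↥(Cfsg.Lie.Sz F (2 ^ (m + 1))))) ∨
      (∃ (n : ℕ) (F : Type) (_ : Field F) (_ : Fintype F), 2 ≤ n ∧ Fintype.card F = 4 ^ n ∧
        Nonempty (↥H ⧸ K ≃* Cfsg.PSU 3 F (2 ^ n)))) :
    ∃ (F : Type) (_ : Field F) (_ : Fintype F), Fintype.card F = 4 ∧
      Nonempty (↥H ⧸ K ≃* Matrix.ProjectiveSpecialLinearGroup (Fin 2) F) := by
  have hd : Nat.card (↥H ⧸ K) ∣ 9999360 := by
    rw [← gl52_card]
    exact (Subgroup.card_quotient_dvd_card K).trans H.card_subgroup_dvd_card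
  rcases hX with ⟨n, F, _, _, hn, hF, ⟨e⟩⟩ | ⟨m, F, _, _, hm, hF, ⟨e⟩⟩ | ⟨n, F, _, _, hn, hF, ⟨e⟩⟩
  · rw [Nat.card_congr e.toEquiv] at hd
    have heven : Even (Fintype.card F) := by
      rw [hF]; exact Nat.even_pow.2 ⟨even_two, by omega⟩
    have h1 := Linear.card_PSL_two_mul (F := F)
    rw [Linear.gcd_two_of_even heven, one_mul] at h1
    rw [h1, hF] at hd
    have hn' : n < 24 := by
      by_contra! hc
      have h2 : 2 ^ n ∣ 9999360 := (dvd_mul_of_dvd_left (dvd_mul_right _ _) _).trans hd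
      have h3 : 2 ^ 24 ≤ 2 ^ n := Nat.pow_le_pow_right (by norm_num) hc
      have h4 := Nat.le_of_dvd (by norm_num) h2
      norm_num at h3; omega
    have hn23 : n = 2 ∨ n = 3 := by
      revert hd hn
      interval_cases n <;> norm_num
    rcases hn23 with rfl | rfl
    · exact ⟨F, inferInstance, inferInstance, by rw [hF]; norm_num, ⟨e⟩⟩
    · exfalso
      obtain ⟨a, -, ha, -, -⟩ := Linear.exists_nonsplit_torus (F := F)
      have hc : Subgroup.center (Matrix.SpecialLinearGroup (Fin 2) F) = ⊥ := by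
        apply Subgroup.eq_bot_of_card_eq
        rw [Linear.card_center_SL, Fintype.card_fin, Linear.gcd_two_of_even heven]
      let π := QuotientGroup.mk' (Subgroup.center (Matrix.SpecialLinearGroup (Fin 2) F))
      have hinj : Function.Injective π := by
        rw [← MonoidHom.ker_eq_bot_iff, QuotientGroup.ker_mk', hc]
      let x : Matrix.ProjectiveSpecialLinearGroup (Fin 2) F := π a
      have hx : orderOf x = 9 := by
        rw [show orderOf x = orderOf a from orderOf_injective π hinj a, ha, hF]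
        norm_num
      obtain ⟨g, hg⟩ := orderOf_quotient_section (e.symm x)
      exact gl52_no_order_nine g (by
        rw [hg, show orderOf (e.symm x) = orderOf x from
          orderOf_injective e.symm.toMonoidHom e.symm.injective x, hx])
  · exfalso
    haveI : Suzuki.SuzukiField F m := ⟨hm, hF⟩
    rw [Nat.card_congr e.toEquiv] at hd
    have h1 := (card_sz_dvd_card_lieSz (F := F) (m := m)).trans hd
    rw [Suzuki.card_sz] at h1
    have hm' : m < 12 := by
      by_contra! hc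
      have h2 : 2 ^ (2 * m + 1) ∣ 9999360 :=
        (dvd_mul_of_dvd_left (dvd_mul_of_dvd_left (dvd_pow_self _ two_ne_zero) _) _).trans h1
      have h3 : 2 ^ 24 ≤ 2 ^ (2 * m + 1) := Nat.pow_le_pow_right (by norm_num) (by omega)
      have h4 := Nat.le_of_dvd (by norm_num) h2
      norm_num at h3; omega
    revert h1 hm
    interval_cases m <;> norm_num
  · exfalso
    rw [Nat.card_congr e.toEquiv] at hd
    have h1 := (sq_dvd_three_mul_card_PSU (F := F) (q := 2 ^ n) (by
      rw [hF, show (4 : ℕ) = 2 ^ 2 by norm_num, ← pow_mul, ← pow_mul, mul_comm])).trans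
      (Nat.mul_dvd_mul_left 3 hd)
    have hn' : n < 13 := by
      by_contra! hc
      have h4 := Nat.le_of_dvd (by norm_num) h1
      have h3 : 2 ^ 13 ≤ 2 ^ n := Nat.pow_le_pow_right (by norm_num) hc
      have h5 : (2 ^ 13) ^ 2 ≤ (2 ^ n + 1) ^ 2 := Nat.pow_le_pow_left (by omega) 2
      have h6 := h5.trans h4
      norm_num at h6
    revert h1 hn
    interval_cases n <;> norm_num

end Cfsg.Agent.CharTwo
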