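import Cfsg.Agent.CharTwo.SLPairNormalizer
import Cfsg.Agent.CharTwo.Constrained
import Cfsg.Agent.PGroup.Basic

/-!
# Sylow 2-subgroups of `SL₂(q)`, `q` odd, through one element of square `-1`
-/

set_option autoImplicit false

namespace Cfsg.Agent.CharTwo

open Matrix
open scoped MatrixGroups

/-- What we use of a generalized quaternion subgroup `Q` with centre `⟨j⟩`: `u` has square `j` and
generates a normal subgroup, `h` generates the centralizer of `u`, `w` inverts `u`. -/
structure QData {G : Type*} [Group G] (Q : Subgroup G) (j u h w : G) (a : ℕ) : Prop where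
  two_le : 2 ≤ a
  jmem : j ∈ Q
  umem : u ∈ Q
  hmem : h ∈ Q
  wmem : w ∈ Q
  usq : u * u = j
  sign : ∀ c ∈ Q, c * u = u * c ∨ c * u = u * j * c
  out : ∀ c ∈ Q, c * u ≠ u * c → c * c = j
  inn : ∀ c ∈ Q, c * u = u * c → c ^ 2 ^ a = 1
  hcomm : h * u = u * h
  htop : h ^ 2 ^ (a - 1) = j
  wout : w * u ≠ u * w
  invol : ∀ c ∈ Q, c * c = 1 → c = 1 ∨ c = j
  central : ∀ c ∈ Q, (∀ d ∈ Q, c * d = d * c) → c = 1 ∨ c = j

theorem QData.map {G H : Type*} [Group G] [Group H] {Q : Subgroup G} {j u h w : G} {a : ℕ}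
    (d : QData Q j u h w a) (f : G →* H) (hf : Function.Injective f) :
    QData (Q.map f) (f j) (f u) (f h) (f w) a where
  two_le := d.two_le
  jmem := ⟨j, d.jmem, rfl⟩
  umem := ⟨u, d.umem, rfl⟩
  hmem := ⟨h, d.hmem, rfl⟩
  wmem := ⟨w, d.wmem, rfl⟩
  usq := by rw [← map_mul, d.usq]
  sign := by
    rintro _ ⟨c, hc, rfl⟩
    rcases d.sign c hc with e | e
    · exact Or.inl (by rw [← map_mul, e, map_mul])
    · exact Or.inr (by rw [← map_mul, e, map_mul, map_mul])
  out := by
    rintro _ ⟨c, hc, rfl⟩ hne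
    rw [← map_mul, d.out c hc fun e => hne (by rw [← map_mul, e, map_mul])]
  inn := by
    rintro _ ⟨c, hc, rfl⟩ e
    rw [← map_mul, ← map_mul] at e
    rw [← map_pow, d.inn c hc (hf e), map_one]
  hcomm := by rw [← map_mul, d.hcomm, map_mul]
  htop := by rw [← map_pow, d.htop]
  wout := fun e => d.wout (hf (by rw [map_mul, e, map_mul]))
  invol := by
    rintro _ ⟨c, hc, rfl⟩ e
    rcases d.invol c hc (hf (by rw [map_mul, e, map_one])) with rfl | rfl
    · exact Or.inl f.map_one
    · exact Or.inr rfl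
  central := by
    rintro _ ⟨c, hc, rfl⟩ e
    have hcc : ∀ x ∈ Q, c * x = x * c := fun x hx =>
      hf (by rw [map_mul, map_mul]; exact e _ ⟨x, hx, rfl⟩)
    rcases d.central c hc hcc with rfl | rfl
    · exact Or.inl f.map_one
    · exact Or.inr rfl

variable {F : Type*} [Field F] [Fintype F]

theorem sl_neg_one_ne_one (h2 : (2 : F) ≠ 0) : (-1 : SL(2, F)) ≠ 1 := by
  intro h
  have h' := congrArg (fun g : SL(2, F) => (g : Matrix (Fin 2) (Fin 2) F) 0 0) h
  simp at h'
  exact h2 (by linear_combination -h')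

theorem sl_sq_eq_neg_one_of_trace {c : SL(2, F)} (hc : c 0 0 + c 1 1 = 0) : c * c = -1 := by
  have hd := Linear.slTwo_det c
  have h11 : c 1 1 = -c 0 0 := by linear_combination hc
  rw [h11] at hd
  apply Subtype.ext
  change (c : Matrix (Fin 2) (Fin 2) F) * (c : Matrix (Fin 2) (Fin 2) F)
    = -(1 : Matrix (Fin 2) (Fin 2) F)
  ext i j
  fin_cases i <;> fin_cases j <;> simp [Matrix.mul_apply, Fin.sum_univ_two, h11]
  · linear_combination -hd
  · ring
  · ring
  · linear_combination -hd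

/-- The Sylow 2-subgroups of `SL₂(q)` are not commutative, for odd `q`. -/
theorem sl_exists_noncomm (hF : Odd (Fintype.card F)) (Q : Sylow 2 SL(2, F)) :
    ∃ a ∈ (Q : Subgroup SL(2, F)), ∃ b ∈ (Q : Subgroup SL(2, F)), a * b ≠ b * a := by
  haveI : Fact (Nat.Prime 2) := ⟨Nat.prime_two⟩
  have h2 : (2 : F) ≠ 0 := Linear.two_ne_zero_of_odd_card hF
  obtain ⟨a, b, hab⟩ := exists_sq_add_sq hF (-1)
  let W : SL(2, F) := ⟨!![a, b; b, -a], by rw [Matrix.det_fin_two]; simp; linear_combination -hab⟩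
  have hW : W * W = -1 := sl_sq_eq_neg_one_of_trace (by simp [W])
  have hJW : W * slJ * W⁻¹ = slJ⁻¹ := by
    have hJ : (slJ : SL(2, F))⁻¹ = -slJ :=
      inv_eq_of_mul_eq_one_right (by rw [mul_neg, slJ_mul_self, neg_neg])
    rw [hJ, mul_inv_eq_iff_eq_mul]
    apply Subtype.ext
    change !![a, b; b, -a] * !![(0 : F), -1; 1, 0]
      = -!![(0 : F), -1; 1, 0] * !![a, b; b, -a]
    ext i j
    fin_cases i <;> fin_cases j <;> simp [Matrix.mul_apply, Fin.sum_univ_two]
  have hne : W * slJ ≠ slJ * W := by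
    intro e
    rw [e, mul_inv_cancel_right] at hJW
    have h3 : (slJ : SL(2, F)) * slJ = 1 := by
      conv_lhs => arg 1; rw [hJW]
      exact inv_mul_cancel _
    rw [slJ_mul_self] at h3
    exact sl_neg_one_ne_one h2 h3
  have hp : ∀ g : SL(2, F), g * g = -1 → IsPGroup 2 (Subgroup.zpowers g) := by
    intro g hg
    have h4 : g ^ 2 ^ 2 = 1 := by
      rw [show (2 : ℕ) ^ 2 = 2 * 2 by norm_num, pow_mul, pow_two g, hg]; simp
    rintro ⟨x, k, rfl⟩
    refine ⟨2, Subtype.ext ?_⟩
    simp only [SubmonoidClass.coe_pow, OneMemClass.coe_one]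
    rw [← zpow_natCast, ← _root_.zpow_mul, mul_comm, _root_.zpow_mul, zpow_natCast, h4,
      _root_.one_zpow]
  have hn : Subgroup.zpowers W ≤ Subgroup.normalizer
      ((Subgroup.zpowers (slJ : SL(2, F)) : Subgroup SL(2, F)) : Set SL(2, F)) := by
    rw [Subgroup.zpowers_le, ← Fusion.cj_eq_iff_mem_normalizer]
    show (Subgroup.zpowers (slJ : SL(2, F))).map _ = _
    rw [MonoidHom.map_zpowers]
    show Subgroup.zpowers (W * slJ * W⁻¹) = _
    rw [hJW, Subgroup.zpowers_inv]
  obtain ⟨R, hR⟩ := (IsPGroup.to_sup_of_normal_right' (hp W hW) (hp slJ slJ_mul_self) hn).exists_le_sylow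
  obtain ⟨g, hg⟩ := Fusion.exists_cj_sylow R Q
  refine ⟨g * W * g⁻¹, hg ▸ Fusion.conj_mem_cj.2 (hR (Subgroup.mem_sup_left (Subgroup.mem_zpowers _))),
    g * slJ * g⁻¹, hg ▸ Fusion.conj_mem_cj.2 (hR (Subgroup.mem_sup_right (Subgroup.mem_zpowers _))), ?_⟩
  intro e
  apply hne
  have e' : g * (W * slJ) * g⁻¹ = g * (slJ * W) * g⁻¹ := by
    calc g * (W * slJ) * g⁻¹ = g * W * g⁻¹ * (g * slJ * g⁻¹) := by group
      _ = g * slJ * g⁻¹ * (g * W * g⁻¹) := e
      _ = g * (slJ * W) * g⁻¹ := by group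
  exact mul_left_cancel (mul_right_cancel e')

/-- The data of a Sylow 2-subgroup of `SL₂(q)`. -/
theorem sl_qData (hF : Odd (Fintype.card F)) (Q : Sylow 2 SL(2, F)) :
    ∃ u h w a, QData (Q : Subgroup SL(2, F)) (-1) u h w a := by
  haveI : Fact (Nat.Prime 2) := ⟨Nat.prime_two⟩
  have h2 : (2 : F) ≠ 0 := Linear.two_ne_zero_of_odd_card hF
  have hinv : ∀ c : SL(2, F), c * c = 1 → c = 1 ∨ c = -1 := fun c hc =>
    or_iff_not_imp_left.2 fun hc1 => Subtype.ext
      ((Linear.eq_neg_one_of_mul_self h2 hc1 hc).trans (by simp))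
  -- `-1` lies in `Q`
  set Z : Subgroup SL(2, F) := Subgroup.zpowers (-1) with hZdef
  haveI hZn : Z.Normal := ⟨fun x hx g => by
    obtain ⟨k, rfl⟩ := hx
    dsimp only
    rw [((Commute.neg_one_right g).zpow_right k).eq, mul_inv_cancel_right]
    exact Subgroup.zpow_mem_zpowers _ _⟩
  have hZp : IsPGroup 2 Z := IsPGroup.of_card (n := 1) (by
    rw [hZdef, Nat.card_zpowers, pow_one]
    exact orderOf_eq_prime (by simp) (sl_neg_one_ne_one h2))
  have hZQ : Z ≤ (Q : Subgroup SL(2, F)) :=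
    (Q.is_maximal' (IsPGroup.to_sup_of_normal_right Q.2 hZp) le_sup_left) ▸ le_sup_right
  obtain ⟨c₀, hc₀, d₀, hd₀, hne₀⟩ := sl_exists_noncomm hF Q
  have hmemZ : ∀ c, c ∈ Z → c = 1 ∨ c = -1 := by
    rintro c ⟨k, rfl⟩
    rcases Int.even_or_odd k with ⟨i, rfl⟩ | ⟨i, rfl⟩
    · left; dsimp only; rw [_root_.zpow_add, ← (Commute.refl (-1 : SL(2, F))).mul_zpow]; simp
    · right; dsimp only; rw [_root_.zpow_add_one, _root_.zpow_mul, zpow_two]; simp
  -- an element with square `-1` generating a normal subgroup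
  set N := Z.subgroupOf (Q : Subgroup SL(2, F)) with hN
  haveI : Nontrivial ((Q : Subgroup SL(2, F)) ⧸ N) := by
    refine QuotientGroup.nontrivial_iff.2 fun e => hne₀ ?_
    have hc : (⟨c₀, hc₀⟩ : (Q : Subgroup SL(2, F))) ∈ N := by rw [e]; trivial
    rcases hmemZ c₀ hc with rfl | rfl
    · simp
    · simp
  haveI := (Q.2.to_quotient N).center_nontrivial
  have hd : 2 ∣ Nat.card (Subgroup.center ((Q : Subgroup SL(2, F)) ⧸ N)) := by
    obtain ⟨m, hm, hm'⟩ :=
      ((Q.2.to_quotient N).to_subgroup (Subgroup.center _)).nontrivial_iff_card.1 inferInstance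
    exact hm' ▸ dvd_pow_self 2 hm.ne'
  obtain ⟨z, hz⟩ := exists_prime_orderOf_dvd_card' 2 hd
  obtain ⟨⟨u, huQ⟩, hu⟩ := QuotientGroup.mk'_surjective N
    (z : (Q : Subgroup SL(2, F)) ⧸ N)
  have huN : u ∉ Z := by
    intro h
    have : (z : (Q : Subgroup SL(2, F)) ⧸ N) = 1 := hu ▸ (QuotientGroup.eq_one_iff _).2 h
    rw [← orderOf_submonoid, this, orderOf_one] at hz
    omega
  have husq : u * u ∈ Z := by
    have h1 : (z : (Q : Subgroup SL(2, F)) ⧸ N) * z = 1 := by
      have := congrArg Subtype.val (pow_orderOf_eq_one z)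
      rw [hz] at this
      simpa [pow_two] using this
    rw [← hu, ← map_mul] at h1
    have h3 := (QuotientGroup.eq_one_iff (N := N) _).1 h1
    exact h3
  have hu1 : u * u = -1 := by
    refine (hmemZ _ husq).resolve_left fun e => huN ?_
    rcases hinv u e with rfl | rfl
    · exact Z.one_mem
    · exact Subgroup.mem_zpowers _
  have hus : ¬ SLScal u := by
    intro hs
    rcases slScal_cases hs with rfl | rfl <;> simp at hu1 <;>
      exact sl_neg_one_ne_one h2 hu1.symm
  have hsign : ∀ c ∈ (Q : Subgroup SL(2, F)), c * u = u * c ∨ c * u = u * (-1) * c := by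
    intro c hc
    have h1 := Subgroup.mem_center_iff.1 z.2 (QuotientGroup.mk' N ⟨c, hc⟩)
    rw [← hu, ← map_mul, ← map_mul, QuotientGroup.mk'_apply, QuotientGroup.mk'_apply,
      QuotientGroup.eq] at h1
    rcases hmemZ _ h1 with e | e
    · left
      change (c * u)⁻¹ * (u * c) = 1 at e
      exact inv_mul_eq_one.1 e
    · right
      change (c * u)⁻¹ * (u * c) = -1 at e
      rw [inv_mul_eq_iff_eq_mul] at e
      rw [mul_neg_one, neg_mul, e]
      simp
  -- the centralizer of `u` in `Q` is cyclic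
  set K : Subgroup SL(2, F) := (Q : Subgroup SL(2, F)) ⊓ Subgroup.centralizer ({u} : Set SL(2, F))
    with hK
  haveI hKc : IsMulCommutative K := ⟨⟨fun x y => Subtype.ext (sl_commute_of_commute hus
    (Subgroup.mem_centralizer_singleton_iff.1 x.2.2)
    (Subgroup.mem_centralizer_singleton_iff.1 y.2.2))⟩⟩
  have hKp : IsPGroup 2 K := Q.2.to_le inf_le_left
  haveI hKcy : IsCyclic K := by
    refine PGroup.isCyclic_of_card_omega_le hKp hKc ?_
    by_contra! hlt
    classical
    let f : {x : K // x ^ 2 = 1} → Fin 2 := fun x => if ((x : K) : SL(2, F)) = 1 then 0 else 1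
    have hf : Function.Injective f := by
      intro x y hxy
      have hx := hinv ((x : K) : SL(2, F))
        (by rw [← pow_two]; simpa using congrArg Subtype.val x.2)
      have hy := hinv ((y : K) : SL(2, F))
        (by rw [← pow_two]; simpa using congrArg Subtype.val y.2)
      apply Subtype.ext; apply Subtype.ext
      have h1 := sl_neg_one_ne_one (F := F) h2
      rcases hx with hx | hx <;> rcases hy with hy | hy
      · rw [hx, hy]
      · simp only [f] at hxy
        rw [if_pos hx, if_neg (fun e => h1 (hy.symm.trans e))] at hxy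
        exact absurd hxy (by decide)
      · simp only [f] at hxy
        rw [if_neg (fun e => h1 (hx.symm.trans e)), if_pos hy] at hxy
        exact absurd hxy (by decide)
      · rw [hx, hy]
    have := Nat.card_le_card_of_injective f hf
    rw [Nat.card_fin] at this
    omega
  obtain ⟨⟨h, hh⟩, hgen⟩ := IsCyclic.exists_generator (α := K)
  obtain ⟨a, ha⟩ := IsPGroup.iff_card.1 hKp
  have hho : orderOf h = 2 ^ a := by
    rw [← ha, ← orderOf_eq_card_of_forall_mem_zpowers hgen, ← orderOf_submonoid]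
  have huK : u ∈ K := ⟨huQ, Subgroup.mem_centralizer_singleton_iff.2 rfl⟩
  have ha2 : 2 ≤ a := by
    have h1 : orderOf u = 2 ^ 2 := orderOf_eq_prime_pow (by
      rw [pow_one, pow_two, hu1]; exact sl_neg_one_ne_one h2) (by
      rw [pow_succ, pow_one, pow_mul, pow_two u, hu1]; simp)
    have h3 : orderOf u ∣ Nat.card K := Subgroup.orderOf_dvd_natCard K huK
    rw [h1, ha, Nat.pow_dvd_pow_iff_le_right one_lt_two] at h3
    exact h3
  have htop : h ^ 2 ^ (a - 1) = -1 := by
    refine (hinv _ ?_).resolve_left fun e => ?_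
    · rw [← pow_add, ← two_mul, ← pow_succ', show a - 1 + 1 = a by omega, ← hho, pow_orderOf_eq_one]
    · have := orderOf_dvd_of_pow_eq_one e
      rw [hho, Nat.pow_dvd_pow_iff_le_right one_lt_two] at this
      omega
  obtain ⟨w, hw, hwu⟩ : ∃ w ∈ (Q : Subgroup SL(2, F)), w * u ≠ u * w := by
    by_contra! hall
    exact hne₀ (sl_commute_of_commute hus (hall c₀ hc₀) (hall d₀ hd₀))
  refine ⟨u, h, w, a, ⟨ha2, hZQ (Subgroup.mem_zpowers _), huQ, hh.1, hw, hu1, hsign, ?_, ?_,
    Subgroup.mem_centralizer_singleton_iff.1 hh.2, htop, hwu, fun c _ => hinv c, ?_⟩⟩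
  · intro c hc hne
    have e := (hsign c hc).resolve_left hne
    rw [mul_neg_one, neg_mul] at e
    exact sl_sq_eq_neg_one_of_trace (trace_zero_of_anticommute h2 (g := u) (by rw [e, neg_neg]))
  · intro c hc hcu
    have := pow_card_eq_one' (G := K)
      (x := ⟨c, hc, Subgroup.mem_centralizer_singleton_iff.2 hcu⟩)
    rw [ha] at this
    simpa using congrArg Subtype.val this
  · intro c hc hall
    by_cases hs : SLScal c
    · exact slScal_cases hs
    · exact absurd (sl_commute_of_commute hs (hall w hw).symm (hall u huQ).symm) hwu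

end Cfsg.Agent.CharTwo
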