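import Cfsg.Agent.CharTwo.RudvalisTwoGroup

/-!
# The centre of the large abelian-by-abelian subgroup
-/

set_option autoImplicit false

namespace Cfsg.Agent.CharTwo.Rudvalis

open Subgroup
open scoped commutatorElement

/-- The nontrivial element of `A2`. -/
abbrev om : A2 := Multiplicative.ofAdd 1

/-- The possible cocycles. -/
def cfun (k s : A2) : DihedralGroup 4 → A2
  | .r i => if i = 1 ∨ i = 3 then k else 1
  | .sr i => if i = 0 ∨ i = 2 then s else 1

open DihedralGroup in
/-- Five vectors spanning a totally singular subspace. -/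
def wit (d k s : A2) : Fin 5 → List (DihedralGroup 4) :=
  if d = 1 then
    if k = 1 then
      if s = 1 then ![[r 0], [r 1], [r 2], [r 3], [sr 0]]
      else ![[r 0], [r 1], [r 2], [r 3], [sr 0, sr 2]]
    else
      if s = 1 then ![[r 0], [r 2], [sr 0], [sr 2], [r 1, r 3]]
      else ![[r 0], [r 2], [sr 1], [sr 3], [r 1, r 3]]
  else
    if k = 1 then
      if s = 1 then ![[r 0, r 1], [r 0, r 2], [r 0, r 3], [r 0, sr 0], [r 0, sr 1]]
      else ![[r 0, r 1], [r 0, r 2], [r 0, r 3], [sr 0, sr 1], [sr 0, sr 2]]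
    else
      if s = 1 then ![[r 0, r 2], [r 1, r 3], [r 0, sr 0], [r 1, sr 1], [r 0, sr 2]]
      else ![[r 0, r 2], [r 1, r 3], [r 1, sr 0], [r 0, sr 1], [r 1, sr 2]]

/-- Value of the quadratic form on a list. -/
def qrec (c : DihedralGroup 4 → A2) (d : A2) : List (DihedralGroup 4) → A2
  | [] => 1
  | g :: l => d * (l.map fun h => c (g⁻¹ * h)).prod * qrec c d l

/-- Value of the bilinear form on two lists. -/
def bsum (c : DihedralGroup 4 → A2) (l m : List (DihedralGroup 4)) : A2 :=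
  (l.map fun g => (m.map fun h => c (g⁻¹ * h)).prod).prod

/-- Coordinates of a list. -/
def evl (l : List (DihedralGroup 4)) (q : DihedralGroup 4) : A2 :=
  (l.map fun g => if q = g⁻¹ then om else 1).prod

theorem wit_singular : ∀ d k s : A2, ∀ i : Fin 5, qrec (cfun k s) d (wit d k s i) = 1 ∧
    ∀ j : Fin 5, bsum (cfun k s) (wit d k s i) (wit d k s j) = 1 := by
  decide +kernel

theorem wit_indep : ∀ d k s : A2, ∀ c : Fin 5 → A2,
    (∀ q, (List.ofFn fun i => if c i = 1 then 1 else evl (wit d k s i) q).prod = 1) → c = 1 := by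
  decide +kernel

theorem D4_list : ∀ q : DihedralGroup 4, q = .r 0 ∨ q = .r 1 ∨ q = .r 2 ∨ q = .r 3 ∨ q = .sr 0 ∨
    q = .sr 1 ∨ q = .sr 2 ∨ q = .sr 3 := by decide

theorem evl_all : ∀ q : DihedralGroup 4,
    evl [.r 0, .r 1, .r 2, .r 3, .sr 0, .sr 1, .sr 2, .sr 3] q = om := by decide +kernel

theorem D4_sq : ∀ q : DihedralGroup 4, q = .r 2 ∨ q = .sr 1 ∨ q = .sr 3 → q * q = 1 := by decide

theorem cancel_sum : ∀ k x y : A2, k * (k * (x * y)) = 1 → x = y := by decide

variable {T : Type*} [Group T] [Finite T] {W : Subgroup T} (h : Hyp W)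
include h

/-- Only `Z3` is killed by all conjugates of `μ`. -/
theorem Hyp.mu_kernel [W.Normal] {v : T} (hv : v ∈ Z T 4) (hv' : v ∉ Z T 3) (μ : ↥W →* A2)
    (hμ : ∀ x : ↥W, (x : T) ∈ Z T 3 → μ x = 1) (hμv : μ ⟨v, h.Z4_le_W hv⟩ ≠ 1) {w : ↥W}
    (hw : ∀ g : T, μ (MulAut.conjNormal g w) = 1) : (w : T) ∈ Z T 3 := by
  let N : Subgroup ↥W :=
    { carrier := {w | ∀ g : T, μ (MulAut.conjNormal g w) = 1}
      one_mem' := fun g => by simp
      mul_mem' := fun {a b} ha hb g => by rw [map_mul, map_mul, ha g, hb g, one_mul]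
      inv_mem' := fun {a} ha g => by rw [map_inv, map_inv, ha g, inv_one] }
  have hN : (N.map W.subtype).Normal := ⟨by
    rintro _ ⟨a, ha, rfl⟩ g
    refine ⟨MulAut.conjNormal g a, fun g' => ?_, by simp⟩
    rw [← MulAut.mul_apply, ← map_mul]
    exact ha _⟩
  have hwN : (w : T) ∈ N.map W.subtype := ⟨w, hw, rfl⟩
  rcases h.chain hN (i := 4) le_rfl with h1 | h1
  · obtain ⟨a, ha, hav⟩ := h1 hv
    refine absurd ?_ hμv
    have := ha 1
    rw [map_one, MulAut.one_apply] at this
    rw [show (⟨v, h.Z4_le_W hv⟩ : ↥W) = a from Subtype.ext hav.symm]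
    exact this
  · by_contra hw'
    have h2 := h.two_step (by norm_num) (h1 hwN) hw' hv hv'
    refine hμv ?_
    have e := hμ ⟨v * (w : T)⁻¹, mul_mem (h.Z4_le_W hv) (inv_mem w.2)⟩ h2
    have hw1 := hw 1
    rw [map_one, MulAut.one_apply] at hw1
    rw [show (⟨v, h.Z4_le_W hv⟩ : ↥W) = ⟨v * (w : T)⁻¹, mul_mem (h.Z4_le_W hv) (inv_mem w.2)⟩ * w from
      Subtype.ext (by simp), map_mul, e, hw1, one_mul]

/-- The centre of `W` is `Z3`. -/
theorem Hyp.center_le {x : T} (hx : x ∈ W) (hxc : ∀ y ∈ W, x * y = y * x) : x ∈ Z T 3 := by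
  classical
  haveI hWn := h.normal_W
  by_contra hx3
  let C : Subgroup T := W ⊓ centralizer (W : Set T)
  have hxC : x ∈ C := ⟨hx, fun y hy => (hxc y hy).symm⟩
  obtain ⟨v, hv, hv'⟩ := h.exists_gen (i := 3) (by norm_num)
  have hvc : ∀ y ∈ W, v * y = y * v := by
    have hvC : v ∈ C := by
      have hCn : C.Normal := inferInstance
      rcases h.chain hCn (i := 4) le_rfl with h1 | h1
      · exact h1 hv
      · have h2 := h.two_step (by norm_num) (h1 hxC) hx3 hv hv'
        have hC3 : v * x⁻¹ ∈ C := ⟨h.Z3_le_W h2, fun y hy => h.comm_W hy h2⟩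
        simpa using mul_mem hC3 hxC
    exact fun y hy => (hvC.2 y hy).symm
  obtain ⟨μ, hμ, hμv⟩ := h.exists_mu (h.Z4_le_W hv) (by rw [h.Fr_eq]; exact hv')
  have hμ' : ∀ y : ↥W, (y : T) ∈ Z T 3 → μ y = 1 := fun y hy => hμ y (h.Fr_eq ▸ hy)
  have hcomm3 : ∀ a ∈ W, ∀ b ∈ W, ⁅a, b⁆ ∈ Z T 3 := fun a ha b hb => h.Fr_eq ▸ h.comm_mem_Fr ha hb
  have hsq3 : ∀ a ∈ W, a * a ∈ Z T 3 := fun a ha => h.Fr_eq ▸ h.sq_mem_Fr ha
  obtain ⟨π, hπ, hπs, hmove⟩ := h.exists_proj
  choose sg hsg using hπs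
  let ε : ↥W →* (DihedralGroup 4 → A2) :=
    MonoidHom.mk' (fun w q => μ (MulAut.conjNormal (sg q) w)) fun a b => funext fun q => by
      simp [map_mul]
  have hεg : ∀ (g : T) (w : ↥W), μ (MulAut.conjNormal g w) = ε w (π g) := by
    intro g w
    have hu : (sg (π g))⁻¹ * g ∈ W := by
      rw [← hπ, MonoidHom.mem_ker, map_mul, map_inv, hsg, inv_mul_cancel]
    obtain ⟨u, hu'⟩ : ∃ u : ↥W, g = sg (π g) * u := ⟨⟨_, hu⟩, (mul_inv_cancel_left _ g).symm⟩
    conv_lhs => rw [hu', map_mul, MulAut.mul_apply,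
      show MulAut.conjNormal (u : T) w = u * w * u⁻¹ from Subtype.ext (by simp),
      map_mul, map_mul, map_mul, map_mul, map_inv, map_inv]
    show μ _ * μ (MulAut.conjNormal (sg (π g)) w) * (μ _)⁻¹ = _
    rw [mul_right_comm, mul_inv_cancel, one_mul]
    rfl
  have hker : ∀ w : ↥W, ε w = 1 → (w : T) ∈ Z T 3 := fun w hw =>
    h.mu_kernel hv hv' μ hμ' hμv fun g => by rw [hεg, hw]; rfl
  have hkerεle : ε.ker ≤ (Z T 3).subgroupOf W := fun w hw => hker w hw
  have hεsurj : Function.Surjective ε := by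
    rw [← MonoidHom.range_eq_top]
    refine eq_top_of_le_card _ ?_
    have h1 : Nat.card ↥W = Nat.card ε.ker * Nat.card ε.range := by rw [← index_ker, card_mul_index]
    have h2 : Nat.card ε.ker ≤ 8 := by
      refine (card_le_of_le hkerεle).trans ?_
      rw [Nat.card_congr (subgroupOfEquivOfLe h.Z3_le_W).toEquiv, h.card_Z (by norm_num)]
      norm_num
    rw [h.card_W] at h1
    have h3 : Nat.card (DihedralGroup 4 → A2) = 256 := by
      rw [Nat.card_fun, Nat.card_eq_fintype_card (α := DihedralGroup 4), DihedralGroup.card]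
      simp
    have h4 : 2 ^ 11 ≤ 8 * Nat.card ε.range := h1 ▸ Nat.mul_le_mul_right _ h2
    rw [h3]
    omega
  have hεv : ε ⟨v, h.Z4_le_W hv⟩ = fun _ => om := by
    funext q
    show μ _ = om
    have hd := hμ' (MulAut.conjNormal (sg q) ⟨v, h.Z4_le_W hv⟩ * ⟨v, h.Z4_le_W hv⟩⁻¹) (by
      simpa using conj_div_mem hv (sg q))
    rw [map_mul, map_inv, mul_inv_eq_one] at hd
    rw [hd]
    exact A2_facts.2.1 _ _ hμv A2_facts.2.2
  -- the linear functional on `Z3`
  let lam : T → A2 := fun y => if y ∈ Z T 2 then 1 else om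
  have hlam : ∀ a ∈ Z T 3, ∀ b ∈ Z T 3, lam (a * b) = lam a * lam b := by
    intro a ha b hb
    have hiff := mul_mem_iff_of_index_two (H := (Z T 2).subgroupOf (Z T 3)) (by
      have h1 := relIndex_mul_relIndex ⊥ (Z T 2) (Z T 3) bot_le (Z_le_succ 2)
      rw [relIndex_bot_left, relIndex_bot_left, h.card_Z (by norm_num), h.card_Z (by norm_num)] at h1
      show (Z T 2).relIndex (Z T 3) = 2
      omega) (a := ⟨a, ha⟩) (b := ⟨b, hb⟩)
    simp only [mem_subgroupOf, Subgroup.coe_mul] at hiff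
    by_cases h1 : a ∈ Z T 2 <;> by_cases h2 : b ∈ Z T 2 <;>
      simp [lam, h1, h2, hiff, A2_facts.1 om]
  have hlam_conj : ∀ g : T, ∀ a, lam (g * a * g⁻¹) = lam a := by
    intro g a
    have : g * a * g⁻¹ ∈ Z T 2 ↔ a ∈ Z T 2 := ⟨fun e => by
      simpa [mul_assoc] using (inferInstance : (Z T 2).Normal).conj_mem _ e g⁻¹,
      fun e => (inferInstance : (Z T 2).Normal).conj_mem _ e g⟩
    simp only [lam, this]
  have hlam1 : lam 1 = 1 := if_pos (one_mem _)
  -- the bilinear form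
  let b : T → T → A2 := fun a c => lam ⁅a, c⁆
  have bsymm : ∀ a ∈ W, ∀ c ∈ W, b a c = b c a := by
    intro a ha c hc
    show lam _ = lam _
    rw [← commutatorElement_inv c a, inv_eq_of_mul_eq_one_right (h.Z3_sq _ (hcomm3 c hc a ha))]
  have bmul : ∀ a ∈ W, ∀ a' ∈ W, ∀ c ∈ W, b (a * a') c = b a c * b a' c := by
    intro a ha a' ha' c hc
    show lam _ = _
    have e : ⁅a * a', c⁆ = ⁅a', c⁆ * ⁅a, c⁆ := by
      calc ⁅a * a', c⁆ = (a * ⁅a', c⁆ * a⁻¹) * ⁅a, c⁆ := by simp only [commutatorElement_def]; group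
        _ = _ := by rw [h.comm_W ha (hcomm3 a' ha' c hc), mul_inv_cancel_right]
    rw [e, hlam _ (hcomm3 a' ha' c hc) _ (hcomm3 a ha c hc), mul_comm]
  have b3 : ∀ z ∈ Z T 3, ∀ a ∈ W, b z a = 1 := fun z hz a ha => by
    show lam _ = 1
    rw [commutatorElement_eq_one_iff_mul_comm.2 (h.comm_W ha hz).symm, hlam1]
  have bself : ∀ a, b a a = 1 := fun a => by show lam _ = 1; rw [commutatorElement_self, hlam1]
  have bone : ∀ a ∈ W, b 1 a = 1 := fun a ha => b3 1 (one_mem _) a ha
  have binv : ∀ a ∈ W, ∀ c ∈ W, b a⁻¹ c = b a c := fun a ha c hc => by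
    have h1 := bmul a ha a⁻¹ (inv_mem ha) c hc
    rw [mul_inv_cancel, bone c hc] at h1
    calc b a⁻¹ c = (b a c * b a c) * b a⁻¹ c := by rw [A2_facts.1, one_mul]
      _ = b a c := by rw [mul_assoc, ← h1, mul_one]
  have bcongr : ∀ a : ↥W, ∀ a' : ↥W, ε a = ε a' → ∀ c ∈ W, b a c = b a' c := by
    intro a a' e c hc
    have h1 : ((a'⁻¹ * a : ↥W) : T) ∈ Z T 3 := hker _ (by rw [map_mul, map_inv, e, inv_mul_cancel])
    have h2 := bmul a' a'.2 _ (h.Z3_le_W h1) c hc
    rw [b3 _ h1 c hc, mul_one, Subgroup.coe_mul, Subgroup.coe_inv, mul_inv_cancel_left] at h2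
    exact h2
  have bconj : ∀ g a c : T, b (g * a * g⁻¹) (g * c * g⁻¹) = b a c := fun g a c => by
    show lam _ = lam _
    rw [← hlam_conj g ⁅a, c⁆]
    congr 1
    simp only [commutatorElement_def]; group
  have sqmul : ∀ a ∈ W, ∀ c ∈ W, lam (a * c * (a * c)) = lam (a * a) * lam (c * c) * b c a := by
    intro a ha c hc
    have e : a * c * (a * c) = ⁅c, a⁆ * ((a * a) * (c * c)) := by
      calc a * c * (a * c) = (a * ⁅c, a⁆ * a⁻¹) * ((a * a) * (c * c)) := by
            simp only [commutatorElement_def]; group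
        _ = _ := by rw [h.comm_W ha (hcomm3 c hc a ha), mul_inv_cancel_right]
    rw [e, hlam _ (hcomm3 c hc a ha) _ (mul_mem (hsq3 a ha) (hsq3 c hc)),
      hlam _ (hsq3 a ha) _ (hsq3 c hc), mul_comm]
  -- the basis
  obtain ⟨u, hu⟩ := hεsurj fun q => if q = 1 then om else 1
  let uc : DihedralGroup 4 → ↥W := fun g => MulAut.conjNormal (sg g) u
  have huc : ∀ g q, ε (uc g) q = if q = g⁻¹ then om else 1 := by
    intro g q
    show μ (MulAut.conjNormal (sg q) (MulAut.conjNormal (sg g) u)) = _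
    rw [← MulAut.mul_apply, ← map_mul, hεg, map_mul, hsg, hsg, hu]
    simp only [mul_eq_one_iff_eq_inv]
  have huT : ∀ g, ((uc g : ↥W) : T) = sg g * u * (sg g)⁻¹ := fun g => MulAut.conjNormal_apply _ _
  let c : DihedralGroup 4 → A2 := fun g => b (u : T) (uc g : T)
  have hbuc : ∀ g k, b (uc g : T) (uc k : T) = c (g⁻¹ * k) := by
    intro g k
    show _ = b (u : T) _
    have e : ε (MulAut.conjNormal ((sg g)⁻¹ * sg k) u) = ε (uc (g⁻¹ * k)) := by
      funext q
      show μ (MulAut.conjNormal (sg q) (MulAut.conjNormal _ u)) =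
        μ (MulAut.conjNormal (sg q) (MulAut.conjNormal (sg (g⁻¹ * k)) u))
      rw [← MulAut.mul_apply, ← map_mul, ← MulAut.mul_apply, ← map_mul, hεg, hεg]
      simp [map_mul, hsg]
    have h2 := bcongr _ _ e (u : T) u.2
    rw [bsymm _ u.2 _ (uc _).2, ← h2, bsymm _ (MulAut.conjNormal _ u).2 _ u.2,
      ← bconj (sg g) (u : T) _, huT g, huT k, MulAut.conjNormal_apply]
    congr 1
    group
  have huc1 : ε (uc 1) = ε u := funext fun q => by rw [huc, hu, inv_one]
  have hc_one : c 1 = 1 := by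
    show b (u : T) _ = 1
    rw [bsymm _ u.2 _ (uc 1).2, bcongr _ _ huc1 (u : T) u.2, bself]
  have hc_inv : ∀ g, c g⁻¹ = c g := by
    intro g
    have h1 := hbuc g 1
    rw [mul_one] at h1
    rw [← h1, bsymm _ (uc g).2 _ (uc 1).2, bcongr _ _ huc1 _ (uc g).2]
  have hc_inv0 : ∀ g, g = DihedralGroup.r 2 ∨ g = .sr 1 ∨ g = .sr 3 → c g = 1 := by
    intro g hg
    show lam ⁅(u : T), (uc g : T)⁆ = 1
    have hzW := hcomm3 _ u.2 _ (uc g).2
    refine if_pos (by_contra fun hz2 => hmove (sg g) (by rw [hsg]; exact hg) _ hzW hz2 ?_)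
    have hh : sg g * sg g ∈ W := by
      rw [← hπ, MonoidHom.mem_ker, map_mul, hsg, D4_sq g hg]
    have hz' : ⁅sg g * sg g, (u : T)⁆ ∈ Z T 3 := hcomm3 _ hh _ u.2
    have h1 : sg g * ⁅(u : T), (uc g : T)⁆ * (sg g)⁻¹ =
        ⁅(uc g : T), ⁅sg g * sg g, (u : T)⁆ * u⁆ := by
      rw [huT]; simp only [commutatorElement_def]; group
    have h2 : ⁅(uc g : T), ⁅sg g * sg g, (u : T)⁆ * u⁆ = ⁅(uc g : T), (u : T)⁆ := by
      have e1 : (uc g : T) * ⁅sg g * sg g, (u : T)⁆ = ⁅sg g * sg g, (u : T)⁆ * (uc g : T) :=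
        h.comm_W (uc g).2 hz'
      calc ⁅(uc g : T), ⁅sg g * sg g, (u : T)⁆ * u⁆
          = ((uc g : T) * ⁅sg g * sg g, (u : T)⁆ * (uc g : T)⁻¹) *
              (⁅(uc g : T), (u : T)⁆ * ⁅sg g * sg g, (u : T)⁆⁻¹) := by
            simp only [commutatorElement_def]; group
        _ = _ := by
            rw [e1, mul_inv_cancel_right, ← mul_assoc, h.Z3_comm hz' (hcomm3 _ (uc g).2 _ u.2),
              mul_inv_cancel_right]
    rw [h1, h2, ← commutatorElement_inv]
    exact inv_eq_of_mul_eq_one_right (h.Z3_sq _ hzW)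
  let L : List (DihedralGroup 4) → ↥W := fun l => (l.map uc).prod
  have hbL : ∀ l (a : ↥W), b (L l : T) a = (l.map fun g => b (uc g : T) a).prod := by
    intro l a
    induction l with
    | nil => exact bone a a.2
    | cons g l ih =>
      show b ((uc g * L l : ↥W) : T) a = _
      rw [Subgroup.coe_mul, bmul _ (uc g).2 _ (L l).2 _ a.2, ih]
      simp
  have hbLL : ∀ l m, b (L l : T) (L m : T) = bsum c l m := by
    intro l m
    rw [hbL]
    show _ = (l.map _).prod
    congr 1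
    refine List.map_congr_left fun g _ => ?_
    rw [bsymm _ (uc g).2 _ (L m).2, hbL]
    congr 1
    refine List.map_congr_left fun k _ => ?_
    rw [bsymm _ (uc k).2 _ (uc g).2, hbuc]
  set d := lam ((u : T) * u) with hd
  have hdg : ∀ g, lam ((uc g : T) * (uc g : T)) = d := fun g => by
    rw [huT, conj_mul, hlam_conj]
  have hQL : ∀ l, lam ((L l : T) * (L l : T)) = qrec c d l := by
    intro l
    induction l with
    | nil => show lam (((1 : ↥W) : T) * ((1 : ↥W) : T)) = 1; simp [hlam1]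
    | cons g l ih =>
      show lam (((uc g * L l : ↥W) : T) * ((uc g * L l : ↥W) : T)) = _
      rw [Subgroup.coe_mul, sqmul _ (uc g).2 _ (L l).2, hdg, ih, hbL]
      show d * qrec c d l * _ = d * _ * qrec c d l
      rw [mul_right_comm]
      congr 2
      congr 1
      refine List.map_congr_left fun k _ => ?_
      rw [bsymm _ (uc k).2 _ (uc g).2, hbuc]
  have hεL : ∀ l q, ε (L l) q = evl l q := by
    intro l q
    induction l with
    | nil => show ε 1 q = 1; rw [map_one]; rfl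
    | cons g l ih =>
      show ε (uc g * L l) q = _
      rw [map_mul, Pi.mul_apply, huc, ih]
      simp [evl]
  -- the radical
  have hrad : c (DihedralGroup.sr 0) = c (DihedralGroup.sr 2) := by
    let l8 : List (DihedralGroup 4) := [.r 0, .r 1, .r 2, .r 3, .sr 0, .sr 1, .sr 2, .sr 3]
    have e : ε (L l8) = ε ⟨v, h.Z4_le_W hv⟩ := funext fun q => by rw [hεL, hεv]; exact evl_all q
    have h1 := bcongr _ _ e (u : T) u.2
    rw [show b v (u : T) = 1 by
      show lam _ = 1
      rw [commutatorElement_eq_one_iff_mul_comm.2 (hvc _ u.2), hlam1], hbL] at h1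
    have h2 : ∀ g, b (uc g : T) (u : T) = c g := fun g => bsymm _ (uc g).2 _ u.2
    simp only [l8, h2, List.map_cons, List.map_nil, List.prod_cons, List.prod_nil, mul_one,
      show DihedralGroup.r (0 : ZMod 4) = 1 from rfl, hc_one, one_mul,
      hc_inv0 (.r 2) (Or.inl rfl), hc_inv0 (.sr 1) (Or.inr (Or.inl rfl)),
      hc_inv0 (.sr 3) (Or.inr (Or.inr rfl))] at h1
    rw [show c (.r 3) = c (.r 1) from hc_inv (DihedralGroup.r 1)] at h1
    exact cancel_sum _ _ _ h1
  have hcfun : c = cfun (c (.r 1)) (c (.sr 0)) := by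
    funext g
    rcases D4_list g with rfl | rfl | rfl | rfl | rfl | rfl | rfl | rfl
    · exact hc_one.trans rfl
    · rfl
    · exact (hc_inv0 _ (Or.inl rfl)).trans rfl
    · exact (hc_inv (DihedralGroup.r 1)).trans rfl
    · rfl
    · exact (hc_inv0 _ (Or.inr (Or.inl rfl))).trans rfl
    · exact hrad.symm.trans rfl
    · exact (hc_inv0 _ (Or.inr (Or.inr rfl))).trans rfl
  obtain ⟨k, hk⟩ : ∃ k, k = c (.r 1) := ⟨_, rfl⟩
  obtain ⟨s, hs⟩ : ∃ s, s = c (.sr 0) := ⟨_, rfl⟩
  rw [← hk, ← hs] at hcfun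
  let V : Fin 5 → ↥W := fun i => L (wit d k s i)
  have hVsq : ∀ i, lam ((V i : T) * (V i : T)) = 1 := fun i => by
    rw [hQL, hcfun]; exact (wit_singular d k s i).1
  have hVb : ∀ i j, b (V i : T) (V j : T) = 1 := fun i j => by
    rw [hbLL, hcfun]; exact (wit_singular d k s i).2 j
  -- the subgroup they generate with `Z3`
  set K := closure ((Z T 3 : Set T) ∪ Set.range fun i => (V i : T)) with hK
  have hKW : K ≤ W := by
    rw [hK, closure_le, Set.union_subset_iff]
    exact ⟨h.Z3_le_W, Set.range_subset_iff.2 fun i => (V i).2⟩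
  have hgen : ∀ a ∈ (Z T 3 : Set T) ∪ Set.range (fun i => (V i : T)),
      ∀ c ∈ (Z T 3 : Set T) ∪ Set.range (fun i => (V i : T)), b a c = 1 := by
    rintro a (ha | ⟨i, rfl⟩) c (hc | ⟨j, rfl⟩)
    · exact b3 a ha c (h.Z3_le_W hc)
    · exact b3 a ha _ (V j).2
    · rw [bsymm _ (V i).2 _ (h.Z3_le_W hc)]; exact b3 c hc _ (V i).2
    · exact hVb i j
  let perp : Set T → Subgroup T := fun S =>
    { carrier := {a | a ∈ W ∧ ∀ c ∈ S, c ∈ W → b a c = 1}
      one_mem' := ⟨one_mem W, fun c _ hc => bone c hc⟩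
      mul_mem' := fun {a a'} ha ha' => ⟨mul_mem ha.1 ha'.1, fun c hc hcW => by
        rw [bmul a ha.1 a' ha'.1 c hcW, ha.2 c hc hcW, ha'.2 c hc hcW, one_mul]⟩
      inv_mem' := fun {a} ha => ⟨inv_mem ha.1, fun c hc hcW => by
        rw [binv a ha.1 c hcW]; exact ha.2 c hc hcW⟩ }
  have hK1 : K ≤ perp ((Z T 3 : Set T) ∪ Set.range fun i => (V i : T)) := by
    rw [hK, closure_le]
    exact fun a ha => ⟨hKW (subset_closure ha), fun c hc _ => hgen a ha c hc⟩
  have hK2 : K ≤ perp (K : Set T) := by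
    conv_lhs => rw [hK]
    rw [closure_le]
    intro a ha
    refine ⟨hKW (subset_closure ha), fun c hc hcW => ?_⟩
    rw [bsymm a (hKW (subset_closure ha)) c hcW]
    exact (hK1 hc).2 a ha (hKW (subset_closure ha))
  let Sq : Subgroup T :=
    { carrier := {a | a ∈ K ∧ lam (a * a) = 1}
      one_mem' := ⟨one_mem K, by rw [one_mul, hlam1]⟩
      mul_mem' := fun {a a'} ha ha' => ⟨mul_mem ha.1 ha'.1, by
        rw [sqmul a (hKW ha.1) a' (hKW ha'.1), ha.2, ha'.2, (hK2 ha'.1).2 a ha.1 (hKW ha.1), one_mul,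
          one_mul]⟩
      inv_mem' := fun {a} ha => ⟨inv_mem ha.1, by
        have : a⁻¹ * a⁻¹ = a * a := by
          rw [← mul_inv_rev]; exact inv_eq_of_mul_eq_one_right (h.Z3_sq _ (hsq3 a (hKW ha.1)))
        rw [this]; exact ha.2⟩ }
  have hKSq : K ≤ Sq := by
    conv_lhs => rw [hK]
    rw [closure_le]
    rintro a (ha | ⟨i, rfl⟩)
    · exact ⟨subset_closure (Or.inl ha), by rw [h.Z3_sq a ha, hlam1]⟩
    · exact ⟨subset_closure (Or.inr ⟨i, rfl⟩), hVsq i⟩
  have hlam_mem : ∀ a, lam a = 1 → a ∈ Z T 2 := fun a ha => by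
    by_contra ha'
    simp only [lam, if_neg ha'] at ha
    exact A2_facts.2.2 ha
  have hidx : K.relIndex W ≤ 8 := by
    let ψ : ↥K →* (DihedralGroup 4 → A2) := ε.comp (inclusion hKW)
    have h1 : Nat.card ψ.ker * Nat.card ψ.range = Nat.card ↥K := by
      rw [← index_ker, card_mul_index]
    have h2 : 8 ≤ Nat.card ψ.ker := by
      have hle : (Z T 3).subgroupOf K ≤ ψ.ker := fun a ha => by
        rw [MonoidHom.mem_ker]
        funext q
        show μ (MulAut.conjNormal (sg q) (inclusion hKW a)) = 1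
        exact hμ' _ (by
          rw [MulAut.conjNormal_apply]
          exact (inferInstance : (Z T 3).Normal).conj_mem _ ha _)
      refine le_trans ?_ (card_le_of_le hle)
      rw [Nat.card_congr (subgroupOfEquivOfLe (show Z T 3 ≤ K from fun a ha => subset_closure (Or.inl ha))).toEquiv,
        h.card_Z (by norm_num)]
      norm_num
    have h3 : 32 ≤ Nat.card ψ.range := by
      let comb : (Fin 5 → A2) → ψ.range := fun e =>
        ⟨ψ (List.ofFn fun i => if e i = 1 then 1 else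
          (⟨(V i : T), subset_closure (Or.inr ⟨i, rfl⟩)⟩ : ↥K)).prod, ⟨_, rfl⟩⟩
      have hval : ∀ e q, (comb e : DihedralGroup 4 → A2) q =
          (List.ofFn fun i => if e i = 1 then 1 else evl (wit d k s i) q).prod := by
        intro e q
        show (Pi.evalMonoidHom (fun _ => A2) q).comp ψ _ = _
        rw [map_list_prod, List.map_ofFn]
        congr 2
        funext i
        simp only [Function.comp_apply]
        split_ifs
        · rw [map_one]
        · exact hεL _ q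
      have hinj : Function.Injective comb := by
        intro e e' he
        have hmul : ∀ q, (List.ofFn fun i => if (e * e') i = 1 then 1 else evl (wit d k s i) q).prod =
            (comb e : DihedralGroup 4 → A2) q * (comb e' : DihedralGroup 4 → A2) q := by
          intro q
          rw [hval, hval, List.prod_ofFn, List.prod_ofFn, List.prod_ofFn, ← Finset.prod_mul_distrib]
          refine Finset.prod_congr rfl fun n _ => ?_
          rw [Pi.mul_apply]
          generalize e n = x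
          generalize e' n = y
          generalize evl _ q = z
          revert x y z
          decide
        have h5 := wit_indep d k s (e * e') fun q => by rw [hmul, he]; exact A2_facts.1 _
        funext i
        have h6 := congrFun h5 i
        calc e i = e i * (e i * e' i) := by rw [show e i * e' i = 1 from h6, mul_one]
          _ = e' i := by rw [← mul_assoc, A2_facts.1, one_mul]
      have := Nat.card_le_card_of_injective comb hinj
      simpa [Nat.card_fun] using this
    have h4 : 256 ≤ Nat.card ↥K := by rw [← h1]; exact le_trans (by norm_num) (Nat.mul_le_mul h2 h3)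
    have h5 := relIndex_mul_relIndex ⊥ K W bot_le hKW
    rw [relIndex_bot_left, relIndex_bot_left, h.card_W] at h5
    have h6 : 256 * K.relIndex W ≤ 2 ^ 11 := h5 ▸ Nat.mul_le_mul_right _ h4
    omega
  refine h.no_square_free hKW (fun a ha => subset_closure (Or.inl ha)) hidx (Z_le_succ 2) ?_
    (fun a ha => hlam_mem _ (hKSq ha).2) fun a ha c hc => hlam_mem _ ((hK2 ha).2 c hc (hKW hc))
  have h1 := relIndex_mul_relIndex ⊥ (Z T 2) (Z T 3) bot_le (Z_le_succ 2)
  rw [relIndex_bot_left, relIndex_bot_left, h.card_Z (by norm_num), h.card_Z (by norm_num)] at h1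
  omega

end Cfsg.Agent.CharTwo.Rudvalis
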