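import Cfsg.Agent.CharTwo.RudvalisCentre
import Mathlib.GroupTheory.SchurZassenhaus
import Mathlib.GroupTheory.Sylow
import Cfsg.Prelude.Def_Transfer

/-!
# Automorphisms and conjugates for the two-group of Rudvalis type
-/

set_option autoImplicit false

namespace Cfsg.Agent.CharTwo.Rudvalis

open Subgroup
open scoped commutatorElement

theorem card_fixed_le : ∀ g : DihedralGroup 4, g ≠ 1 →
    (Finset.univ.filter fun f : DihedralGroup 4 → A2 => ∀ q, f (q * g) = f q).card ≤ 16 := by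
  decide +kernel

theorem card_fixed_r_le :
    (Finset.univ.filter fun f : DihedralGroup 4 → A2 => ∀ q, f (q * DihedralGroup.r 1) = f q).card ≤ 4 := by
  decide +kernel

theorem r_sr_comm : (DihedralGroup.r 1 : DihedralGroup 4) * DihedralGroup.sr 0 * (DihedralGroup.r 1)⁻¹ *
    (DihedralGroup.sr 0)⁻¹ ≠ 1 := by decide

variable {T : Type*} [Group T] [Finite T] {W : Subgroup T} (h : Hyp W)
include h

omit [Finite T] in
theorem Hyp.aut_Z (σ : MulAut T) {i : ℕ} {x : T} : σ x ∈ Z T i ↔ x ∈ Z T i := by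
  conv_rhs => rw [← (inferInstance : (Z T i).Characteristic).fixed σ]
  rfl

theorem Hyp.eq_one_of_odd {n : ℕ} (hn : Odd n) {t : T} (ht : t ^ n = 1) : t = 1 := by
  obtain ⟨k, hk⟩ := h.hT t
  have h1 : orderOf t ∣ Nat.gcd (2 ^ k) n :=
    Nat.dvd_gcd (orderOf_dvd_of_pow_eq_one hk) (orderOf_dvd_of_pow_eq_one ht)
  rw [Nat.Coprime.gcd_eq_one (Nat.Coprime.pow_left k (Nat.coprime_two_left.2 hn))] at h1
  exact orderOf_eq_one_iff.1 (Nat.dvd_one.1 h1)

theorem Hyp.fixed_of_eq_mul {σ : MulAut T} {n : ℕ} (hn : Odd n) (hσ : σ ^ n = 1) {r t : T}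
    (ht : σ t = t) (hr : σ r = t * r) : σ r = r := by
  have hk : ∀ m : ℕ, (σ ^ m) r = t ^ m * r := by
    intro m
    induction m with
    | zero => simp
    | succ m ih => rw [pow_succ', MulAut.mul_apply, ih, map_mul, map_pow, ht, hr, ← mul_assoc, ← pow_succ]
  have h1 := hk n
  rw [hσ, MulAut.one_apply] at h1
  rw [hr, h.eq_one_of_odd hn (right_eq_mul.1 h1), one_mul]

theorem Hyp.fixed_Z {σ : MulAut T} {n : ℕ} (hn : Odd n) (hσ : σ ^ n = 1) :
    ∀ i ≤ 4, ∀ y ∈ Z T i, σ y = y := by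
  intro i
  induction i with
  | zero =>
    intro _ y hy
    rw [Z, Subgroup.upperCentralSeries_zero, mem_bot] at hy
    rw [hy, map_one]
  | succ i ih =>
    intro hi y hy
    by_cases hy' : y ∈ Z T i
    · exact ih (by omega) y hy'
    · have h1 := h.two_step (by omega) hy hy' ((h.aut_Z σ).2 hy) (fun e => hy' ((h.aut_Z σ).1 e))
      exact h.fixed_of_eq_mul hn hσ (ih (by omega) _ h1) (inv_mul_cancel_right _ _).symm

set_option maxHeartbeats 1000000 in
/-- An automorphism of odd order is trivial. -/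
theorem Hyp.aut_eq_one {σ : MulAut T} {n : ℕ} (hn : Odd n) (hσ : σ ^ n = 1) : σ = 1 := by
  classical
  haveI hWn := h.normal_W
  have hfix := h.fixed_Z hn hσ
  obtain ⟨v, hv, hv'⟩ := h.exists_gen (i := 3) (by norm_num)
  obtain ⟨μ, hμ, hμv⟩ := h.exists_mu (h.Z4_le_W hv) (by rw [h.Fr_eq]; exact hv')
  have hσW : ∀ w ∈ W, ∀ i : ℕ, (σ ^ i) w ∈ W := by
    intro w hw i
    rw [h.mem_W]
    intro z hz
    have e : (σ ^ i) z = z := by
      induction i with
      | zero => rfl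
      | succ i ih => rw [pow_succ', MulAut.mul_apply, ih, hfix 3 (by norm_num) z hz]
    conv_lhs => rw [← e]
    conv_rhs => rw [← e]
    rw [← map_mul, ← map_mul, h.comm_W hw hz]
  -- an invariant functional
  let μ' : ↥W →* A2 := MonoidHom.mk' (fun w => ∏ i ∈ Finset.range n, μ ⟨(σ ^ i) w, hσW w w.2 i⟩)
    fun a b => by
      rw [← Finset.prod_mul_distrib]
      refine Finset.prod_congr rfl fun i _ => ?_
      rw [← map_mul]
      exact congrArg μ (Subtype.ext (map_mul (σ ^ i) (a : T) b))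
  have hpowfix : ∀ (i : ℕ) {j : ℕ} (_ : j ≤ 4) {z : T}, z ∈ Z T j → (σ ^ i) z = z := by
    intro i j hj z hz
    induction i with
    | zero => rfl
    | succ i ih => rw [pow_succ', MulAut.mul_apply, ih, hfix j hj z hz]
  have hμ'3 : ∀ x : ↥W, (x : T) ∈ Z T 3 → μ' x = 1 := fun x hx => by
    show ∏ i ∈ Finset.range n, μ ⟨(σ ^ i) x, hσW x x.2 i⟩ = 1
    refine Finset.prod_eq_one fun i _ => ?_
    exact hμ _ (by rw [h.Fr_eq]; show (σ ^ i) (x : T) ∈ Z T 3; rw [hpowfix i (by norm_num) hx]; exact hx)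
  have hμ'v : μ' ⟨v, h.Z4_le_W hv⟩ ≠ 1 := by
    show ∏ i ∈ Finset.range n, μ _ ≠ 1
    rw [Finset.prod_congr rfl (fun i _ => congrArg μ (Subtype.ext (hpowfix i le_rfl hv) :
      (⟨(σ ^ i) v, hσW v (h.Z4_le_W hv) i⟩ : ↥W) = ⟨v, h.Z4_le_W hv⟩)), Finset.prod_const,
      Finset.card_range]
    obtain ⟨r, hr⟩ := hn
    rw [hr, pow_succ, pow_mul, pow_two, A2_facts.1, one_pow, one_mul]
    exact hμv
  have hinv : ∀ (w : ↥W) (hw : σ w ∈ W), μ' ⟨σ w, hw⟩ = μ' w := by
    intro w hw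
    let f : ℕ → A2 := fun i => μ ⟨(σ ^ i) w, hσW w w.2 i⟩
    show ∏ i ∈ Finset.range n, μ ⟨(σ ^ i) (σ (w : T)), _⟩ = ∏ i ∈ Finset.range n, f i
    have e1 : ∀ i, μ ⟨(σ ^ i) (σ (w : T)), hσW _ hw i⟩ = f (i + 1) := fun i =>
      congrArg μ (Subtype.ext (show (σ ^ i) (σ (w : T)) = (σ ^ (i + 1)) (w : T) by
        rw [pow_succ, MulAut.mul_apply]))
    rw [Finset.prod_congr rfl fun i _ => e1 i]
    have e2 := (Finset.prod_range_succ' f n).symm.trans (Finset.prod_range_succ f n)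
    have e3 : f n = f 0 := congrArg μ (Subtype.ext (show (σ ^ n) (w : T) = (σ ^ 0) (w : T) by rw [hσ, pow_zero]))
    rw [e3] at e2
    exact mul_right_cancel e2
  have hgW : ∀ g : T, g⁻¹ * σ g ∈ W := by
    intro g
    rw [h.mem_W]
    intro z hz
    have h1 : σ (g * z * g⁻¹) = g * z * g⁻¹ :=
      hfix 3 (by norm_num) _ ((inferInstance : (Z T 3).Normal).conj_mem z hz g)
    rw [map_mul, map_mul, map_inv, hfix 3 (by norm_num) z hz] at h1
    calc z * (g⁻¹ * σ g) = g⁻¹ * (g * z * g⁻¹) * σ g := by group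
      _ = g⁻¹ * σ g * z := by rw [← h1]; group
  have hWfix : ∀ w ∈ W, σ w = w := by
    intro w hw
    have hsw : σ w ∈ W := by simpa using hσW w hw 1
    have hmem : σ w * w⁻¹ ∈ Z T 3 := by
      refine h.mu_kernel hv hv' μ' hμ'3 hμ'v (w := ⟨σ w * w⁻¹, mul_mem hsw (inv_mem hw)⟩) fun g => ?_
      obtain ⟨g', rfl⟩ := σ.surjective g
      obtain ⟨u, hu⟩ : ∃ u : ↥W, σ g' = g' * u := ⟨⟨_, hgW g'⟩, (mul_inv_cancel_left _ _).symm⟩
      rw [show (⟨σ w * w⁻¹, mul_mem hsw (inv_mem hw)⟩ : ↥W) = ⟨σ w, hsw⟩ * (⟨w, hw⟩ : ↥W)⁻¹ from rfl,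
        map_mul, map_mul, map_inv, map_inv, mul_inv_eq_one]
      have hm : g' * w * g'⁻¹ ∈ W := hWn.conj_mem w hw g'
      have e1 : MulAut.conjNormal (σ g') (⟨σ w, hsw⟩ : ↥W) =
          ⟨σ (g' * w * g'⁻¹), by simpa using hσW _ hm 1⟩ :=
        Subtype.ext (by rw [MulAut.conjNormal_apply]; simp)
      rw [e1, hinv ⟨_, hm⟩, hu, map_mul, MulAut.mul_apply,
        show MulAut.conjNormal (u : T) (⟨w, hw⟩ : ↥W) = u * ⟨w, hw⟩ * u⁻¹ from Subtype.ext (by simp),
        map_mul, map_mul, map_mul, map_mul, map_inv, map_inv, mul_right_comm, mul_inv_cancel, one_mul]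
      exact congrArg μ' (Subtype.ext (by rw [MulAut.conjNormal_apply]))
    exact h.fixed_of_eq_mul hn hσ (hfix 3 (by norm_num) _ hmem) (inv_mul_cancel_right _ _).symm
  refine MulEquiv.ext fun g => ?_
  have hm : σ g * g⁻¹ ∈ W := by
    have := hWn.conj_mem _ (hgW g) g
    simpa [mul_assoc] using this
  exact h.fixed_of_eq_mul hn hσ (hWfix _ hm) (inv_mul_cancel_right _ _).symm

set_option maxHeartbeats 1000000 in
/-- The only isomorphic copy of `W` with the same index is `W`. -/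
theorem Hyp.range_eq (e : ↥W →* T) (he : Function.Injective e) : e.range = W := by
  classical
  haveI hWn := h.normal_W
  obtain ⟨v, hv, hv'⟩ := h.exists_gen (i := 3) (by norm_num)
  obtain ⟨μ, hμ, hμv⟩ := h.exists_mu (h.Z4_le_W hv) (by rw [h.Fr_eq]; exact hv')
  have hμ' : ∀ y : ↥W, (y : T) ∈ Z T 3 → μ y = 1 := fun y hy => hμ y (h.Fr_eq ▸ hy)
  obtain ⟨π, hπ, hπs, -⟩ := h.exists_proj
  choose sg hsg using hπs
  let ε : ↥W →* (DihedralGroup 4 → A2) :=
    MonoidHom.mk' (fun w q => μ (MulAut.conjNormal (sg q) w)) fun a b => funext fun q => by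
      simp [map_mul]
  have hεg : ∀ (g : T) (w : ↥W), μ (MulAut.conjNormal g w) = ε w (π g) := by
    intro g w
    have hu : (sg (π g))⁻¹ * g ∈ W := by
      rw [← hπ, MonoidHom.mem_ker, map_mul, map_inv, hsg, inv_mul_cancel]
    obtain ⟨u, hu'⟩ : ∃ u : ↥W, g = sg (π g) * u := ⟨⟨_, hu⟩, (mul_inv_cancel_left _ g).symm⟩
    conv_lhs => rw [hu', map_mul, MulAut.mul_apply,
      show MulAut.conjNormal (u : T) w = u * w * u⁻¹ from Subtype.ext (by simp),
      map_mul, map_mul, map_mul, map_mul, map_inv, map_inv]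
    show μ _ * μ (MulAut.conjNormal (sg (π g)) w) * (μ _)⁻¹ = _
    rw [mul_right_comm, mul_inv_cancel, one_mul]
    rfl
  -- fixed vectors
  have hbound : ∀ (X : Subgroup T), X ≤ W → ∀ (a : T) (m : ℕ),
      (Finset.univ.filter fun f : DihedralGroup 4 → A2 => ∀ q, f (q * π a) = f q).card ≤ m →
      (∀ x ∈ X, a * x * a⁻¹ * x⁻¹ ∈ Z T 3) → Nat.card ↥X ≤ 8 * m := by
    intro X hXW a m hm hX
    let ψ : ↥X →* (DihedralGroup 4 → A2) := ε.comp (inclusion hXW)
    have hker : Nat.card ψ.ker ≤ 8 := by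
      refine (Nat.card_le_card_of_injective (fun y : ψ.ker => (⟨((y : ↥X) : T), h.mu_kernel hv hv' μ hμ'
        hμv (w := inclusion hXW y) fun g => by
          rw [hεg]; exact congrFun (MonoidHom.mem_ker.1 y.2) (π g)⟩ : ↥(Z T 3)))
        fun y z e => Subtype.ext (Subtype.ext (congrArg Subtype.val e :))).trans ?_
      rw [h.card_Z (by norm_num)]
      norm_num
    have hran : Nat.card ψ.range ≤ m := by
      have hsub : ∀ f : ψ.range, (f : DihedralGroup 4 → A2) ∈
          (Finset.univ.filter fun f : DihedralGroup 4 → A2 => ∀ q, f (q * π a) = f q) := by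
        rintro ⟨f, y, rfl⟩
        refine Finset.mem_filter.2 ⟨Finset.mem_univ _, fun q => ?_⟩
        show ε (inclusion hXW y) (q * π a) = ε (inclusion hXW y) q
        have hy := hX y y.2
        rw [← hsg q, ← map_mul, ← hεg, ← hεg, map_mul, MulAut.mul_apply]
        have hz : MulAut.conjNormal a (inclusion hXW y) =
            ⟨a * y * a⁻¹ * (y : T)⁻¹, h.Z3_le_W hy⟩ * inclusion hXW y :=
          Subtype.ext (by simp)
        rw [hz, map_mul, map_mul, hμ' _ (by
          rw [MulAut.conjNormal_apply]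
          exact (inferInstance : (Z T 3).Normal).conj_mem _ hy _), one_mul]
      refine le_trans (Nat.card_le_card_of_injective (fun f => (⟨_, hsub f⟩ :
        ↥(Finset.univ.filter fun f : DihedralGroup 4 → A2 => ∀ q, f (q * π a) = f q)))
          fun f f' e => Subtype.ext (congrArg Subtype.val e :)) ?_
      rw [Nat.card_eq_fintype_card, Fintype.card_coe]
      exact hm
    calc Nat.card ↥X = Nat.card ψ.ker * Nat.card ψ.range := by rw [← index_ker, card_mul_index]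
      _ ≤ 8 * m := Nat.mul_le_mul hker hran
  set W1 := e.range with hW1
  by_contra hne
  have hc1 : Nat.card ↥W1 = 2 ^ 11 := by
    rw [← h.card_W]; exact (Nat.card_congr (MonoidHom.ofInjective he).toEquiv).symm
  set Φ1 := ((Z T 3).subgroupOf W).map e with hΦ1
  have hΦ1c : Nat.card ↥Φ1 = 8 := by
    rw [← Nat.card_congr (((Z T 3).subgroupOf W).equivMapOfInjective e he).toEquiv,
      Nat.card_congr (subgroupOfEquivOfLe h.Z3_le_W).toEquiv, h.card_Z (by norm_num)]
    norm_num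
  have hcomm1 : ∀ a ∈ W1, ∀ b ∈ W1, ⁅a, b⁆ ∈ Φ1 := by
    rintro _ ⟨a, rfl⟩ _ ⟨b, rfl⟩
    refine ⟨⁅a, b⁆, ?_, map_commutatorElement e a b⟩
    show ((⁅a, b⁆ : ↥W) : T) ∈ Z T 3
    rw [show ((⁅a, b⁆ : ↥W) : T) = ⁅(a : T), (b : T)⁆ from map_commutatorElement W.subtype a b,
      ← h.Fr_eq]
    exact h.comm_mem_Fr a.2 b.2
  have hcen1 : ∀ z ∈ Φ1, ∀ a ∈ W1, a * z = z * a := by
    rintro _ ⟨z, hz, rfl⟩ _ ⟨a, rfl⟩
    rw [← map_mul, ← map_mul, show a * z = z * a from Subtype.ext (h.comm_W a.2 hz)]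
  set X := W ⊓ W1 with hXdef
  have hXW : X ≤ W := inf_le_left
  have hcard : Nat.card ↥X * X.relIndex W = 2 ^ 11 := by
    have h1 := relIndex_mul_relIndex ⊥ X W bot_le hXW
    rwa [relIndex_bot_left, relIndex_bot_left, h.card_W] at h1
  have hXr : X.relIndex W ≤ 8 := by
    have h1 : W1.index = 8 := by
      have := W1.card_mul_index
      rw [hc1, h.card_T] at this
      omega
    rw [hXdef, inf_relIndex_left]
    exact (relIndex_le_of_le_right (le_top : W ≤ ⊤) (by rw [relIndex_top_right, h1]; norm_num)).trans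
      (le_of_eq (by rw [relIndex_top_right, h1]))
  by_cases h4 : X.relIndex W ≤ 4
  · -- the commutators of `X` fill `Z3`
    have hZ : Z T 3 ≤ Φ1 := by
      by_contra hcon
      obtain ⟨z, hz, hz'⟩ := SetLike.not_le_iff_exists.1 hcon
      haveI : Fact (Nat.Prime 2) := ⟨Nat.prime_two⟩
      have hp : IsPGroup 2 ↥(Z T 3) := h.hT.to_subgroup _
      obtain ⟨M, hM, hM'⟩ : ∃ M : Subgroup ↥(Z T 3), IsCoatom M ∧ Φ1.subgroupOf (Z T 3) ≤ M :=
        (eq_top_or_exists_le_coatom _).resolve_left fun e' => hz' (subgroupOf_eq_top.1 e' hz)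
      have h02 : (M.map (Z T 3).subtype).relIndex (Z T 3) = 2 := by
        rw [relIndex, subgroupOf, comap_map_eq_self_of_injective (Z T 3).subtype_injective]
        exact PGroup.index_of_isCoatom hp hM
      have hX4 : (X ⊔ Z T 3).relIndex W ≤ 4 :=
        (Nat.le_of_dvd (by have : X.relIndex W ≠ 0 := index_ne_zero_of_finite; omega)
          (relIndex_dvd_of_le_left _ le_sup_left)).trans h4
      obtain ⟨a, ha, b, hb, hab⟩ := h.no_abelian (sup_le hXW h.Z3_le_W) le_sup_right hX4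
        (map_subtype_le M) h02
      obtain ⟨a0, ha0, a1, ha1, rfl⟩ := mem_sup_of_normal_right.1 ha
      obtain ⟨b0, hb0, b1, hb1, rfl⟩ := mem_sup_of_normal_right.1 hb
      have e1 : ⁅a0 * a1, b0 * b1⁆ = ⁅a0, b0⁆ := by
        have ca : ∀ y ∈ W, a1 * y = y * a1 := fun y hy => (h.comm_W hy ha1).symm
        have cb : ∀ y ∈ W, b1 * y = y * b1 := fun y hy => (h.comm_W hy hb1).symm
        have hm0 : b0 * b1 ∈ W := mul_mem (hXW hb0) (h.Z3_le_W hb1)
        calc ⁅a0 * a1, b0 * b1⁆ = a0 * (a1 * (b0 * b1)) * a1⁻¹ * a0⁻¹ * (b0 * b1)⁻¹ := by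
              simp only [commutatorElement_def]; group
          _ = a0 * b0 * (b1 * a0⁻¹) * b1⁻¹ * b0⁻¹ := by rw [ca _ hm0]; group
          _ = ⁅a0, b0⁆ := by rw [cb _ (inv_mem (hXW ha0))]; simp only [commutatorElement_def]; group
      rw [e1] at hab
      refine hab ⟨⟨_, h.Fr_eq ▸ h.comm_mem_Fr (hXW ha0) (hXW hb0)⟩, hM' ?_, rfl⟩
      exact hcomm1 a0 ha0.2 b0 hb0.2
    have hΦeq : Φ1 = Z T 3 := (eq_of_le_of_card_ge hZ (by rw [hΦ1c, h.card_Z (by norm_num)]; norm_num)).symm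
    obtain ⟨u, hu1, hu⟩ : ∃ u ∈ W1, u ∉ W := by
      by_contra hcon
      push Not at hcon
      exact hne (eq_of_le_of_card_ge hcon (by rw [hc1, h.card_W]))
    have hpu : π u ≠ 1 := fun e' => hu (hπ ▸ (MonoidHom.mem_ker.2 e' : u ∈ π.ker))
    have h1 := hbound X hXW u 16 (card_fixed_le _ hpu) fun x hx => by
      rw [← hΦeq, ← commutatorElement_def]; exact hcomm1 u hu1 x hx.2
    have h2 : Nat.card ↥X * X.relIndex W ≤ 128 * 4 := Nat.mul_le_mul h1 h4
    omega
  -- the index is eight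
  let p : ↥W1 →* DihedralGroup 4 := π.comp W1.subtype
  have hpk : p.ker = W.subgroupOf W1 := by
    rw [subgroupOf, ← hπ, MonoidHom.comap_ker]
  have hrange : p.range = ⊤ := by
    refine eq_top_of_card_eq _ ?_
    have h1 : Nat.card p.range = W.relIndex W1 := by rw [← index_ker, hpk]; rfl
    have h3 : Nat.card ↥X * W.relIndex W1 = 2 ^ 11 := by
      have h2 := relIndex_mul_relIndex ⊥ X W1 bot_le inf_le_right
      rw [relIndex_bot_left, relIndex_bot_left, hc1, hXdef, inf_relIndex_right] at h2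
      exact h2
    have h5 : W.relIndex W1 = X.relIndex W := Nat.eq_of_mul_eq_mul_left Nat.card_pos (h3.trans hcard.symm)
    have hD : Nat.card (DihedralGroup 4) = 2 ^ 3 := by
      rw [Nat.card_eq_fintype_card, DihedralGroup.card]; norm_num
    have h6 := p.range.card_subgroup_dvd_card
    rw [hD] at h6 ⊢
    obtain ⟨i, hi, hi'⟩ := (Nat.dvd_prime_pow Nat.prime_two (m := 3)).1 h6
    have h4' : 4 < 2 ^ i := by rw [← hi', h1, h5]; omega
    rw [hi']
    interval_cases i <;> simp_all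
  have hsurj : Function.Surjective p := MonoidHom.range_eq_top.1 hrange
  obtain ⟨⟨a, ha⟩, hpa⟩ := hsurj (.r 1)
  obtain ⟨⟨b, hb⟩, hpb⟩ := hsurj (.sr 0)
  have hpa' : π a = .r 1 := hpa
  have hpb' : π b = .sr 0 := hpb
  have hnotle : ¬ Φ1 ≤ W := fun hle => r_sr_comm (by
    have h1 : π ⁅a, b⁆ = 1 := MonoidHom.mem_ker.1 (hπ.symm ▸ hle (hcomm1 a ha b hb))
    rw [commutatorElement_def, map_mul, map_mul, map_mul, map_inv, map_inv, hpa', hpb'] at h1
    exact h1)
  have h44 : Nat.card ↥(Φ1 ⊓ W) ≤ 4 := by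
    have hlt : Nat.card ↥(Φ1 ⊓ W) ≠ 8 := fun e' => hnotle (by
      rw [← eq_of_le_of_card_ge (inf_le_left : Φ1 ⊓ W ≤ Φ1) (by rw [hΦ1c, e'])]
      exact inf_le_right)
    have hdvd := card_dvd_of_le (inf_le_left : Φ1 ⊓ W ≤ Φ1)
    rw [hΦ1c] at hdvd
    have := Nat.le_of_dvd (by norm_num) hdvd
    by_contra hc
    interval_cases hh : Nat.card ↥(Φ1 ⊓ W) <;> omega
  let δ : ↥X →* ↥(Φ1 ⊓ W) := MonoidHom.mk' (fun x => ⟨⁅a, (x : T)⁆, hcomm1 a ha x x.2.2, by
      rw [commutatorElement_def]; exact W.mul_mem (hWn.conj_mem _ x.2.1 a) (W.inv_mem x.2.1)⟩)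
    fun x y => Subtype.ext (by
      show ⁅a, (x : T) * y⁆ = ⁅a, (x : T)⁆ * ⁅a, (y : T)⁆
      calc ⁅a, (x : T) * y⁆ = ⁅a, (x : T)⁆ * ((x : T) * ⁅a, (y : T)⁆ * (x : T)⁻¹) := by
            simp only [commutatorElement_def]; group
        _ = _ := by rw [hcen1 _ (hcomm1 a ha y y.2.2) x x.2.2, mul_inv_cancel_right])
  have hk : Nat.card ↥(δ.ker.map X.subtype) ≤ 8 * 4 := by
    refine hbound _ ((map_subtype_le _).trans hXW) a 4 (hpa' ▸ card_fixed_r_le) ?_
    rintro _ ⟨x, hx, rfl⟩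
    have hx' : ⁅a, (x : T)⁆ = 1 := congrArg Subtype.val (MonoidHom.mem_ker.1 hx)
    rw [← commutatorElement_def]
    exact hx'.symm ▸ one_mem _
  rw [← Nat.card_congr (δ.ker.equivMapOfInjective X.subtype X.subtype_injective).toEquiv] at hk
  have h5 : Nat.card δ.ker * Nat.card δ.range = Nat.card ↥X := by rw [← index_ker, card_mul_index]
  have h6 : Nat.card δ.range ≤ 4 := (card_le_card_group _).trans h44
  have h7 : Nat.card ↥X ≤ 32 * 4 := h5 ▸ Nat.mul_le_mul hk h6
  have h8 : Nat.card ↥X * X.relIndex W ≤ 128 * 8 := Nat.mul_le_mul h7 hXr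
  omega

omit h
variable {G : Type*} [Group G] [Finite G]

/-- The Sylow normaliser and weak closure. -/
theorem sylow_normalizer (P : Sylow 2 G) (W : Subgroup ↥(P : Subgroup G)) (h : Hyp W) :
    Cfsg.HasNormalPComplement 2 ↥(normalizer ((P : Subgroup G) : Set G)) ∧
      Cfsg.IsWeaklyClosed (W.map (P : Subgroup G).subtype) (P : Subgroup G) := by
  classical
  haveI : Fact (Nat.Prime 2) := ⟨Nat.prime_two⟩
  constructor
  · set N := normalizer ((P : Subgroup G) : Set G) with hN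
    have hPN : (P : Subgroup G) ≤ N := le_normalizer
    let PN : Sylow 2 ↥N := P.subtype hPN
    haveI hn : (PN : Subgroup ↥N).Normal := by
      show ((P : Subgroup G).subgroupOf N).Normal
      exact normal_in_normalizer
    obtain ⟨H, hH⟩ := exists_right_complement'_of_coprime (N := (PN : Subgroup ↥N)) PN.card_coprime_index
    let ρ : ↥N →* MulAut ↥(P : Subgroup G) := MonoidHom.mk'
      (fun n =>
        { toFun := fun x => ⟨(n : G) * x * (n : G)⁻¹, (mem_normalizer_iff.1 n.2 x).1 x.2⟩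
          invFun := fun x => ⟨(n : G)⁻¹ * x * n, (mem_normalizer_iff''.1 n.2 x).1 x.2⟩
          left_inv := fun x => Subtype.ext (by simp [mul_assoc])
          right_inv := fun x => Subtype.ext (by simp [mul_assoc])
          map_mul' := fun x y => Subtype.ext (by simp [mul_assoc]) })
      (fun a b => MulEquiv.ext fun x => Subtype.ext (by simp [mul_assoc, MulAut.mul_apply]))
    have hcardH : Odd (Nat.card H) := by
      rw [← hH.symm.index_eq_card, ← Nat.not_even_iff_odd, even_iff_two_dvd]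
      exact PN.not_dvd_index
    have hcentr : ∀ y ∈ H, ∀ x ∈ (PN : Subgroup ↥N), y * x = x * y := by
      intro y hy x hx
      have h1 : ρ y = 1 := by
        refine h.aut_eq_one hcardH ?_
        rw [← map_pow, show y ^ Nat.card H = 1 from
          congrArg Subtype.val (pow_card_eq_one' (x := (⟨y, hy⟩ : ↥H))), map_one]
      have h2 := congrArg (fun σ : MulAut ↥(P : Subgroup G) => ((σ ⟨x, hx⟩ : ↥(P : Subgroup G)) : G)) h1
      have h3 : (y : G) * x * (y : G)⁻¹ = x := h2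
      exact Subtype.ext (mul_inv_eq_iff_eq_mul.1 h3)
    refine ⟨PN, H, ⟨fun y hy g => ?_⟩, hH.symm⟩
    obtain ⟨⟨⟨x, hx⟩, ⟨k, hk⟩⟩, rfl⟩ := hH.surjective g
    have hmem : k * y * k⁻¹ ∈ H := mul_mem (mul_mem hk hy) (inv_mem hk)
    have e : x * k * y * (x * k)⁻¹ = k * y * k⁻¹ := by
      calc x * k * y * (x * k)⁻¹ = x * (k * y * k⁻¹) * x⁻¹ := by group
        _ = k * y * k⁻¹ := by rw [← hcentr _ hmem x hx, mul_inv_cancel_right]
    show x * k * y * (x * k)⁻¹ ∈ H
    rw [e]; exact hmem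
  · refine ⟨map_subtype_le W, fun g hg => ?_⟩
    let e : ↥W →* ↥(P : Subgroup G) :=
      MonoidHom.codRestrict ((MulAut.conj g).toMonoidHom.comp ((P : Subgroup G).subtype.comp W.subtype))
        (P : Subgroup G) fun w => hg ⟨_, ⟨w, w.2, rfl⟩, rfl⟩
    have he : Function.Injective e := fun a b hab =>
      Subtype.ext (Subtype.ext ((MulAut.conj g).injective (congrArg Subtype.val hab :)))
    have hr := h.range_eq e he
    conv_rhs => rw [← hr]
    ext x
    constructor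
    · rintro ⟨_, ⟨w, hw, rfl⟩, rfl⟩
      exact ⟨_, ⟨⟨w, hw⟩, rfl⟩, rfl⟩
    · rintro ⟨_, ⟨w, rfl⟩, rfl⟩
      exact ⟨_, ⟨w, w.2, rfl⟩, rfl⟩

end Cfsg.Agent.CharTwo.Rudvalis
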