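import Cfsg.Agent.PGroup.Frattini
import Mathlib.GroupTheory.Nilpotent
import Mathlib.GroupTheory.GroupAction.ConjAct
import Mathlib.GroupTheory.SpecificGroups.Dihedral
import Mathlib.Algebra.Group.TypeTags.Finite
import Mathlib.Data.ZMod.Basic
import Mathlib.Algebra.Group.Pi.Lemmas

/-!
# The two-group of Rudvalis type
-/

set_option autoImplicit false

namespace Cfsg.Agent.CharTwo.Rudvalis

open Subgroup
open scoped commutatorElement

/-- The multiplicative group of order two. -/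
abbrev A2 : Type := Multiplicative (ZMod 2)

theorem A2_facts : (∀ a : A2, a * a = 1) ∧ (∀ a b : A2, a ≠ 1 → b ≠ 1 → a = b) ∧
    (Multiplicative.ofAdd (1 : ZMod 2) ≠ 1) := by decide

variable {T : Type*} [Group T]

/-- The upper central series. -/
abbrev Z (T : Type*) [Group T] (i : ℕ) : Subgroup T := Subgroup.upperCentralSeries T i

/-- The Frattini subgroup of `W`, inside `T`. -/
abbrev Fr (W : Subgroup T) : Subgroup T := (frattini ↥W).map W.subtype

/-- The hypotheses. -/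
structure Hyp (W : Subgroup T) : Prop where
  hT : IsPGroup 2 T
  ha : 2 ^ 14 ≤ Nat.card T
  hb : Nat.card ↥(Z T 4) = 16
  hW : W = centralizer ((Z T 3 : Subgroup T) : Set T)
  hc : Nat.card ↥(frattini ↥W) ≤ 8
  hd : ∀ U : Subgroup ↥W, U.index ≤ 16 → frattini ↥W ≤ U

theorem conj_div_mem {i : ℕ} {x : T} (hx : x ∈ Z T (i + 1)) (g : T) :
    g * x * g⁻¹ * x⁻¹ ∈ Z T i := by
  have h := (Subgroup.mem_upperCentralSeries_succ_iff.1 hx g)
  rw [← commutatorElement_def, ← commutatorElement_inv]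
  exact inv_mem h

theorem central_Z1 {x : T} (hx : x ∈ Z T 1) (g : T) : g * x = x * g := by
  rw [Z, Subgroup.upperCentralSeries_one] at hx
  exact Subgroup.mem_center_iff.1 hx g

theorem Z_le_succ (i : ℕ) : Z T i ≤ Z T (i + 1) :=
  Subgroup.upperCentralSeries_mono T (Nat.le_succ i)

variable [Finite T] {W : Subgroup T} (h : Hyp W)
include h

omit [Finite T] in
theorem Hyp.normal_W : W.Normal := by
  rw [h.hW]; infer_instance

omit [Finite T] in
theorem Hyp.normal_Fr : (Fr W).Normal := by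
  haveI := h.normal_W
  exact ConjAct.normal_of_characteristic_of_normal

theorem Hyp.Z_ne_succ {i : ℕ} (hi : i < 4) : Z T i ≠ Z T (i + 1) := by
  haveI : Fact (Nat.Prime 2) := ⟨Nat.prime_two⟩
  haveI := h.hT.isNilpotent
  intro e
  have hst : ∀ n, Z T (i + n) = Z T i := by
    intro n
    induction n with
    | zero => rfl
    | succ n ih =>
      ext x
      rw [show i + (n + 1) = i + n + 1 from rfl, Z, Subgroup.mem_upperCentralSeries_succ_iff]
      conv_rhs => rw [e, Z, Subgroup.mem_upperCentralSeries_succ_iff]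
      show (∀ y, ⁅x, y⁆ ∈ Z T (i + n)) ↔ ∀ y, ⁅x, y⁆ ∈ Z T i
      rw [ih]
  obtain ⟨n, hn⟩ := Group.IsNilpotent.nilpotent T
  have htop : Z T i = ⊤ := by
    rw [← hst n]
    exact top_le_iff.1 (hn.ge.trans (Subgroup.upperCentralSeries_mono T (by omega)))
  have h1 : Nat.card T ≤ 16 := by
    have h2 := card_le_of_le (Subgroup.upperCentralSeries_mono T (show i ≤ 4 by omega))
    rw [show Subgroup.upperCentralSeries T i = ⊤ from htop, card_top] at h2
    exact h2.trans (le_of_eq h.hb)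
  have := h.ha
  omega

theorem Hyp.card_Z {i : ℕ} (hi : i ≤ 4) : Nat.card ↥(Z T i) = 2 ^ i := by
  have hstep : ∀ j, j < 4 → 2 * Nat.card ↥(Z T j) ≤ Nat.card ↥(Z T (j + 1)) := by
    intro j hj
    have h1 := relIndex_mul_relIndex ⊥ (Z T j) (Z T (j + 1)) bot_le (Z_le_succ j)
    rw [relIndex_bot_left, relIndex_bot_left] at h1
    have h2 : (Z T j).relIndex (Z T (j + 1)) ≠ 1 := fun e =>
      h.Z_ne_succ hj (le_antisymm (Z_le_succ j) (relIndex_eq_one.1 e))
    have h3 : (Z T j).relIndex (Z T (j + 1)) ≠ 0 := index_ne_zero_of_finite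
    have h4 : Nat.card ↥(Z T j) * 2 ≤ Nat.card ↥(Z T j) * (Z T j).relIndex (Z T (j + 1)) :=
      Nat.mul_le_mul_left _ (by omega)
    omega
  have h0 := hstep 0 (by norm_num)
  have h1 := hstep 1 (by norm_num)
  have h2 := hstep 2 (by norm_num)
  have h3 := hstep 3 (by norm_num)
  have hz : Nat.card ↥(Z T 0) = 1 := by
    rw [Z, Subgroup.upperCentralSeries_zero, card_bot]
  have hb := h.hb
  have hb' : Nat.card ↥(Z T (3 + 1)) = 16 := hb
  have e1 : Nat.card ↥(Z T (0 + 1)) = Nat.card ↥(Z T 1) := rfl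
  have e2 : Nat.card ↥(Z T (1 + 1)) = Nat.card ↥(Z T 2) := rfl
  have e3 : Nat.card ↥(Z T (2 + 1)) = Nat.card ↥(Z T 3) := rfl
  rw [e1, hz] at h0
  rw [e2] at h1
  rw [e3] at h2
  rw [hb'] at h3
  have : i = 0 ∨ i = 1 ∨ i = 2 ∨ i = 3 ∨ i = 4 := by omega
  rcases this with rfl | rfl | rfl | rfl | rfl <;> simp only [Nat.reducePow] <;> omega

theorem Hyp.exists_gen {i : ℕ} (hi : i < 4) : ∃ x ∈ Z T (i + 1), x ∉ Z T i := by
  by_contra hcon
  push Not at hcon
  exact h.Z_ne_succ hi (le_antisymm (Z_le_succ i) hcon)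

theorem Hyp.two_step {i : ℕ} (hi : i < 4) {x y : T} (hx : x ∈ Z T (i + 1)) (hx' : x ∉ Z T i)
    (hy : y ∈ Z T (i + 1)) (hy' : y ∉ Z T i) : y * x⁻¹ ∈ Z T i := by
  have hidx : ((Z T i).subgroupOf (Z T (i + 1))).index = 2 := by
    have h1 := ((Z T i).subgroupOf (Z T (i + 1))).card_mul_index
    rw [Nat.card_congr (subgroupOfEquivOfLe (Z_le_succ i)).toEquiv, h.card_Z hi.le, h.card_Z hi,
      pow_succ] at h1
    exact Nat.eq_of_mul_eq_mul_left (by positivity) h1
  exact (mul_mem_iff_of_index_two hidx (a := ⟨y, hy⟩) (b := ⟨x⁻¹, inv_mem hx⟩)).2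
    (iff_of_false hy' fun hxi => hx' (inv_mem_iff.1 (mem_subgroupOf.1 hxi)))

/-- The normal subgroups of `T` form a chain with the first terms of the upper series. -/
theorem Hyp.chain {N : Subgroup T} (hN : N.Normal) {i : ℕ} (hi : i ≤ 4) : Z T i ≤ N ∨ N ≤ Z T i := by
  haveI : Fact (Nat.Prime 2) := ⟨Nat.prime_two⟩
  haveI := h.hT.isNilpotent
  induction i with
  | zero => exact Or.inl (by rw [Z, Subgroup.upperCentralSeries_zero]; exact bot_le)
  | succ i ih =>
    rcases ih (by omega) with h1 | h1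
    swap
    · exact Or.inr (h1.trans (Z_le_succ i))
    by_cases h2 : N ≤ Z T i
    · exact Or.inr (h2.trans (Z_le_succ i))
    left
    obtain ⟨n, hn⟩ := Group.IsNilpotent.nilpotent T
    have key : ∀ j, (∃ x ∈ N, x ∈ Z T j ∧ x ∉ Z T i) → ∃ x ∈ N, x ∈ Z T (i + 1) ∧ x ∉ Z T i := by
      intro j
      induction j with
      | zero =>
        rintro ⟨x, -, hx, hx'⟩
        rw [Z, Subgroup.upperCentralSeries_zero, mem_bot] at hx
        exact absurd (hx ▸ one_mem _) hx'
      | succ j ihj =>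
        rintro ⟨x, hxN, hx, hx'⟩
        by_cases hall : ∀ y, ⁅x, y⁆ ∈ Z T i
        · exact ⟨x, hxN, Subgroup.mem_upperCentralSeries_succ_iff.2 hall, hx'⟩
        push Not at hall
        obtain ⟨y, hy⟩ := hall
        refine ihj ⟨⁅x, y⁆, ?_, Subgroup.mem_upperCentralSeries_succ_iff.1 hx y, hy⟩
        rw [commutatorElement_def, mul_assoc x, mul_assoc]
        exact mul_mem hxN (hN.conj_mem _ (inv_mem hxN) y)
    obtain ⟨x0, hx0, hx0'⟩ := SetLike.not_le_iff_exists.1 h2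
    obtain ⟨x, hxN, hx, hx'⟩ := key n ⟨x0, hx0, by rw [Z, hn]; exact mem_top _, hx0'⟩
    intro y hy
    by_cases hy' : y ∈ Z T i
    · exact h1 hy'
    · have := mul_mem (h1 (h.two_step (by omega) hx hx' hy hy')) hxN
      rwa [inv_mul_cancel_right] at this

theorem Hyp.card_Fr : Nat.card ↥(Fr W) ≤ 8 := by
  rw [← Nat.card_congr ((frattini ↥W).equivMapOfInjective W.subtype W.subtype_injective).toEquiv]
  exact h.hc

theorem Hyp.Fr_le_Z3 : Fr W ≤ Z T 3 := by
  rcases h.chain h.normal_Fr (i := 3) (by norm_num) with h1 | h1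
  · exact ge_of_eq (eq_of_le_of_card_ge h1 (by rw [h.card_Z (by norm_num)]; exact h.card_Fr))
  · exact h1

omit [Finite T] in
theorem Hyp.mem_W {g : T} : g ∈ W ↔ ∀ z ∈ Z T 3, z * g = g * z := by
  rw [h.hW]; rfl

omit [Finite T] in
theorem Hyp.comm_W {g z : T} (hg : g ∈ W) (hz : z ∈ Z T 3) : g * z = z * g :=
  (h.mem_W.1 hg z hz).symm

/-- Membership in `W` is tested on two generators. -/
theorem Hyp.mem_W_of {g z2 z3 : T} (h2 : z2 ∈ Z T 2) (h2' : z2 ∉ Z T 1) (h3 : z3 ∈ Z T 3)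
    (h3' : z3 ∉ Z T 2) (e2 : g * z2 = z2 * g) (e3 : g * z3 = z3 * g) : g ∈ W := by
  rw [h.mem_W]
  have hZ1 : Z T 1 ≤ centralizer ({g} : Set T) := fun z hz =>
    mem_centralizer_singleton_iff.2 (central_Z1 hz g).symm
  have hZ2 : Z T 2 ≤ centralizer ({g} : Set T) := fun z hz => by
    by_cases hz' : z ∈ Z T 1
    · exact hZ1 hz'
    · have := mul_mem (hZ1 (h.two_step (by norm_num) h2 h2' hz hz'))
        (mem_centralizer_singleton_iff.2 e2.symm)
      rwa [inv_mul_cancel_right] at this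
  intro z hz
  refine mem_centralizer_singleton_iff.1 (?_ : z ∈ centralizer ({g} : Set T))
  by_cases hz' : z ∈ Z T 2
  · exact hZ2 hz'
  · have := mul_mem (hZ2 (h.two_step (by norm_num) h3 h3' hz hz'))
      (mem_centralizer_singleton_iff.2 e3.symm)
    rwa [inv_mul_cancel_right] at this

theorem Hyp.index_le : W.index ≤ 8 := by
  obtain ⟨z2, h2, h2'⟩ := h.exists_gen (i := 1) (by norm_num)
  obtain ⟨z3, h3, h3'⟩ := h.exists_gen (i := 2) (by norm_num)
  haveI := h.normal_W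
  let f : T ⧸ W → ↥(Z T 1) × ↥(Z T 2) := fun q =>
    (⟨q.out * z2 * q.out⁻¹ * z2⁻¹, conj_div_mem h2 _⟩, ⟨q.out * z3 * q.out⁻¹ * z3⁻¹, conj_div_mem h3 _⟩)
  have hf : Function.Injective f := by
    intro a b e
    simp only [f, Prod.mk.injEq, Subtype.mk.injEq, mul_left_inj] at e
    obtain ⟨e2, e3⟩ := e
    rw [← QuotientGroup.out_eq' a, ← QuotientGroup.out_eq' b, QuotientGroup.eq]
    refine h.mem_W_of h2 h2' h3 h3' ?_ ?_
    · have := congrArg (fun x => a.out⁻¹ * x * b.out) e2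
      simpa [mul_assoc] using this.symm
    · have := congrArg (fun x => a.out⁻¹ * x * b.out) e3
      simpa [mul_assoc] using this.symm
  rw [index_eq_card]
  refine (Nat.card_le_card_of_injective f hf).trans ?_
  rw [Nat.card_prod, h.card_Z (by norm_num), h.card_Z (by norm_num)]
  norm_num

theorem Hyp.Z4_le_W : Z T 4 ≤ W := by
  rcases h.chain h.normal_W (i := 4) le_rfl with h1 | h1
  · exact h1
  · exfalso
    have h2 := card_le_of_le h1
    rw [h.hb] at h2
    have h3 := W.card_mul_index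
    have h4 := h.index_le
    have h5 := h.ha
    have : Nat.card ↥W * W.index ≤ 16 * 8 := Nat.mul_le_mul h2 h4
    omega

theorem Hyp.Z3_le_W : Z T 3 ≤ W := (Z_le_succ 3).trans h.Z4_le_W

theorem Hyp.pgroup_W : IsPGroup 2 ↥W := h.hT.to_subgroup W

theorem Hyp.sq_mem_Fr {x : T} (hx : x ∈ W) : x * x ∈ Fr W := by
  haveI : Fact (Nat.Prime 2) := ⟨Nat.prime_two⟩
  exact ⟨⟨x, hx⟩ ^ 2, PGroup.pow_mem_frattini h.pgroup_W _, by simp [pow_two]⟩

theorem Hyp.comm_mem_Fr {x y : T} (hx : x ∈ W) (hy : y ∈ W) : ⁅x, y⁆ ∈ Fr W := by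
  haveI : Fact (Nat.Prime 2) := ⟨Nat.prime_two⟩
  exact ⟨⁅⟨x, hx⟩, ⟨y, hy⟩⁆, PGroup.commutatorElement_mem_frattini h.pgroup_W _ _,
    by simp [map_commutatorElement]⟩

/-- The functional `μ`. -/
theorem Hyp.exists_mu {v : T} (hv : v ∈ W) (hv' : v ∉ Fr W) :
    ∃ μ : ↥W →* A2, (∀ x : ↥W, (x : T) ∈ Fr W → μ x = 1) ∧ μ ⟨v, hv⟩ ≠ 1 := by
  classical
  haveI : Fact (Nat.Prime 2) := ⟨Nat.prime_two⟩
  have hp := h.pgroup_W
  obtain ⟨M, hM, hle, hvM⟩ := PGroup.exists_isCoatom_not_mem Nat.prime_two (N := frattini ↥W)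
    (PGroup.commutator_le_frattini hp) (PGroup.pow_mem_frattini hp) (x := ⟨v, hv⟩)
    fun e => hv' ⟨_, e, rfl⟩
  have hidx := PGroup.index_of_isCoatom hp hM
  refine ⟨MonoidHom.mk' (fun x => if x ∈ M then 1 else Multiplicative.ofAdd 1) (fun a b => ?_), ?_, ?_⟩
  · have hiff := mul_mem_iff_of_index_two hidx (a := a) (b := b)
    by_cases ha : a ∈ M <;> by_cases hb : b ∈ M <;>
      simp [ha, hb, hiff, A2_facts.1 (Multiplicative.ofAdd (1 : ZMod 2))]
  · rintro x ⟨y, hy, hyx⟩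
    show (if x ∈ M then (1 : A2) else _) = 1
    rw [if_pos (by rw [show x = y from Subtype.ext hyx.symm]; exact hle hy)]
  · show (if _ then (1 : A2) else _) ≠ 1
    rw [if_neg hvM]
    exact A2_facts.2.2

/-- The sizes. -/
theorem Hyp.sizes : ∃ k ≤ 3, Fr W = Z T k ∧ Nat.card T = 2 ^ 14 ∧ W.index = 8 ∧ k = 3 ∧
    Nat.card ↥W = 2 ^ 11 := by
  classical
  haveI hWn := h.normal_W
  haveI hFn := h.normal_Fr
  -- `Fr W` is a term of the series
  have hk : ∃ k ≤ 3, Fr W = Z T k := by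
    have h0 : ∀ n, n ≤ 3 → Fr W ≤ Z T n → ∃ k ≤ n, Fr W = Z T k := by
      intro n
      induction n with
      | zero =>
        intro _ hle
        exact ⟨0, le_rfl, le_antisymm hle (by rw [Z, Subgroup.upperCentralSeries_zero]; exact bot_le)⟩
      | succ n ih =>
        intro hn hle
        rcases h.chain hFn (i := n) (by omega) with h1 | h1
        · by_cases h2 : Fr W ≤ Z T n
          · exact ⟨n, by omega, le_antisymm h2 h1⟩
          · refine ⟨n + 1, le_rfl, le_antisymm hle ?_⟩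
            rcases h.chain hFn (i := n + 1) (by omega) with h3 | h3
            · exact h3
            · intro y hy
              obtain ⟨x, hxF, hx'⟩ := SetLike.not_le_iff_exists.1 h2
              by_cases hy' : y ∈ Z T n
              · exact h1 hy'
              · have := mul_mem (h1 (h.two_step (by omega) (hle hxF) hx' hy hy')) hxF
                rwa [inv_mul_cancel_right] at this
        · obtain ⟨k, hk, hk'⟩ := ih (by omega) h1
          exact ⟨k, by omega, hk'⟩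
    exact h0 3 le_rfl h.Fr_le_Z3
  obtain ⟨k, hk3, hFk⟩ := hk
  obtain ⟨v, hv, hv'⟩ := h.exists_gen (i := k) (by omega)
  have hvW : v ∈ W := h.Z4_le_W (Subgroup.upperCentralSeries_mono T (show k + 1 ≤ 4 by omega) hv)
  obtain ⟨μ, hμ, hμv⟩ := h.exists_mu hvW (by rw [hFk]; exact hv')
  let ε : ↥W →* (T ⧸ W → A2) :=
    MonoidHom.mk' (fun w q => μ (MulAut.conjNormal q.out w)) fun a b => funext fun q => by
      simp [map_mul]
  have hker : (ε.ker.map W.subtype).Normal := by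
    refine ⟨?_⟩
    rintro _ ⟨w, hw, rfl⟩ g
    refine ⟨MulAut.conjNormal g w, ?_, by simp⟩
    refine funext fun q => ?_
    show μ (MulAut.conjNormal q.out (MulAut.conjNormal g w)) = 1
    rw [← MulAut.mul_apply, ← map_mul]
    obtain ⟨u, hu⟩ := QuotientGroup.mk_out_eq_mul W (q.out * g)
    have hq : q.out * g = ((q.out * g : T) : T ⧸ W).out * ((u : T))⁻¹ := by
      rw [hu, mul_inv_cancel_right]
    rw [hq, map_mul, MulAut.mul_apply,
      show MulAut.conjNormal ((u : T))⁻¹ w = u⁻¹ * w * u from Subtype.ext (by simp [mul_assoc]),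
      map_mul, map_mul, map_mul, map_mul, map_inv, map_inv]
    have hw' := congrFun (MonoidHom.mem_ker.1 hw) ((q.out * g : T) : T ⧸ W)
    change μ (MulAut.conjNormal _ w) = 1 at hw'
    rw [hw', mul_one, inv_mul_cancel]
  have hle : ε.ker.map W.subtype ≤ Fr W := by
    rcases h.chain hker (i := k + 1) (by omega) with h1 | h1
    · exfalso
      obtain ⟨w, hw, hwv⟩ := h1 hv
      have hw' := congrFun (MonoidHom.mem_ker.1 hw) ((1 : T) : T ⧸ W)
      change μ (MulAut.conjNormal _ w) = 1 at hw'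
      obtain ⟨u, hu⟩ := QuotientGroup.mk_out_eq_mul W (1 : T)
      rw [hu, one_mul, show MulAut.conjNormal (u : T) w = u * w * u⁻¹ from Subtype.ext (by simp),
        map_mul, map_mul, map_inv, mul_right_comm, mul_inv_cancel, one_mul] at hw'
      exact hμv (by rw [show (⟨v, hvW⟩ : ↥W) = w from Subtype.ext hwv.symm]; exact hw')
    · rw [hFk]
      intro x hx
      by_contra hx'
      have h2 := h.two_step (by omega) (h1 hx) hx' hv hv'
      obtain ⟨w, hw, rfl⟩ := hx
      have hvk : v * (W.subtype w)⁻¹ ∈ Fr W := hFk ▸ h2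
      have hvW' : v * (W.subtype w)⁻¹ ∈ W := mul_mem hvW (inv_mem w.2)
      have hμ' := hμ ⟨_, hvW'⟩ hvk
      have hw' := congrFun (MonoidHom.mem_ker.1 hw) ((1 : T) : T ⧸ W)
      change μ (MulAut.conjNormal _ w) = 1 at hw'
      obtain ⟨u, hu⟩ := QuotientGroup.mk_out_eq_mul W (1 : T)
      rw [hu, one_mul, show MulAut.conjNormal (u : T) w = u * w * u⁻¹ from Subtype.ext (by simp),
        map_mul, map_mul, map_inv, mul_right_comm, mul_inv_cancel, one_mul] at hw'
      refine hμv ?_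
      rw [show (⟨v, hvW⟩ : ↥W) = ⟨_, hvW'⟩ * w from Subtype.ext (by simp), map_mul, hμ', hw', one_mul]
  have h1 : Nat.card ↥W = Nat.card ε.ker * Nat.card ε.range := by
    rw [← index_ker, card_mul_index]
  have h2 : Nat.card ε.ker ≤ 2 ^ k := by
    rw [Nat.card_congr (ε.ker.equivMapOfInjective W.subtype W.subtype_injective).toEquiv]
    refine (card_le_of_le hle).trans ?_
    rw [hFk, h.card_Z (by omega)]
  have h3 : Nat.card ε.range ≤ 2 ^ W.index := by
    refine (Subgroup.card_le_card_group _).trans ?_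
    haveI := Fintype.ofFinite (T ⧸ W)
    rw [Nat.card_fun, index_eq_card]
    simp
  have h5 := W.card_mul_index
  have h6 := h.index_le
  have h8 := h.ha
  have hk8 : 2 ^ k ≤ 2 ^ 3 := Nat.pow_le_pow_right two_pos hk3
  have hWle : Nat.card ↥W ≤ 2 ^ k * 2 ^ W.index := by rw [h1]; exact Nat.mul_le_mul h2 h3
  have hidx : W.index = 8 := by
    by_contra hne
    have : 2 ^ W.index ≤ 2 ^ 7 := Nat.pow_le_pow_right two_pos (by omega)
    have : Nat.card ↥W * W.index ≤ (2 ^ 3 * 2 ^ 7) * 8 :=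
      Nat.mul_le_mul (hWle.trans (Nat.mul_le_mul hk8 this)) h6
    norm_num at *
    omega
  rw [hidx] at hWle h5
  have hk : k = 3 := by
    by_contra hne
    have : 2 ^ k ≤ 2 ^ 2 := Nat.pow_le_pow_right two_pos (by omega)
    have := Nat.mul_le_mul_right (2 ^ 8) this
    norm_num at *
    omega
  subst hk
  norm_num at *
  exact ⟨3, le_rfl, hFk, by omega, hidx, rfl, by omega⟩

theorem Hyp.Fr_eq : Fr W = Z T 3 := by
  obtain ⟨k, -, hk, -, -, rfl, -⟩ := h.sizes
  exact hk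

theorem Hyp.index_W : W.index = 8 := h.sizes.choose_spec.2.2.2.1

theorem Hyp.card_T : Nat.card T = 2 ^ 14 := h.sizes.choose_spec.2.2.1

theorem Hyp.card_W : Nat.card ↥W = 2 ^ 11 := h.sizes.choose_spec.2.2.2.2.2

theorem Hyp.card_Fr_eq : Nat.card ↥(Fr W) = 8 := by rw [h.Fr_eq, h.card_Z (by norm_num)]; norm_num

theorem Hyp.relIndex_Fr : (Z T 3).relIndex W = 256 := by
  have h1 := relIndex_mul_relIndex ⊥ (Z T 3) W bot_le h.Z3_le_W
  rw [relIndex_bot_left, relIndex_bot_left, h.card_Z (by norm_num), h.card_W] at h1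
  norm_num at h1
  omega

/-- The key application of the last hypothesis. -/
theorem Hyp.no_square_free {K Φ0 : Subgroup T} (hKW : K ≤ W) (hΦK : Z T 3 ≤ K) (hK : K.relIndex W ≤ 8)
    (h0 : Φ0 ≤ Z T 3) (h02 : Φ0.relIndex (Z T 3) = 2)
    (hsq : ∀ x ∈ K, x * x ∈ Φ0) (hcm : ∀ x ∈ K, ∀ y ∈ K, ⁅x, y⁆ ∈ Φ0) : False := by
  classical
  have h0K : Φ0 ≤ K := h0.trans hΦK
  obtain ⟨z, hz, hz0⟩ : ∃ z ∈ Z T 3, z ∉ Φ0 := by
    by_contra hcon
    push Not at hcon
    rw [relIndex_eq_one.2 hcon] at h02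
    omega
  obtain ⟨U, hU0, hU⟩ := Finite.exists_le_maximal
    (p := fun U : Subgroup T => Φ0 ≤ U ∧ U ≤ K ∧ z ∉ U) (a := Φ0) ⟨le_rfl, h0K, hz0⟩
  obtain ⟨hU1, hUK, hzU⟩ := hU.prop
  have hnor : ∀ x ∈ K, ∀ u ∈ U, x * u * x⁻¹ ∈ U := by
    intro x hx u hu
    have h1 := mul_mem (hU1 (hcm x hx u (hUK hu))) hu
    rw [commutatorElement_def, inv_mul_cancel_right] at h1
    exact h1
  have key : ∀ x ∈ K, x ∉ U → z⁻¹ * x ∈ U := by
    intro x hx hxU
    let V : Subgroup T :=
      { carrier := {y | y ∈ U ∨ x⁻¹ * y ∈ U}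
        one_mem' := Or.inl (one_mem U)
        mul_mem' := fun {a b} ha hb => by
          have hxx : x * x ∈ U := hU1 (hsq x hx)
          rcases ha with ha | ha <;> rcases hb with hb | hb
          · exact Or.inl (mul_mem ha hb)
          · refine Or.inr ?_
            have := mul_mem (hnor x⁻¹ (inv_mem hx) a ha) hb
            simpa [mul_assoc] using this
          · refine Or.inr ?_
            have := mul_mem ha hb
            simpa [mul_assoc] using this
          · refine Or.inl ?_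
            have h2 : a * b = x * (x⁻¹ * a) * x⁻¹ * (x * x) * (x⁻¹ * b) := by group
            rw [h2]
            exact mul_mem (mul_mem (hnor x hx _ ha) hxx) hb
        inv_mem' := fun {a} ha => by
          rcases ha with ha | ha
          · exact Or.inl (inv_mem ha)
          · refine Or.inr ?_
            have hxx : x * x ∈ U := hU1 (hsq x hx)
            have h2 : x⁻¹ * a⁻¹ = x⁻¹ * (x⁻¹ * a)⁻¹ * x⁻¹⁻¹ * (x * x)⁻¹ := by group
            rw [h2]
            exact mul_mem (hnor x⁻¹ (inv_mem hx) _ (inv_mem ha)) (inv_mem hxx) }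
    have hxV : x ∈ V := Or.inr (by rw [inv_mul_cancel]; exact one_mem U)
    have hVK : V ≤ K := by
      rintro y (hy | hy)
      · exact hUK hy
      · have := mul_mem hx (hUK hy)
        rwa [mul_inv_cancel_left] at this
    have hzV : z ∈ V := by
      by_contra hzV
      exact hxU (hU.le_of_ge ⟨fun y hy => Or.inl (hU1 hy), hVK, hzV⟩ (fun y hy => Or.inl hy) hxV)
    rcases hzV with hzV | hzV
    · exact absurd hzV hzU
    · have := inv_mem hzV
      simpa using this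
  have hUi : U.relIndex K ≤ 2 := by
    let f : Fin 2 → ↥K ⧸ U.subgroupOf K := fun i =>
      if i = 0 then ((1 : ↥K) : ↥K ⧸ U.subgroupOf K) else ((⟨z, hΦK hz⟩ : ↥K) : ↥K ⧸ U.subgroupOf K)
    have hf : Function.Surjective f := by
      intro q
      obtain ⟨⟨x, hx⟩, rfl⟩ := QuotientGroup.mk_surjective q
      by_cases hxU : x ∈ U
      · exact ⟨0, QuotientGroup.eq.2 (by simpa [mem_subgroupOf] using hxU)⟩
      · exact ⟨1, QuotientGroup.eq.2 (by simpa [mem_subgroupOf] using key x hx hxU)⟩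
    have := Nat.card_le_card_of_surjective f hf
    rwa [Nat.card_fin] at this
  have hUW : U.relIndex W ≤ 16 := by
    rw [← relIndex_mul_relIndex U K W hUK hKW]
    exact (Nat.mul_le_mul hUi hK).trans (by norm_num)
  have h1 := h.hd (U.subgroupOf W) hUW
  obtain ⟨z', hz', hzz⟩ := h.Fr_eq.ge hz
  have hz'' := h1 hz'
  rw [mem_subgroupOf] at hz''
  exact hzU (hzz ▸ hz'')

/-- Large subgroups of `W` have large derived subgroup. -/
theorem Hyp.no_abelian {X Φ0 : Subgroup T} (hXW : X ≤ W) (hΦX : Z T 3 ≤ X) (hX : X.relIndex W ≤ 4)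
    (h0 : Φ0 ≤ Z T 3) (h02 : Φ0.relIndex (Z T 3) = 2) :
    ∃ x ∈ X, ∃ y ∈ X, ⁅x, y⁆ ∉ Φ0 := by
  classical
  by_contra hcon
  push Not at hcon
  have hsq' : ∀ x ∈ W, x * x ∈ Z T 3 := fun x hx => h.Fr_eq ▸ h.sq_mem_Fr hx
  have hprod : ∀ a ∈ Z T 3, ∀ b ∈ Z T 3, a ∉ Φ0 → b ∉ Φ0 → a * b ∈ Φ0 := fun a ha b hb ha' hb' =>
    (mul_mem_iff_of_index_two (H := Φ0.subgroupOf (Z T 3)) h02 (a := ⟨a, ha⟩) (b := ⟨b, hb⟩)).2
      (iff_of_false ha' hb')
  have hsqm : ∀ x ∈ X, ∀ y ∈ X, ∃ c ∈ Φ0, x * y * (x * y) = c * ((x * x) * (y * y)) := by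
    intro x hx y hy
    refine ⟨x * ⁅y, x⁆ * x⁻¹, ?_, by simp only [commutatorElement_def]; group⟩
    have hc := hcon y hy x hx
    rw [h.comm_W (hXW hx) (h0 hc), mul_inv_cancel_right]
    exact hc
  let K : Subgroup T :=
    { carrier := {x | x ∈ X ∧ x * x ∈ Φ0}
      one_mem' := ⟨one_mem X, by rw [one_mul]; exact one_mem Φ0⟩
      mul_mem' := fun {x y} hx hy => ⟨mul_mem hx.1 hy.1, by
        obtain ⟨c, hc, e⟩ := hsqm x hx.1 y hy.1
        rw [e]; exact mul_mem hc (mul_mem hx.2 hy.2)⟩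
      inv_mem' := fun {x} hx => ⟨inv_mem hx.1, by rw [← mul_inv_rev]; exact inv_mem hx.2⟩ }
  have hKX : K ≤ X := fun x hx => hx.1
  have hΦK : Z T 3 ≤ K := fun a ha => ⟨hΦX ha, by
    by_cases ha' : a ∈ Φ0
    · exact mul_mem ha' ha'
    · exact hprod a ha a ha ha' ha'⟩
  have hKi : K.relIndex X ≤ 2 := by
    by_cases hall : ∀ x ∈ X, x * x ∈ Φ0
    · rw [relIndex_eq_one.2 (fun x hx => show x ∈ K from ⟨hx, hall x hx⟩)]; norm_num
    push Not at hall
    obtain ⟨b, hb, hb'⟩ := hall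
    refine le_of_eq ?_
    rw [relIndex, index_eq_two_iff]
    refine ⟨⟨b, hb⟩, fun a => ?_⟩
    by_cases ha : (a : T) * a ∈ Φ0
    · refine Or.inr ⟨⟨a.2, ha⟩, fun hab => hb' ?_⟩
      exact ((Subgroup.mul_mem_cancel_left (H := K.subgroupOf X) ⟨a.2, ha⟩).1 hab : (⟨b, hb⟩ : ↥X) ∈ K.subgroupOf X).2
    · refine Or.inl ⟨mem_subgroupOf.2 (show (a : T) * b ∈ X ∧ ((a : T) * b) * (a * b) ∈ Φ0 from ⟨mul_mem a.2 hb, ?_⟩),
        fun ha' => ha ha'.2⟩
      obtain ⟨c, hc, e⟩ := hsqm a a.2 b hb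
      show (a : T) * b * (a * b) ∈ Φ0
      rw [e]
      exact mul_mem hc (hprod _ (hsq' a (hXW a.2)) _ (hsq' b (hXW hb)) ha hb')
  refine h.no_square_free (hKX.trans hXW) hΦK ?_ h0 h02 (fun x hx => hx.2)
    fun x hx y hy => hcon x (hKX hx) y (hKX hy)
  rw [← relIndex_mul_relIndex K X W hKX hXW]
  exact (Nat.mul_le_mul hKi hX).trans (by norm_num)

theorem Hyp.commutator_eq : (commutator ↥W).map W.subtype = Z T 3 := by
  classical
  haveI : Fact (Nat.Prime 2) := ⟨Nat.prime_two⟩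
  have hle : (commutator ↥W).map W.subtype ≤ Z T 3 :=
    h.Fr_eq ▸ map_mono (PGroup.commutator_le_frattini h.pgroup_W)
  by_contra hne
  obtain ⟨z, hz, hz'⟩ := SetLike.exists_of_lt (lt_of_le_of_ne hle hne)
  -- an index-two subgroup of `Z3` containing the derived subgroup
  have hp : IsPGroup 2 ↥(Z T 3) := h.hT.to_subgroup _
  obtain ⟨M, hM, hM'⟩ : ∃ M : Subgroup ↥(Z T 3), IsCoatom M ∧
      ((commutator ↥W).map W.subtype).subgroupOf (Z T 3) ≤ M :=
    (eq_top_or_exists_le_coatom _).resolve_left fun e =>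
      hz' (subgroupOf_eq_top.1 e hz)
  have h02 : (M.map (Z T 3).subtype).relIndex (Z T 3) = 2 := by
    rw [relIndex, subgroupOf, comap_map_eq_self_of_injective (Z T 3).subtype_injective]
    exact PGroup.index_of_isCoatom hp hM
  obtain ⟨x, hx, y, hy, hxy⟩ := h.no_abelian le_rfl h.Z3_le_W (by rw [relIndex_self]; norm_num)
    (map_subtype_le M) h02
  refine hxy ⟨⟨⁅x, y⁆, h.Fr_eq ▸ h.comm_mem_Fr hx hy⟩, hM' ?_, rfl⟩
  rw [mem_subgroupOf]
  exact ⟨⁅⟨x, hx⟩, ⟨y, hy⟩⁆, commutator_mem_commutator (mem_top _) (mem_top _),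
    by simp [map_commutatorElement]⟩

theorem Hyp.Z3_comm {a b : T} (ha : a ∈ Z T 3) (hb : b ∈ Z T 3) : a * b = b * a :=
  h.comm_W (h.Z3_le_W ha) hb

theorem Hyp.Z3_sq : ∀ z ∈ Z T 3, z * z = 1 := by
  let E : Subgroup ↥W :=
    { carrier := {x | (x : T) ∈ Z T 3 ∧ (x : T) * x = 1}
      one_mem' := ⟨one_mem _, one_mul 1⟩
      mul_mem' := fun {a b} ha hb => ⟨mul_mem ha.1 hb.1, by
        show (a : T) * b * (a * b) = 1
        calc (a : T) * b * (a * b) = a * (b * a) * b := by group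
          _ = (a * a) * (b * b) := by rw [h.Z3_comm hb.1 ha.1]; group
          _ = 1 := by rw [ha.2, hb.2, one_mul]⟩
      inv_mem' := fun {a} ha => ⟨inv_mem ha.1, by
        show (a : T)⁻¹ * (a : T)⁻¹ = 1
        rw [← mul_inv_rev, ha.2, inv_one]⟩ }
  have hE : commutator ↥W ≤ E := by
    rw [_root_.commutator_def, commutator_le]
    intro x _ y _
    have hc : ⁅(x : T), (y : T)⁆ ∈ Z T 3 := h.Fr_eq ▸ h.comm_mem_Fr x.2 y.2
    refine ⟨by rw [show ((⁅x, y⁆ : ↥W) : T) = ⁅(x : T), (y : T)⁆ from map_commutatorElement W.subtype x y]; exact hc, ?_⟩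
    show ((⁅x, y⁆ : ↥W) : T) * ((⁅x, y⁆ : ↥W) : T) = 1
    rw [show ((⁅x, y⁆ : ↥W) : T) = ⁅(x : T), (y : T)⁆ from map_commutatorElement W.subtype x y]
    have hsq : (x : T) * x ∈ Z T 3 := h.Fr_eq ▸ h.sq_mem_Fr x.2
    have h1 : ⁅(x : T) * x, (y : T)⁆ = 1 :=
      commutatorElement_eq_one_iff_mul_comm.2 (h.comm_W y.2 hsq).symm
    rw [← h1]
    calc ⁅(x : T), (y : T)⁆ * ⁅(x : T), (y : T)⁆
        = (x * ⁅(x : T), (y : T)⁆ * (x : T)⁻¹) * ⁅(x : T), (y : T)⁆ := by
          rw [h.comm_W x.2 hc, mul_inv_cancel_right]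
      _ = ⁅(x : T) * x, (y : T)⁆ := by simp only [commutatorElement_def]; group
  intro z hz
  obtain ⟨w, hw, rfl⟩ := h.commutator_eq.ge hz
  exact (hE hw).2

omit h [Finite T] in
/-- Coordinates on `T/W`. -/
abbrev P3 : Type := ZMod 2 × ZMod 2 × ZMod 2

/-- Multiplication of coordinates. -/
def cmul (p q : P3) : P3 := (p.1 + q.1, p.2.1 + q.2.1, p.2.2 + q.2.2 + q.2.1 * p.1)

/-- The dihedral group of order eight in coordinates. -/
def toD4 (p : P3) : DihedralGroup 4 :=
  if p = (0, 0, 0) then .r 0 else if p = (1, 1, 0) then .r 1 else if p = (0, 0, 1) then .r 2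
  else if p = (1, 1, 1) then .r 3 else if p = (1, 0, 0) then .sr 0 else if p = (0, 1, 1) then .sr 1
  else if p = (1, 0, 1) then .sr 2 else .sr 3

omit h [Finite T] in
theorem toD4_facts : (∀ p q, toD4 (cmul p q) = toD4 p * toD4 q) ∧
    (∀ p, toD4 p = 1 → p = (0, 0, 0)) ∧
    (∀ p, toD4 p = .r 2 → p = (0, 0, 1)) ∧ (∀ p, toD4 p = .sr 1 → p.2.1 = 1) ∧
    (∀ p, toD4 p = .sr 3 → p.2.1 = 1) := by
  decide +kernel

/-- `T/W` is dihedral of order eight, in coordinates given by its action on `Z3`. -/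
theorem Hyp.exists_proj : ∃ π : T →* DihedralGroup 4, π.ker = W ∧ Function.Surjective π ∧
    ∀ g : T, π g = .r 2 ∨ π g = .sr 1 ∨ π g = .sr 3 →
      ∀ z ∈ Z T 3, z ∉ Z T 2 → g * z * g⁻¹ ≠ z := by
  classical
  obtain ⟨z1, h1, h1'⟩ := h.exists_gen (i := 0) (by norm_num)
  obtain ⟨z2, h2, h2'⟩ := h.exists_gen (i := 1) (by norm_num)
  obtain ⟨z3, h3, h3'⟩ := h.exists_gen (i := 2) (by norm_num)
  have hZ0 : ∀ x : T, x ∈ Z T 0 ↔ x = 1 := fun x => by
    rw [Z, Subgroup.upperCentralSeries_zero, mem_bot]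
  have hz1 : z1 ≠ 1 := fun e => h1' ((hZ0 _).2 e)
  have hle12 : Z T 1 ≤ Z T 2 := Z_le_succ 1
  have hle23 : Z T 2 ≤ Z T 3 := Z_le_succ 2
  have hm1 : z1 ∈ Z T 3 := hle23 (hle12 h1)
  have hm2 : z2 ∈ Z T 3 := hle23 h2
  have s1 := h.Z3_sq z1 hm1
  have s2 := h.Z3_sq z2 hm2
  let pw : T → ZMod 2 → T := fun z a => if a = 0 then 1 else z
  have pw_add : ∀ z, z * z = 1 → ∀ a b, pw z a * pw z b = pw z (a + b) := by
    intro z hz a b
    have : ∀ a : ZMod 2, a = 0 ∨ a = 1 := by decide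
    rcases this a with rfl | rfl <;> rcases this b with rfl | rfl <;>
      simp [pw, hz, show (1 : ZMod 2) + 1 = 0 by decide]
  have dec1 : ∀ y ∈ Z T 1, ∃ a, y = pw z1 a := by
    intro y hy
    by_cases hy' : y ∈ Z T 0
    · exact ⟨0, by simp [pw, (hZ0 y).1 hy']⟩
    · refine ⟨1, ?_⟩
      have := (hZ0 _).1 (h.two_step (by norm_num) h1 h1' hy hy')
      simp [pw, mul_inv_eq_one.1 this]
  have dec2 : ∀ y ∈ Z T 2, ∃ b c, y = pw z2 b * pw z1 c := by
    intro y hy
    by_cases hy' : y ∈ Z T 1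
    · obtain ⟨c, rfl⟩ := dec1 y hy'
      exact ⟨0, c, by simp [pw]⟩
    · obtain ⟨c, hc⟩ := dec1 _ (h.two_step (by norm_num) h2 h2' hy hy')
      refine ⟨1, c, ?_⟩
      have hy2 : y = pw z1 c * z2 := by rw [← hc, inv_mul_cancel_right]
      rw [hy2]
      have : pw z2 1 = z2 := by simp [pw]
      rw [this]
      exact h.Z3_comm (by simp only [pw]; split_ifs; exacts [one_mem _, hm1]) hm2
  have hA : ∀ g : T, ∃ a, g * z2 * g⁻¹ = z2 * pw z1 a := fun g => by
    obtain ⟨a, ha⟩ := dec1 _ (conj_div_mem h2 g)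
    refine ⟨a, ?_⟩
    rw [mul_inv_eq_iff_eq_mul.1 ha]
    exact h.Z3_comm (by simp only [pw]; split_ifs; exacts [one_mem _, hm1]) hm2
  have hB : ∀ g : T, ∃ b c, g * z3 * g⁻¹ = z3 * (pw z2 b * pw z1 c) := fun g => by
    obtain ⟨b, c, hbc⟩ := dec2 _ (conj_div_mem h3 g)
    refine ⟨b, c, ?_⟩
    rw [mul_inv_eq_iff_eq_mul.1 hbc]
    refine h.Z3_comm (mul_mem ?_ ?_) h3 <;> simp only [pw] <;> split_ifs <;>
      first | exact one_mem _ | exact hm2 | exact hm1
  choose al hal using hA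
  choose be ga hbe using hB
  have hpw1 : ∀ a g, g * pw z1 a * g⁻¹ = pw z1 a := by
    intro a g
    simp only [pw]
    split_ifs
    · simp
    · rw [central_Z1 h1 g, mul_inv_cancel_right]
  have hpw2 : ∀ b g, g * pw z2 b * g⁻¹ = pw z2 b * pw z1 (b * al g) := by
    intro b g
    rcases (show ∀ a : ZMod 2, a = 0 ∨ a = 1 by decide) b with rfl | rfl
    · simp [pw]
    · rw [one_mul, show pw z2 1 = z2 by simp [pw]]; exact hal g
  have pinj1 : ∀ a b, pw z1 a = pw z1 b → a = b := by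
    intro a b e
    rcases (show ∀ a : ZMod 2, a = 0 ∨ a = 1 by decide) a with rfl | rfl <;>
      rcases (show ∀ a : ZMod 2, a = 0 ∨ a = 1 by decide) b with rfl | rfl <;>
      simp [pw, hz1, Ne.symm hz1] at e ⊢
  have pinj2 : ∀ b c b' c', pw z2 b * pw z1 c = pw z2 b' * pw z1 c' → b = b' ∧ c = c' := by
    intro b c b' c' e
    rcases (show ∀ a : ZMod 2, a = 0 ∨ a = 1 by decide) b with rfl | rfl <;>
      rcases (show ∀ a : ZMod 2, a = 0 ∨ a = 1 by decide) b' with rfl | rfl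
    · exact ⟨rfl, pinj1 _ _ (mul_left_cancel e)⟩
    · exfalso; apply h2'
      have e' : z2 = pw z1 c * (pw z1 c')⁻¹ := by
        rw [eq_mul_inv_iff_mul_eq]; simpa [pw] using e.symm
      rw [e']
      refine mul_mem ?_ (inv_mem ?_) <;> simp only [pw] <;> split_ifs <;>
        first | exact one_mem _ | exact h1
    · exfalso; apply h2'
      have e' : z2 = pw z1 c' * (pw z1 c)⁻¹ := by
        rw [eq_mul_inv_iff_mul_eq]; simpa [pw] using e
      rw [e']
      refine mul_mem ?_ (inv_mem ?_) <;> simp only [pw] <;> split_ifs <;>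
        first | exact one_mem _ | exact h1
    · exact ⟨rfl, pinj1 _ _ (mul_left_cancel e)⟩
  let f : T → P3 := fun g => (al g, be g, ga g)
  have hlaw : ∀ g g', f (g * g') = cmul (f g) (f g') := by
    intro g g'
    have e2 : z2 * pw z1 (al (g * g')) = z2 * pw z1 (al g + al g') := by
      calc z2 * pw z1 (al (g * g')) = g * g' * z2 * (g * g')⁻¹ := (hal _).symm
        _ = g * (g' * z2 * g'⁻¹) * g⁻¹ := by group
        _ = (g * z2 * g⁻¹) * (g * pw z1 (al g') * g⁻¹) := by rw [hal g']; group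
        _ = z2 * pw z1 (al g + al g') := by rw [hal g, hpw1, mul_assoc, pw_add z1 s1]
    have e3 : z3 * (pw z2 (be (g * g')) * pw z1 (ga (g * g'))) =
        z3 * (pw z2 (be g + be g') * pw z1 (ga g + ga g' + be g' * al g)) := by
      have hc : pw z1 (ga g) * pw z2 (be g') = pw z2 (be g') * pw z1 (ga g) := by
        refine h.Z3_comm ?_ ?_ <;> simp only [pw] <;> split_ifs <;>
          first | exact one_mem _ | exact hm2 | exact hm1
      calc z3 * (pw z2 (be (g * g')) * pw z1 (ga (g * g'))) = g * g' * z3 * (g * g')⁻¹ := (hbe _).symm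
        _ = g * (g' * z3 * g'⁻¹) * g⁻¹ := by group
        _ = (g * z3 * g⁻¹) * (g * pw z2 (be g') * g⁻¹) * (g * pw z1 (ga g') * g⁻¹) := by
          rw [hbe g']; group
        _ = z3 * pw z2 (be g) * (pw z1 (ga g) * pw z2 (be g')) *
            (pw z1 (be g' * al g) * pw z1 (ga g')) := by rw [hbe g, hpw2, hpw1]; group
        _ = z3 * ((pw z2 (be g) * pw z2 (be g')) *
            (pw z1 (ga g) * (pw z1 (be g' * al g) * pw z1 (ga g')))) := by rw [hc]; group
        _ = _ := by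
          rw [pw_add z2 s2, pw_add z1 s1, pw_add z1 s1]
          congr 3; ring
    obtain ⟨e4, e5⟩ := pinj2 _ _ _ _ (mul_left_cancel e3)
    exact Prod.ext (pinj1 _ _ (mul_left_cancel e2)) (Prod.ext e4 e5)
  let π : T →* DihedralGroup 4 :=
    MonoidHom.mk' (fun g => toD4 (f g)) fun g g' => by rw [hlaw, toD4_facts.1]
  have hker : π.ker = W := by
    ext g
    constructor
    · intro hg
      have := toD4_facts.2.1 _ (MonoidHom.mem_ker.1 hg)
      simp only [f, Prod.mk.injEq] at this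
      refine h.mem_W_of h2 h2' h3 h3' (mul_inv_eq_iff_eq_mul.1 ?_) (mul_inv_eq_iff_eq_mul.1 ?_)
      · rw [hal, this.1]; simp [pw]
      · rw [hbe, this.2.1, this.2.2]; simp [pw]
    · intro hg
      have ea : pw z1 (al g) = pw z1 0 := by
        have := hal g
        rw [h.comm_W hg hm2, mul_inv_cancel_right, left_eq_mul] at this
        simp [pw] at this ⊢; exact this
      have eb : pw z2 (be g) * pw z1 (ga g) = pw z2 0 * pw z1 0 := by
        have := hbe g
        rw [h.comm_W hg h3, mul_inv_cancel_right, left_eq_mul] at this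
        rw [this]; simp [pw]
      rw [MonoidHom.mem_ker]
      show toD4 (f g) = 1
      simp only [f, pinj1 _ _ ea, (pinj2 _ _ _ _ eb).1, (pinj2 _ _ _ _ eb).2]
      rfl
  refine ⟨π, hker, ?_, ?_⟩
  · rw [← MonoidHom.range_eq_top]
    refine eq_top_of_card_eq _ ?_
    rw [← index_ker, hker, h.index_W, Nat.card_eq_fintype_card, DihedralGroup.card]
  · intro g hg z hz hz'
    obtain ⟨b, c, hbc⟩ := dec2 _ (h.two_step (by norm_num) h3 h3' hz hz')
    have hz3 : z = pw z2 b * pw z1 c * z3 := by rw [← hbc, inv_mul_cancel_right]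
    intro e
    have e' : pw z2 b * pw z1 (b * al g) * pw z1 c * (z3 * (pw z2 (be g) * pw z1 (ga g))) =
        pw z2 b * pw z1 c * z3 := by
      rw [← hpw2 b g, ← hbe g]
      conv_rhs => rw [← hz3, ← e, hz3]
      conv_lhs => rw [← hpw1 c g]
      group
    have hmem : ∀ x y, pw z2 x * pw z1 y ∈ Z T 3 := fun x y => by
      refine mul_mem ?_ ?_ <;> simp only [pw] <;> split_ifs <;>
        first | exact one_mem _ | exact hm2 | exact hm1
    have e'' : pw z1 (b * al g) * (pw z2 (be g) * pw z1 (ga g)) = 1 := by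
      have hm : pw z1 c ∈ Z T 3 := by simp only [pw]; split_ifs; exacts [one_mem _, hm1]
      have hmx : pw z1 (b * al g) ∈ Z T 3 := by simp only [pw]; split_ifs; exacts [one_mem _, hm1]
      rw [mul_assoc (pw z2 b), mul_assoc (pw z2 b), mul_assoc (pw z2 b)] at e'
      have e4 := mul_left_cancel e'
      rw [h.Z3_comm hmx hm, mul_assoc] at e4
      have e5 := mul_left_cancel e4
      rw [← mul_assoc, h.Z3_comm hmx h3, mul_assoc] at e5
      exact left_eq_mul.1 e5.symm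
    have e6 : pw z2 (be g) * pw z1 (b * al g + ga g) = pw z2 0 * pw z1 0 := by
      rw [← pw_add z1 s1, ← mul_assoc]
      have hc : pw z2 (be g) * pw z1 (b * al g) = pw z1 (b * al g) * pw z2 (be g) := by
        refine h.Z3_comm ?_ ?_ <;> simp only [pw] <;> split_ifs <;>
          first | exact one_mem _ | exact hm2 | exact hm1
      rw [hc, mul_assoc, e'']
      simp [pw]
    obtain ⟨k1, k2⟩ := pinj2 _ _ _ _ e6
    obtain ⟨-, -, f2, f3, f4⟩ := toD4_facts
    rcases hg with hg | hg | hg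
    · have := f2 (f g) hg
      simp only [f, Prod.mk.injEq] at this
      rw [this.1, this.2.2] at k2
      simp at k2
    · have := f3 (f g) hg; simp only [f] at this; rw [k1] at this; exact absurd this (by decide)
    · have := f4 (f g) hg; simp only [f] at this; rw [k1] at this; exact absurd this (by decide)

end Cfsg.Agent.CharTwo.Rudvalis
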