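import Cfsg.Agent.CharTwo.QuaternionData
import Cfsg.Agent.CharTwo.SylowSmall
import Cfsg.Agent.CharTwo.Locals
import Cfsg.Agent.S0215
import Cfsg.Agent.Cores.Basic

/-!
# A central product of two `SL₂` extended by a factor-exchanging element of order 4
-/

set_option autoImplicit false

namespace Cfsg.Agent.CharTwo

open Subgroup
open Cfsg.Agent
open scoped MatrixGroups

variable {G : Type*} [Group G]

/-- A 2-element of the first factor extracted from a product. -/
theorem proj_isPGroup {T L L' : Subgroup G} (hT : IsPGroup 2 T)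
    (hn : T ≤ normalizer (L' : Set G)) (hc : ∀ x ∈ L, ∀ y ∈ L', x * y = y * x)
    {j : G} (hm : L ⊓ L' = zpowers j) (hj : j * j = 1) :
    IsPGroup 2 ↥((T ⊔ L') ⊓ L) := by
  rintro ⟨x, hxT', hxL⟩
  have hxT : x ∈ T ⊔ L' := hxT'
  rw [← SetLike.mem_coe, Subgroup.coe_mul_of_left_le_normalizer_right T L' hn] at hxT
  obtain ⟨t, ht, b, hb, rfl⟩ := hxT
  dsimp only at hxL
  obtain ⟨k, hk⟩ := hT ⟨t, ht⟩
  have hk' : t ^ 2 ^ k = 1 := by simpa [Subtype.ext_iff] using hk
  have hcomm : Commute (t * b) b⁻¹ := hc _ hxL _ (inv_mem hb)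
  have h1 : (t * b) ^ 2 ^ k * (b⁻¹) ^ 2 ^ k = 1 := by
    rw [← hcomm.mul_pow, mul_inv_cancel_right, hk']
  have h2 : (t * b) ^ 2 ^ k ∈ zpowers j := by
    rw [← hm]
    refine ⟨pow_mem hxL _, ?_⟩
    rw [eq_inv_of_mul_eq_one_left h1]
    exact L'.inv_mem (L'.pow_mem (L'.inv_mem hb) _)
  obtain ⟨i, hi⟩ := h2
  refine ⟨k + 1, Subtype.ext ?_⟩
  simp only [SubmonoidClass.coe_pow, OneMemClass.coe_one]
  rw [pow_succ, pow_mul, ← hi]
  dsimp only
  rw [pow_two, ← (Commute.refl j).mul_zpow, hj, one_zpow]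

set_option maxHeartbeats 1000000 in
/-- The isolation of the central involution. -/
theorem sl_pair_swap_isolated [Finite G] {F₁ : Type*} [Field F₁] [Fintype F₁] {F₂ : Type*}
    [Field F₂] [Fintype F₂] (hF₁ : Odd (Fintype.card F₁)) (hF₂ : Odd (Fintype.card F₂))
    (L₁ L₂ : Subgroup G) (e₁ : ↥L₁ ≃* SL(2, F₁)) (e₂ : ↥L₂ ≃* SL(2, F₂))
    (hc : ∀ x ∈ L₁, ∀ y ∈ L₂, x * y = y * x) (j : G) (hj : orderOf j = 2)
    (hm : L₁ ⊓ L₂ = zpowers j) (hle : L₁ ⊔ L₂ ≤ centralizer ({j} : Set G))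
    (hi : (L₁ ⊔ L₂).relIndex (centralizer ({j} : Set G)) = 2) (n : G)
    (hn : n ∈ centralizer ({j} : Set G)) (hn2 : n ^ 2 = j)
    (hswap : L₁.map (MulAut.conj n).toMonoidHom = L₂) :
    ∃ S : Sylow 2 G, j ∈ (S : Subgroup G) ∧
      ∀ g : G, g * j * g⁻¹ ∈ (S : Subgroup G) → g * j * g⁻¹ = j := by
  haveI : Fact (Nat.Prime 2) := ⟨Nat.prime_two⟩
  have hj1 : j ≠ 1 := fun h => by rw [h, orderOf_one] at hj; omega
  have hjj : j * j = 1 := by rw [← pow_two, ← hj]; exact pow_orderOf_eq_one j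
  have hji : j⁻¹ = j := inv_eq_of_mul_eq_one_right hjj
  have hjm : j ∈ L₁ ⊓ L₂ := hm ▸ mem_zpowers j
  have hmem : ∀ z ∈ zpowers j, z = 1 ∨ z = j := by
    rintro z ⟨i, rfl⟩
    rcases Int.even_or_odd i with ⟨k, rfl⟩ | ⟨k, rfl⟩
    · left; dsimp only; rw [_root_.zpow_add, ← (Commute.refl j).mul_zpow, hjj, _root_.one_zpow]
    · right; dsimp only; rw [_root_.zpow_add_one, _root_.zpow_mul,
        show j ^ (2 : ℤ) = 1 from (zpow_two j).trans hjj, _root_.one_zpow, one_mul]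
  set C := centralizer ({j} : Set G) with hC
  have hCj : ∀ g ∈ C, g * j = j * g := fun g hg => mem_centralizer_singleton_iff.1 hg
  have hn1 : L₁ ⊔ L₂ ≤ normalizer (L₁ : Set G) :=
    sup_le le_normalizer ((fun y hy => show y ∈ centralizer (L₁ : Set G) from
      fun x hx => hc x hx y hy) |> fun h => le_trans h (normalizer_le_centralizer_of_coe L₁))
  have hn2' : L₁ ⊔ L₂ ≤ normalizer (L₂ : Set G) :=
    sup_le ((fun x hx => show x ∈ centralizer (L₂ : Set G) from
      fun y hy => (hc x hx y hy).symm) |> fun h => le_trans h (normalizer_le_centralizer_of_coe L₂))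
      le_normalizer
  have hnn : n * n = j := by rw [← pow_two]; exact hn2
  -- `n` as an automorphism
  set φ := (MulAut.conj n).toMonoidHom with hφ
  have hφinj : Function.Injective φ := (MulAut.conj n).injective
  have hφapp : ∀ y, φ y = n * y * n⁻¹ := fun y => rfl
  have hφφ : ∀ y ∈ C, φ (φ y) = y := by
    intro y hy
    calc φ (φ y) = (n * n) * y * (n * n)⁻¹ := by rw [hφapp, hφapp]; group
      _ = y := by rw [hnn, ← hCj y hy, mul_inv_cancel_right]
  have hφj : φ j = j := mul_inv_eq_iff_eq_mul.2 (hCj n hn)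
  have hφ1 : ∀ y ∈ L₁, φ y ∈ L₂ := fun y hy => hswap ▸ ⟨y, hy, rfl⟩
  have hφ2 : ∀ y ∈ L₂, φ y ∈ L₁ := by
    intro y hy
    rw [← hswap] at hy
    obtain ⟨z, hz, rfl⟩ := hy
    rw [hφφ z (hle (mem_sup_left hz))]
    exact hz
  have hnL : n ∉ L₁ ⊔ L₂ := by
    intro h
    have h1 : L₁.map φ = L₁ := Fusion.cj_eq_iff_mem_normalizer.2 (hn1 h)
    rw [hswap] at h1
    have h3 : L₁ ≤ zpowers j := hm ▸ le_inf le_rfl h1.ge
    have h4 := card_le_of_le h3
    rw [Nat.card_zpowers, hj] at h4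
    exact not_card_le_two e₁ hF₁ h4
  -- the Sylow subgroup of the first factor
  let f₁ : SL(2, F₁) →* G := L₁.subtype.comp e₁.symm.toMonoidHom
  have hf₁ : Function.Injective f₁ := L₁.subtype_injective.comp e₁.symm.injective
  have hf₁j : f₁ (-1) = j := by
    have hje := neg_one_of_involution hF₁ e₁ (x := ⟨j, hjm.1⟩) hj1 hjj
    show ((e₁.symm (-1) : L₁) : G) = j
    rw [← hje, MulEquiv.symm_apply_apply]
  obtain ⟨Q⟩ := (inferInstance : Nonempty (Sylow 2 SL(2, F₁)))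
  obtain ⟨u₀, h₀, w₀, a, hd₀⟩ := sl_qData hF₁ Q
  have d := hd₀.map f₁ hf₁
  rw [hf₁j] at d
  set Q₁ := (Q : Subgroup SL(2, F₁)).map f₁ with hQ₁def
  set u := f₁ u₀ with hu
  set h := f₁ h₀ with hh
  set w := f₁ w₀ with hw
  have d' := d.map φ hφinj
  rw [hφj] at d'
  set Q₂ := Q₁.map φ with hQ₂def
  set v := φ u with hv
  have hQ₁L : Q₁ ≤ L₁ := by rintro _ ⟨y, -, rfl⟩; exact (e₁.symm y).2
  have hQ₂L : Q₂ ≤ L₂ := by rintro _ ⟨y, hy, rfl⟩; exact hφ1 y (hQ₁L hy)
  have hQ₁C : Q₁ ≤ C := hQ₁L.trans (le_sup_left.trans hle)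
  have hQ₂C : Q₂ ≤ C := hQ₂L.trans (le_sup_right.trans hle)
  have hQ₁max : ∀ D : Subgroup G, IsPGroup 2 D → Q₁ ≤ D → D ≤ L₁ → D = Q₁ := by
    intro D hD hQD hDL
    have h1 : D.comap f₁ = (Q : Subgroup SL(2, F₁)) :=
      Q.3 (hD.comap_of_injective f₁ hf₁) (fun y hy => hQD ⟨y, hy, rfl⟩)
    refine le_antisymm ?_ hQD
    intro y hy
    have hy1 : f₁ (e₁ ⟨y, hDL hy⟩) = y := by
      show ((e₁.symm (e₁ ⟨y, hDL hy⟩) : L₁) : G) = y
      rw [MulEquiv.symm_apply_apply]
    exact ⟨e₁ ⟨y, hDL hy⟩, h1 ▸ (show f₁ (e₁ ⟨y, hDL hy⟩) ∈ D by rw [hy1]; exact hy), hy1⟩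
  have hQφ : Q₂.map φ = Q₁ := by
    ext y
    constructor
    · rintro ⟨_, ⟨z, hz, rfl⟩, rfl⟩
      rw [hφφ z (hQ₁C hz)]; exact hz
    · intro hy
      exact ⟨φ y, ⟨y, hy, rfl⟩, hφφ y (hQ₁C hy)⟩
  have hQ₂max : ∀ D : Subgroup G, IsPGroup 2 D → Q₂ ≤ D → D ≤ L₂ → D = Q₂ := by
    intro D hD hQD hDL
    have h1 : D.map φ = Q₁ := hQ₁max _ (hD.map φ) (hQφ ▸ map_mono hQD)
      (by rintro _ ⟨y, hy, rfl⟩; exact hφ2 y (hDL hy))
    refine le_antisymm ?_ hQD
    intro y hy
    refine ⟨φ y, h1 ▸ ⟨y, hy, rfl⟩, hφφ y (hle (mem_sup_right (hDL hy)))⟩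
  have hQ₁p : IsPGroup 2 Q₁ := Q.2.map f₁
  have hQ₂p : IsPGroup 2 Q₂ := hQ₁p.map φ
  have hQc : ∀ x ∈ Q₁, ∀ y ∈ Q₂, x * y = y * x := fun x hx y hy => hc x (hQ₁L hx) y (hQ₂L hy)
  -- a Sylow subgroup `T` of `C`
  have hQQ : Q₂ ≤ normalizer (Q₁ : Set G) :=
    le_trans (show Q₂ ≤ centralizer (Q₁ : Set G) from fun y hy x hx => hQc x hx y hy)
      (normalizer_le_centralizer_of_coe Q₁)
  have hU : IsPGroup 2 ↥(Q₁ ⊔ Q₂ : Subgroup G) := IsPGroup.to_sup_of_normal_left' hQ₁p hQ₂p hQQ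
  have hnU : n ∈ normalizer ((Q₁ ⊔ Q₂ : Subgroup G) : Set G) := by
    rw [← Fusion.cj_eq_iff_mem_normalizer]
    show (Q₁ ⊔ Q₂).map φ = _
    rw [Subgroup.map_sup, hQφ, sup_comm]
  have hnp : IsPGroup 2 (zpowers n) := IsPGroup.of_card (n := 2) (by
    rw [Nat.card_zpowers]
    exact orderOf_eq_prime_pow (by rw [pow_one, pow_two, hnn]; exact hj1)
      (by rw [pow_succ, pow_one, pow_mul, pow_two n, hnn, pow_two, hjj]))
  have hU₀ : IsPGroup 2 ↥((Q₁ ⊔ Q₂) ⊔ zpowers n : Subgroup G) :=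
    IsPGroup.to_sup_of_normal_left' hU hnp (zpowers_le.2 hnU)
  have hU₀C : (Q₁ ⊔ Q₂) ⊔ zpowers n ≤ C := sup_le (sup_le hQ₁C hQ₂C) (zpowers_le.2 hn)
  obtain ⟨T', hT'⟩ := (hU₀.comap_subtype (K := C)).exists_le_sylow
  set T := (T' : Subgroup C).map C.subtype with hTdef
  have hTC : T ≤ C := map_subtype_le _
  have hTp : IsPGroup 2 T := T'.2.map _
  have hUT : (Q₁ ⊔ Q₂) ⊔ zpowers n ≤ T := fun y hy => ⟨⟨y, hU₀C hy⟩, hT' hy, rfl⟩
  have hQ₁T : Q₁ ≤ T := le_trans (le_sup_left.trans le_sup_left) hUT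
  have hQ₂T : Q₂ ≤ T := le_trans (le_sup_right.trans le_sup_left) hUT
  have hnT : n ∈ T := hUT (mem_sup_right (mem_zpowers n))
  have hjT : j ∈ T := hQ₁T d.jmem
  have hTmax : ∀ D : Subgroup G, IsPGroup 2 D → T ≤ D → D ≤ C → D = T := by
    intro D hD hTD hDC
    have h1 : D.subgroupOf C = (T' : Subgroup C) :=
      T'.3 hD.comap_subtype (fun y hy => hTD ⟨y, hy, rfl⟩)
    rw [hTdef, ← h1, subgroupOf_map_subtype, inf_eq_left.2 hDC]
  -- `T ∩ L = Q₁ Q₂`
  have hTL : ∀ t ∈ T, t ∈ L₁ ⊔ L₂ → ∃ a ∈ Q₁, ∃ b ∈ Q₂, t = a * b := by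
    intro t ht htL
    have hTLp : IsPGroup 2 ↥(T ⊓ (L₁ ⊔ L₂)) := hTp.to_le inf_le_left
    have hD1 := hQ₁max _ (proj_isPGroup hTLp (inf_le_right.trans hn2') hc hm hjj)
      (le_inf (le_sup_of_le_left (le_inf hQ₁T (hQ₁L.trans le_sup_left))) hQ₁L) inf_le_right
    have hD2 := hQ₂max _ (proj_isPGroup hTLp (inf_le_right.trans hn1)
      (fun x hx y hy => (hc y hy x hx).symm) (by rw [inf_comm]; exact hm) hjj)
      (le_inf (le_sup_of_le_left (le_inf hQ₂T (hQ₂L.trans le_sup_right))) hQ₂L) inf_le_right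
    have htL' := htL
    rw [← SetLike.mem_coe, Subgroup.coe_mul_of_left_le_normalizer_right L₁ L₂
      (le_sup_left.trans hn2')] at htL'
    obtain ⟨x, hx, y, hy, rfl⟩ := htL'
    dsimp only at ht htL ⊢
    refine ⟨x, hD1 ▸ ⟨?_, hx⟩, y, hD2 ▸ ⟨?_, hy⟩, rfl⟩
    · have := mul_mem (mem_sup_left (T := L₂) (show x * y ∈ T ⊓ (L₁ ⊔ L₂) from ⟨ht, htL⟩))
        (mem_sup_right (inv_mem hy))
      rwa [mul_inv_cancel_right] at this
    · have := mul_mem (mem_sup_right (inv_mem hx))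
        (mem_sup_left (T := L₁) (show x * y ∈ T ⊓ (L₁ ⊔ L₂) from ⟨ht, htL⟩))
      rwa [inv_mul_cancel_left] at this
  -- elements outside `L`
  have h2 : ((L₁ ⊔ L₂).subgroupOf C).index = 2 := hi
  have hcoset : ∀ g ∈ C, g ∉ L₁ ⊔ L₂ → g * n⁻¹ ∈ L₁ ⊔ L₂ := fun g hg hgL =>
    (Subgroup.mul_mem_iff_of_index_two h2 (a := ⟨g, hg⟩) (b := ⟨n⁻¹, inv_mem hn⟩)).2
      (iff_of_false hgL (fun h => hnL ((L₁ ⊔ L₂).inv_mem_iff.1 h)))
  have hout : ∀ g ∈ C, g ∉ L₁ ⊔ L₂ → g * g ≠ 1 := by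
    intro g hg hgL e
    have h1 := hcoset g hg hgL
    rw [← SetLike.mem_coe, Subgroup.coe_mul_of_left_le_normalizer_right L₁ L₂
      (le_sup_left.trans hn2')] at h1
    obtain ⟨x, hx, y, hy, hxy⟩ := h1
    have hg' : g = x * y * n := by
      change x * y = g * n⁻¹ at hxy
      rw [hxy, inv_mul_cancel_right]
    set A := x * φ y with hA
    set B := y * φ x with hB
    have hA1 : A ∈ L₁ := mul_mem hx (hφ2 y hy)
    have hB2 : B ∈ L₂ := mul_mem hy (hφ1 x hx)
    have hgg : A * B * j = 1 := by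
      have h3 : g * g = x * (y * φ x) * φ y * j := by
        calc g * g = x * y * (n * (x * y) * n⁻¹) * (n * n) := by rw [hg']; group
          _ = x * y * (φ x * φ y) * j := by rw [hnn, ← hφapp, map_mul]
          _ = _ := by group
      have h4 : x * (y * φ x) * φ y = A * B := by
        rw [hA, hB, mul_assoc x, ← hc (φ y) (hφ2 y hy) (y * φ x) (hB ▸ hB2)]; group
      rw [← h4, ← h3, e]
    have hAB : A = j * B⁻¹ := by
      have h5 : A * B = j := by
        have h6 := eq_inv_of_mul_eq_one_left hgg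
        rwa [hji] at h6
      rw [← h5, mul_inv_cancel_right]
    have hAm : A ∈ zpowers j := hm ▸ ⟨hA1, by rw [hAB]; exact L₂.mul_mem hjm.2 (L₂.inv_mem hB2)⟩
    have hAC : ∀ z ∈ C, A * z = z * A := by
      intro z hz
      rcases hmem A hAm with e1 | e1 <;> rw [e1]
      · simp
      · exact (hCj z hz).symm
    have hφy : φ y = x⁻¹ * A := by rw [hA, inv_mul_cancel_left]
    have hy' : y = (φ x)⁻¹ * φ A := by
      rw [← hφφ y (hle (mem_sup_right hy)), hφy, map_mul, map_inv]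
    have hφA : φ A = A := by
      rcases hmem A hAm with e1 | e1 <;> rw [e1]
      · exact map_one φ
      · exact hφj
    have hBA : B = A := by
      rw [hB, hy', hφA, mul_assoc, hAC _ (hle (mem_sup_right (hφ1 x hx))), inv_mul_cancel_left]
    rw [hBA] at hgg
    rcases hmem A hAm with e1 | e1 <;> rw [e1] at hgg <;> simp [hjj] at hgg <;> exact hj1 hgg
  -- the involution `x₀`
  set x₀ := u * v with hx₀
  have huL : u ∈ L₁ := hQ₁L d.umem
  have hvL : v ∈ L₂ := hQ₂L d'.umem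
  have hx₀L : x₀ ∈ L₁ ⊔ L₂ := mul_mem_sup huL hvL
  have hx₀j : x₀ ≠ j := by
    intro e
    have h1 : u ∈ zpowers j := hm ▸ ⟨huL, by
      rw [eq_mul_inv_of_mul_eq e]; exact L₂.mul_mem hjm.2 (L₂.inv_mem hvL)⟩
    have h3 := d.usq
    rcases hmem u h1 with e1 | e1 <;> rw [e1] at h3
    · exact hj1 (by simpa using h3.symm)
    · exact hj1 (hjj ▸ h3).symm
  have hx₀2 : x₀ * x₀ = 1 := by
    calc x₀ * x₀ = u * (v * u) * v := by rw [hx₀]; group
      _ = (u * u) * (v * v) := by rw [← hc u huL v hvL]; group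
      _ = 1 := by rw [d.usq, d'.usq, hjj]
  have hx₀1 : x₀ ≠ 1 := by
    intro e
    have h1 : u ∈ zpowers j := hm ▸ ⟨huL, by
      rw [eq_inv_of_mul_eq_one_left e]; exact L₂.inv_mem hvL⟩
    have h3 := d.usq
    rcases hmem u h1 with e1 | e1 <;> rw [e1] at h3
    · exact hj1 (by simpa using h3.symm)
    · exact hj1 (hjj ▸ h3).symm
  have hclass : ∀ y ∈ L₁ ⊔ L₂, orderOf y = 2 → y ≠ j → ∃ g ∈ C, g * x₀ * g⁻¹ = y := by
    intro y hy hyo hyj
    obtain ⟨x', hx', -, -, hall⟩ := sl_pair_involutions hF₁ hF₂ L₁ L₂ e₁ e₂ hc j hj hm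
    obtain ⟨g, hg, hgy⟩ := (hall y hy hyo).resolve_left hyj
    obtain ⟨k, hk, hky⟩ :=
      (hall x₀ hx₀L (orderOf_eq_prime (by rw [pow_two]; exact hx₀2) hx₀1)).resolve_left hx₀j
    refine ⟨g * k⁻¹, hle (mul_mem hg (inv_mem hk)), ?_⟩
    rw [← hgy, ← hky]; group
  -- the conjugates of `x₀` under `T`
  have hconj : ∀ t ∈ T, t * x₀ = x₀ * t ∨ t * x₀ = x₀ * j * t := by
    have hL : ∀ a ∈ Q₁, ∀ b ∈ Q₂,
        a * b * x₀ = x₀ * (a * b) ∨ a * b * x₀ = x₀ * j * (a * b) := by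
      intro a ha b hb
      have e0 : a * b * x₀ = (a * u) * (b * v) := by
        calc a * b * x₀ = a * (b * u) * v := by rw [hx₀]; group
          _ = _ := by rw [← hc u huL b (hQ₂L hb)]; group
      have e1 : x₀ * (a * b) = (u * a) * (v * b) := by
        calc x₀ * (a * b) = u * (v * a) * b := by rw [hx₀]; group
          _ = _ := by rw [← hc a (hQ₁L ha) v hvL]; group
      have hxj : x₀ * j * (a * b) = x₀ * (a * b) * j := by
        rw [mul_assoc x₀ j, ← hCj (a * b) (mul_mem (hQ₁C ha) (hQ₂C hb)), ← mul_assoc]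
      rcases d.sign a ha with sa | sa <;> rcases d'.sign b hb with sb | sb
      · left; rw [e0, e1, sa, sb]
      · right
        rw [hxj, e0, e1, sa, sb, mul_assoc v j b, ← hCj b (hQ₂C hb)]; group
      · right
        rw [hxj, e0, e1, sa, sb, mul_assoc u j a, ← hCj a (hQ₁C ha)]
        calc u * (a * j) * (v * b) = u * a * (j * (v * b)) := by group
          _ = u * a * (v * b * j) := by rw [← hCj _ (mul_mem (hQ₂C d'.umem) (hQ₂C hb))]
          _ = u * a * (v * b) * j := by group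
      · left
        rw [e0, e1, sa, sb]
        calc u * j * a * (v * j * b) = u * (j * a) * (v * (j * b)) := by group
          _ = u * (a * j) * (v * (b * j)) := by rw [← hCj a (hQ₁C ha), ← hCj b (hQ₂C hb)]
          _ = u * a * (j * (v * b)) * j := by group
          _ = u * a * ((v * b) * j) * j := by
              rw [← hCj _ (mul_mem (hQ₂C d'.umem) (hQ₂C hb))]
          _ = u * a * (v * b) * (j * j) := by group
          _ = _ := by rw [hjj, mul_one]
    intro t ht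
    by_cases htL : t ∈ L₁ ⊔ L₂
    · obtain ⟨a, ha, b, hb, rfl⟩ := hTL t ht htL
      exact hL a ha b hb
    · obtain ⟨a, ha, b, hb, hab⟩ := hTL (t * n⁻¹) (mul_mem ht (inv_mem hnT)) (hcoset t (hTC ht) htL)
      have ht' : t = a * b * n := by rw [← hab, inv_mul_cancel_right]
      have hnx : n * x₀ = x₀ * n := by
        rw [← mul_inv_eq_iff_eq_mul]
        show φ (u * v) = u * v
        rw [map_mul, hv, hφφ u (hQ₁C d.umem)]
        exact (hc u huL v hvL).symm
      rcases hL a ha b hb with e | e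
      · left; rw [ht', mul_assoc, hnx, ← mul_assoc, e, mul_assoc]
      · right; rw [ht', mul_assoc, hnx, ← mul_assoc, e, mul_assoc]
  -- involutions centralizing `T`
  have hwx : w * x₀ = x₀ * j * w := by
    have h1 := (d.sign w d.wmem).resolve_left d.wout
    calc w * x₀ = (w * u) * v := by rw [hx₀]; group
      _ = u * j * (w * v) := by rw [h1]; group
      _ = u * j * (v * w) := by rw [hc w (hQ₁L d.wmem) v hvL]
      _ = u * (j * v) * w := by group
      _ = u * (v * j) * w := by rw [← hCj v (hQ₂C d'.umem)]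
      _ = x₀ * j * w := by rw [hx₀]; group
  have hZ : ∀ z ∈ C, z * z = 1 → z ≠ 1 → (∀ t ∈ T, t * z = z * t) → z = j := by
    intro z hz hz2 hz1 hcen
    have hzn : zpowers z ≤ normalizer (T : Set G) := zpowers_le.2
      (normalizer_le_centralizer_of_coe T (show z ∈ centralizer (T : Set G) from hcen))
    have hzp : IsPGroup 2 (zpowers z) := isPGroup_zpowers_of_orderOf
      (orderOf_eq_prime (by rw [pow_two]; exact hz2) hz1)
    have hzT : z ∈ T :=
      hTmax _ (IsPGroup.to_sup_of_normal_left' hTp hzp hzn) le_sup_left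
        (sup_le hTC (zpowers_le.2 hz)) ▸ mem_sup_right (mem_zpowers z)
    have hzL : z ∈ L₁ ⊔ L₂ := by_contra fun h => hout z hz h hz2
    obtain ⟨a, ha, b, hb, rfl⟩ := hTL z hzT hzL
    have h1 : a = 1 ∨ a = j := d.central a ha fun c hc' => by
      have h := hcen c (hQ₁T hc')
      have h' : c * a * b = a * c * b := by
        calc c * a * b = c * (a * b) := by group
          _ = a * (b * c) := by rw [h]; group
          _ = a * c * b := by rw [← hQc c hc' b hb]; group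
      exact (mul_right_cancel h').symm
    have h3 : b = 1 ∨ b = j := d'.central b hb fun c hc' => by
      have h := hcen c (hQ₂T hc')
      have h' : a * (c * b) = a * (b * c) := by
        calc a * (c * b) = a * c * b := by group
          _ = c * a * b := by rw [hQc a ha c hc']
          _ = a * (b * c) := by rw [mul_assoc, h]; group
      exact (mul_left_cancel h').symm
    rcases h1 with rfl | rfl <;> rcases h3 with rfl | rfl
    · exact absurd (one_mul (1 : G)) hz1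
    · exact one_mul _
    · exact mul_one _
    · exact absurd hjj hz1
  -- `T` is a Sylow subgroup of `G`
  obtain ⟨S, hTS⟩ := hTp.exists_le_sylow
  have hST : T = S := by
    haveI : Nontrivial (S : Subgroup G) :=
      ⟨⟨⟨j, hTS hjT⟩, 1, fun e => hj1 (congrArg Subtype.val e)⟩⟩
    haveI := S.2.center_nontrivial
    obtain ⟨m, hm0, hm'⟩ := (S.2.to_subgroup (center _)).nontrivial_iff_card.1 inferInstance
    obtain ⟨z, hz⟩ := exists_prime_orderOf_dvd_card' 2
      (hm' ▸ dvd_pow_self 2 hm0.ne' : 2 ∣ Nat.card (center (S : Subgroup G)))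
    have hzc : ∀ s ∈ (S : Subgroup G), s * ((z : (S : Subgroup G)) : G) = (z : (S : Subgroup G)) * s :=
      fun s hs => congrArg Subtype.val (mem_center_iff.1 z.2 ⟨s, hs⟩)
    have hzo : orderOf ((z : (S : Subgroup G)) : G) = 2 := by
      rw [orderOf_submonoid, orderOf_submonoid, hz]
    have hzC : ((z : (S : Subgroup G)) : G) ∈ C :=
      mem_centralizer_singleton_iff.2 (hzc j (hTS hjT)).symm
    have hzj := hZ _ hzC (by rw [← pow_two]; exact orderOf_dvd_iff_pow_eq_one.1 (dvd_of_eq hzo))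
      (fun e => by rw [e, orderOf_one] at hzo; omega) (fun t ht => hzc t (hTS ht))
    refine (hTmax _ S.2 hTS fun s hs => ?_).symm
    rw [hC, mem_centralizer_singleton_iff, ← hzj]
    exact hzc s hs
  refine ⟨S, hTS hjT, fun g hg => by_contra fun hne => ?_⟩
  -- otherwise `j` is conjugate to `x₀`
  rw [← hST] at hg
  have hgL : g * j * g⁻¹ ∈ L₁ ⊔ L₂ := by
    refine by_contra fun h => hout _ (hTC hg) h ?_
    calc g * j * g⁻¹ * (g * j * g⁻¹) = g * (j * j) * g⁻¹ := by group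
      _ = 1 := by rw [hjj]; simp
  have hgo : orderOf (g * j * g⁻¹) = 2 :=
    (orderOf_injective (MulAut.conj g).toMonoidHom (MulAut.conj g).injective j).trans hj
  obtain ⟨c, hc', hcx⟩ := hclass _ hgL hgo hne
  obtain ⟨g₁, hg₁⟩ : ∃ g₁ : G, g₁ * j * g₁⁻¹ = x₀ := ⟨c⁻¹ * g, by
    calc c⁻¹ * g * j * (c⁻¹ * g)⁻¹ = c⁻¹ * (g * j * g⁻¹) * c := by group
      _ = x₀ := by rw [← hcx]; group⟩
  set Cx := centralizer ({x₀} : Set G) with hCx
  set P := T ⊓ Cx with hPdef
  have hPp : IsPGroup 2 P := hTp.to_le inf_le_left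
  -- the size of `P`
  have hTP : Nat.card T ≤ 2 * Nat.card P := by
    have hsub : (T : Set G) ⊆ (P : Set G) ∪ (fun y => w⁻¹ * y) '' (P : Set G) := by
      intro t ht
      rcases hconj t ht with e | e
      · exact Or.inl ⟨ht, mem_centralizer_singleton_iff.2 e⟩
      · refine Or.inr ⟨w * t, ⟨mul_mem (hQ₁T d.wmem) ht, mem_centralizer_singleton_iff.2 ?_⟩, ?_⟩
        · calc w * t * x₀ = w * (x₀ * j * t) := by rw [mul_assoc, e]
            _ = (w * x₀) * (j * t) := by group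
            _ = x₀ * j * w * (j * t) := by rw [hwx]
            _ = x₀ * j * (w * j) * t := by group
            _ = x₀ * j * (j * w) * t := by rw [hCj w (hQ₁C d.wmem)]
            _ = x₀ * (j * j) * (w * t) := by group
            _ = x₀ * (w * t) := by rw [hjj, mul_one]
        · simp
    have h := (Set.ncard_le_ncard hsub).trans (Set.ncard_union_le _ _)
    have h' : ((fun y => w⁻¹ * y) '' (P : Set G)).ncard ≤ (P : Set G).ncard :=
      Set.ncard_image_le (Set.toFinite _)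
    rw [← SetLike.coe_sort_coe, ← SetLike.coe_sort_coe, Nat.card_coe_set_eq, Nat.card_coe_set_eq]
    omega
  have hPT : P < T := by
    refine lt_of_le_of_ne inf_le_left fun e => ?_
    have h1 : w ∈ P := e.symm ▸ hQ₁T d.wmem
    have h3 := mem_centralizer_singleton_iff.1 h1.2
    rw [hwx] at h3
    exact hj1 (mul_eq_left.1 (mul_right_cancel h3))
  -- a Sylow subgroup of `C(x₀)` above `P`
  obtain ⟨R', hR'⟩ := (hPp.comap_subtype (K := Cx)).exists_le_sylow
  set R := (R' : Subgroup Cx).map Cx.subtype with hRdef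
  have hPR : P ≤ R := fun y hy => ⟨⟨y, hy.2⟩, hR' hy, rfl⟩
  have hRC : R ≤ Cx := map_subtype_le _
  have hTR : Nat.card T ≤ Nat.card R := by
    have h1 : Fusion.cj g₁ T ≤ Cx := by
      rintro _ ⟨t, ht, rfl⟩
      rw [hCx, mem_centralizer_singleton_iff]
      show g₁ * t * g₁⁻¹ * x₀ = x₀ * (g₁ * t * g₁⁻¹)
      rw [← hg₁]
      calc g₁ * t * g₁⁻¹ * (g₁ * j * g₁⁻¹) = g₁ * (t * j) * g₁⁻¹ := by group
        _ = g₁ * (j * t) * g₁⁻¹ := by rw [hCj t (hTC ht)]
        _ = _ := by group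
    obtain ⟨V, hV⟩ := ((Fusion.isPGroup_cj hTp g₁).comap_subtype (K := Cx)).exists_le_sylow
    have h3 : Nat.card (Fusion.cj g₁ T) ≤ Nat.card (V : Subgroup Cx) := by
      rw [← Nat.card_congr (subgroupOfEquivOfLe h1).toEquiv]
      exact card_le_of_le hV
    rw [Fusion.card_cj] at h3
    rwa [hRdef, ← Nat.card_congr ((R' : Subgroup Cx).equivMapOfInjective _ Cx.subtype_injective).toEquiv,
      R'.card_eq_multiplicity, ← V.card_eq_multiplicity]
  have hPR' : P < R :=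
    lt_of_le_of_ne hPR fun e => absurd (Fusion.card_lt_card hPT) (by rw [e]; omega)
  have hgrow := Fusion.lt_normalizer_inf (R'.2.map Cx.subtype) hPR'
  obtain ⟨r, ⟨hrR, hrN⟩, hrP⟩ := SetLike.exists_of_lt hgrow
  by_cases hrj : r * j = j * r
  · set P₂ := P ⊔ zpowers r with hP₂
    have hP₂R : P₂ ≤ R := sup_le hPR (zpowers_le.2 hrR)
    have hP₂C : P₂ ≤ C := sup_le (inf_le_left.trans hTC)
      (zpowers_le.2 (mem_centralizer_singleton_iff.2 hrj))
    have hP₂p : IsPGroup 2 P₂ := (R'.2.map Cx.subtype).to_le hP₂R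
    have hlt : P < P₂ :=
      lt_of_le_of_ne le_sup_left fun e => hrP (e.symm ▸ mem_sup_right (mem_zpowers r))
    have hcard : Nat.card T ≤ Nat.card P₂ := by
      obtain ⟨q, hq⟩ := card_dvd_of_le hlt.le
      have h1 := Fusion.card_lt_card hlt
      rw [hq] at h1 ⊢
      rcases q with _ | _ | q
      · omega
      · omega
      · calc Nat.card T ≤ 2 * Nat.card P := hTP
          _ ≤ Nat.card P * (q + 1 + 1) := by rw [mul_comm]; exact Nat.mul_le_mul_left _ (by omega)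
    obtain ⟨T₂, hT₂⟩ := (hP₂p.comap_subtype (K := C)).exists_le_sylow
    have hTT : Nat.card T = Nat.card (T' : Subgroup C) :=
      (Nat.card_congr ((T' : Subgroup C).equivMapOfInjective _ C.subtype_injective).toEquiv).symm
    have hT₂eq : P₂.subgroupOf C = (T₂ : Subgroup C) :=
      eq_of_le_of_card_ge hT₂ (by
        rw [T₂.card_eq_multiplicity, ← T'.card_eq_multiplicity, ← hTT,
          Nat.card_congr (subgroupOfEquivOfLe hP₂C).toEquiv]
        exact hcard)
    obtain ⟨k, hk⟩ := Fusion.exists_cj_sylow T₂ T'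
    have hkx : (k : G) * x₀ * (k : G)⁻¹ = j := by
      have hx₀C : x₀ ∈ C := hle hx₀L
      refine hZ _ (mul_mem (mul_mem k.2 hx₀C) (inv_mem k.2)) ?_ ?_ ?_
      · calc (k : G) * x₀ * (k : G)⁻¹ * ((k : G) * x₀ * (k : G)⁻¹)
            = (k : G) * (x₀ * x₀) * (k : G)⁻¹ := by group
          _ = 1 := by rw [hx₀2]; simp
      · exact fun e => hx₀1 (conj_eq_one_iff.1 e)
      · rintro _ ⟨t, ht, rfl⟩
        have ht' : t ∈ Fusion.cj k (T₂ : Subgroup C) := by rw [hk]; exact ht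
        obtain ⟨p, hp, rfl⟩ := ht'
        have hpx : (p : G) * x₀ = x₀ * p := mem_centralizer_singleton_iff.1
          (hRC (hP₂R (hT₂eq ▸ hp : p ∈ P₂.subgroupOf C)))
        show (k : G) * (p : G) * (k : G)⁻¹ * ((k : G) * x₀ * (k : G)⁻¹)
          = (k : G) * x₀ * (k : G)⁻¹ * ((k : G) * (p : G) * (k : G)⁻¹)
        calc _ = (k : G) * ((p : G) * x₀) * (k : G)⁻¹ := by group
          _ = (k : G) * (x₀ * p) * (k : G)⁻¹ := by rw [hpx]
          _ = _ := by group
    apply hx₀j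
    calc x₀ = (k : G)⁻¹ * ((k : G) * x₀ * (k : G)⁻¹) * k := by group
      _ = (k : G)⁻¹ * (j * k) := by rw [hkx]; group
      _ = j := by rw [← hCj k k.2]; group
  · -- `j` is determined by `P`
    have hchar : ∀ e ∈ P, ∀ f ∈ P, e * e = 1 → f * f = 1 →
        (e * f) ^ 2 ^ (a - 1) = 1 ∨ (e * f) ^ 2 ^ (a - 1) = j := by
      have ha2 := d.two_le
      have hdec : ∀ e ∈ P, e * e = 1 → ∃ x ∈ Q₁, ∃ y ∈ Q₂, e = x * y ∧
          ((x * u = u * x ∧ y * v = v * y) ∨ (x * u ≠ u * x ∧ y * v ≠ v * y)) := by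
        intro e he he2
        obtain ⟨x, hx, y, hy, rfl⟩ :=
          hTL e he.1 (by_contra fun h => hout e (hTC he.1) h he2)
        refine ⟨x, hx, y, hy, rfl, ?_⟩
        have hfix := mem_centralizer_singleton_iff.1 he.2
        have e0 : x * y * x₀ = (x * u) * (y * v) := by
          calc x * y * x₀ = x * (y * u) * v := by rw [hx₀]; group
            _ = _ := by rw [← hc u huL y (hQ₂L hy)]; group
        have e1 : x₀ * (x * y) = (u * x) * (v * y) := by
          calc x₀ * (x * y) = u * (v * x) * y := by rw [hx₀]; group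
            _ = _ := by rw [← hc x (hQ₁L hx) v hvL]; group
        rw [e0, e1] at hfix
        by_cases hxu : x * u = u * x
        · rw [hxu] at hfix
          exact Or.inl ⟨hxu, mul_left_cancel hfix⟩
        · refine Or.inr ⟨hxu, fun hyv => hxu ?_⟩
          rw [hyv] at hfix
          exact mul_right_cancel hfix
      intro e he f hf he2 hf2
      obtain ⟨x, hx, y, hy, rfl, hxy⟩ := hdec e he he2
      obtain ⟨s, hs, t, ht, rfl, hst⟩ := hdec f hf hf2
      have hprod : x * y * (s * t) = (x * s) * (y * t) := by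
        calc x * y * (s * t) = x * (y * s) * t := by group
          _ = _ := by rw [← hQc s hs y hy]; group
      have hcm : Commute (x * s) (y * t) := hQc _ (mul_mem hx hs) _ (mul_mem hy ht)
      rw [hprod, hcm.mul_pow]
      have hxs : x * s ∈ Q₁ := mul_mem hx hs
      have hyt : y * t ∈ Q₂ := mul_mem hy ht
      have h1 : ∀ {Q' : Subgroup G} {u' h' w' : G}, QData Q' j u' h' w' a → ∀ c ∈ Q',
          c * u' = u' * c → c ^ 2 ^ (a - 1) = 1 ∨ c ^ 2 ^ (a - 1) = j := by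
        intro Q' u' h' w' dd c hc'' hcu
        refine dd.invol _ (pow_mem hc'' _) ?_
        rw [← pow_add, ← two_mul, ← pow_succ', show a - 1 + 1 = a by omega]
        exact dd.inn c hc'' hcu
      have h3 : ∀ {Q' : Subgroup G} {u' h' w' : G}, QData Q' j u' h' w' a → Q' ≤ C →
          ∀ c ∈ Q', ∀ c' ∈ Q', c * u' ≠ u' * c → c' * u' ≠ u' * c' →
          c * c' * u' = u' * (c * c') := by
        intro Q' u' h' w' dd hQ'C c hc1 c' hc2 n1 n2
        calc c * c' * u' = c * (u' * j * c') := by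
              rw [mul_assoc, (dd.sign c' hc2).resolve_left n2]
          _ = (c * u') * (j * c') := by group
          _ = u' * j * (c * j) * c' := by rw [(dd.sign c hc1).resolve_left n1]; group
          _ = u' * (j * j) * (c * c') := by rw [hCj c (hQ'C hc1)]; group
          _ = _ := by rw [hjj, mul_one]
      have h4 : ∀ {Q' : Subgroup G} {u' h' w' : G}, QData Q' j u' h' w' a → Q' ≤ C →
          ∀ c ∈ Q', ∀ c' ∈ Q', c * u' = u' * c → c' * u' ≠ u' * c' →
          (c * c') * (c * c') = j ∧ (c' * c) * (c' * c) = j := by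
        intro Q' u' h' w' dd _ c hc1 c' hc2 n1 n2
        refine ⟨dd.out _ (mul_mem hc1 hc2) fun e => n2 ?_,
          dd.out _ (mul_mem hc2 hc1) fun e => n2 ?_⟩
        · apply mul_left_cancel (a := c)
          rw [← mul_assoc, e, ← mul_assoc, ← n1, mul_assoc]
        · apply mul_right_cancel (b := c)
          rw [mul_assoc, ← n1, ← mul_assoc, e, mul_assoc]
      have hev : ∀ c : G, c * c = j → c ^ 2 ^ (a - 1) = j ^ 2 ^ (a - 2) := fun c hc'' => by
        rw [show a - 1 = a - 2 + 1 by omega, pow_succ', pow_mul, pow_two, hc'']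
      have hcase : ((x * s) * u = u * (x * s) ∧ (y * t) * v = v * (y * t)) ∨
          ((x * s) * (x * s) = j ∧ (y * t) * (y * t) = j) := by
        rcases hxy with ⟨a1, a2⟩ | ⟨a1, a2⟩ <;> rcases hst with ⟨b1, b2⟩ | ⟨b1, b2⟩
        · left
          exact ⟨((show Commute x u from a1).mul_left b1).eq,
            ((show Commute y v from a2).mul_left b2).eq⟩
        · exact Or.inr ⟨(h4 d hQ₁C x hx s hs a1 b1).1, (h4 d' hQ₂C y hy t ht a2 b2).1⟩
        · exact Or.inr ⟨(h4 d hQ₁C s hs x hx b1 a1).2, (h4 d' hQ₂C t ht y hy b2 a2).2⟩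
        · exact Or.inl ⟨h3 d hQ₁C x hx s hs a1 b1, h3 d' hQ₂C y hy t ht a2 b2⟩
      rcases hcase with ⟨c1, c2⟩ | ⟨c1, c2⟩
      · rcases h1 d _ hxs c1 with e1 | e1 <;> rcases h1 d' _ hyt c2 with e2 | e2 <;>
          rw [e1, e2] <;> simp [hjj]
      · left
        rw [hev _ c1, hev _ c2, ← (Commute.refl j).mul_pow, hjj, one_pow]
    have hw' : φ w ∈ Q₂ := d'.wmem
    set e := w * φ w with he
    set f := w * h * φ w with hf
    have hwh : (w * h) * u ≠ u * (w * h) := by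
      intro e'
      apply d.wout
      apply mul_right_cancel (b := h)
      rw [mul_assoc w, ← d.hcomm, ← mul_assoc, e', mul_assoc]
    have hwj : w * w = j := d.out w d.wmem d.wout
    have hw'j : φ w * φ w = j := d'.out _ hw' d'.wout
    have hwhj : w * h * (w * h) = j := d.out _ (mul_mem d.wmem d.hmem) hwh
    have hpair : ∀ c ∈ Q₁, c * u ≠ u * c → c * φ w ∈ P ∧ (c * φ w) * (c * φ w) = 1 := by
      intro c hc'' hcu
      refine ⟨⟨mul_mem (hQ₁T hc'') (hQ₂T hw'), mem_centralizer_singleton_iff.2 ?_⟩, ?_⟩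
      · calc c * φ w * x₀ = c * (φ w * u) * v := by rw [hx₀]; group
          _ = (c * u) * (φ w * v) := by rw [← hc u huL _ (hQ₂L hw')]; group
          _ = u * j * c * (v * j * φ w) := by
              rw [(d.sign c hc'').resolve_left hcu, (d'.sign _ hw').resolve_left d'.wout]
          _ = u * j * (c * v) * j * φ w := by group
          _ = u * j * (v * c) * j * φ w := by rw [hc c (hQ₁L hc'') v hvL]
          _ = u * (j * v) * (c * j) * φ w := by group
          _ = u * (v * j) * (j * c) * φ w := by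
              rw [← hCj v (hQ₂C d'.umem), hCj c (hQ₁C hc'')]
          _ = u * v * (j * j) * (c * φ w) := by group
          _ = x₀ * (c * φ w) := by rw [hjj, mul_one]
      · calc c * φ w * (c * φ w) = c * (φ w * c) * φ w := by group
          _ = (c * c) * (φ w * φ w) := by rw [← hQc c hc'' _ hw']; group
          _ = 1 := by rw [d.out c hc'' hcu, hw'j, hjj]
    obtain ⟨heP, he2⟩ := hpair w d.wmem d.wout
    obtain ⟨hfP, hf2⟩ := hpair (w * h) (mul_mem d.wmem d.hmem) hwh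
    have hef : e * f = h := by
      calc e * f = w * (φ w * (w * h)) * φ w := by rw [he, hf]; group
        _ = (w * w) * h * (φ w * φ w) := by
            rw [← hQc (w * h) (mul_mem d.wmem d.hmem) _ hw']; group
        _ = j * h * j := by rw [hwj, hw'j]
        _ = h := by rw [← hCj h (hQ₁C d.hmem), mul_assoc, hjj, mul_one]
    have hjr : r * j * r⁻¹ = (r * e * r⁻¹ * (r * f * r⁻¹)) ^ 2 ^ (a - 1) := by
      rw [show r * e * r⁻¹ * (r * f * r⁻¹) = r * (e * f) * r⁻¹ by group, hef, conj_pow, d.htop]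
    have hsq : ∀ z : G, z * z = 1 → r * z * r⁻¹ * (r * z * r⁻¹) = 1 := fun z hz => by
      calc r * z * r⁻¹ * (r * z * r⁻¹) = r * (z * z) * r⁻¹ := by group
        _ = 1 := by rw [hz]; simp
    rcases hchar _ ((hrN e).1 heP) _ ((hrN f).1 hfP) (hsq e he2) (hsq f hf2) with h' | h' <;>
      rw [← hjr] at h'
    · exact hj1 (conj_eq_one_iff.1 h')
    · exact hrj (mul_inv_eq_iff_eq_mul.1 h')

theorem sl_pair_swap_main [Finite G] {F₁ : Type*} [Field F₁] [Fintype F₁] {F₂ : Type*}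
    [Field F₂] [Fintype F₂] (hF₁ : Odd (Fintype.card F₁)) (hF₂ : Odd (Fintype.card F₂))
    (L₁ L₂ : Subgroup G) (e₁ : ↥L₁ ≃* SL(2, F₁)) (e₂ : ↥L₂ ≃* SL(2, F₂))
    (hc : ∀ x ∈ L₁, ∀ y ∈ L₂, x * y = y * x) (j : G) (hj : orderOf j = 2)
    (hm : L₁ ⊓ L₂ = zpowers j) (hle : L₁ ⊔ L₂ ≤ centralizer ({j} : Set G))
    (hi : (L₁ ⊔ L₂).relIndex (centralizer ({j} : Set G)) = 2) (n : G)
    (hn : n ∈ centralizer ({j} : Set G)) (hn2 : n ^ 2 = j)
    (hswap : L₁.map (MulAut.conj n).toMonoidHom = L₂) :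
    centralizer ({j} : Set G) ⊔ Cfsg.oddCore G = ⊤ := by
  haveI : Fact (Nat.Prime 2) := ⟨Nat.prime_two⟩
  obtain ⟨S, hjS, hiso⟩ :=
    sl_pair_swap_isolated hF₁ hF₂ L₁ L₂ e₁ e₂ hc j hj hm hle hi n hn hn2 hswap
  obtain ⟨N, hN, hNodd, hcom⟩ := S0215.result S j hj hjS hiso
  haveI := hN
  have hNO : N ≤ Cfsg.oddCore G := Cores.le_pPrimeCore hN (Nat.coprime_two_right.2 hNodd)
  refine eq_top_iff.2 fun g _ => ?_
  obtain ⟨o, ho, hog⟩ := exists_centralizer_lift (p := 2) (O := N) (x := j) (y := g)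
    (Nat.coprime_two_right.2 hNodd) (isPGroup_zpowers_of_orderOf hj) (by
      have := N.inv_mem (hcom g)
      simpa [mul_assoc] using this)
  have h1 : g = o⁻¹ * (o * g) := (inv_mul_cancel_left o g).symm
  rw [h1]
  exact mul_mem (mem_sup_right (hNO (inv_mem ho))) (mem_sup_left hog)

end Cfsg.Agent.CharTwo
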