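import Cfsg.Prelude.Def_CaseTheorems
import Cfsg.Agent.CharTwo.Constrained
import Cfsg.Agent.CharTwo.Locals
import Cfsg.Agent.PSolv.HallHigman
import Cfsg.Agent.Cores.Fitting
import Cfsg.Agent.Coprime.Generation
import Cfsg.Agent.H4.CyclicMax
import Cfsg.Agent.PGroup.Basic
import Mathlib.GroupTheory.SpecificGroups.ZGroup
import Mathlib.GroupTheory.Perm.Cycle.Type

/-!
# Solvable groups in which the involution centralizers have normal 2-complements
-/

set_option autoImplicit false

namespace Cfsg.Agent.CharTwo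

open Subgroup
open Cfsg.Agent
open scoped commutatorElement

variable {H : Type*} [Group H] [Finite H]

/-- In a group with a normal 2-complement, an element of odd order centralizes every normal
2-subgroup of an ambient group lying in it. -/
theorem commute_of_hasNormalPComplement {C R : Subgroup H} [R.Normal]
    (hR : IsPGroup 2 R) (hC : Cfsg.HasNormalPComplement 2 C) {x c : H} (hx : x ∈ C)
    (hxo : (orderOf x).Coprime 2) (hc : c ∈ C) (hcR : c ∈ R) : Commute x c := by
  haveI : Fact (Nat.Prime 2) := ⟨Nat.prime_two⟩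
  obtain ⟨P, N, hN, hNP⟩ := hC
  haveI := hN
  obtain ⟨k, hk⟩ := IsPGroup.iff_card.1 P.2
  have hNi : N.index = 2 ^ k := by
    rw [← hk]; exact hNP.symm.index_eq_card
  have hNc : (Nat.card N).Coprime 2 := by
    rw [Cores.coprime_iff_not_dvd_prime Nat.prime_two, ← hNP.index_eq_card]
    exact P.not_dvd_index
  have hxN : (⟨x, hx⟩ : C) ∈ N := by
    rw [← QuotientGroup.eq_one_iff (N := N), ← orderOf_eq_one_iff]
    have h1 : orderOf (QuotientGroup.mk (⟨x, hx⟩ : C) : C ⧸ N) ∣ orderOf x := by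
      rw [← orderOf_mk x hx]; exact orderOf_map_dvd (QuotientGroup.mk' N) _
    have h2 : orderOf (QuotientGroup.mk (⟨x, hx⟩ : C) : C ⧸ N) ∣ 2 ^ k := by
      rw [← hNi, Subgroup.index_eq_card]; exact orderOf_dvd_natCard _
    exact Nat.dvd_one.1 ((hxo.pow_right k).gcd_eq_one ▸ Nat.dvd_gcd h1 h2)
  have h1 : (⟨c, hc⟩ : C) * ⟨x, hx⟩ * (⟨c, hc⟩ : C)⁻¹ * (⟨x, hx⟩ : C)⁻¹ ∈ N :=
    N.mul_mem (hN.conj_mem _ hxN _) (N.inv_mem hxN)
  have h2 : c * x * c⁻¹ * x⁻¹ ∈ R := by
    have := R.mul_mem hcR (Subgroup.Normal.conj_mem inferInstance _ (R.inv_mem hcR) x)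
    simpa [mul_assoc] using this
  have h3 : (orderOf (c * x * c⁻¹ * x⁻¹)).Coprime 2 := by
    have := hNc.coprime_dvd_left (orderOf_dvd_natCard N h1)
    rw [← orderOf_submonoid] at this
    simpa using this
  have h4 := eq_one_of_coprime_of_mem hR h2 h3
  exact (mul_inv_eq_iff_eq_mul.1 (mul_inv_eq_one.1 h4)).symm

/-- The hypotheses: solvable, no odd core, 2-nilpotent involution centralizers. -/
structure SolvableTwoNilp (H : Type*) [Group H] : Prop where
  sol : Group.IsSolvable H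
  core : Cfsg.pPrimeCore 2 H = ⊥
  inv : ∀ t : H, orderOf t = 2 →
    Cfsg.HasNormalPComplement 2 ↥(Subgroup.centralizer ({t} : Set H))

variable (h : SolvableTwoNilp H)
include h

theorem SolvableTwoNilp.cfcon : CFCon 2 H :=
  haveI : Fact (Nat.Prime 2) := ⟨Nat.prime_two⟩
  PSolv.centralizer_pCore_le (PSolv.isPSolvable_of_isSolvable h.sol) h.core

/-- Elements of odd order act without fixed points on `O₂`. -/
theorem SolvableTwoNilp.fpf {x y : H} (hxo : (orderOf x).Coprime 2)
    (hy : y ∈ Cfsg.pCore 2 H) (hxy : Commute x y) : x = 1 ∨ y = 1 := by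
  haveI : Fact (Nat.Prime 2) := ⟨Nat.prime_two⟩
  refine or_iff_not_imp_right.2 fun hy1 => ?_
  obtain ⟨k, hk⟩ := Cores.pCore_isPGroup (p := 2) (G := H) ⟨y, hy⟩
  have hk' : y ^ 2 ^ k = 1 := by simpa [Subtype.ext_iff] using hk
  have h2 : 2 ∣ orderOf y := by
    obtain ⟨i, _, hi⟩ := (Nat.dvd_prime_pow Nat.prime_two).1 (orderOf_dvd_of_pow_eq_one hk')
    rcases i with _ | i
    · exact absurd (orderOf_eq_one_iff.1 (by simpa using hi)) hy1
    · exact hi ▸ dvd_pow_self 2 i.succ_ne_zero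
  set t := y ^ (orderOf y / 2) with ht
  have hto : orderOf t = 2 := orderOf_pow_orderOf_div (orderOf_pos y).ne' h2
  have htR : t ∈ Cfsg.pCore 2 H := pow_mem hy _
  have hxt : x ∈ centralizer ({t} : Set H) :=
    mem_centralizer_singleton_iff.2 (hxy.pow_right _).eq
  refine eq_one_of_coprime_of_mem Cores.pCore_isPGroup (h.cfcon ?_) hxo
  have hn : ∀ g : H, g ∈ normalizer (Cfsg.pCore 2 H : Set H) := fun g => by
    rw [normalizer_eq_top_iff.2 inferInstance]; trivial
  refine pxq Cores.pCore_isPGroup (A := zpowers t) (isPGroup_zpowers_of_orderOf hto)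
    (fun a _ => hn a) (hn x) hxo ?_ ?_
  · rwa [centralizer_zpowers]
  · intro c hc
    rw [centralizer_zpowers] at hc
    exact (commute_of_hasNormalPComplement (R := Cfsg.pCore 2 H) Cores.pCore_isPGroup
      (h.inv t hto) hxt hxo hc.1 hc.2).symm

theorem SolvableTwoNilp.nontrivial_pCore [Nontrivial H] : Cfsg.pCore 2 H ≠ ⊥ := by
  haveI : Fact (Nat.Prime 2) := ⟨Nat.prime_two⟩
  intro hb
  have h1 := h.cfcon
  rw [CFCon, hb] at h1
  obtain ⟨x, hx⟩ := exists_ne (1 : H)
  exact hx (mem_bot.1 (h1 (by rw [coe_bot]; simp [mem_centralizer_iff])))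

/-- Every subgroup of odd prime power order is cyclic. -/
theorem SolvableTwoNilp.isCyclic_of_isPGroup {q : ℕ} [hq : Fact q.Prime] (hq2 : q ≠ 2)
    (Q : Subgroup H) (hQ : IsPGroup q Q) : IsCyclic Q := by
  haveI : Fact (Nat.Prime 2) := ⟨Nat.prime_two⟩
  rcases subsingleton_or_nontrivial H with _ | _
  · infer_instance
  refine H4.isCyclic_of_card_pow_le hq2 hQ (not_lt.1 fun hlt => ?_)
  rcases subsingleton_or_nontrivial Q with _ | _
  · have := Nat.card_le_card_of_injective _ (Subtype.val_injective (p := fun x : Q => x ^ q = 1))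
    rw [Nat.card_unique (α := Q)] at this
    have := hq.out.two_le
    omega
  -- a central element of order `q`
  haveI := hQ.center_nontrivial
  have hd : q ∣ Nat.card (center Q) := by
    obtain ⟨m, hm, hm'⟩ := (hQ.to_subgroup (center Q)).nontrivial_iff_card.1 inferInstance
    exact hm' ▸ dvd_pow_self q hm.ne'
  obtain ⟨z, hz⟩ := exists_prime_orderOf_dvd_card' q hd
  -- a second one
  obtain ⟨x, hx, hxz⟩ : ∃ x : Q, x ^ q = 1 ∧ x ∉ zpowers (z : Q) := by
    by_contra! hall
    have := Nat.card_le_card_of_injective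
      (fun x : {x : Q // x ^ q = 1} => (⟨x.1, hall x.1 x.2⟩ : zpowers (z : Q)))
      (fun a b e => Subtype.ext (congrArg (fun w : zpowers (z : Q) => (w : Q)) e))
    rw [Nat.card_zpowers, orderOf_submonoid, hz] at this
    omega
  have hzQ : ((z : Q)) ^ q = 1 := by
    rw [← hz, ← orderOf_submonoid (H := (center Q).toSubmonoid) z]; exact pow_orderOf_eq_one _
  set E : Subgroup H := closure {((z : Q) : H), (x : H)} with hE
  have hzx : Commute ((z : Q) : H) (x : H) :=
    congrArg Subtype.val (Subgroup.mem_center_iff.1 z.2 x).symm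
  have hzz : ∀ a b : H, a ∈ ({((z : Q) : H), (x : H)} : Set H) →
      b ∈ ({((z : Q) : H), (x : H)} : Set H) → a * b = b * a := by
    rintro a b (rfl | rfl) (rfl | rfl) <;> first | rfl | exact hzx.eq | exact hzx.eq.symm
  haveI hEc : IsMulCommutative E := Subgroup.isMulCommutative_closure
    (fun a ha b hb => hzz a b ha hb)
  have hEn : ¬ IsCyclic E := by
    intro hc
    have hzE : ((z : Q) : H) ∈ E := subset_closure (Or.inl rfl)
    have hxE : (x : H) ∈ E := subset_closure (Or.inr rfl)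
    haveI : Fintype E := Fintype.ofFinite E
    classical
    have hle := IsCyclic.card_pow_eq_one_le (α := E) hq.out.pos
    have hsub : (zpowers (⟨((z : Q) : H), hzE⟩ : E) : Set E) ∪ {⟨(x : H), hxE⟩} ⊆
        {a : E | a ^ q = 1} := by
      rintro a (⟨i, rfl⟩ | rfl)
      · show (_ ^ i) ^ q = 1
        rw [← zpow_natCast, zpow_comm, zpow_natCast,
          show (⟨((z : Q) : H), hzE⟩ : E) ^ q = 1 from Subtype.ext (by
            simpa using congrArg Subtype.val hzQ), one_zpow]
      · exact Subtype.ext (by simpa using congrArg Subtype.val hx)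
    have h1 := Set.ncard_le_ncard hsub
    rw [Set.ncard_union_eq, Set.ncard_singleton, ← Nat.card_coe_set_eq,
      SetLike.coe_sort_coe, Nat.card_zpowers, ← orderOf_submonoid (H := E.toSubmonoid)] at h1
    · have h2 : Set.ncard {a : E | a ^ q = 1} ≤ q := by
        rw [Set.ncard_eq_toFinset_card']
        simpa [Set.toFinset_setOf] using hle
      have h3 : orderOf ((z : Q) : H) = q := by rw [orderOf_submonoid, orderOf_submonoid, hz]
      simp only [h3] at h1
      omega
    · rw [Set.disjoint_singleton_right]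
      rintro ⟨i, hi⟩
      exact hxz ⟨i, Subtype.ext (by simpa using congrArg Subtype.val hi)⟩
  have hEQ : E ≤ Q := (closure_le _).2 (by
    rintro a (rfl | rfl)
    · exact (z : Q).2
    · exact x.2)
  have hcop : (Nat.card E).Coprime (Nat.card (Cfsg.pCore 2 H)) := by
    obtain ⟨a, ha⟩ := IsPGroup.iff_card.1 (hQ.to_le hEQ)
    obtain ⟨b, hb⟩ := IsPGroup.iff_card.1 (Cores.pCore_isPGroup (p := 2) (G := H))
    rw [ha, hb]
    exact Nat.Coprime.pow _ _ ((Nat.coprime_primes hq.out Nat.prime_two).2 hq2)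
  have hgen := Coprime.iSup_centralizer_eq (A := E) (K := Cfsg.pCore 2 H) hEn
    (fun a _ => by rw [normalizer_eq_top_iff.2 inferInstance]; trivial) hcop
  apply h.nontrivial_pCore
  rw [← hgen]
  refine le_bot_iff.1 (iSup₂_le fun a ha => ?_)
  intro y hy
  obtain ⟨k, hk⟩ := (hQ.to_le hEQ) ⟨a, ha.1⟩
  have hao : (orderOf a).Coprime 2 :=
    Nat.Coprime.coprime_dvd_left (orderOf_dvd_of_pow_eq_one (by simpa [Subtype.ext_iff] using hk))
      (((Nat.coprime_primes hq.out Nat.prime_two).2 hq2).pow_left k)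
  exact mem_bot.2 ((h.fpf hao hy.1
    (mem_centralizer_singleton_iff.1 hy.2).symm).resolve_left ha.2)

/-- In `H/O₂(H)` no involution commutes with an element of odd prime order. -/
theorem SolvableTwoNilp.quot_fpf {i f : H ⧸ Cfsg.pCore 2 H} (hi : orderOf i = 2)
    (hf : (orderOf f).Coprime 2) (hif : Commute i f) : f = 1 := by
  haveI : Fact (Nat.Prime 2) := ⟨Nat.prime_two⟩
  by_contra hf1
  obtain ⟨q, hq, hqf⟩ := Nat.exists_prime_and_dvd (fun e => hf1 (orderOf_eq_one_iff.1 e))
  haveI : Fact q.Prime := ⟨hq⟩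
  have hq2 : q ≠ 2 := by
    rintro rfl
    exact (Nat.prime_two.coprime_iff_not_dvd.1 hf.symm) hqf
  obtain ⟨f0, hf0⟩ := QuotientGroup.mk'_surjective (Cfsg.pCore 2 H) (f ^ (orderOf f / q))
  have hfq : orderOf (f ^ (orderOf f / q)) = q :=
    orderOf_pow_orderOf_div (orderOf_pos f).ne' hqf
  obtain ⟨a, m, hm, ham⟩ := Nat.exists_eq_pow_mul_and_not_dvd (orderOf_pos f0).ne' q hq.ne_one
  set x := f0 ^ m with hxdef
  have hxq : IsPGroup q (zpowers x) := by
    have hxa : x ^ q ^ a = 1 := by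
      rw [hxdef, ← pow_mul, mul_comm, ← ham, pow_orderOf_eq_one]
    rintro ⟨g, j, rfl⟩
    refine ⟨a, Subtype.ext ?_⟩
    simp only [SubmonoidClass.coe_pow, OneMemClass.coe_one]
    rw [← zpow_natCast, ← zpow_mul, mul_comm, zpow_mul, zpow_natCast, hxa, one_zpow]
  have hxne : (QuotientGroup.mk' (Cfsg.pCore 2 H) x) ≠ 1 := by
    rw [hxdef, map_pow, hf0]
    intro e
    exact hm (hfq ▸ orderOf_dvd_of_pow_eq_one e)
  have hix : Commute i (QuotientGroup.mk' (Cfsg.pCore 2 H) x) := by
    rw [hxdef, map_pow, hf0]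
    exact (hif.pow_right _).pow_right _
  obtain ⟨i0, hi0⟩ := QuotientGroup.mk'_surjective (Cfsg.pCore 2 H) i
  have hy : i0 * x * i0⁻¹ * x⁻¹ ∈ (Cfsg.pCore 2 H) := by
    rw [← QuotientGroup.eq_one_iff (N := (Cfsg.pCore 2 H))]
    change QuotientGroup.mk' (Cfsg.pCore 2 H) (i0 * x * i0⁻¹ * x⁻¹) = 1
    rw [map_mul, map_mul, map_mul, map_inv, map_inv, hi0, hix.eq, mul_inv_cancel_right,
      mul_inv_cancel]
  have hYc : (Nat.card (Cfsg.pCore 2 H)).Coprime q := by
    obtain ⟨b, hb⟩ := IsPGroup.iff_card.1 (Cores.pCore_isPGroup (p := 2) (G := H))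
    rw [hb]
    exact ((Nat.coprime_primes Nat.prime_two hq).2 hq2.symm).pow_left b
  obtain ⟨o, ho, hoc⟩ := exists_centralizer_lift hYc hxq hy
  set i' := o * i0 with hi'
  have hi'm : QuotientGroup.mk' (Cfsg.pCore 2 H) i' = i := by
    rw [hi', map_mul, hi0, show QuotientGroup.mk' (Cfsg.pCore 2 H) o = 1 from (QuotientGroup.eq_one_iff o).2 ho,
      one_mul]
  have h2 : 2 ∣ orderOf i' := by
    rw [← hi]; exact hi'm ▸ orderOf_map_dvd _ _
  set t := i' ^ (orderOf i' / 2) with htdef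
  have hto : orderOf t = 2 := orderOf_pow_orderOf_div (orderOf_pos i').ne' h2
  have hxt : Commute x t :=
    ((mem_centralizer_singleton_iff.1 hoc : i' * x = x * i') |> fun e =>
      (show Commute x i' from e.symm)).pow_right _
  have hxo : (orderOf x).Coprime 2 := by
    obtain ⟨b, hb⟩ := hxq ⟨x, mem_zpowers x⟩
    exact Nat.Coprime.coprime_dvd_left
      (orderOf_dvd_of_pow_eq_one (by simpa [Subtype.ext_iff] using hb))
      (((Nat.coprime_primes hq Nat.prime_two).2 hq2).pow_left b)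
  have hx1 : x ≠ 1 := fun e => hxne (by rw [e, map_one])
  -- `t` fixes a nontrivial element of `(Cfsg.pCore 2 H)`
  haveI : Nontrivial H := ⟨⟨x, 1, hx1⟩⟩
  have hYne := h.nontrivial_pCore
  obtain ⟨y, hyY, hy1, hyt⟩ : ∃ y ∈ (Cfsg.pCore 2 H), y ≠ 1 ∧ Commute t y := by
    classical
    haveI : Fintype (Cfsg.pCore 2 H) := Fintype.ofFinite (Cfsg.pCore 2 H)
    let σ : Equiv.Perm (Cfsg.pCore 2 H) := (MulAut.conjNormal (H := (Cfsg.pCore 2 H)) t).toEquiv
    have hσ : σ ^ 2 ^ 1 = 1 := by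
      ext y
      simp only [pow_one, pow_two, Equiv.Perm.mul_apply, Equiv.Perm.one_apply]
      show ((MulAut.conjNormal t (MulAut.conjNormal t y) : (Cfsg.pCore 2 H)) : H) = (y : H)
      have htt : t * t = 1 := by
        rw [← pow_two, ← hto]; exact pow_orderOf_eq_one t
      rw [MulAut.conjNormal_apply, MulAut.conjNormal_apply,
        show t⁻¹ = t from inv_eq_of_mul_eq_one_right htt]
      calc t * (t * y * t) * t = (t * t) * y * (t * t) := by group
        _ = y := by rw [htt, one_mul, mul_one]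
    have hdvd : 2 ∣ Fintype.card (Cfsg.pCore 2 H) := by
      rw [← Nat.card_eq_fintype_card]
      haveI : Nontrivial (Cfsg.pCore 2 H) := (Subgroup.nontrivial_iff_ne_bot (Cfsg.pCore 2 H)).2 hYne
      obtain ⟨n, hn, hn'⟩ :=
        (Cores.pCore_isPGroup (p := 2) (G := H)).nontrivial_iff_card.1 inferInstance
      exact hn' ▸ dvd_pow_self 2 hn.ne'
    obtain ⟨b, hb, hb1⟩ := Equiv.Perm.exists_fixed_point_of_prime' hdvd hσ (a := 1)
      (by simp [σ])
    refine ⟨b, b.2, fun e => hb1 (Subtype.ext e), ?_⟩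
    have := congrArg Subtype.val hb
    exact mul_inv_eq_iff_eq_mul.1 (by simpa [σ] using this)
  have hxy := commute_of_hasNormalPComplement (R := (Cfsg.pCore 2 H)) Cores.pCore_isPGroup (h.inv t hto)
    (mem_centralizer_singleton_iff.2 hxt.eq) hxo (mem_centralizer_singleton_iff.2 hyt.eq.symm) hyY
  rcases h.fpf hxo hyY hxy with e | e
  · exact hx1 e
  · exact hy1 e

/-- A normal subgroup of `H/O₂(H)` of odd order inside which the structure is visible. -/
theorem SolvableTwoNilp.quot_structure :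
    ∃ F : Subgroup (H ⧸ Cfsg.pCore 2 H), F.Normal ∧ (Nat.card F).Coprime 2 ∧
      (∀ a b : H ⧸ Cfsg.pCore 2 H, ⁅a, b⁆ ∈ F) ∧
      ∀ A : Sylow 2 (H ⧸ Cfsg.pCore 2 H), IsCyclic (A : Subgroup (H ⧸ Cfsg.pCore 2 H)) := by
  haveI : Fact (Nat.Prime 2) := ⟨Nat.prime_two⟩
  haveI := h.sol
  set Q := H ⧸ Cfsg.pCore 2 H
  haveI : Group.IsSolvable Q := solvable_of_surjective (QuotientGroup.mk'_surjective _)
  set F := Cfsg.fittingSubgroup Q with hF
  haveI : F.Normal := Cores.fittingSubgroup_normal_inst Q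
  have hCF := Cores.centralizer_fittingSubgroup_le (G := Q)
  have hFc : (Nat.card F).Coprime 2 := by
    refine Nat.Coprime.coprime_dvd_left (card_dvd_of_le ?_)
      (Cores.pPrimeCore_coprime (G := Q) (p := 2))
    rw [hF, Cores.fittingSubgroup_eq_iSup_pCore]
    refine iSup_le fun r => ?_
    rcases eq_or_ne (r : ℕ) 2 with hr | hr
    · rw [hr, Cores.pCore_quotient_pCore_eq_bot]; exact bot_le
    · haveI : Fact (r : ℕ).Prime := ⟨r.2⟩
      refine Cores.le_pPrimeCore inferInstance ?_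
      obtain ⟨n, hn⟩ := IsPGroup.iff_card.1 (Cores.pCore_isPGroup (p := (r : ℕ)) (G := Q))
      rw [hn]; exact ((Nat.coprime_primes r.2 Nat.prime_two).2 hr).pow_left n
  haveI : IsZGroup F := ⟨fun q hq P => by
    haveI : Fact q.Prime := ⟨hq⟩
    rcases eq_or_ne q 2 with rfl | hq2
    · have hb : Nat.card (P : Subgroup F) = 1 := by
        obtain ⟨n, hn⟩ := IsPGroup.iff_card.1 P.2
        have hd : 2 ^ n ∣ Nat.card F := hn ▸ (P : Subgroup F).card_subgroup_dvd_card
        rcases n with _ | n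
        · simpa using hn
        · exact absurd ((dvd_pow_self 2 n.succ_ne_zero).trans hd)
            ((Cores.coprime_iff_not_dvd_prime Nat.prime_two).1 hFc)
      haveI : Subsingleton (P : Subgroup F) := (Nat.card_eq_one_iff_unique.1 hb).1
      infer_instance
    · -- lift to `H`
      set PQ := (P : Subgroup F).map F.subtype
      set C := PQ.comap (QuotientGroup.mk' (Cfsg.pCore 2 H))
      let π : C →* PQ := ((QuotientGroup.mk' (Cfsg.pCore 2 H)).comp C.subtype).codRestrict _
        (fun c => c.2)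
      have hπ : Function.Surjective π := by
        rintro ⟨u, hu⟩
        obtain ⟨g, rfl⟩ := QuotientGroup.mk'_surjective _ u
        exact ⟨⟨g, hu⟩, rfl⟩
      obtain ⟨R⟩ := (inferInstance : Nonempty (Sylow q C))
      have htop : (R.mapSurjective hπ : Subgroup PQ) = ⊤ :=
        ((R.mapSurjective hπ).3 ((P.2.map F.subtype).to_le le_rfl |>.of_equiv
          Subgroup.topEquiv.symm) le_top).symm
      have hcyc : IsCyclic (R : Subgroup C) := by
        haveI := h.isCyclic_of_isPGroup hq2 _ (R.2.map C.subtype)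
        exact isCyclic_of_surjective _ (Subgroup.equivMapOfInjective _ C.subtype
          C.subtype_injective).symm.surjective
      have : IsCyclic PQ := by
        rw [Sylow.coe_mapSurjective] at htop
        refine isCyclic_of_surjective (π.comp (R : Subgroup C).subtype) ?_
        intro u
        obtain ⟨r, hr, hru⟩ := (htop.symm ▸ Subgroup.mem_top u :
          u ∈ (R : Subgroup C).map π)
        exact ⟨⟨r, hr⟩, hru⟩
      exact isCyclic_of_surjective _ (Subgroup.equivMapOfInjective _ F.subtype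
          F.subtype_injective).symm.surjective⟩
  haveI : Group.IsNilpotent F := Cores.fittingSubgroup_isNilpotent
  haveI : IsCyclic F := inferInstance
  have hAut : ∀ φ ψ : MulAut F, φ * ψ = ψ * φ := fun φ ψ =>
    (IsCyclic.mulAutMulEquiv F).injective (by rw [map_mul, map_mul, mul_comm])
  have hcomm : ∀ a b : Q, ⁅a, b⁆ ∈ F := by
    intro a b
    apply hCF
    have h1 : MulAut.conjNormal (H := F) ⁅a, b⁆ = 1 := by
      rw [commutatorElement_def, map_mul, map_mul, map_mul, map_inv, map_inv,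
        hAut (MulAut.conjNormal a) (MulAut.conjNormal b),
        mul_inv_cancel_right, mul_inv_cancel]
    intro f hf
    have h2 : ((MulAut.conjNormal (H := F) ⁅a, b⁆ ⟨f, hf⟩ : F) : Q) = f := by rw [h1]; rfl
    rw [MulAut.conjNormal_apply] at h2
    exact (mul_inv_eq_iff_eq_mul.1 h2).symm
  refine ⟨F, inferInstance, hFc, hcomm, fun A => ?_⟩
  have hAF : ∀ a ∈ (A : Subgroup Q), a ∈ F → a = 1 := fun a ha haF =>
    eq_one_of_coprime_of_mem A.2 ha
      (hFc.coprime_dvd_left (orderOf_dvd_natCard F haF))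
  haveI hAc : IsMulCommutative (A : Subgroup Q) := ⟨⟨fun a b => Subtype.ext
    (commutatorElement_eq_one_iff_mul_comm.1 (hAF _
      (by
        rw [commutatorElement_def]
        exact mul_mem (mul_mem (mul_mem a.2 b.2) (inv_mem a.2)) (inv_mem b.2))
      (hcomm a b)))⟩⟩
  refine PGroup.isCyclic_of_card_omega_le A.2 hAc ?_
  have hinv : ∀ a : (A : Subgroup Q), a ^ 2 = 1 → a ≠ 1 →
      ∀ f ∈ F, (a : Q) * f * (a : Q)⁻¹ = f⁻¹ := by
    intro a ha ha1
    have hao : orderOf (a : Q) = 2 := by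
      rw [orderOf_submonoid]; exact orderOf_eq_prime ha ha1
    refine conj_eq_inv_of_fpf (by
      rw [← pow_two]; simpa using congrArg Subtype.val ha) (by
      rw [normalizer_eq_top_iff.2 inferInstance]; trivial) ?_
    intro f hf hc
    exact h.quot_fpf hao (hFc.coprime_dvd_left (orderOf_dvd_natCard F hf)) hc
  by_contra! hlt
  obtain ⟨⟨a, ha⟩, ha1⟩ : ∃ a : {x : (A : Subgroup Q) // x ^ 2 = 1}, (a : (A : Subgroup Q)) ≠ 1 := by
    by_contra! hall
    haveI : Subsingleton {x : (A : Subgroup Q) // x ^ 2 = 1} :=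
      ⟨fun x y => Subtype.ext ((hall x).trans (hall y).symm)⟩
    have := Nat.card_of_subsingleton (⟨1, one_pow 2⟩ : {x : (A : Subgroup Q) // x ^ 2 = 1})
    omega
  have hall : ∀ b : {x : (A : Subgroup Q) // x ^ 2 = 1}, (b : (A : Subgroup Q)) = 1 ∨
      (b : (A : Subgroup Q)) = a := by
    rintro ⟨b, hb⟩
    refine or_iff_not_imp_left.2 fun hb1 => ?_
    have hab : ((b * a : (A : Subgroup Q)) : Q) ∈ F := by
      apply hCF
      intro f hf
      have : ((b * a : (A : Subgroup Q)) : Q) * f * ((b * a : (A : Subgroup Q)) : Q)⁻¹ = f := by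
        rw [Subgroup.coe_mul]
        calc (b : Q) * a * f * ((b : Q) * a)⁻¹
            = (b : Q) * ((a : Q) * f * (a : Q)⁻¹) * (b : Q)⁻¹ := by group
          _ = f := by rw [hinv a ha ha1 f hf, hinv b hb hb1 f⁻¹ (inv_mem hf), inv_inv]
      exact (mul_inv_eq_iff_eq_mul.1 this).symm
    have h1 : b * a = 1 := Subtype.ext (hAF _ (b * a).2 hab)
    have haa : a * a = 1 := by rw [← pow_two]; exact ha
    show b = a
    calc b = b * (a * a) := by rw [haa, mul_one]
      _ = a := by rw [← mul_assoc, h1, one_mul]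
  let g : Fin 2 → {x : (A : Subgroup Q) // x ^ 2 = 1} := ![⟨1, one_pow 2⟩, ⟨a, ha⟩]
  have hg : Function.Surjective g := by
    intro b
    rcases hall b with e | e
    · exact ⟨0, Subtype.ext (by simp [g, e])⟩
    · exact ⟨1, Subtype.ext (by simp [g, e])⟩
  have := Nat.card_le_card_of_surjective g hg
  rw [Nat.card_fin] at this
  omega

theorem SolvableTwoNilp.main (X : Subgroup H) (hXodd : Odd (Nat.card X))
    (hXidx : ∃ k : ℕ, X.index = 2 ^ k) :
    (∀ x ∈ X, x ≠ 1 → ∀ y ∈ Cfsg.pCore 2 H, y ≠ 1 → x * y ≠ y * x) ∧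
      (∀ (p : ℕ) [Fact p.Prime] (P : Sylow p ↥X), IsCyclic ↥(P : Subgroup ↥X)) ∧
      (X ⊔ Cfsg.pCore 2 H).Normal ∧
      ∀ _hN : (X ⊔ Cfsg.pCore 2 H).Normal, IsCyclic (H ⧸ (X ⊔ Cfsg.pCore 2 H)) ∧
        IsPGroup 2 (H ⧸ (X ⊔ Cfsg.pCore 2 H)) := by
  haveI : Fact (Nat.Prime 2) := ⟨Nat.prime_two⟩
  have hXc : ∀ x ∈ X, (orderOf x).Coprime 2 := fun x hx =>
    (Nat.coprime_two_right.2 hXodd).coprime_dvd_left (orderOf_dvd_natCard X hx)
  refine ⟨fun x hx hx1 y hy hy1 e => ?_, ?_, ?_⟩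
  · exact (h.fpf (hXc x hx) hy e).elim hx1 hy1
  · intro p hp P
    rcases eq_or_ne p 2 with rfl | hp2
    · have hb : Nat.card (P : Subgroup X) = 1 := by
        obtain ⟨n, hn⟩ := IsPGroup.iff_card.1 P.2
        have hd : 2 ^ n ∣ Nat.card X := hn ▸ (P : Subgroup X).card_subgroup_dvd_card
        rcases n with _ | n
        · simpa using hn
        · exact absurd ((dvd_pow_self 2 n.succ_ne_zero).trans hd)
            hXodd.not_two_dvd_nat
      haveI : Subsingleton (P : Subgroup X) := (Nat.card_eq_one_iff_unique.1 hb).1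
      infer_instance
    · haveI := h.isCyclic_of_isPGroup hp2 _ (P.2.map X.subtype)
      exact isCyclic_of_surjective _ (Subgroup.equivMapOfInjective _ X.subtype
          X.subtype_injective).symm.surjective
  set Y := Cfsg.pCore 2 H with hY
  obtain ⟨F, hFn, hFc, hcomm, hcyc⟩ := h.quot_structure
  set π := QuotientGroup.mk' Y with hπ
  obtain ⟨k, hk⟩ := hXidx
  have hXY : X ⊔ Y = (X.map π).comap π := by rw [comap_map_eq, QuotientGroup.ker_mk']
  have hFX : F ≤ X.map π := by
    intro f hf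
    have h1 : ∃ j, (X.map π).index = 2 ^ j := by
      have hd : (X.map π).index ∣ X.index :=
        index_map_dvd X (QuotientGroup.mk'_surjective Y)
      rw [hk] at hd
      obtain ⟨j, _, hj⟩ := (Nat.dvd_prime_pow Nat.prime_two).1 hd
      exact ⟨j, hj⟩
    obtain ⟨j, hj⟩ := h1
    have h3 : (X.map π).relIndex (X.map π ⊔ F) ∣ 2 ^ j :=
      hj ▸ Dvd.intro _ (relIndex_mul_index (le_sup_left (a := X.map π) (b := F)))
    have h4 : (X.map π).relIndex (X.map π ⊔ F) ∣ Nat.card X * Nat.card F :=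
      (relIndex_dvd_card _ _).trans ((Cores.card_sup_dvd_mul _ _).trans
        (Nat.mul_dvd_mul_right (card_map_dvd _ _) _))
    have h5 : (Nat.card X * Nat.card F).Coprime (2 ^ j) :=
      ((Nat.coprime_two_right.2 hXodd).mul_left hFc).pow_right j
    have h6 : (X.map π).relIndex (X.map π ⊔ F) = 1 :=
      Nat.dvd_one.1 (h5.gcd_eq_one ▸ Nat.dvd_gcd h4 h3)
    exact relIndex_eq_one.1 h6 (mem_sup_right hf)
  have hnorm : (X.map π).Normal := ⟨fun x hx g => by
    have : g * x * g⁻¹ = ⁅g, x⁆ * x := by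
      rw [commutatorElement_def, inv_mul_cancel_right]
    rw [this]
    exact mul_mem (hFX (hcomm g x)) hx⟩
  have hN : (X ⊔ Y).Normal := hXY ▸ hnorm.comap π
  refine ⟨hN, fun hN' => ?_⟩
  have hp : IsPGroup 2 (H ⧸ (X ⊔ Y)) := by
    have hd : (X ⊔ Y).index ∣ X.index := index_dvd_of_le le_sup_left
    rw [hk] at hd
    obtain ⟨j, _, hj⟩ := (Nat.dvd_prime_pow Nat.prime_two).1 hd
    exact IsPGroup.of_card (n := j) (by rw [← Subgroup.index_eq_card, hj])
  refine ⟨?_, hp⟩
  let ψ : H ⧸ Y →* H ⧸ (X ⊔ Y) := QuotientGroup.map Y (X ⊔ Y) (MonoidHom.id H) le_sup_right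
  have hψ : Function.Surjective ψ := fun u => by
    obtain ⟨g, rfl⟩ := QuotientGroup.mk'_surjective _ u
    exact ⟨QuotientGroup.mk g, rfl⟩
  obtain ⟨A⟩ := (inferInstance : Nonempty (Sylow 2 (H ⧸ Y)))
  have htop : (A.mapSurjective hψ : Subgroup (H ⧸ (X ⊔ Y))) = ⊤ :=
    ((A.mapSurjective hψ).3 (hp.to_subgroup ⊤) le_top).symm
  rw [Sylow.coe_mapSurjective] at htop
  haveI := hcyc A
  refine isCyclic_of_surjective (ψ.comp (A : Subgroup (H ⧸ Y)).subtype) ?_
  intro u
  obtain ⟨r, hr, hru⟩ := (htop.symm ▸ Subgroup.mem_top u :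
    u ∈ (A : Subgroup (H ⧸ Y)).map ψ)
  exact ⟨⟨r, hr⟩, hru⟩

end Cfsg.Agent.CharTwo
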