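import Mathlib.LinearAlgebra.SymplecticGroup
import Mathlib.LinearAlgebra.Matrix.SpecialLinearGroup
import Mathlib.LinearAlgebra.Matrix.GeneralLinearGroup.Card
import Mathlib.LinearAlgebra.Determinant
import Mathlib.LinearAlgebra.Matrix.ToLinearEquiv
import Mathlib.GroupTheory.OrderOfElement
import Mathlib.Data.ZMod.Basic
import Mathlib.FieldTheory.Finite.Basic
import Mathlib.Algebra.CharP.CharAndCard
import Mathlib.Tactic

/-!
# Fixed vectors of elements of order 3 in `SL(2,5) ≤ Sp(4,3)`
-/

set_option autoImplicit false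

namespace Cfsg.Agent.CharTwo

open Module

theorem quad_solve_five : ∀ u v w : ZMod 5, u * u + 4 * v * w = 2 →
    ∃ a b c : ZMod 5, a * u + b * w + c * v = 0 ∧ -(a * a) - b * c = 1 := by decide

/-- An element of order 3 of `SL(2,5)` is inverted by an element with square `-1`. -/
theorem exists_inverter {K : Type*} [Field K] [Fintype K] (hK : Fintype.card K = 5)
    (x : Matrix.SpecialLinearGroup (Fin 2) K) (hx : orderOf x = 3) :
    ∃ y : Matrix.SpecialLinearGroup (Fin 2) K, y * y = -1 ∧ y * x * y⁻¹ = x⁻¹ := by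
  haveI : Fact (Nat.Prime 5) := ⟨by norm_num⟩
  haveI : CharP K 5 := charP_of_card_eq_prime hK
  let e : ZMod 5 ≃+* K := ZMod.ringEquivOfPrime K (by norm_num) hK
  set A : Matrix (Fin 2) (Fin 2) K := (x : Matrix (Fin 2) (Fin 2) K) with hA
  have hdet : A 0 0 * A 1 1 - A 0 1 * A 1 0 = 1 := by
    rw [← Matrix.det_fin_two]; exact x.2
  have hsq : A * A = (A 0 0 + A 1 1) • A - 1 := by
    ext i j
    fin_cases i <;> fin_cases j <;>
      simp [Matrix.mul_apply, Matrix.vecMul, dotProduct, Fin.sum_univ_two]
    · linear_combination -hdet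
    · ring
    · ring
    · linear_combination -hdet
  have hx3 : A * A * A = 1 := by
    have h : x ^ 3 = 1 := by rw [← hx]; exact pow_orderOf_eq_one x
    have := congrArg (fun g : Matrix.SpecialLinearGroup (Fin 2) K => (g : Matrix (Fin 2) (Fin 2) K)) h
    simpa [pow_succ] using this
  set t := A 0 0 + A 1 1 with ht
  have hne : A ≠ 1 := fun h => by
    have : x = 1 := Subtype.ext h
    rw [this, orderOf_one] at hx; omega
  have hA3 : (t * t - 1) • A = (1 + t) • (1 : Matrix (Fin 2) (Fin 2) K) := by
    have : A * A * A = (t * t - 1) • A - t • 1 := by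
      rw [hsq, sub_mul, smul_mul_assoc, hsq, one_mul, smul_sub, smul_smul, sub_smul, one_smul]
      abel
    rw [hx3] at this
    rw [add_smul, one_smul]
    conv_rhs => lhs; rw [this]
    abel
  have ht1 : t = -1 := by
    by_contra htne
    by_cases h1 : t * t - 1 = 0
    · rw [h1, zero_smul] at hA3
      have := congrFun (congrFun hA3 0) 0
      simp at this
      exact htne (by linear_combination -this)
    · -- `A` is scalar
      have h01 : A 0 1 = 0 := by
        have := congrFun (congrFun hA3 0) 1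
        simpa [h1] using this
      have h10 : A 1 0 = 0 := by
        have := congrFun (congrFun hA3 1) 0
        simpa [h1] using this
      have h00 : A 0 0 = A 1 1 := by
        have e0 := congrFun (congrFun hA3 0) 0
        have e1 := congrFun (congrFun hA3 1) 1
        simp at e0 e1
        exact mul_left_cancel₀ h1 (e0.trans e1.symm)
      have hs : A 0 0 * A 0 0 = 1 := by
        rw [h01, h10] at hdet; rw [← h00] at hdet; linear_combination hdet
      have hc : A 0 0 * A 0 0 * A 0 0 = 1 := by
        have := congrFun (congrFun hx3 0) 0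
        simpa [Matrix.mul_apply, Fin.sum_univ_two, h01, h10] using this
      rw [hs, one_mul] at hc
      apply hne
      ext i j
      fin_cases i <;> fin_cases j <;> simp [h01, h10, hc, ← h00]
  obtain ⟨a, b, c, h1, h2⟩ := quad_solve_five (e.symm (A 0 0 - A 1 1)) (e.symm (A 0 1))
    (e.symm (A 1 0)) (by
      apply e.injective
      simp only [map_add, map_mul, RingEquiv.apply_symm_apply, map_ofNat]
      have h5 : (5 : K) = 0 := by exact_mod_cast CharP.cast_eq_zero K 5
      linear_combination (-4 : K) * hdet + (t - 1) * ht1 - h5)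
  have e1 : e a * (A 0 0 - A 1 1) + e b * A 1 0 + e c * A 0 1 = 0 := by
    have := congrArg e h1
    simpa [map_add, map_mul] using this
  have e2 : -(e a * e a) - e b * e c = 1 := by
    have := congrArg e h2
    simpa [map_sub, map_mul] using this
  let y : Matrix.SpecialLinearGroup (Fin 2) K :=
    ⟨!![e a, e b; e c, -(e a)], by rw [Matrix.det_fin_two]; simp; linear_combination e2⟩
  have hy2 : y * y = -1 := by
    apply Subtype.ext
    change !![e a, e b; e c, -(e a)] * !![e a, e b; e c, -(e a)] = -(1 : Matrix (Fin 2) (Fin 2) K)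
    ext i j
    fin_cases i <;> fin_cases j <;> simp [Matrix.mul_apply, Matrix.vecMul, dotProduct, Fin.sum_univ_two]
    · linear_combination -e2
    · ring
    · ring
    · linear_combination -e2
  refine ⟨y, hy2, ?_⟩
  have hyx : (y * x) * (y * x) = -1 := by
    apply Subtype.ext
    change (!![e a, e b; e c, -(e a)] * A) * (!![e a, e b; e c, -(e a)] * A)
      = -(1 : Matrix (Fin 2) (Fin 2) K)
    ext i j
    fin_cases i <;> fin_cases j <;> simp [Matrix.mul_apply, Matrix.vecMul, dotProduct, Fin.sum_univ_two]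
    · linear_combination (e a * A 0 0 + e b * A 1 0) * e1 - (A 0 0 * A 1 1 - A 0 1 * A 1 0) * e2 - hdet
    · linear_combination (e a * A 0 1 + e b * A 1 1) * e1
    · linear_combination (e c * A 0 0 - e a * A 1 0) * e1
    · linear_combination (e c * A 0 1 - e a * A 1 1) * e1 - (A 0 0 * A 1 1 - A 0 1 * A 1 0) * e2 - hdet
  have hxyx : x * y * x = y := by
    apply mul_left_cancel (a := y)
    rw [← mul_assoc, ← mul_assoc, mul_assoc (y * x), hyx, hy2]
  calc y * x * y⁻¹ = x⁻¹ * (x * y * x) * y⁻¹ := by group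
    _ = x⁻¹ := by rw [hxyx, mul_inv_cancel_right]

theorem not_five_dvd_card_GL {F : Type*} [Field F] [Fintype F] (hF : Fintype.card F = 3) (k : ℕ)
    (hk : k ≤ 3) : ¬ 5 ∣ Nat.card (GL (Fin k) F) := by
  rw [Matrix.card_GL_field]
  rcases k with _ | _ | _ | _ | k
  all_goals first | omega | simp [Fin.prod_univ_succ, hF]

/-- An automorphism of order 5 of a space of dimension at most 3 over `F₃` is trivial. -/
theorem eq_refl_of_pow_five {F : Type*} [Field F] [Fintype F] (hF : Fintype.card F = 3)
    {W : Type*} [AddCommGroup W] [Module F W] [FiniteDimensional F W] (hW : finrank F W ≤ 3)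
    (f : W ≃ₗ[F] W) (hf : f ^ 5 = 1) : f = 1 := by
  haveI : Fact (Nat.Prime 5) := ⟨by norm_num⟩
  let b := Module.finBasis F W
  let E : (W ≃ₗ[F] W) ≃* GL (Fin (finrank F W)) F :=
    (LinearMap.GeneralLinearGroup.generalLinearEquiv F W).symm.trans
      (Units.mapEquiv (LinearMap.toMatrixAlgEquiv b).toRingEquiv.toMulEquiv)
  by_contra hne
  have h5 : orderOf f = 5 := orderOf_eq_prime hf hne
  apply not_five_dvd_card_GL hF _ hW
  have := orderOf_dvd_natCard (E f)
  rwa [MulEquiv.orderOf_eq, h5] at this

theorem fixed_space_sl_two_five {F : Type*} [Field F] [Fintype F] (hF : Fintype.card F = 3)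
    {K : Type*} [Field K] [Fintype K] (hK : Fintype.card K = 5)
    (φ : Matrix.SpecialLinearGroup (Fin 2) K →* ↥(Matrix.symplecticGroup (Fin 2) F))
    (hφ : Function.Injective φ)
    (x : Matrix.SpecialLinearGroup (Fin 2) K) (hx : orderOf x = 3) :
    finrank F ↥(LinearMap.ker (Matrix.toLin' ((φ x : Matrix (Fin 2 ⊕ Fin 2) (Fin 2 ⊕ Fin 2) F))
        - LinearMap.id)) = 2 ∧
      ∀ v w : Fin 2 ⊕ Fin 2 → F, (φ x : Matrix (Fin 2 ⊕ Fin 2) (Fin 2 ⊕ Fin 2) F).mulVec v = v →
        (φ x : Matrix (Fin 2 ⊕ Fin 2) (Fin 2 ⊕ Fin 2) F).mulVec w = w →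
          dotProduct v ((Matrix.J (Fin 2) F).mulVec w) = 0 := by
  haveI : Fact (Nat.Prime 5) := ⟨by norm_num⟩
  haveI : Fact (Nat.Prime 3) := ⟨by norm_num⟩
  haveI : CharP K 5 := charP_of_card_eq_prime hK
  haveI : CharP F 3 := charP_of_card_eq_prime hF
  have h3 : (3 : F) = 0 := by exact_mod_cast CharP.cast_eq_zero F 3
  have h5 : (5 : K) = 0 := by exact_mod_cast CharP.cast_eq_zero K 5
  let V := Fin 2 ⊕ Fin 2 → F
  let ρ : Matrix.SpecialLinearGroup (Fin 2) K → (V →ₗ[F] V) := fun g =>
    Matrix.toLin' (φ g : Matrix (Fin 2 ⊕ Fin 2) (Fin 2 ⊕ Fin 2) F)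
  have ρmul : ∀ a b, ρ (a * b) = (ρ a).comp (ρ b) := fun a b => by
    simp [ρ, Matrix.toLin'_mul]
  have ρone : ρ 1 = LinearMap.id := by simp [ρ]
  have ρinj : ∀ a b, ρ a = ρ b → a = b := fun a b h =>
    hφ (Subtype.ext (Matrix.toLin'.injective h))
  have hdim : finrank F V = 4 := by simp [V]
  -- the central involution acts as `-1`
  obtain ⟨y, hy2, hyx⟩ := exists_inverter hK x hx
  set c : Matrix.SpecialLinearGroup (Fin 2) K := -1 with hc
  have hcne : c ≠ 1 := by
    intro h
    have h' := congrArg (fun g : Matrix.SpecialLinearGroup (Fin 2) K =>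
      (g : Matrix (Fin 2) (Fin 2) K) 0 0) h
    simp [c] at h'
    exact one_ne_zero (show (1 : K) = 0 by linear_combination h5 + (2 : K) * h')
  have hcc : c * c = 1 := by simp [c]
  have hρc : ρ c = -LinearMap.id := by
    by_contra hne
    -- an element of order 5 commuting with `c`
    let f : Matrix.SpecialLinearGroup (Fin 2) K :=
      ⟨!![1, 1; 0, 1], by rw [Matrix.det_fin_two]; simp⟩
    have hf1 : f ≠ 1 := by
      intro h
      have h' := congrArg (fun g : Matrix.SpecialLinearGroup (Fin 2) K =>
        (g : Matrix (Fin 2) (Fin 2) K) 0 1) h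
      simp [f] at h'
    have hf5 : f ^ 5 = 1 := by
      apply Subtype.ext
      rw [Matrix.SpecialLinearGroup.coe_pow]
      change !![1, 1; 0, 1] ^ 5 = (1 : Matrix (Fin 2) (Fin 2) K)
      ext i j
      fin_cases i <;> fin_cases j <;>
        simp [pow_succ, Matrix.mul_apply, Fin.sum_univ_two]
      linear_combination h5
    have hfc : ρ f ∘ₗ ρ c = ρ c ∘ₗ ρ f := by
      rw [← ρmul, ← ρmul]
      congr 1
      simp [c]
    apply hf1
    apply ρinj
    rw [ρone]
    -- `f` is trivial on both eigenspaces of `c`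
    have key : ∀ W : Submodule F V, W ≠ ⊤ → (∀ v ∈ W, ρ f v ∈ W) → ∀ v ∈ W, ρ f v = v := by
      intro W hWtop hW v hv
      have hWdim : finrank F W ≤ 3 := by
        have := Submodule.finrank_lt hWtop
        omega
      have hinjf : Function.Injective (ρ f) := by
        intro a b hab
        have h := congrArg (ρ f⁻¹) hab
        rw [← LinearMap.comp_apply, ← LinearMap.comp_apply, ← ρmul, inv_mul_cancel, ρone] at h
        exact h
      let g : W ≃ₗ[F] W := LinearEquiv.ofInjectiveEndo ((ρ f).restrict hW)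
        (fun a b hab => Subtype.ext (hinjf (congrArg Subtype.val hab)))
      have hg : ∀ n : ℕ, ∀ u : W, (((g ^ n) u : W) : V) = ρ (f ^ n) u := by
        intro n
        induction n with
        | zero => intro u; simp [ρone]
        | succ n ih =>
          intro u
          rw [pow_succ', pow_succ', LinearEquiv.mul_apply, ρmul, LinearMap.comp_apply, ← ih]
          rfl
      have hg5 : g ^ 5 = 1 := by
        apply LinearEquiv.ext
        intro u
        apply Subtype.ext
        rw [hg, hf5, ρone]
        rfl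
      have := eq_refl_of_pow_five hF hWdim g hg5
      have h1 := hg 1 ⟨v, hv⟩
      rw [pow_one, pow_one, this] at h1
      exact h1.symm
    apply LinearMap.ext
    intro v
    have hcv : ρ c (ρ c v) = v := by
      rw [← LinearMap.comp_apply, ← ρmul, hcc, ρone]; rfl
    -- eigenspaces
    have hp : ∀ s : F, LinearMap.ker (ρ c - s • LinearMap.id) ≠ ⊤ → ∀ w, ρ c w = s • w →
        ρ f w = w := by
      intro s hs w hw
      refine key _ hs (fun u hu => ?_) w (by simp [hw])
      rw [LinearMap.mem_ker, LinearMap.sub_apply, LinearMap.smul_apply, LinearMap.id_apply,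
        sub_eq_zero] at hu ⊢
      rw [← LinearMap.comp_apply, ← hfc, LinearMap.comp_apply, hu, map_smul]
    have hplus : LinearMap.ker (ρ c - (1 : F) • LinearMap.id) ≠ ⊤ := by
      intro h
      apply hcne
      apply ρinj
      rw [ρone]
      rw [LinearMap.ker_eq_top, one_smul, sub_eq_zero] at h
      exact h
    have hminus : LinearMap.ker (ρ c - (-1 : F) • LinearMap.id) ≠ ⊤ := by
      intro h
      rw [LinearMap.ker_eq_top, sub_eq_zero] at h
      apply hne
      rw [h]; ext v; simp
    have e1 := hp 1 hplus (v + ρ c v) (by rw [map_add, hcv, one_smul, add_comm])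
    have e2 := hp (-1) hminus (v - ρ c v) (by rw [map_sub, hcv, neg_one_smul, neg_sub])
    rw [map_add] at e1
    rw [map_sub] at e2
    have h2v : (2 : F) • ρ f v = (2 : F) • v := by
      rw [two_smul, two_smul]
      calc ρ f v + ρ f v = (ρ f v + ρ f (ρ c v)) + (ρ f v - ρ f (ρ c v)) := by abel
        _ = _ := by rw [e1, e2]; abel
    rw [LinearMap.id_apply]
    refine smul_right_injective (R := F) V ?_ h2v
    intro h
    exact one_ne_zero (show (1 : F) = 0 by linear_combination h3 - h)
  have hY2 : ρ y ∘ₗ ρ y = -LinearMap.id := by rw [← ρmul, hy2, hρc]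
  -- subspaces invariant under `ρ y` have even dimension
  have heven : ∀ W : Submodule F V, (∀ v ∈ W, ρ y v ∈ W) → finrank F W ≠ 1 ∧ finrank F W ≠ 3 := by
    intro W hW
    have hsq : ((ρ y).restrict hW) ∘ₗ ((ρ y).restrict hW) = (-1 : F) • LinearMap.id := by
      apply LinearMap.ext
      intro v
      apply Subtype.ext
      simpa using LinearMap.congr_fun hY2 (v : V)
    have hd := congrArg LinearMap.det hsq
    rw [LinearMap.det_comp, LinearMap.det_smul, LinearMap.det_id, mul_one] at hd
    have hns : ∀ a : F, a * a ≠ -1 := by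
      intro a ha
      have hc2 := FiniteField.pow_card_sub_one_eq_one a (fun h0 => by
        rw [h0, mul_zero] at ha; exact one_ne_zero (neg_eq_zero.1 ha.symm))
      rw [hF, pow_two, ha] at hc2
      exact one_ne_zero (show (1 : F) = 0 by linear_combination h3 + hc2)
    constructor <;>
    · intro hk
      rw [hk] at hd
      exact hns _ (by rw [hd]; ring)
  -- the unipotent part
  set g := ρ x with hg
  set N : V →ₗ[F] V := g - LinearMap.id with hN
  have hg3 : ∀ v, g (g (g v)) = v := by
    intro v
    have h : x * (x * x) = 1 := by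
      have h3x : x ^ 3 = 1 := hx ▸ pow_orderOf_eq_one x
      rwa [pow_three] at h3x
    have := congrArg ρ h
    rw [ρmul, ρmul, ρone] at this
    exact LinearMap.congr_fun this v
  have hN3 : ∀ v, N (N (N v)) = 0 := by
    intro v
    simp only [hN, LinearMap.sub_apply, LinearMap.id_apply, map_sub, hg3]
    have : (3 : F) • (g v - g (g v)) = 0 := by rw [h3, zero_smul]
    rw [← this]
    module
  have hYg : ∀ v, g (ρ y v) = ρ y (g (g v)) := by
    intro v
    have h : x * y = y * (x * x) := by
      have h1 : y * x = x⁻¹ * y := mul_inv_eq_iff_eq_mul.1 hyx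
      have h3' : x⁻¹ = x * x := inv_eq_of_mul_eq_one_right (by
        have h3x : x ^ 3 = 1 := hx ▸ pow_orderOf_eq_one x
        rwa [pow_three] at h3x)
      calc x * y = x * (x * (x⁻¹ * y)) := by rw [mul_inv_cancel_left]
        _ = (x * x) * (y * x) := by rw [h1, ← mul_assoc]
        _ = x⁻¹ * y * x := by rw [← h3', mul_assoc]
        _ = y * x * x := by rw [h1]
        _ = _ := mul_assoc _ _ _
    have := congrArg ρ h
    rw [ρmul, ρmul, ρmul] at this
    exact LinearMap.congr_fun this v
  have hKy : ∀ v ∈ LinearMap.ker N, ρ y v ∈ LinearMap.ker N := by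
    intro v hv
    rw [LinearMap.mem_ker, hN, LinearMap.sub_apply, LinearMap.id_apply, sub_eq_zero] at hv ⊢
    rw [hYg, hv, hv]
  have hR2y : ∀ v ∈ LinearMap.range (N ∘ₗ N), ρ y v ∈ LinearMap.range (N ∘ₗ N) := by
    rintro _ ⟨u, rfl⟩
    refine ⟨ρ y (g (g u)), ?_⟩
    simp only [LinearMap.comp_apply, hN, LinearMap.sub_apply, LinearMap.id_apply, map_sub, hYg,
      hg3]
    abel
  have hrn := LinearMap.finrank_range_add_finrank_ker N
  rw [hdim] at hrn
  have hk4 : finrank F (LinearMap.ker N) ≠ 4 := by
    intro h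
    have htop := Submodule.eq_top_of_finrank_eq (h.trans hdim.symm)
    rw [LinearMap.ker_eq_top, hN, sub_eq_zero] at htop
    have := ρinj x 1 (by rw [ρone]; exact htop)
    rw [this, orderOf_one] at hx; omega
  have hk0 : finrank F (LinearMap.ker N) ≠ 0 := by
    intro h
    have hbot := Submodule.finrank_eq_zero.1 h
    have hi := LinearMap.ker_eq_bot.1 hbot
    have : ∀ v : V, v = 0 := fun v => by
      apply hi; apply hi; apply hi
      rw [hN3, map_zero, map_zero, map_zero]
    have h1 := congrFun (this (fun _ => (1 : F))) (Sum.inl 0)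
    exact one_ne_zero h1
  have hk := heven _ hKy
  have hker : finrank F (LinearMap.ker N) = 2 := by omega
  refine ⟨hker, ?_⟩
  have hNN : N ∘ₗ N = 0 := by
    have hle : LinearMap.range (N ∘ₗ N) ≤ LinearMap.range N := LinearMap.range_comp_le_range _ _
    have h2 := Submodule.finrank_mono hle
    have he := heven _ hR2y
    by_contra hne
    have h0 : finrank F (LinearMap.range (N ∘ₗ N)) ≠ 0 := fun h =>
      hne (LinearMap.range_eq_bot.1 (Submodule.finrank_eq_zero.1 h))
    have heq : LinearMap.range (N ∘ₗ N) = LinearMap.range N :=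
      Submodule.eq_of_le_of_finrank_le hle (by omega)
    apply hne
    rw [← LinearMap.range_eq_bot, eq_bot_iff]
    rintro _ ⟨v, rfl⟩
    have h1 : N v ∈ LinearMap.range (N ∘ₗ N) := heq ▸ LinearMap.mem_range_self N v
    obtain ⟨u, hu⟩ := h1
    rw [Submodule.mem_bot, LinearMap.comp_apply, ← hu, LinearMap.comp_apply, hN3]
  have hrk : LinearMap.range N = LinearMap.ker N :=
    Submodule.eq_of_le_of_finrank_eq
      (by rintro _ ⟨v, rfl⟩; exact LinearMap.congr_fun hNN v) (by omega)
  intro v w hv hw
  have hwr : w ∈ LinearMap.range N := by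
    rw [hrk, LinearMap.mem_ker, hN, LinearMap.sub_apply, LinearMap.id_apply, sub_eq_zero]
    exact (Matrix.toLin'_apply _ _).trans hw
  obtain ⟨u, rfl⟩ := hwr
  have hinv : ∀ a b : V, dotProduct ((φ x : Matrix (Fin 2 ⊕ Fin 2) (Fin 2 ⊕ Fin 2) F).mulVec a)
      ((Matrix.J (Fin 2) F).mulVec ((φ x : Matrix (Fin 2 ⊕ Fin 2) (Fin 2 ⊕ Fin 2) F).mulVec b))
      = dotProduct a ((Matrix.J (Fin 2) F).mulVec b) := by
    intro a b
    have hm := SymplecticGroup.mem_iff'.1 (φ x).2
    rw [Matrix.mulVec_mulVec, Matrix.dotProduct_mulVec, Matrix.vecMul_mulVec, ← Matrix.mul_assoc,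
      hm, ← Matrix.dotProduct_mulVec]
  have := hinv v u
  rw [hv] at this
  simp only [hN, g, ρ, LinearMap.sub_apply, LinearMap.id_apply, Matrix.toLin'_apply]
  rw [Matrix.mulVec_sub, dotProduct_sub]
  erw [Matrix.toLin'_apply]
  rw [this, sub_self]

end Cfsg.Agent.CharTwo
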